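import Cfsg.Statements.S4504
import Cfsg.Agent.Lib.Block.OneMod

set_option autoImplicit false
open Cfsg

namespace Cfsg.Agent.S4504

open CT GT BT Cfsg

/-- Let G be a finite group whose order is divisible by the prime p exactly once and which has no normal subgroup of order p. If G has a faithful character of degree exactly (p − 1)/2, then G modulo its centre is isomorphic to PSL(2, p). -/
theorem result {G : Type*} [Group G] [Finite G] (p : ℕ) (hp : p.Prime) (hdiv : p ∣ Nat.card G) (hsq : ¬ p ^ 2 ∣ Nat.card G) (hnn : ∀ H : Subgroup G, H.Normal → Nat.card H ≠ p) (χ : G → ℂ) (hχ : Cfsg.IsCharacter G χ) (hfaith : ∀ g : G, χ g = χ 1 → g = 1) (hdeg : 2 * Cfsg.charDegree χ + 1 = p) : Nonempty ((G ⧸ Subgroup.center G) ≃* Matrix.ProjectiveSpecialLinearGroup (Fin 2) (ZMod p)) := by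

  have := Fact.mk hp
  obtain ⟨A, _, _, ι, H⟩ := exists_primeSyl_of_dvd hdiv hsq
  obtain ⟨κ, hκ, h⟩ := exists_param_of_card_eq (A := Multiplicative (ZMod p))
    (isCyclic_of_prime_card H.card_range) (by rw [H.card_range]; simp)
  exact PrimeSyl.nonempty_psl2_of_small ⟨hκ, by simp, h ▸ H.syl⟩ hχ (hχ.ker_eq_bot_iff.2 hfaith)
    hdeg.le fun hn => hnn _ hn (h ▸ H.card_range)

end Cfsg.Agent.S4504
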