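import Cfsg.Statements.S4704
import Cfsg.Agent.Lib.Block.OneLin

set_option autoImplicit false
open Cfsg

namespace Cfsg.Agent.S4704

open CT BT GT

/-- Let G be a finite group with centre Z, p > 7 a prime, and suppose a Sylow p-subgroup of G has order p and is not normal. Let ζ be a faithful irreducible character of G and t the number of conjugacy classes of G consisting of elements of order p. Then one of the following holds: G/Z is isomorphic to PSL(2, p), ζ has degree (p + 1)/2 or (p − 1)/2 and t = 2; or ζ has degree at least p − 1; or ζ has degree at least p + 3/2 − √(p + 5/4) and p ≤ t^2 − 3t + 1. -/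
theorem result {G : Type*} [Group G] [Finite G] (p : ℕ) [Fact p.Prime] (hp : 7 < p) (P : Sylow p G) (hP : Nat.card P = p) (hnn : ¬ (P : Subgroup G).Normal) (ζ : G → ℂ) (hζ : Cfsg.IsIrrCharacter G ζ) (hfaith : ∀ g : G, ζ g = ζ 1 → g = 1) (t : ℕ) (ht : Nat.card {c : ConjClasses G // ∃ g : G, ConjClasses.mk g = c ∧ orderOf g = p} = t) : ((∃ (F : Type) (_ : Field F) (_ : Fintype F), Fintype.card F = p ∧ Nonempty (G ⧸ Subgroup.center G ≃* Matrix.ProjectiveSpecialLinearGroup (Fin 2) F)) ∧ (2 * Cfsg.charDegree ζ = p + 1 ∨ 2 * Cfsg.charDegree ζ = p - 1) ∧ t = 2) ∨ p - 1 ≤ Cfsg.charDegree ζ ∨ ((p : ℝ) + 3 / 2 - Real.sqrt ((p : ℝ) + 5 / 4) ≤ (Cfsg.charDegree ζ : ℝ) ∧ (p : ℤ) ≤ (t : ℤ) ^ 2 - 3 * t + 1) := by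
  obtain ⟨ι, H, hι⟩ := exists_primeSyl_zmod P hP
  by_cases hd : p - 1 ≤ charDegree ζ
  · exact Or.inr (Or.inl hd)
  have h1 := H.card_classes
  rw [ht] at h1
  rcases H.lin_cases hp (hι ▸ hnn) ⟨ζ, hζ⟩ (hζ.isCharacter.ker_eq_bot_iff.2 hfaith)
    (by simp only; omega) h1 with ⟨h2, h3⟩ | ⟨h2, Z, l, F, h3⟩
  · exact Or.inl ⟨⟨ZMod p, _, _, ZMod.card p, h2⟩, h3⟩
  have h4 := F.deg l
  rw [h3] at h4
  generalize Nat.card (autN ι) = e at h1 h2 h4
  refine Or.inr (Or.inr ⟨?_, by nlinarith⟩)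
  have h5 : (e : ℝ) + 3 / 2 ≤ Real.sqrt (p + 5 / 4) := Real.le_sqrt_of_sq_le (by
    have : (e : ℝ) * (e + 3) + 1 ≤ p := by
      exact_mod_cast (Nat.succ_le_succ (Nat.mul_le_mul_left e h2)).trans h1.le
    linarith)
  have h6 : (charDegree ζ : ℝ) + e = p := by exact_mod_cast h4
  linarith

end Cfsg.Agent.S4704
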