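import Cfsg.Statements.S4466
import Cfsg.Agent.Lib.Char.DegGraph
import Cfsg.Agent.Lib.Char.Burnside

set_option autoImplicit false
open Cfsg

namespace Cfsg.Agent.S4466

open CT

universe u

theorem simple_case {G : Type*} [Group G] [Finite G]
    (hs : ∀ N : Subgroup G, N.Normal → N = ⊥ ∨ N = ⊤)
    (h : ∀ χ : IrrCharacter G, charDegree χ.1 ≠ 1 → (charDegree χ.1).Prime) :
    Group.IsSolvable G := by
  classical
  obtain ⟨χ₀, -, hmax⟩ := Finset.exists_max_image Finset.univ
    (fun χ : IrrCharacter G => charDegree χ.1) Finset.univ_nonempty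
  replace hmax := fun χ => hmax χ (Finset.mem_univ χ)
  by_cases h1 : charDegree χ₀.1 = 1
  · refine isSolvable_of_ncard_charDegrees_le_three G
      (ncard_charDegrees_le_three (m := 1) (n := 1) fun χ => Or.inl ?_)
    have := hmax χ
    have := irr_degree_pos χ
    omega
  set p := charDegree χ₀.1 with hp_def
  have hp : p.Prime := h χ₀ h1
  have := Fact.mk hp
  have hZ : center χ₀.1 = ⊥ := (hs _ inferInstance).resolve_right
    (by rwa [irr_center_eq_top_iff])
  have hK : ker χ₀.1 = ⊥ := le_bot_iff.1 (hZ ▸ ker_le_center _)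
  obtain ⟨P⟩ : Nonempty (Sylow p G) := inferInstance
  have hv : ∀ x : G, x ≠ 1 → (P : Subgroup G) ≤ Subgroup.centralizer {x} → χ₀.1 x = 0 := by
    intro x hx hP
    refine (irr_eq_zero_or_mem_center_of_coprime χ₀ ?_).resolve_right (by rwa [hZ, Subgroup.mem_bot])
    exact ((Nat.Prime.coprime_iff_not_dvd hp).2 fun hd =>
      P.not_dvd_index (hd.trans (Subgroup.index_dvd_of_le hP))).symm
  have hPne : (P : Subgroup G) ≠ ⊥ := P.ne_bot_of_dvd_card (irr_degree_dvd_card χ₀)
  have hab : IsMulCommutative (P : Subgroup G) := by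
    by_contra hna
    have h2 : ∃ θ : IrrCharacter (P : Subgroup G), LiesOver P χ₀.1 θ.1 ∧ charDegree θ.1 ≠ 1 := by
      by_contra h2
      push Not at h2
      refine hna (GT.isMulCommutative_iff_forall'.2 fun a b => ?_)
      have h3 : a * b * (b * a)⁻¹ ∈ ker (res P χ₀.1) := by
        rw [((irr_isCharacter χ₀).res _).mem_ker_iff_forall_irr]
        intro θ hθ
        refine (irr_degree_eq_one_iff_commutator_le_ker θ).1 (h2 θ hθ) ?_
        rw [mul_inv_rev, ← mul_assoc]
        exact Subgroup.commutator_mem_commutator (Subgroup.mem_top a) (Subgroup.mem_top b)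
      rw [(irr_isCharacter χ₀).ker_res, hK, Subgroup.bot_subgroupOf, Subgroup.mem_bot] at h3
      exact mul_inv_eq_one.1 h3
    obtain ⟨θ, hθ, h3⟩ := h2
    have h4 : p ∣ charDegree θ.1 := by
      by_contra h4
      exact h3 (degree_eq_one_of_isPGroup P.isPGroup' h4)
    have h5 := hθ.res_eq_of_degree_le (irr_isCharacter χ₀) (Nat.le_of_dvd (irr_degree_pos θ) h4)
    have : Nontrivial (P : Subgroup G) := (Subgroup.nontrivial_iff_ne_bot _).2 hPne
    have := P.isPGroup'.center_nontrivial
    obtain ⟨⟨z, hz⟩, hz1⟩ := exists_ne (1 : Subgroup.center (P : Subgroup G))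
    have h6 := center_le_center_irr θ hz
    rw [← h5, (irr_isCharacter χ₀).center_res, hZ, Subgroup.bot_subgroupOf, Subgroup.mem_bot] at h6
    exact hz1 (Subtype.ext h6)
  set C := Subgroup.centralizer ((P : Subgroup G) : Set G) with hC
  have hPC : (P : Subgroup G) ≤ C := Subgroup.le_centralizer _
  have hCp : Nat.card C ∣ p := card_dvd_degree_of_vanish (irr_isCharacter χ₀) C fun x hx h1 =>
    hv x h1 fun y hy => Subgroup.mem_centralizer_singleton_iff.2 (hx y hy)
  have hPp : Nat.card (P : Subgroup G) = p :=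
    ((Nat.dvd_prime hp).1 ((Subgroup.card_dvd_of_le hPC).trans hCp)).resolve_left
      (by rwa [Subgroup.card_eq_one])
  have hCP : (P : Subgroup G) = C :=
    Subgroup.eq_of_le_of_card_ge hPC (by rw [hPp]; exact Nat.le_of_dvd hp.pos hCp)
  obtain ⟨d, hd⟩ := exists_exceptional_degree hp hPp fun x hx h1 y hy => by
    have h2 : Subgroup.zpowers x = P :=
      (GT.eq_bot_or_eq_of_card_prime (by rwa [hPp]) ((Subgroup.zpowers_le).2 hx)).resolve_left
        (by rwa [Subgroup.zpowers_eq_bot])
    rw [hCP, hC, ← h2]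
    rintro _ ⟨k, rfl⟩
    exact ((show Commute y x from Subgroup.mem_centralizer_singleton_iff.1 hy).zpow_right k).symm
  refine isSolvable_of_ncard_charDegrees_le_three G ?_
  by_cases h3 : p ≤ 3
  · refine ncard_charDegrees_le_three (m := 2) (n := 3) fun χ => ?_
    have := hmax χ
    have := irr_degree_pos χ
    omega
  · refine ncard_charDegrees_le_three (m := p) (n := d) fun χ => ?_
    rcases hd χ with h4 | h4 | h4
    · left
      rcases hs (ker χ.1) inferInstance with h5 | h5
      · exact absurd (le_bot_iff.1 (h5 ▸ h4)) hPne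
      · rw [(ker_irr_eq_top_iff χ).1 h5, charDegree_irrOne]
    · have h5 := hmax χ
      by_contra h6
      have h7 : charDegree χ.1 + 1 = p := by omega
      have h8 := h χ (by omega)
      rcases h8.eq_two_or_odd with h9 | h9
      · omega
      · rcases hp.eq_two_or_odd with h10 | h10 <;> omega
    · exact Or.inr (Or.inr h4)

theorem main (G : Type u) [Group G] [Finite G] :
    (∀ χ : IrrCharacter G, charDegree χ.1 ≠ 1 → (charDegree χ.1).Prime) →
      Group.IsSolvable G := by
  refine GT.induction_on_card (P := fun G _ _ =>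
    (∀ χ : IrrCharacter G, charDegree χ.1 ≠ 1 → (charDegree χ.1).Prime) →
      Group.IsSolvable G) ?_ G
  intro G _ _ ih h
  by_cases hs : ∀ N : Subgroup G, N.Normal → N = ⊥ ∨ N = ⊤
  · exact simple_case hs h
  push Not at hs
  obtain ⟨N, hN, h1, h2⟩ := hs
  have := ih N (GT.card_lt_of_ne_top h2) fun θ hθ => by
    obtain ⟨χ, hχ⟩ := exists_degree_dvd_of_normal θ
    have h3 : charDegree χ.1 ≠ 1 := fun e => hθ (Nat.dvd_one.1 (e ▸ hχ))
    rw [((Nat.dvd_prime (h χ h3)).1 hχ).resolve_left hθ]
    exact h χ h3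
  have := ih (G ⧸ N) (GT.card_quotient_lt h1) fun ψ hψ => by
    rw [← charDegree_inflate] at hψ ⊢
    exact h _ hψ
  exact isSolvable_of_normal_of_quotient N

/-- If every irreducible character of the finite group G of degree greater than one has prime degree, then G is solvable. -/
theorem result {G : Type*} [Group G] [Finite G] (h : ∀ χ : Cfsg.IrrCharacter G, Cfsg.charDegree (χ : G → ℂ) ≠ 1 → (Cfsg.charDegree (χ : G → ℂ)).Prime) : Group.IsSolvable G := by
  exact main G h

end Cfsg.Agent.S4466
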