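import Cfsg.Statements.S4514
import Cfsg.Agent.Lib.Block.ConstDiff
import Cfsg.Agent.Lib.Char.SL2Even

set_option autoImplicit false
open Cfsg

namespace Cfsg.Agent.S4514

open CT BT GT Subgroup


/-- Let G be a finite group, u an element of G, and fix a maximal ideal M of the algebraic integers containing 2 (defining the 2-blocks). There is a complex number k with χ(1) − χ(u) = k for every non-principal irreducible character χ in the principal 2-block if and only if one of the following holds: u lies in O(G); or G/O(G) has order 2 and u ∉ O(G); or G/O(G) ≅ PSL(2, 2ⁿ) for some n ≥ 2, u ∉ O(G) and u² ∈ O(G). -/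
theorem result {G : Type*} [Group G] [Finite G] (M : Ideal Cfsg.AlgInt) (hM : Cfsg.IsPModular 2 M) (u : G) :
    (∃ k : ℂ, ∀ χ : Cfsg.IrrCharacter G, χ ∈ Cfsg.principalBlock M G → (χ : G → ℂ) ≠ (fun _ => 1) →
        (χ : G → ℂ) 1 - (χ : G → ℂ) u = k) ↔
      (u ∈ Cfsg.oddCore G ∨ (Nat.card (G ⧸ Cfsg.oddCore G) = 2 ∧ u ∉ Cfsg.oddCore G) ∨
        (∃ (F : Type) (_ : Field F) (_ : Fintype F) (n : ℕ), 2 ≤ n ∧ Fintype.card F = 2 ^ n ∧
          Nonempty (G ⧸ Cfsg.oddCore G ≃* Matrix.ProjectiveSpecialLinearGroup (Fin 2) F) ∧ u ∉ Cfsg.oddCore G ∧ u ^ 2 ∈ Cfsg.oddCore G)) := by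
  have hs := QuotientGroup.mk'_surjective (oddCore G)
  refine ⟨fun ⟨k, hk⟩ => or_iff_not_imp_left.2 fun hu => ?_, fun h => ?_⟩
  · have H : CDiff M (u : G ⧸ oddCore G) k := ⟨pPrimeCore_quotient_pPrimeCore 2 G,
      mt (QuotientGroup.eq_one_iff u).1 hu, fun ψ hψ h1 => hk _ (irrComp_mem_principal hM hs hψ)
        fun h => h1 (irrComp_injective _ hs ((Subtype.ext h).trans (irrComp_irrOne _ hs).symm))⟩
    rcases H.main hM with h | ⟨n, F, _, _, h1, -, h2, h3, ⟨e⟩⟩
    · exact Or.inl ⟨h.1, hu⟩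
    · exact Or.inr ⟨F, _, _, n, h1, h3,
        ⟨e.trans (SL2.pslEquivOfTwo (SL2.two_eq_zero_of_card h3)).symm⟩, hu,
        (QuotientGroup.eq_one_iff _).1 (by rw [sq, QuotientGroup.mk_mul, h2])⟩
  rcases h with h | ⟨h, hu⟩ | ⟨F, _, _, n, h1, h2, ⟨e⟩, hu, hu2⟩
  · exact ⟨0, fun χ hχ _ => by
      rw [ker_apply_eq (pPrimeCore_le_ker_of_mem_principal hM hχ h), sub_self]⟩
  · refine ⟨2, fun χ hχ h1 => ?_⟩
    obtain ⟨ψ, rfl⟩ := (exists_inflate_eq_iff _ χ).2 (pPrimeCore_le_ker_of_mem_principal hM hχ)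
    have : IsCyclic (G ⧸ oddCore G) := isCyclic_of_prime_card h
    obtain ⟨f, rfl⟩ := exists_linChar_eq_of_isMulCommutative ψ
    have h2 : f u ^ 2 = 1 := by
      rw [← map_pow, show (u : G ⧸ oddCore G) ^ 2 = 1 from
        (congrArg (_ ^ ·) h.symm).trans pow_card_eq_one', map_one]
    rw [inflate_apply, inflate_apply, linChar_apply, linChar_apply, QuotientGroup.mk_one, map_one]
    rcases (Units.inv_eq_self_iff _).1 (inv_eq_of_mul_eq_one_right (sq (f u) ▸ h2)) with h3 | h3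
    · have h4 : f.ker = ⊤ := (f.ker.eq_bot_or_eq_top_of_prime_card
        (hp := ⟨h.symm ▸ Nat.prime_two⟩)).resolve_left
        fun h4 => hu ((QuotientGroup.eq_one_iff u).1 (mem_bot.1 (h4 ▸ h3)))
      refine absurd (funext fun g => ?_) h1
      rw [inflate_apply, linChar_apply, show f g = 1 from h4.ge (mem_top _), Units.val_one]
    · rw [h3]; norm_num
  · have h3 := SL2.two_eq_zero_of_card h2
    refine ⟨Fintype.card F, fun χ hχ h4 => ?_⟩
    have hs' : Function.Surjective (((e.trans (SL2.pslEquivOfTwo h3)).toMonoidHom).comp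
      (QuotientGroup.mk' _)) := (e.trans (SL2.pslEquivOfTwo h3)).surjective.comp hs
    obtain ⟨ψ, rfl⟩ := (exists_irrComp_eq_iff _ hs' χ).2 (by
        rw [MonoidHom.ker_comp_of_injective _ _ (e.trans (SL2.pslEquivOfTwo h3)).injective,
          QuotientGroup.ker_mk']
        exact pPrimeCore_le_ker_of_mem_principal hM hχ)
    rw [irrComp_apply, irrComp_apply, map_one]
    refine SL2.apply_one_sub_apply_of_two h3 (h2 ▸ Nat.pow_le_pow_right two_pos h1)
      (fun h => h4 (by rw [h]; rfl)) ?_ fun h => hu ((QuotientGroup.eq_one_iff u).1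
        ((map_eq_one_iff _ (e.trans (SL2.pslEquivOfTwo h3)).injective).1 h))
    rw [← map_mul, ← sq, MonoidHom.comp_apply, QuotientGroup.mk'_apply,
      (QuotientGroup.eq_one_iff _).2 hu2, map_one]

end Cfsg.Agent.S4514
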