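import Cfsg.Statements.S4518
import Cfsg.Agent.Lib.Char.OddIndex

set_option autoImplicit false
open Cfsg

namespace Cfsg.Agent.S4518

open CT

/-- Let N be a normal subgroup of the finite group G whose index is not divisible by the prime p, and let k be coprime to the order of G with k ^ (p ^ e) ≡ 1 modulo the order of G for some e (so g ↦ g ^ k induces a field automorphism of p-power order on character values). If an irreducible character χ of G satisfies χ (g ^ k) = χ g for all g, then every irreducible constituent θ of the restriction of χ to N satisfies θ (n ^ k) = θ n for all n. -/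
theorem result {G : Type*} [Group G] [Fintype G] (p : ℕ) [Fact p.Prime] (N : Subgroup G) [N.Normal] [Fintype N] (hidx : ¬ p ∣ N.index) (k e : ℕ) (hk : Nat.Coprime k (Nat.card G)) (hke : k ^ (p ^ e) ≡ 1 [MOD Nat.card G]) (χ : Cfsg.IrrCharacter G) (hχ : ∀ g : G, (χ : G → ℂ) (g ^ k) = (χ : G → ℂ) g) (θ : Cfsg.IrrCharacter N) (hθ : Cfsg.classInner (fun n : N => (χ : G → ℂ) n) (θ : N → ℂ) ≠ 0) : ∀ n : N, (θ : N → ℂ) (n ^ k) = (θ : N → ℂ) n := by
  obtain ⟨σ, hσ, -⟩ := exists_gal_of_coprime_card hk
  have hp : p.Prime := Fact.out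
  have hit : ∀ (m : ℕ) (ζ : ℂ), ζ ^ Nat.card G = 1 → (σ : ℂ →+* ℂ)^[m] ζ = ζ ^ k ^ m := by
    intro m
    induction m with
    | zero => intro ζ _; simp
    | succ m ih =>
      intro ζ hζ
      rw [Function.iterate_succ_apply', ih ζ hζ, map_pow, RingHom.coe_coe, hσ ζ hζ, ← pow_mul,
        ← pow_succ']
  have hN : ∀ n : N, n ^ Nat.card G = 1 := fun n => Subtype.ext (by simp)
  rw [classInner_eq_ip] at hθ
  have h := LiesOver.gal_eq_of_not_dvd_index (σ := (σ : ℂ →+* ℂ)) (e := e) hp hidx
    (irrGal_iterate_eq hN fun ζ hζ => by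
      rw [hit _ ζ hζ, pow_eq_pow_mod _ hζ, hke, ← pow_eq_pow_mod _ hζ, pow_one])
    (χ := χ) (by
      rw [(irr_isCharacter χ).isGen.gal_eq_powFun hσ fun g => pow_card_eq_one']
      exact funext hχ) hθ
  rw [(irr_isCharacter θ).isGen.gal_eq_powFun hσ hN] at h
  exact congrFun h

end Cfsg.Agent.S4518
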