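import Cfsg.Statements.S4519
import Cfsg.Agent.Lib.Char.OddIndex
import Cfsg.Agent.Lib.Grp.PPart

set_option autoImplicit false
open Cfsg

namespace Cfsg.Agent.S4519

open CT

/-- Let N be a normal subgroup of odd index in the finite group G, and let k be coprime to the order of G with k ^ (2 ^ e) ≡ 1 modulo the order of G for some e and g ^ k = g⁻¹ for every element g of odd order (so g ↦ g ^ k induces a field automorphism of 2-power order inverting the roots of unity of odd order). If an irreducible character θ of N satisfies θ (n ^ k) = θ n for all n, then there is exactly one irreducible character χ of G with θ a constituent of its restriction to N and χ (g ^ k) = χ g for all g; moreover, if θ is invariant under conjugation by G, that χ restricts to θ. -/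
theorem result {G : Type*} [Group G] [Fintype G] (N : Subgroup G) [hN : N.Normal] [Fintype N] (hidx : Odd N.index) (k e : ℕ) (hk : Nat.Coprime k (Nat.card G)) (hke : k ^ (2 ^ e) ≡ 1 [MOD Nat.card G]) (hk₂ : ∀ g : G, Odd (orderOf g) → g ^ k = g⁻¹) (θ : Cfsg.IrrCharacter N) (hθ : ∀ n : N, (θ : N → ℂ) (n ^ k) = (θ : N → ℂ) n) : ∃ χ : Cfsg.IrrCharacter G, (Cfsg.classInner (fun n : N => (χ : G → ℂ) n) (θ : N → ℂ) ≠ 0 ∧ (∀ g : G, (χ : G → ℂ) (g ^ k) = (χ : G → ℂ) g) ∧ ((∀ g : G, ∀ n : N, (θ : N → ℂ) ⟨g * n * g⁻¹, hN.conj_mem n n.2 g⟩ = (θ : N → ℂ) n) → ∀ n : N, (χ : G → ℂ) n = (θ : N → ℂ) n)) ∧ ∀ χ' : Cfsg.IrrCharacter G, Cfsg.classInner (fun n : N => (χ' : G → ℂ) n) (θ : N → ℂ) ≠ 0 → (∀ g : G, (χ' : G → ℂ) (g ^ k) = (χ' : G → ℂ) g) → χ' = χ := by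
  obtain ⟨σ, hσ, -⟩ := exists_gal_of_coprime_card hk
  have hit : ∀ (m : ℕ) (ζ : ℂ), ζ ^ Nat.card G = 1 → (σ : ℂ →+* ℂ)^[m] ζ = ζ ^ k ^ m := by
    intro m
    induction m with
    | zero => intro ζ _; simp
    | succ m ih =>
      intro ζ hζ
      rw [Function.iterate_succ_apply', ih ζ hζ, map_pow, RingHom.coe_coe, hσ ζ hζ, ← pow_mul,
        ← pow_succ']
  have hNn : ∀ n : N, n ^ Nat.card G = 1 := fun n => Subtype.ext (by simp)
  have hG : ∀ χ : IrrCharacter G, gal (σ : ℂ →+* ℂ) χ.1 = χ.1 ↔ ∀ g, χ.1 (g ^ k) = χ.1 g := by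
    intro χ
    rw [(irr_isCharacter χ).isGen.gal_eq_powFun hσ fun g => pow_card_eq_one']
    exact funext_iff
  have hm : ∀ g : G, g ^ Nat.gcd (k + 1) (Nat.card G) ∈ N := by
    intro g
    rw [← QuotientGroup.eq_one_iff, QuotientGroup.mk_pow]
    refine pow_gcd_eq_one.2 ⟨?_, by rw [← QuotientGroup.mk_pow, pow_card_eq_one']; rfl⟩
    have h1 : ((GT.pPart 2 g : G) : G ⧸ N) = 1 := (QuotientGroup.eq_one_iff _).2
      ((GT.isPElt_pPart 2 g).mem_of_coprime_index N (Nat.coprime_two_left.2 hidx))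
    have h2 := hk₂ _ (Nat.odd_iff.2 (Nat.two_dvd_ne_zero.1 (GT.not_dvd_orderOf_pRegPart 2 g)))
    rw [← GT.pPart_mul_pRegPart 2 g, QuotientGroup.mk_mul, h1, one_mul, ← QuotientGroup.mk_pow,
      pow_succ, h2, inv_mul_cancel, QuotientGroup.mk_one]
  obtain ⟨χ, h1, h2, h3⟩ := existsUnique_gal_fixed (σ := (σ : ℂ →+* ℂ)) hidx hm (fun ζ hζ => by
      obtain ⟨a, b⟩ := pow_gcd_eq_one.1 hζ
      rw [RingHom.coe_coe, hσ ζ b]
      exact eq_inv_of_mul_eq_one_left (by rw [← pow_succ, a])) (e := e)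
    (fun ζ hζ => by
      rw [hit _ ζ hζ, pow_eq_pow_mod _ hζ, hke, ← pow_eq_pow_mod _ hζ, pow_one])
    (θ := θ) (by
      rw [(irr_isCharacter θ).isGen.gal_eq_powFun hσ hNn]
      exact funext hθ)
  have h4 := liesOver_of_mult_eq_one h1
  simp only [classInner_eq_ip]
  refine ⟨χ, ⟨h4, (hG χ).1 h2, fun hinv => ?_⟩, fun χ' h5 h6 => h3 χ' h5 ((hG χ').2 h6)⟩
  have := clifford_invariant (fun g => conjSmul_eq_iff_mk.2 (hinv g)) h4
  rw [h1, Nat.cast_one, one_smul] at this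
  exact congrFun this

end Cfsg.Agent.S4519
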