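import Cfsg.Statements.S4520
import Cfsg.Agent.Lib.Block.CoverPrin
import Cfsg.Agent.Lib.Block.GalBlock
import Cfsg.Agent.S4517
-- import your own Cfsg.Agent.* helpers here

set_option autoImplicit false
open Cfsg

namespace Cfsg.Agent.S4520

open BT CT GT
open scoped Pointwise ComplexConjugate commutatorElement

/-- Let N be a normal subgroup of odd index in the finite group G, M a maximal ideal of the algebraic integers containing 2, and k coprime to the order of G with k ^ (2 ^ e) ≡ 1 modulo the order of G for some e and g ^ k = g⁻¹ for every element g of odd order. Let θ be an irreducible character of N and χ an irreducible character of G over θ, both unchanged by composing with g ↦ g ^ k. Then χ lies in the principal 2-block of G if and only if θ lies in the principal 2-block of N. -/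
theorem result {G : Type*} [Group G] [Fintype G] (M : Ideal Cfsg.AlgInt) (hM : Cfsg.IsPModular 2 M) (N : Subgroup G) [N.Normal] [Fintype N] (hidx : Odd N.index) (k e : ℕ) (hk : Nat.Coprime k (Nat.card G)) (hke : k ^ (2 ^ e) ≡ 1 [MOD Nat.card G]) (hk₂ : ∀ g : G, Odd (orderOf g) → g ^ k = g⁻¹) (θ : Cfsg.IrrCharacter N) (hθ : ∀ n : N, (θ : N → ℂ) (n ^ k) = (θ : N → ℂ) n) (χ : Cfsg.IrrCharacter G) (hχ : ∀ g : G, (χ : G → ℂ) (g ^ k) = (χ : G → ℂ) g) (hover : Cfsg.classInner (fun n : N => (χ : G → ℂ) n) (θ : N → ℂ) ≠ 0) : χ ∈ Cfsg.principalBlock M G ↔ θ ∈ Cfsg.principalBlock M N := by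
  rw [classInner_eq_ip] at hover
  have hl : LiesOver N χ.1 θ.1 := hover
  refine ⟨fun h => mem_principal_of_liesOver hM h hl, fun h => ?_⟩
  have hB := isPBlock_blockOf (M := M) χ
  have hχB := mem_blockOf_self hM χ
  have hc : Covers N (blockOf M χ.1) (principalBlock M N) := ⟨χ, hχB, θ, h, hl⟩
  have h2 : ¬ 2 ∣ N.index := hidx.not_two_dvd_nat
  obtain ⟨Q, hQ⟩ := exists_isSylowIn 2 N
  have hQd : DefGrp 2 N (sidem hM N (principalBlock M N)) Q :=
    (defGrp_iff_isSylowIn_of_aug_ne_zero (bIdem_sidem hM isPBlock_principalBlock).fixed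
      (by rw [aug_sidem_principalBlock]; exact one_ne_zero)).2 hQ
  obtain ⟨P, hP, -, -, hPQ⟩ := (bIdem_top_idem hM hB).exists_defGrp_cover_inf_eq hM le_top
    Subgroup.le_normalizer_of_normal (bIdem_sidem hM isPBlock_principalBlock)
    ((covers_iff_mul hM hB isPBlock_principalBlock).1 hc) hQd
  have hQG : IsSylowIn 2 Q ⊤ := hQ.trans le_top (by rwa [Subgroup.relIndex_top_right])
  have hPS : IsSylowIn 2 P ⊤ := hQG.of_card_ge hP.pgroup le_top
    (Subgroup.card_le_of_le (hPQ ▸ inf_le_left))
  have h3 := card_defectGroup hM hB ((isDefectGroup_iff_defGrp hM hB P).2 hP)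
  rw [hPS.card_eq, Subgroup.card_top] at h3
  have h4 := Nat.pow_right_injective le_rfl h3
  have h5 : irrPow hk χ = χ := Subtype.ext (funext hχ)
  rw [← S4517.result M hM k hk hk₂ _ hB h4.symm fun ψ hψ => ⟨irrPow hk ψ, ?_, fun _ => rfl⟩]
  · exact hχB
  · rw [mem_blockOf] at hψ ⊢
    rw [← sameBlock_irrPow_iff hM hk, h5] at hψ
    exact hψ

end Cfsg.Agent.S4520
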