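import Cfsg.Statements.S4523
import Cfsg.Agent.Lib.Block.SigmaFix
import Cfsg.Agent.Lib.FT.Main

set_option autoImplicit false
open Cfsg

namespace Cfsg.Agent.S4523

/-- Let S be a non-abelian finite simple group with commutative Sylow 2-subgroups and M a maximal ideal of the algebraic integers containing 2. Let k be a natural number with g ^ k = g for every 2-element g and g ^ k = g⁻¹ for every element g of odd order. Then S has an irreducible character χ₁ of even degree with χ₁ (g ^ k) = χ₁ g for all g, and its principal 2-block contains a character χ₂ other than the principal character with χ₂ (g ^ k) = χ₂ g for all g. -/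
theorem result {S : Type*} [Group S] [Finite S] [IsSimpleGroup S] (hna : ¬ IsMulCommutative S) (P : Sylow 2 S) (hP : IsMulCommutative P) (M : Ideal Cfsg.AlgInt) (hM : Cfsg.IsPModular 2 M) (k : ℕ) (hk₁ : ∀ g : S, (∃ j : ℕ, orderOf g = 2 ^ j) → g ^ k = g) (hk₂ : ∀ g : S, Odd (orderOf g) → g ^ k = g⁻¹) : (∃ χ₁ : Cfsg.IrrCharacter S, Even (Cfsg.charDegree (χ₁ : S → ℂ)) ∧ ∀ g : S, (χ₁ : S → ℂ) (g ^ k) = (χ₁ : S → ℂ) g) ∧ ∃ χ₂ ∈ Cfsg.principalBlock M S, (χ₂ : S → ℂ) ≠ (fun _ => 1) ∧ ∀ g : S, (χ₂ : S → ℂ) (g ^ k) = (χ₂ : S → ℂ) g :=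
  BT.sigma_fixed_of_ft (fun H _ _ h => FT.feit_thompson H h) hna P hP M hM k hk₁ hk₂

end Cfsg.Agent.S4523
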