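import Cfsg.Statements.S4529
import Cfsg.Agent.Lib.Block.TameCent

set_option autoImplicit false
open Cfsg

namespace Cfsg.Agent.S4529

open BT CT GT
open scoped MonoidAlgebra Pointwise

/-- Let B be a 2-block of the finite group G (relative to a maximal ideal M of the algebraic integers containing 2) whose defect group D is semidihedral (quasi-dihedral) of order 2 ^ n, n ≥ 4. Then the number of irreducible characters in B is 2 ^ (n - 2) + 3 or 2 ^ (n - 2) + 4, its 2-regular rank l is between 1 and 3, with l = 3 forcing 2 ^ (n - 2) + 4 characters and l = 1 forcing 2 ^ (n - 2) + 3; exactly four members have height zero, exactly 2 ^ (n - 2) - 1 have height one, and every other member has height n - 2. -/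
theorem result {G : Type*} [Group G] [Finite G] (M : Ideal Cfsg.AlgInt) (hM : Cfsg.IsPModular 2 M) (B : Set (Cfsg.IrrCharacter G)) (hB : Cfsg.IsPBlock M B) (D : Subgroup G) (hD : Cfsg.IsDefectGroup 2 M B D) (n : ℕ) (hn : 4 ≤ n) (hcard : Nat.card D = 2 ^ n) (hsd : Cfsg.IsQuasiDihedral D) : (Nat.card B = 2 ^ (n - 2) + 3 ∨ Nat.card B = 2 ^ (n - 2) + 4) ∧ 1 ≤ Cfsg.blockRank 2 B ∧ Cfsg.blockRank 2 B ≤ 3 ∧ (Cfsg.blockRank 2 B = 3 → Nat.card B = 2 ^ (n - 2) + 4) ∧ (Cfsg.blockRank 2 B = 1 → Nat.card B = 2 ^ (n - 2) + 3) ∧ Nat.card {χ : Cfsg.IrrCharacter G // χ ∈ B ∧ Cfsg.blockHeight 2 B (χ : G → ℂ) = 0} = 4 ∧ Nat.card {χ : Cfsg.IrrCharacter G // χ ∈ B ∧ Cfsg.blockHeight 2 B (χ : G → ℂ) = 1} = 2 ^ (n - 2) - 1 ∧ ∀ χ ∈ B, Cfsg.blockHeight 2 B (χ : G → ℂ) = 0 ∨ Cfsg.blockHeight 2 B (χ : G → ℂ) = 1 ∨ Cfsg.blockHeight 2 B (χ : G → ℂ) = n - 2 := by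
  obtain ⟨m, hm, rfl⟩ := exists_maxP hM hB hD
  obtain ⟨k, x, y, z, h, hk, hy, hyy⟩ := exists_maxCl_of_isQuasiDihedral hsd
  obtain ⟨k, rfl⟩ : ∃ j, k = j + 1 := ⟨k - 1, by omega⟩
  obtain rfl : n = k + 1 + 2 := Nat.pow_right_injective le_rfl (hcard.symm.trans h.card)
  obtain ⟨e, h1, h2, h3, h4⟩ := hm.tame_num h (hm.tameC_at_z h)
  have h5 := hm.card_add_one_of_maxCl h (by omega)
  have h6 := hm.blockRank_at_z_of_semidihedral h hy hyy
  have h7 := blockRank_pos (p := 2) (block_nonempty hM hB)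
  have h8 : ∀ j, Nat.card {χ : IrrCharacter G // χ ∈ B ∧ blockHeight 2 B χ.1 = j} =
      ((bset B).filter fun χ => blockHeight 2 B χ.1 = j).card := fun j => by
    rw [← Nat.card_eq_finsetCard]
    exact Nat.card_congr (Equiv.subtypeEquivRight fun _ => by simp)
  have h9 := hm.blockRank_at_z_le_two h hy hyy
  have h10 : Nat.card B = 2 ^ (k + 1) + 3 + e := by split_ifs at h6 <;> omega
  rw [Nat.add_sub_cancel, h8, h8]
  exact ⟨by omega, h7, by split_ifs at h6 <;> omega, by split_ifs at h6 <;> omega, by omega,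
    hm.card_height_zero h (by omega), h4 (by omega) h10⟩

end Cfsg.Agent.S4529
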