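import Cfsg.Statements.S4530
import Cfsg.Agent.Lib.Block.TameCent

set_option autoImplicit false
open Cfsg

namespace Cfsg.Agent.S4530

open BT CT GT
open scoped MonoidAlgebra Pointwise

/-- Let B be a 2-block of the finite group G (relative to a maximal ideal M of the algebraic integers containing 2) whose defect group D is generalized quaternion of order 2 ^ n, n ≥ 3. Then its 2-regular rank l is between 1 and 3, the number of irreducible characters in B is l + 2 ^ (n - 2) + 2, exactly four members have height zero, and every other member has height one or height n - 2; when n ≥ 4 exactly 2 ^ (n - 2) - 1 members have height one. -/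
theorem result {G : Type*} [Group G] [Finite G] (M : Ideal Cfsg.AlgInt) (hM : Cfsg.IsPModular 2 M) (B : Set (Cfsg.IrrCharacter G)) (hB : Cfsg.IsPBlock M B) (D : Subgroup G) (hD : Cfsg.IsDefectGroup 2 M B D) (n : ℕ) (hn : 3 ≤ n) (hq : Nonempty (D ≃* QuaternionGroup (2 ^ (n - 2)))) : 1 ≤ Cfsg.blockRank 2 B ∧ Cfsg.blockRank 2 B ≤ 3 ∧ Nat.card B = Cfsg.blockRank 2 B + 2 ^ (n - 2) + 2 ∧ Nat.card {χ : Cfsg.IrrCharacter G // χ ∈ B ∧ Cfsg.blockHeight 2 B (χ : G → ℂ) = 0} = 4 ∧ (∀ χ ∈ B, Cfsg.blockHeight 2 B (χ : G → ℂ) = 0 ∨ Cfsg.blockHeight 2 B (χ : G → ℂ) = 1 ∨ Cfsg.blockHeight 2 B (χ : G → ℂ) = n - 2) ∧ (4 ≤ n → Nat.card {χ : Cfsg.IrrCharacter G // χ ∈ B ∧ Cfsg.blockHeight 2 B (χ : G → ℂ) = 1} = 2 ^ (n - 2) - 1) := by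
  obtain ⟨k, rfl⟩ : ∃ k, n = k + 3 := ⟨n - 3, by omega⟩
  obtain ⟨m, hm, rfl⟩ := exists_maxP hM hB hD
  obtain ⟨x, y, z, h, hy, hyy⟩ := exists_maxCl_of_quaternion (n := k + 1) hq.some
  obtain ⟨e, h1, h2, h3, h4⟩ := hm.tame_num h (hm.tameC_at_z h)
  have h5 := hm.card_add_one_of_maxCl h (by omega)
  have h6 := hm.blockRank_at_z_of_quaternion h hy hyy
  have h7 := blockRank_pos (p := 2) (block_nonempty hM hB)
  have h8 : ∀ j, Nat.card {χ : IrrCharacter G // χ ∈ B ∧ blockHeight 2 B χ.1 = j} =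
      ((bset B).filter fun χ => blockHeight 2 B χ.1 = j).card := fun j => by
    rw [← Nat.card_eq_finsetCard]
    exact Nat.card_congr (Equiv.subtypeEquivRight fun _ => by simp)
  rw [show k + 3 - 2 = k + 1 from rfl, h8, h8]
  refine ⟨h7, by omega, by omega, hm.card_height_zero h (by omega), fun χ hχ => ?_,
    fun hk => (h4 (by omega) (by omega)).1⟩
  rcases Nat.eq_zero_or_pos k with hk | hk
  · have h9 := height_add_two_le hM hB hχ
    rw [hm.blockDefect_eq_of_maxCl h] at h9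
    omega
  · exact (h4 hk (by omega)).2 χ hχ

end Cfsg.Agent.S4530
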