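import Cfsg.Statements.S4531
import Cfsg.Agent.Lib.Block.TameSolv

set_option autoImplicit false
open Cfsg

namespace Cfsg.Agent.S4531

open BT CT GT
open scoped MonoidAlgebra Pointwise

/-- Let the finite group G have a 2-block B (relative to a maximal ideal M of the algebraic integers containing 2) of 2-regular rank three (three irreducible Brauer characters) whose defect group D is dihedral of order 2 ^ n with n ≥ 3 or semidihedral. Then the centre of G has odd order and G is not solvable. -/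
theorem result {G : Type*} [Group G] [Finite G] (M : Ideal Cfsg.AlgInt) (hM : Cfsg.IsPModular 2 M) (B : Set (Cfsg.IrrCharacter G)) (hB : Cfsg.IsPBlock M B) (D : Subgroup G) (hD : Cfsg.IsDefectGroup 2 M B D) (hD' : (∃ n : ℕ, 3 ≤ n ∧ Nonempty (D ≃* DihedralGroup (2 ^ (n - 1)))) ∨ Cfsg.IsQuasiDihedral D) (hl : Cfsg.blockRank 2 B = 3) : Odd (Nat.card (Subgroup.center G)) ∧ ¬ Group.IsSolvable G := by
  obtain ⟨n, x, y, z, h, hyy⟩ : ∃ n x y z, MaxCl D (n + 1) x y z ∧ y * y = 1 := by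
    rcases hD' with ⟨n, hn, ⟨e⟩⟩ | h
    · obtain ⟨k, rfl⟩ : ∃ k, n = k + 3 := ⟨n - 3, by omega⟩
      obtain ⟨x, y, z, h, -, hyy⟩ := exists_maxCl_of_dihedral (n := k + 1) e
      exact ⟨k, x, y, z, h, hyy⟩
    · obtain ⟨k, x, y, z, h, hk, -, hyy⟩ := exists_maxCl_of_isQuasiDihedral h
      obtain ⟨k, rfl⟩ : ∃ j, k = j + 1 := ⟨k - 1, by omega⟩
      exact ⟨k, x, y, z, h, hyy⟩
  refine ⟨?_, fun hs => ?_⟩
  · obtain ⟨m, hm, rfl⟩ := exists_maxP hM hB hD
    exact hm.odd_card_center h hyy hl.ge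
  · have := blockRank_le_two_of_isPSolvable hM isPSolvable_of_isSolvable hB hD h hyy
    omega

end Cfsg.Agent.S4531
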