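import Cfsg.Statements.S4536
import Cfsg.Agent.Lib.GL.Main
import Cfsg.Agent.Lib.GL.ClC
import Cfsg.Agent.Lib.GL.GrD
import Cfsg.Agent.Lib.GL.DefE
import Cfsg.Agent.Lib.GL.RkB
import Cfsg.Agent.Lib.GL.CnB2

set_option autoImplicit false
open Cfsg

namespace Cfsg.Agent.S4536

/-- Let F be a finite field, n ≥ 2, and suppose the special linear group SL(n, F) is quasisimple. Let p be a prime different from the characteristic of F and B a p-block of SL(n, F) (relative to a maximal ideal M of the algebraic integers containing p) with a defect group D all of whose sections have p-rank at most s. Then the p-regular rank of B is at most p ^ s. -/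
theorem result {F : Type*} [Field F] [Fintype F] (n : ℕ) (hn : 2 ≤ n) (hqs : Cfsg.IsQuasisimple (Matrix.SpecialLinearGroup (Fin n) F)) (p : ℕ) [Fact p.Prime] (hp : p ≠ ringChar F) (M : Ideal Cfsg.AlgInt) (hM : Cfsg.IsPModular p M) (B : Set (Cfsg.IrrCharacter (Matrix.SpecialLinearGroup (Fin n) F))) (hB : Cfsg.IsPBlock M B) (D : Subgroup (Matrix.SpecialLinearGroup (Fin n) F)) (hD : Cfsg.IsDefectGroup p M B D) (s : ℕ) (hs : Cfsg.SectionalPRankLE p s D) : Cfsg.blockRank p B ≤ p ^ s := by
  exact GLH.rank_le_SL (by omega) p hp M hM B hB D hD s hs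

end Cfsg.Agent.S4536
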