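import Cfsg.Statements.S4537
import Cfsg.Agent.Lib.GU.Fin
import Cfsg.Agent.Lib.GU.UbC
import Cfsg.Agent.Lib.GU.LocJ
import Cfsg.Agent.Lib.GU.Sb

set_option autoImplicit false
open Cfsg

namespace Cfsg.Agent.S4537

/-- Let F be a finite field with q ^ 2 elements, n ≥ 3, and suppose the special unitary group SU(n, q) (the determinant-one isometries of the standard Hermitian form over F) is quasisimple. Let p be a prime different from the characteristic of F and B a p-block of SU(n, q) (relative to a maximal ideal M of the algebraic integers containing p) with a defect group D all of whose sections have p-rank at most s. Then the p-regular rank of B is at most p ^ s. -/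
theorem result {F : Type*} [Field F] [Fintype F] (q n : ℕ) (hF : Fintype.card F = q ^ 2) (hn : 3 ≤ n) (hqs : Cfsg.IsQuasisimple ↥(Cfsg.SU n F q)) (p : ℕ) [Fact p.Prime] (hp : p ≠ ringChar F) (M : Ideal Cfsg.AlgInt) (hM : Cfsg.IsPModular p M) (B : Set (Cfsg.IrrCharacter ↥(Cfsg.SU n F q))) (hB : Cfsg.IsPBlock M B) (D : Subgroup ↥(Cfsg.SU n F q)) (hD : Cfsg.IsDefectGroup p M B D) (s : ℕ) (hs : Cfsg.SectionalPRankLE p s D) : Cfsg.blockRank p B ≤ p ^ s := by
  classical
  refine GUH.rank_le_SU q n hF (by omega) (fun K _ _ _ C H h => ?_) p hp M hM B hB D hD s hs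
  obtain ⟨U⟩ := C.nonempty_UB
  have h1 : Module.finrank F (Fin n → F) = n := Module.finrank_fin_fun F
  exact U.goal H (by omega) (by omega) (GUH.Df.defB U rfl (by omega)) (GUH.Df.locB U H (by omega))

end Cfsg.Agent.S4537
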