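import Cfsg.Statements.S4539
import Cfsg.Agent.Lib.Block.QuadBound

set_option autoImplicit false
open Cfsg

namespace Cfsg.Agent.S4539

open CT BT
open scoped MonoidAlgebra ComplexConjugate

/-- Let B be a p-block of the finite group G (relative to a maximal ideal M of the algebraic integers containing p) of defect d with defect group D. Let z be an element of D commuting with every element of D, and let b be a block of the centralizer C of z with defect group D that induces B (a major subsection (z, b)). If b has p-regular rank at most two, then B contains at most p ^ d irreducible characters. -/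
theorem result {G : Type*} [Group G] [Finite G] (p : ℕ) [Fact p.Prime] (M : Ideal Cfsg.AlgInt) (hM : Cfsg.IsPModular p M) (B : Set (Cfsg.IrrCharacter G)) (hB : Cfsg.IsPBlock M B) (D : Subgroup G) (hD : Cfsg.IsDefectGroup p M B D) (z : G) (hzD : z ∈ D) (hzc : ∀ d ∈ D, d * z = z * d) (b : Set (Cfsg.IrrCharacter ↥(Subgroup.centralizer ({z} : Set G)))) (hb : Cfsg.IsInducedBlock M (Subgroup.centralizer ({z} : Set G)) b B) (hbD : Cfsg.IsDefectGroup p M b (D.subgroupOf (Subgroup.centralizer ({z} : Set G)))) (hl : Cfsg.blockRank p b ≤ 2) : Nat.card B ≤ p ^ Cfsg.blockDefect p B := by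
  have hu := isPElt_of_mem_defectGroup hM hB hD hzD
  have hd := blockDefect_eq_of_subgroupOf hM hB hD
    (fun d hd => Subgroup.mem_centralizer_singleton_iff.2 (hzc d hd)) hb.1 hbD
  obtain ⟨S⟩ := exists_basicSet p b
  by_cases h : ∃ x : Fin (blockRank p b) → ℤ, ∑ i, ∑ j, S.gam i j * (x i * x j) = 1
  · obtain ⟨x, hx⟩ := h
    have := S.card_le_pow_mul_gam hM rfl hu hb hd (x := x) (by
      rw [hx]; exact (Nat.prime_iff_prime_int.1 Fact.out).not_dvd_one)
    rw [hx, mul_one] at this
    exact_mod_cast this
  · have := S.card_mul_le_of_le_gam hM rfl hu hb (m := 2) (fun x hx => by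
      have h1 := S.sum_gam_mul_pos hx
      have h2 : _ ≠ (1 : ℤ) := fun h' => h ⟨x, h'⟩
      omega) le_rfl fun χ hχ => subsec_ne_zero_of_major hM rfl hu hb hd (mem_bset.1 hχ)
    rw [card_bset, hd] at this
    exact Nat.le_of_mul_le_mul_right (this.trans (Nat.mul_le_mul_left _ hl)) two_pos

end Cfsg.Agent.S4539
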