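import Cfsg.Statements.S4542
import Cfsg.Agent.Lib.Block.KBOdd

set_option autoImplicit false
open Cfsg

namespace Cfsg.Agent.S4542

open BT CT GT
open scoped MonoidAlgebra Pointwise

/-- Let B be a p-block of the finite group G (relative to a maximal ideal M of the algebraic integers containing p) with defect group D, and suppose D has a cyclic subgroup Z, central in D, of index at most 16 in D. Then B contains at most as many irreducible characters as D has elements (Brauer's k(B) bound holds for B); in particular this covers every 2-block of defect at most 5. -/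
theorem result {G : Type*} [Group G] [Finite G] (p : ℕ) [Fact p.Prime] (M : Ideal Cfsg.AlgInt) (hM : Cfsg.IsPModular p M) (B : Set (Cfsg.IrrCharacter G)) (hB : Cfsg.IsPBlock M B) (D : Subgroup G) (hD : Cfsg.IsDefectGroup p M B D) (Z : Subgroup G) (hZD : Z ≤ D) (hZc : ∀ z ∈ Z, ∀ d ∈ D, z * d = d * z) (hcyc : IsCyclic Z) (hidx : Z.relIndex D ≤ 16) : Nat.card B ≤ Nat.card D := by
  obtain ⟨z, rfl⟩ := isCyclic_iff_exists_zpowers_eq.1 hcyc
  exact card_le_of_relIndex_le_sixteen hM hB hD (hZD (Subgroup.mem_zpowers z))
    (hZc z (Subgroup.mem_zpowers z)) hidx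

end Cfsg.Agent.S4542
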