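import Cfsg.Statements.S4544
import Cfsg.Agent.Lib.Block.DStarL

set_option autoImplicit false
open Cfsg

namespace Cfsg.Agent.S4544

open BT CT GT
open scoped MonoidAlgebra Pointwise

/-- Let B be a 2-block of the finite group G (relative to a maximal ideal M of the algebraic integers containing 2) whose defect group D contains a cyclic subgroup of index at most 4 in D. Then B contains at most as many irreducible characters as D has elements. -/
theorem result {G : Type*} [Group G] [Finite G] (M : Ideal Cfsg.AlgInt) (hM : Cfsg.IsPModular 2 M) (B : Set (Cfsg.IrrCharacter G)) (hB : Cfsg.IsPBlock M B) (D : Subgroup G) (hD : Cfsg.IsDefectGroup 2 M B D) (C : Subgroup G) (hCD : C ≤ D) (hcyc : IsCyclic C) (hidx : C.relIndex D ≤ 4) : Nat.card B ≤ Nat.card D := by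
  have : Fact (Nat.Prime 2) := ⟨Nat.prime_two⟩
  obtain ⟨x, rfl⟩ := isCyclic_iff_exists_zpowers_eq.1 hcyc
  have hx : x ∈ D := hCD (Subgroup.mem_zpowers x)
  obtain ⟨ζ, hζ, h⟩ := exists_smallThree (defGrp_of_isDefectGroup hM hB hD).pgroup (x := ⟨x, hx⟩) (by
    rwa [Subgroup.relIndex, ← Subgroup.map_subgroupOf_eq_of_le hCD, show
      ((Subgroup.zpowers x).subgroupOf D).map D.subtype = (Subgroup.zpowers (⟨x, hx⟩ : D)).map D.subtype by
        rw [Subgroup.map_subgroupOf_eq_of_le hCD, MonoidHom.map_zpowers]; rfl, Subgroup.subgroupOf,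
      Subgroup.comap_map_eq_self_of_injective D.subtype_injective] at hidx)
  exact card_le_of_quot hM hB hD hζ fun H _ _ f b hf hb hbD =>
    blockRank_le_three_of_smallThree hM hb hbD (h H f hf)

end Cfsg.Agent.S4544
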