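import Cfsg.Statements.S4543
import Cfsg.Agent.Lib.Block.EssPair
import Cfsg.Agent.S4542
import Cfsg.Agent.S4544

set_option autoImplicit false
open Cfsg

namespace Cfsg.Agent.S4543

/-- Let B be a 2-block of the finite group G (relative to a maximal ideal M of the algebraic integers containing 2) whose defect group D has order at most 64 and is generated by two of its elements. Then B contains at most as many irreducible characters as D has elements. -/
theorem result {G : Type*} [Group G] [Finite G] (M : Ideal Cfsg.AlgInt) (hM : Cfsg.IsPModular 2 M) (B : Set (Cfsg.IrrCharacter G)) (hB : Cfsg.IsPBlock M B) (D : Subgroup G) (hD : Cfsg.IsDefectGroup 2 M B D) (hcard : Nat.card D ≤ 64) (hgen : ∃ x ∈ D, ∃ y ∈ D, Subgroup.closure ({x, y} : Set G) = D) : Nat.card B ≤ Nat.card D := by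
  obtain ⟨m, hm, rfl⟩ := BT.exists_maxP hM hB hD
  have key : ∀ u ∈ m.Q, (∀ g ∈ m.Q, g * u = u * g) → Nat.card m.Q ≤ 16 * orderOf u →
      Nat.card B ≤ Nat.card m.Q := fun u hu hc h => by
    refine Cfsg.Agent.S4542.result 2 M hM B hB m.Q hD _ (Subgroup.zpowers_le.2 hu)
      (fun z hz d hd => Subgroup.mem_centralizer_singleton_iff.1 (Subgroup.zpowers_le.2
        (Subgroup.mem_centralizer_singleton_iff.2 (hc d hd).symm) hz)) inferInstance ?_
    have h2 := GT.card_mul_relIndex (Subgroup.zpowers_le.2 hu)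
    rw [Nat.card_zpowers] at h2
    have := orderOf_pos u
    nlinarith
  by_cases h64 : Nat.card m.Q = 64
  swap
  · have h32 : Nat.card m.Q ≤ 32 := by have := GT.card_eq_two_pow m.pgrp hcard; omega
    by_cases h : m.Q = ⊥
    · exact key 1 (one_mem _) (by simp) (by rw [h]; simp)
    obtain ⟨⟨z, hz, hc⟩, hz1⟩ := Subgroup.ne_bot_iff_exists_ne_one.1
      (GT.inf_centralizer_ne_bot_of_isPGroup m.pgrp m.pgrp h Subgroup.le_normalizer)
    have h1 : orderOf z ≠ 1 := fun e => hz1 (Subtype.ext (orderOf_eq_one_iff.1 e))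
    have := orderOf_pos z
    exact key z hz hc (by omega)
  by_cases he : ∀ u ∈ m.Q, (∀ g ∈ m.Q, g * u = u * g) → u * u = 1
  swap
  · push Not at he
    obtain ⟨u, hu, hc, h⟩ := he
    have := GT.four_le_orderOf m.pgrp (u := ⟨u, hu⟩) fun e => h (congrArg Subtype.val e)
    rw [← Subgroup.orderOf_coe] at this
    exact key u hu hc (by simp only at this; omega)
  by_cases hx : ∀ u ∈ m.Q, orderOf u ≤ 8
  · obtain ⟨x, -, y, -, h⟩ := hgen
    refine hm.card_le_of_ord64 h64 (fun N hN hs => ?_) he hx
    have := GT.card_le_four_mul_of_closure h hN hs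
    omega
  push Not at hx
  obtain ⟨u, hu, h⟩ := hx
  refine Cfsg.Agent.S4544.result M hM B hB m.Q hD _ (Subgroup.zpowers_le.2 hu) inferInstance ?_
  have h2 := GT.card_mul_relIndex (Subgroup.zpowers_le.2 hu)
  have h3 := GT.card_eq_two_pow (m.pgrp.to_le (Subgroup.zpowers_le.2 hu))
    ((Subgroup.card_le_of_le (Subgroup.zpowers_le.2 hu)).trans hcard)
  rw [Nat.card_zpowers] at h2 h3
  have : 16 ≤ orderOf u := by omega
  nlinarith

end Cfsg.Agent.S4543
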