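import Cfsg.Statements.S4545
import Cfsg.Agent.Lib.Block.Olsson
import Cfsg.Agent.Lib.Block.KBAb

set_option autoImplicit false
open Cfsg

namespace Cfsg.Agent.S4545

/-- Let B be a 2-block of the finite group G (relative to a maximal ideal M of the algebraic integers containing 2) whose defect group D has order at most 32. Then the number of members of B of height zero is at most the index of the commutator subgroup of D in D (Olsson's bound holds for B). -/
theorem result {G : Type*} [Group G] [Finite G] (M : Ideal Cfsg.AlgInt) (hM : Cfsg.IsPModular 2 M) (B : Set (Cfsg.IrrCharacter G)) (hB : Cfsg.IsPBlock M B) (D : Subgroup G) (hD : Cfsg.IsDefectGroup 2 M B D) (hcard : Nat.card D ≤ 32) : Nat.card {χ : Cfsg.IrrCharacter G // χ ∈ B ∧ Cfsg.blockHeight 2 B (χ : G → ℂ) = 0} ≤ (commutator ↥D).index := by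
  by_cases hna : commutator D = ⊥
  swap
  · exact BT.card_height_zero_le_index hM hB hD hcard hna
  rw [hna, Subgroup.index_bot]
  have hab : ∀ x ∈ D, ∀ y ∈ D, x * y = y * x := fun x hx y hy => by
    have h1 := GT.conj_mul_inv_mem_commutator (⟨x, hx⟩ : D) ⟨y, hy⟩
    rw [hna, Subgroup.mem_bot, mul_inv_eq_one, mul_inv_eq_iff_eq_mul] at h1
    exact congrArg Subtype.val h1
  obtain ⟨u, hu, h16⟩ : ∃ u ∈ D, (Subgroup.zpowers u).relIndex D ≤ 16 := by
    by_cases h : D ≤ ⊥
    · exact ⟨1, one_mem _, by rw [Subgroup.relIndex_eq_one.2 (h.trans bot_le)]; norm_num⟩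
    obtain ⟨u, hu, h1⟩ := SetLike.not_le_iff_exists.1 h
    refine ⟨u, hu, ?_⟩
    have h2 := GT.card_mul_relIndex (Subgroup.zpowers_le.2 hu)
    have h3 := GT.two_mul_card_le_of_lt (bot_lt_iff_ne_bot.2 (Subgroup.zpowers_ne_bot.2 h1))
    rw [Subgroup.card_bot] at h3
    nlinarith
  refine le_trans ?_ (BT.card_le_of_abelian_two hM hB hD hab hu h16)
  exact Nat.card_le_card_of_injective (fun χ => (⟨χ.1, χ.2.1⟩ : B))
    fun χ ψ h => Subtype.ext (congrArg (fun x : B => x.1) h)

end Cfsg.Agent.S4545
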