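import Cfsg.Statements.S4546
import Cfsg.Agent.Lib.Block.E8Cyc

set_option autoImplicit false
open Cfsg

namespace Cfsg.Agent.S4546

open CT BT GT Subgroup

theorem add_self_iff (k : ℕ) (x : ZMod (2 ^ (k + 2))) : x + x = 0 ↔ x = 0 ∨ x = 2 ^ (k + 1) := by
  rw [add_eq_zero_iff_neg_eq, ZMod.neg_eq_self_iff]
  refine or_congr_right ⟨fun h => ?_, fun h => ?_⟩
  · have h1 : x.val = 2 ^ (k + 1) := 
      Nat.eq_of_mul_eq_mul_left two_pos (h.trans (pow_succ' 2 (k + 1)))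
    rw [← ZMod.natCast_zmod_val x, h1]
    push_cast
    rfl
  · rw [h, show (2 : ZMod (2 ^ (k + 2))) ^ (k + 1) = ((2 ^ (k + 1) : ℕ) : ZMod (2 ^ (k + 2))) by
      push_cast; rfl, ZMod.val_natCast_of_lt (Nat.pow_lt_pow_right one_lt_two (by omega))]
    ring

theorem pow_ne (k : ℕ) : (2 : ZMod (2 ^ (k + 2))) ^ (k + 1) ≠ 0 := by
  rw [show (2 : ZMod (2 ^ (k + 2))) ^ (k + 1) = ((2 ^ (k + 1) : ℕ) : ZMod (2 ^ (k + 2))) by
    push_cast; rfl, Ne, ZMod.natCast_eq_zero_iff,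
    Nat.pow_dvd_pow_iff_le_right one_lt_two]
  omega

theorem two_add_self (x : ZMod 2) : x + x = 0 := CharTwo.add_self_eq_zero x

abbrev AA (k : ℕ) : Type := Multiplicative (ZMod (2 ^ (k + 2)) × ZMod 2 × ZMod 2 × ZMod 2)

theorem card_AA (k : ℕ) : Nat.card (AA k) = 2 ^ (k + 2 + 3) := by
  simp only [Nat.card_eq_fintype_card, Fintype.card_multiplicative, Fintype.card_prod, ZMod.card]
  ring

theorem sq_iff (k : ℕ) (a : AA k) : (∃ b, b * b = a) ∧ a * a = 1 ↔
    a = 1 ∨ a = Multiplicative.ofAdd (2 ^ (k + 1), 0, 0, 0) := by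
  constructor
  · rintro ⟨⟨b, rfl⟩, h⟩
    obtain ⟨⟨x, y, z, w⟩, rfl⟩ := Multiplicative.ofAdd.surjective b
    simp only [← ofAdd_add, Prod.mk_add_mk, two_add_self, ofAdd_eq_one, Prod.mk_eq_zero,
      and_true, EmbeddingLike.apply_eq_iff_eq, Prod.mk.injEq] at h ⊢
    exact (add_self_iff k _).1 h
  · rintro (rfl | rfl)
    · exact ⟨⟨1, mul_one _⟩, mul_one _⟩
    · refine ⟨⟨Multiplicative.ofAdd (2 ^ k, 0, 0, 0), ?_⟩, ?_⟩
      · simp only [← ofAdd_add, Prod.mk_add_mk, add_zero]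
        rw [pow_succ (2 : ZMod (2 ^ (k + 2))) k, mul_two]
      · simp only [← ofAdd_add, Prod.mk_add_mk, add_zero, ofAdd_eq_one, Prod.mk_eq_zero, and_true]
        exact (add_self_iff k _).2 (.inr rfl)

theorem card_ker_le (k : ℕ) : Nat.card (powMonoidHom 2 : AA k →* AA k).ker ≤ 16 := by
  classical
  have := Nat.card_le_card_of_injective
    (fun a : (powMonoidHom 2 : AA k →* AA k).ker =>
      (decide (a.1.toAdd.1 = 0), a.1.toAdd.2)) fun a b h => by
      have key : ∀ a : (powMonoidHom 2 : AA k →* AA k).ker,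
          a.1.toAdd.1 = 0 ∨ a.1.toAdd.1 = 2 ^ (k + 1) := fun a => (add_self_iff k _).1 (by
        have := congrArg (fun x : AA k => x.toAdd.1) (show a.1 ^ 2 = 1 from a.2)
        simpa [sq] using this)
      simp only [Prod.mk.injEq, decide_eq_decide] at h
      refine Subtype.ext (Multiplicative.toAdd.injective (Prod.ext ?_ h.2))
      rcases key a with h1 | h1 <;> rcases key b with h2 | h2
      · rw [h1, h2]
      · rw [h1, h.1.1 h1]
      · rw [h2, h.1.2 h2]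
      · rw [h1, h2]
  simpa using this

/-- Let B be a 2-block of the finite group G (relative to a maximal ideal M of the algebraic integers containing 2) whose defect group D is the direct product of a cyclic group of order 2 ^ n (n ≥ 2) and an elementary abelian group of order 8. Then B contains exactly 2 ^ (n + 3) irreducible characters, all of height zero, and its 2-regular rank is 1, 3, 5 or 7. -/
theorem result {G : Type*} [Group G] [Finite G] (M : Ideal Cfsg.AlgInt) (hM : Cfsg.IsPModular 2 M) (B : Set (Cfsg.IrrCharacter G)) (hB : Cfsg.IsPBlock M B) (D : Subgroup G) (hD : Cfsg.IsDefectGroup 2 M B D) (n : ℕ) (hn : 2 ≤ n) (hiso : Nonempty (D ≃* Multiplicative (ZMod (2 ^ n) × ZMod 2 × ZMod 2 × ZMod 2))) : Nat.card B = 2 ^ (n + 3) ∧ (∀ χ ∈ B, Cfsg.blockHeight 2 B (χ : G → ℂ) = 0) ∧ (Cfsg.blockRank 2 B = 1 ∨ Cfsg.blockRank 2 B = 3 ∨ Cfsg.blockRank 2 B = 5 ∨ Cfsg.blockRank 2 B = 7) := by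
  have : Fact (Nat.Prime 2) := ⟨Nat.prime_two⟩
  obtain ⟨k, rfl⟩ : ∃ k, n = k + 2 := ⟨n - 2, by omega⟩
  obtain ⟨m, hm, rfl⟩ := exists_maxP hM hB hD
  obtain ⟨e⟩ := hiso
  have h := hm.abPar (A := AA k) (ι := m.Q.subtype.comp e.symm.toMonoidHom)
    (m.Q.subtype_injective.comp e.symm.injective) (by
      rw [MonoidHom.range_comp, MonoidHom.range_eq_top.2 e.symm.surjective, ← MonoidHom.range_eq_map,
        range_subtype])
  obtain ⟨V, hV⟩ := exists_foc h.pgroup h.not_dvd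
  have hs : (Multiplicative.ofAdd (2 ^ (k + 1), 0, 0, 0) : AA k) ≠ 1 := fun h =>
    pow_ne k (congrArg (fun x : AA k => x.toAdd.1) h)
  have : Nontrivial (AA k) := ⟨_, _, hs⟩
  obtain ⟨h1, h2⟩ := hV.card_cases_of_sq h.pgroup h.not_dvd hs (sq_iff k) (card_ker_le k)
  rw [← card_AA]
  rcases h2 with rfl | h2 | h2
  · obtain ⟨h3, h4, h5⟩ := h.of_foc_bot hV
    exact ⟨h3, h4, .inl h5⟩
  · obtain ⟨h3, h4, h5⟩ := h.of_foc_four hV h2
    exact ⟨h3, h4, .inr (.inl h5)⟩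
  · obtain ⟨v, hv, t, ht, h3⟩ := hV.exists_mul_fix h.pgroup h.not_dvd
      (Multiplicative.ofAdd (1, 0, 0, 0))
    have h4 : t ^ 2 ^ (k + 1) ≠ 1 := fun h4 => hs (by
      have h5 := congrArg (· ^ 2 ^ (k + 1)) h3
      simp only [mul_pow, h4] at h5
      have h6 : v ^ 2 ^ (k + 1) = 1 := by rw [pow_succ' 2 k, pow_mul v, sq, h1 v hv, one_pow]
      rw [h6, one_mul, ← ofAdd_nsmul] at h5
      rw [← h5]
      simp)
    obtain ⟨j, hj⟩ := isPElt_of_isPGroup h.pgroup t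
    have h5 : k + 2 ≤ j := by
      by_contra h5
      exact h4 (orderOf_dvd_iff_pow_eq_one.1 (hj ▸ pow_dvd_pow 2 (by omega)))
    obtain ⟨h6, h7, h8⟩ := h.of_eight_of_fix hV h2 ht (by
      rw [card_AA, hj, pow_add, mul_comm]
      exact Nat.mul_le_mul_left _ (Nat.pow_le_pow_right two_pos h5))
    exact ⟨h6, h7, .inr (.inr h8)⟩

end Cfsg.Agent.S4546
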