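import Cfsg.Statements.S4550
import Cfsg.Agent.Lib.Block.HZCount
-- import your own Cfsg.Agent.* helpers here

set_option autoImplicit false
open Cfsg

namespace Cfsg.Agent.S4550

open BT CT GT
open scoped Pointwise ComplexConjugate commutatorElement

/-- Let G be a finite group of even order and M a maximal ideal of the algebraic integers containing 2. Let k be a natural number with g ^ k = g ^ 3 for every 2-element g and g ^ k = g for every element g of odd order (such k exist); an irreducible character χ is unchanged by g ↦ g ^ k exactly when it is fixed by the field automorphism that cubes the 2-power roots of unity and fixes the roots of unity of odd order. Then the number of members χ of the principal 2-block of odd degree with χ (g ^ k) = χ g for all g is even. -/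
theorem result {G : Type*} [Group G] [Finite G] (M : Ideal Cfsg.AlgInt) (hM : Cfsg.IsPModular 2 M) (hev : Even (Nat.card G)) (k : ℕ) (hk₁ : ∀ g : G, (∃ j : ℕ, orderOf g = 2 ^ j) → g ^ k = g ^ 3) (hk₂ : ∀ g : G, Odd (orderOf g) → g ^ k = g) : Even (Nat.card {χ : Cfsg.IrrCharacter G // χ ∈ Cfsg.principalBlock M G ∧ Odd (Cfsg.charDegree (χ : G → ℂ)) ∧ ∀ g : G, (χ : G → ℂ) (g ^ k) = (χ : G → ℂ) g}) := by
  classical
  have : Fact (Nat.Prime 2) := ⟨Nat.prime_two⟩
  have hk : SigmaExp 2 G k :=
    ⟨hk₁, fun g hg => hk₂ g (Nat.odd_iff.2 (Nat.two_dvd_ne_zero.1 hg))⟩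
  obtain ⟨x, hx⟩ := exists_prime_orderOf_dvd_card' (G := G) 2 hev.two_dvd
  have hx' : IsPElt 2 x := ⟨1, by rw [hx, pow_one]⟩
  have h0 : degSum (principalBlock M G) x = 0 := by
    rw [degSum_apply, ← bker_eq_zero_of_regular' hM (isPBlock_principalBlock (M := M)) (x := x)
      (y := 1) (by rw [hx]) (by simp), bker_def]
    exact Finset.sum_congr rfl fun χ _ => by rw [irr_apply_one, map_natCast, mul_comm]
  have h1 := dvd_card_of_degSum_eq_zero hM (by norm_num) hx' h0
  obtain ⟨e, he⟩ := hk.exists_iterate_irrPow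
  have h2 := card_filter_fixed_modEq
    (bset {χ | χ ∈ principalBlock M G ∧ ¬ 2 ∣ charDegree χ.1}) (irrPow hk.coprime)
    (fun χ hχ => mem_bset.2 ⟨(irrPow_mem_principal_iff hM _ χ).2 (mem_bset.1 hχ).1,
      by rw [hk.degree_irrPow]; exact (mem_bset.1 hχ).2⟩) Nat.prime_two (fun χ _ => he χ)
  have h3 := (h2.dvd_iff (dvd_refl 2)).1 h1
  rw [← Nat.card_eq_finsetCard] at h3
  rw [even_iff_two_dvd]
  refine h3.trans (dvd_of_eq ?_)
  refine Nat.card_congr (Equiv.subtypeEquivRight fun χ => ?_)
  rw [Finset.mem_filter, mem_bset, hk.irrPow_eq_iff, Set.mem_setOf_eq, Nat.two_dvd_ne_zero,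
    Nat.odd_iff, and_assoc]

end Cfsg.Agent.S4550
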