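import Cfsg.Statements.S4549
import Cfsg.Agent.S4550
import Cfsg.Agent.Lib.Block.CoverPrin
import Cfsg.Agent.Lib.Block.Principal
import Cfsg.Agent.Lib.Char.Degrees
import Cfsg.Agent.Lib.Char.Extend

set_option autoImplicit false
open Cfsg

namespace Cfsg.Agent.S4549

open scoped Pointwise

/-- Let G be a finite group and M a maximal ideal of the algebraic integers containing 2. Let k be a natural number with g ^ k = g ^ 3 for every 2-element g and g ^ k = g for every element g of odd order (such k exist); an irreducible character χ is unchanged by g ↦ g ^ k exactly when it is fixed by the field automorphism that cubes the 2-power roots of unity and fixes the roots of unity of odd order. Then G has a normal 2-complement if and only if every member χ of the principal 2-block of odd degree with χ (g ^ k) = χ g for all g has degree one. -/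
theorem result {G : Type*} [Group G] [Finite G] (M : Ideal Cfsg.AlgInt) (hM : Cfsg.IsPModular 2 M) (k : ℕ) (hk₁ : ∀ g : G, (∃ j : ℕ, orderOf g = 2 ^ j) → g ^ k = g ^ 3) (hk₂ : ∀ g : G, Odd (orderOf g) → g ^ k = g) : Cfsg.HasNormalPComplement 2 G ↔ ∀ χ ∈ Cfsg.principalBlock M G, Odd (Cfsg.charDegree (χ : G → ℂ)) → (∀ g : G, (χ : G → ℂ) (g ^ k) = (χ : G → ℂ) g) → Cfsg.charDegree (χ : G → ℂ) = 1 := by
  classical
  have : Fact (Nat.Prime 2) := ⟨Nat.prime_two⟩
  have hp : Nat.Prime 2 := Nat.prime_two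
  constructor
  · intro h χ hχ hodd _
    rw [BT.principalBlock_eq_kerSet hM h] at hχ
    have h1 := CT.irr_degree_dvd_index_of_le_ker χ hχ
    obtain ⟨a, ha⟩ := GT.hasNormalPComplement_iff_index_pPrimeCore.1 h
    rw [ha] at h1
    obtain ⟨b, -, hb⟩ := (Nat.dvd_prime_pow hp).1 h1
    rcases b with _ | b
    · simpa using hb
    · rw [hb, pow_succ] at hodd
      exact absurd hodd (by simp)
  intro h
  rw [GT.hasNormalPComplement_iff_not_dvd_card_pResidual]
  intro hev
  set N := pResidual 2 G with hNres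
  have hN : N.Normal := inferInstance
  have hk : BT.SigmaExp 2 G k :=
    ⟨hk₁, fun g hg => hk₂ g (Nat.odd_iff.2 (Nat.two_dvd_ne_zero.1 hg))⟩
  have hkN := hk.subgroup N
  obtain ⟨a, ha⟩ : ∃ a, N.index = 2 ^ a := GT.exists_index_pResidual 2 G
  have hres : pResidual 2 N = ⊤ := GT.pResidual_pResidual
  have hcop : ∀ n, ¬ 2 ∣ n → N.index.Coprime n := fun n hn =>
    ha ▸ Nat.Coprime.pow_left a ((Nat.Prime.coprime_iff_not_dvd hp).2 hn)
  obtain ⟨σ, -, hσ⟩ := BT.exists_irrPow_eq_irrGal hk.coprime
  let A : IrrCharacter N → Prop := fun θ => θ ∈ principalBlock M N ∧ Odd (charDegree θ.1) ∧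
    ∀ n : N, θ.1 (n ^ k) = θ.1 n
  have hA : ∀ (g : G) (θ : IrrCharacter N), A θ → A (g • θ) := by
    rintro g θ ⟨h1, h2, h3⟩
    refine ⟨?_, by rwa [CT.charDegree_conjSmul], fun n => ?_⟩
    · rw [← BT.smul_principalBlock (M := M) g]
      exact Set.smul_mem_smul_set h1
    · rw [CT.conjSmul_apply, CT.conjSmul_apply, map_pow, h3]
  have hA' : ∀ (g : G) (θ : IrrCharacter N), A (g • θ) ↔ A θ := fun g θ =>
    ⟨fun h => by simpa using hA g⁻¹ _ h, hA g θ⟩
  -- the number of such `θ` is even
  have h1 : Even (Nat.card {θ : IrrCharacter N // A θ}) :=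
    S4550.result M hM (even_iff_two_dvd.2 hev) k hkN.1
      (fun g hg => hkN.2 g (Nat.two_dvd_ne_zero.2 (Nat.odd_iff.1 hg)))
  have h2 := CT.sum_modEq_sum_fixed (A := G) (X := IrrCharacter N) (p := 2) (fun θ => by
      by_cases h : MulAction.stabilizer G θ = ⊤
      · exact Or.inl (CT.forall_smul_iff_inertia_eq_top.2 h)
      · right
        have h1 : (MulAction.stabilizer G θ).index ∣ 2 ^ a :=
          ha ▸ Subgroup.index_dvd_of_le (CT.le_inertia θ)
        obtain ⟨b, -, hb⟩ := (Nat.dvd_prime_pow hp).1 h1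
        rcases b with _ | b
        · exact absurd (Subgroup.index_eq_one.1 (by simpa using hb)) h
        · rw [hb, pow_succ]; exact dvd_mul_left _ _)
    (fun θ => if A θ then 1 else 0) (fun g θ => by simp only [hA'])
  rw [Finset.sum_boole, Finset.sum_boole] at h2
  simp only [Nat.cast_id] at h2
  rw [Nat.subtype_card (Finset.univ.filter A) (by simp)] at h1
  set S := (Finset.univ.filter fun θ : IrrCharacter N => ∀ g : G, g • θ = θ).filter A with hS
  have h3 : S.card % 2 = 0 := by
    have := h2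
    rw [Nat.ModEq] at this
    rw [← this]
    exact Nat.even_iff.1 h1
  -- all members of `S` are linear
  have hlin : ∀ θ ∈ S, charDegree θ.1 = 1 := by
    intro θ hθ
    simp only [hS, Finset.mem_filter, Finset.mem_univ, true_and] at hθ
    obtain ⟨hinv, t1, t2, t3⟩ := hθ
    have hd : ¬ 2 ∣ charDegree θ.1 := Nat.two_dvd_ne_zero.2 (Nat.odd_iff.1 t2)
    obtain ⟨χ, hχ, huniq⟩ := CT.existsUnique_canonical_extension N θ (CT.forall_smul_iff.1 hinv)
      (hcop _ hd) (hcop _ (CT.not_dvd_detOrder_of_pResidual_eq_top hres _))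
    have hfix : ∀ g, χ.1 (g ^ k) = χ.1 g := by
      refine (hk.irrPow_eq_iff χ).1 (huniq _ ⟨?_, ?_⟩)
      · funext n
        rw [← t3 n, ← hχ.1]
        rfl
      · rw [hσ]
        change N.index.Coprime (detOrder (CT.gal _ χ.1))
        rw [(CT.irr_isCharacter χ).detOrder_gal]
        exact hχ.2
    have hdeg : charDegree χ.1 = charDegree θ.1 := by rw [← hχ.1, CT.charDegree_res]
    rw [← hdeg]
    exact h χ (BT.mem_principal_of_liesOver_of_index_eq_pow hM ha t1 (CT.liesOver_of_res_eq hχ.1))
      (hdeg ▸ t2) hfix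
  have hbar : ∀ θ ∈ S, CT.irrBar θ ∈ S := by
    intro θ hθ
    simp only [hS, Finset.mem_filter, Finset.mem_univ, true_and] at hθ ⊢
    obtain ⟨hinv, t1, t2, t3⟩ := hθ
    refine ⟨fun g => by rw [CT.conjSmul_irrBar, hinv], (BT.irrBar_mem_principal_iff hM θ).2 t1,
      ?_, fun n => ?_⟩
    · rwa [show charDegree (CT.irrBar θ).1 = charDegree θ.1 from
        CT.charDegree_irrGal (starRingEnd ℂ) θ]
    · change CT.cbar θ.1 (n ^ k) = CT.cbar θ.1 n
      simp only [CT.cbar, t3]
  have h4 := CT.card_filter_fixed_mod_two S CT.irrBar hbar (fun θ _ => by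
    apply Subtype.ext; funext g; simp [CT.cbar])
  have h5 : S.filter (fun θ => CT.irrBar θ = θ) = {CT.irrOne N} := by
    ext θ
    rw [Finset.mem_filter, Finset.mem_singleton]
    constructor
    · rintro ⟨hθ, hr⟩
      obtain ⟨f, rfl⟩ := (CT.exists_linChar_eq_iff θ).2 (hlin θ hθ)
      rw [CT.irrBar_linChar] at hr
      have hf : f⁻¹ = f := CT.linChar_injective hr
      rw [CT.linChar_eq_irrOne_iff]
      have h6 : orderOf f ∣ 2 := by
        apply orderOf_dvd_of_pow_eq_one
        rw [pow_two]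
        nth_rewrite 1 [← hf]
        exact inv_mul_cancel f
      rw [CT.orderOf_units_hom] at h6
      obtain ⟨b, -, hb⟩ := (Nat.dvd_prime_pow hp (m := 1)).1 (by simpa using h6)
      have h7 : f.ker = ⊤ := (GT.pResidual_eq_top_iff.1 hres) _ inferInstance ⟨b, hb⟩
      ext x
      have : x ∈ f.ker := h7 ▸ Subgroup.mem_top x
      simpa using congrArg Units.val (MonoidHom.mem_ker.1 this)
    · rintro rfl
      refine ⟨?_, ?_⟩
      · simp only [hS, Finset.mem_filter, Finset.mem_univ, true_and]
        refine ⟨fun g => CT.conjSmul_irrOne g, BT.irrOne_mem_principalBlock hM, ?_, fun n => rfl⟩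
        rw [CT.charDegree_irrOne]; exact odd_one
      · apply Subtype.ext; funext g; simp [CT.cbar]
  rw [h5, h3] at h4
  simp at h4

end Cfsg.Agent.S4549
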