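import Cfsg.Statements.S4548
import Cfsg.Agent.S4549
import Cfsg.Agent.Lib.Grp.PGrp

set_option autoImplicit false
open Cfsg

namespace Cfsg.Agent.S4548

open BT CT GT
open scoped ComplexConjugate

theorem sum_eq_sum_filter_fixed {α R : Type*} [DecidableEq α] [Field R] {p e : ℕ} [CharP R p] (hp : p.Prime)
    (s : Finset α) (f : α → α) (hs : ∀ x ∈ s, f x ∈ s) (hf : ∀ x ∈ s, f^[p ^ e] x = x) (F : α → R)
    (hF : ∀ x, F (f x) = F x) : ∑ x ∈ s, F x = ∑ x ∈ s with f x = x, F x := by
  classical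
  rw [Finset.sum_comp (fun v => v) F, ← Finset.sum_fiberwise_of_maps_to (t := s.image F) (g := F)
    fun x hx => Finset.mem_image_of_mem F (Finset.mem_filter.1 hx).1]
  refine Finset.sum_congr rfl fun v _ => ?_
  rw [Finset.sum_congr rfl (g := fun _ => v) fun x hx => (Finset.mem_filter.1 hx).2, Finset.sum_const,
    nsmul_eq_mul, nsmul_eq_mul, Finset.filter_comm]
  congr 1
  exact (CharP.natCast_eq_natCast R p).2 (card_filter_fixed_modEq _ f (fun x hx => Finset.mem_filter.2
    ⟨hs x (Finset.mem_filter.1 hx).1, (hF x).trans (Finset.mem_filter.1 hx).2⟩) hp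
    fun x hx => hf x (Finset.mem_filter.1 hx).1)

variable {G : Type*} [Group G] [Finite G] {M : Ideal AlgInt} (hM : IsPModular 2 M) {k : ℕ}

include hM in
theorem degree_eq_one (hev : Even (Nat.card G)) (hk : SigmaExp 2 G k) {χ : IrrCharacter G}
    (hχ : χ ∈ principalBlock M G ∧ Odd (charDegree χ.1) ∧ ∀ g, χ.1 (g ^ k) = χ.1 g)
    (h : Nat.card {χ : IrrCharacter G // χ ∈ principalBlock M G ∧ Odd (charDegree χ.1) ∧
      ∀ g, χ.1 (g ^ k) = χ.1 g} = 2) : charDegree χ.1 = 1 := by
  classical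
  by_contra h1
  obtain ⟨g, hg⟩ := irr_exists_apply_eq_zero χ h1
  obtain ⟨x, hx⟩ := exists_prime_orderOf_dvd_card' (G := G) 2 hev.two_dvd
  have hx' : IsPElt 2 x⁻¹ := ⟨1, by rw [orderOf_inv, hx, pow_one]⟩
  have hs := isPRegular_pRegPart 2 g
  set s := pRegPart 2 g with hsg
  have h0 := congrArg (red hM) (bker_eq_zero_of_regular hM (isPBlock_principalBlock (M := M)) (x := s) (y := x)
    hs (by rw [hx]))
  have loc := fun (ψ : IrrCharacter G) y => irr_apply_mem_locRing hM ψ y
  have e1 : ∀ ψ : IrrCharacter G, red hM (ψ.1 s * conj (ψ.1 x)) = red hM (ψ.1 s) * charDegree ψ.1 := fun ψ => by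
    rw [← (irr_isCharacter ψ).apply_inv, red_mul hM (loc _ _) (loc _ _), (red_eq_iff hM (loc _ _) (loc _ 1)).2
      (char_sub_one_mem_locIdeal hM (irr_isCharacter ψ).isGen hx'), irr_apply_one, red_natCast]
  obtain ⟨e, he⟩ := hk.exists_iterate_irrPow
  rw [bker_def, red_sum hM _ _ fun ψ _ => mul_mem (loc _ _) (by rw [← (irr_isCharacter ψ).apply_inv]; exact loc _ _), red_zero,
    Finset.sum_congr rfl fun ψ _ => e1 ψ, sum_eq_sum_filter_fixed Nat.prime_two _ (irrPow hk.coprime)
      (fun ψ h => mem_bset.2 ((irrPow_mem_principal_iff hM _ ψ).2 (mem_bset.1 h))) (fun ψ _ => he ψ) _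
      (fun ψ => by rw [hk.degree_irrPow, irrPow_val, powFun_apply, hk.2 s hs]),
    Finset.sum_eq_single (irrOne G)] at h0
  · simp [charDegree_irrOne] at h0
  · intro ψ hψ n
    rw [Finset.mem_filter, mem_bset, hk.irrPow_eq_iff] at hψ
    rcases Nat.even_or_odd (charDegree ψ.1) with d | d
    · rw [(CharP.cast_eq_zero_iff _ 2 _).2 d.two_dvd, mul_zero]
    · obtain ⟨y, -, hy⟩ := (Nat.card_eq_two_iff' ⟨irrOne G, irrOne_mem_principalBlock hM,
        by rw [charDegree_irrOne]; exact odd_one, fun _ => rfl⟩).1 h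
      have : ψ = χ := congrArg Subtype.val ((hy ⟨ψ, hψ.1, d, hψ.2⟩ fun e => n (congrArg Subtype.val e)).trans
        (hy ⟨χ, hχ⟩ fun e => h1 (by rw [show χ = irrOne G from congrArg Subtype.val e, charDegree_irrOne])).symm)
      have m := char_mul_sub_mem_locIdeal hM (irr_isCharacter χ).isGen (isPElt_pPart 2 g)
        (commute_pPart_pRegPart 2 g)
      rw [pPart_mul_pRegPart, hg, zero_sub, neg_mem_iff] at m
      rw [this, (red_eq_zero_iff hM (loc _ _)).2 m, zero_mul]
  · intro n
    exact (n (Finset.mem_filter.2 ⟨mem_bset.2 (irrOne_mem_principalBlock hM),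
      (hk.irrPow_eq_iff _).2 fun _ => rfl⟩)).elim

/-- Let G be a finite group of even order with Sylow 2-subgroup P and M a maximal ideal of the algebraic integers containing 2. Let k be a natural number with g ^ k = g ^ 3 for every 2-element g and g ^ k = g for every element g of odd order (such k exist); an irreducible character χ is unchanged by g ↦ g ^ k exactly when it is fixed by the field automorphism that cubes the 2-power roots of unity and fixes the roots of unity of odd order. Then P is cyclic if and only if exactly two members χ of the principal 2-block of odd degree satisfy χ (g ^ k) = χ g for all g. -/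
theorem result {G : Type*} [Group G] [Finite G] (M : Ideal Cfsg.AlgInt) (hM : Cfsg.IsPModular 2 M) (hev : Even (Nat.card G)) (P : Sylow 2 G) (k : ℕ) (hk₁ : ∀ g : G, (∃ j : ℕ, orderOf g = 2 ^ j) → g ^ k = g ^ 3) (hk₂ : ∀ g : G, Odd (orderOf g) → g ^ k = g) : IsCyclic P ↔ Nat.card {χ : Cfsg.IrrCharacter G // χ ∈ Cfsg.principalBlock M G ∧ Odd (Cfsg.charDegree (χ : G → ℂ)) ∧ ∀ g : G, (χ : G → ℂ) (g ^ k) = (χ : G → ℂ) g} = 2 := by
  have hk : SigmaExp 2 G k := ⟨hk₁, fun g hg => hk₂ g (Nat.odd_iff.2 (Nat.two_dvd_ne_zero.1 hg))⟩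
  have h9 := S4549.result M hM k hk₁ hk₂
  by_cases h : HasNormalPComplement 2 G
  swap
  · exact ⟨fun hc => (h (hasNormalPComplement_two_of_isCyclic P)).elim, fun hc =>
      (h (h9.2 fun χ h1 h2 h3 => degree_eq_one hM hev hk ⟨h1, h2, h3⟩ hc)).elim⟩
  set N := pPrimeCore 2 G
  have hQ : IsPGroup 2 (G ⧸ N) := hasNormalPComplement_iff_isPGroup_quotient.1 h
  have sur := QuotientGroup.mk'_surjective N
  let F := (frattini (G ⧸ N)).comap (QuotientGroup.mk' N)
  have hF := (frattini_le_iff hQ).1 le_rfl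
  have cF : commutator G ≤ F := by
    rw [← Subgroup.map_le_iff_le_comap, map_commutator_eq, MonoidHom.range_eq_top.2 sur]
    exact hF.1
  have NF : N ≤ F := fun n hn => by
    change (n : G ⧸ N) ∈ frattini _
    rw [(QuotientGroup.eq_one_iff n).2 hn]
    exact one_mem _
  have reg := fun g => hasNormalPComplement_iff_forall_mem.1 h _ (isPRegular_pRegPart 2 g)
  have pk : ∀ g : G, g ^ k = pPart 2 g ^ 2 * g := fun g => by
    rw [hk.pow_eq, pow_succ, mul_assoc, pPart_mul_pRegPart]
  have nt : Nontrivial (G ⧸ N) := by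
    rw [QuotientGroup.nontrivial_iff]
    intro e
    exact not_dvd_card_pPrimeCore (p := 2) (G := G) (by rw [show pPrimeCore 2 G = ⊤ from e]; simpa using hev.two_dvd)
  rw [Nat.card_congr (Equiv.subtypeEquivRight (q := fun χ : IrrCharacter G => F ≤ ker χ.1) fun χ =>
    ⟨fun hχ => ?_, fun hχ => ?_⟩), card_le_ker_of_commutator_le cF, Subgroup.index_comap_of_surjective _ sur,
    ← (isComplement'_pPrimeCore_sylow h P).symm.QuotientMulEquiv.isCyclic, isCyclic_iff_index_frattini_dvd hQ,
    Nat.dvd_prime Nat.prime_two, Subgroup.index_eq_one, or_iff_right frattini_ne_top]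
  · have d := h9.1 h χ hχ.1 hχ.2.1 hχ.2.2
    have hN := pPrimeCore_le_ker_of_mem_principal hM hχ.1
    have hc := (irr_degree_eq_one_iff_commutator_le_ker χ).1 d
    obtain ⟨f, rfl⟩ := (exists_linChar_eq_iff χ).2 d
    rw [ker_linChar] at hN hc ⊢
    refine (Subgroup.comap_mono (frattini_le_of_pow_mem (p := 2) (N := f.ker.map (QuotientGroup.mk' N)) ?_ fun x => ?_)).trans
      (by rw [Subgroup.comap_map_eq, QuotientGroup.ker_mk', sup_of_le_left hN])
    · rw [commutator_def, ← MonoidHom.range_eq_top.2 sur, ← map_commutator_eq]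
      exact Subgroup.map_mono hc
    · obtain ⟨g, rfl⟩ := sur x
      refine ⟨g ^ 2, ?_, rfl⟩
      have e := hχ.2.2 g
      rw [linChar_apply, linChar_apply, Units.val_inj, pk, map_mul, mul_eq_right] at e
      have e2 : f (pRegPart 2 g) = 1 := hN (reg g)
      change f (g ^ 2) = 1
      rw [← pPart_mul_pRegPart 2 g, map_pow, map_mul, e2, mul_one, ← map_pow, e]
  · refine ⟨by rw [principalBlock_eq_kerSet hM h]; exact NF.trans hχ,
      by rw [irr_degree_eq_one_of_le_ker cF hχ]; exact odd_one, fun g => ?_⟩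
    rw [pk]
    exact apply_mul_of_mem_ker (hχ (hF.2 (QuotientGroup.mk' N (pPart 2 g)))) g

end Cfsg.Agent.S4548
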