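import Cfsg.Statements.S4551
import Cfsg.Agent.Lib.Block.Alperin
-- import your own Cfsg.Agent.* helpers here

set_option autoImplicit false
open Cfsg

namespace Cfsg.Agent.S4551

open BT CT GT
open scoped Pointwise ComplexConjugate commutatorElement

/-- Let N be a normal subgroup of the finite group G of index prime to p, P a Sylow p-subgroup of G with G = N·C_G(P), and M a maximal ideal of the algebraic integers containing p. Then restriction to N is a bijection from the principal p-block of G onto the principal p-block of N: every member of the principal block of G restricts to a member of the principal block of N, and every member of the principal block of N is the restriction of exactly one member of the principal block of G. -/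
theorem result {G : Type*} [Group G] [Finite G] (p : ℕ) [Fact p.Prime] (M : Ideal Cfsg.AlgInt) (hM : Cfsg.IsPModular p M) (N : Subgroup G) [N.Normal] (hidx : ¬ p ∣ N.index) (P : Sylow p G) (hsup : N ⊔ Subgroup.centralizer ((P : Subgroup G) : Set G) = ⊤) : (∀ χ ∈ Cfsg.principalBlock M G, ∃ θ ∈ Cfsg.principalBlock M ↥N, ∀ n : N, (χ : G → ℂ) n = (θ : N → ℂ) n) ∧ ∀ θ ∈ Cfsg.principalBlock M ↥N, ∃! χ : Cfsg.IrrCharacter G, χ ∈ Cfsg.principalBlock M G ∧ ∀ n : N, (χ : G → ℂ) n = (θ : N → ℂ) n := by
  have hP := isSylowIn_sylow P
  constructor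
  · intro χ hχ
    obtain ⟨θ, hl⟩ := exists_irr_liesUnder N χ
    exact ⟨θ, mem_principal_of_liesOver hM hχ hl,
      congrFun (res_eq_of_principal_of_sup_centralizer hM hP hsup hidx hχ hl)⟩
  · intro θ hθ
    obtain ⟨χ, hχ, h⟩ := exists_principal_res_eq_of_sup_centralizer hM hP hsup hidx hθ
    refine ⟨χ, ⟨hχ, congrFun h⟩, fun ψ hψ => ?_⟩
    exact eq_of_principal_of_sup_centralizer hM hP hsup hidx hψ.1 hχ
      (liesOver_of_res_eq (funext hψ.2)) (liesOver_of_res_eq h)

end Cfsg.Agent.S4551
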