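import Cfsg.Statements.S4552
import Cfsg.Agent.Lib.Block.AbTwo

set_option autoImplicit false
open Cfsg

namespace Cfsg.Agent.S4552

open CT BT
open scoped MonoidAlgebra ComplexConjugate

theorem card_sq_eq_one {m : ℕ} (hm : 1 ≤ m) :
    Nat.card {a : Multiplicative (ZMod (2 ^ m) × ZMod (2 ^ m)) // a ^ 2 = 1} = 4 := by
  have h1 : Nat.card {a : Multiplicative (ZMod (2 ^ m)) // a ^ 2 = 1} = 2 := by
    have := IsCyclic.card_powMonoidHom_ker (Multiplicative (ZMod (2 ^ m))) 2
    rw [Nat.card_eq_fintype_card (α := Multiplicative _), Fintype.card_multiplicative, ZMod.card,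
      Nat.gcd_eq_right (dvd_pow_self 2 (by omega))] at this
    exact this
  rw [show 4 = 2 * 2 from rfl, ← congrArg₂ (· * ·) h1 h1, ← Nat.card_prod]
  refine Nat.card_congr ((Equiv.subtypeEquiv (MulEquiv.prodMultiplicative _ _).toEquiv
    fun a => ?_).trans Equiv.subtypeProdEquivProd)
  exact Prod.ext_iff

/-- Let B be a 2-block of the finite group G (relative to a maximal ideal M of the algebraic integers containing 2) whose defect group D is the direct product of two cyclic groups of the same order 2 ^ m, m ≥ 2. Then either B has 2-regular rank one and exactly 4 ^ m irreducible characters, or B has 2-regular rank three and exactly (4 ^ m + 8) / 3 irreducible characters. -/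
theorem result {G : Type*} [Group G] [Finite G] (M : Ideal Cfsg.AlgInt) (hM : Cfsg.IsPModular 2 M) (B : Set (Cfsg.IrrCharacter G)) (hB : Cfsg.IsPBlock M B) (D : Subgroup G) (hD : Cfsg.IsDefectGroup 2 M B D) (m : ℕ) (hm : 2 ≤ m) (hiso : Nonempty (D ≃* Multiplicative (ZMod (2 ^ m) × ZMod (2 ^ m)))) : (Cfsg.blockRank 2 B = 1 ∧ Nat.card B = 4 ^ m) ∨ (Cfsg.blockRank 2 B = 3 ∧ 3 * Nat.card B = 4 ^ m + 8) := by
  obtain ⟨φ⟩ := hiso
  obtain ⟨ι, hι, rfl⟩ : ∃ ι : Multiplicative (ZMod (2 ^ m) × ZMod (2 ^ m)) →* G,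
      Function.Injective ι ∧ ι.range = D :=
    ⟨D.subtype.comp φ.symm.toMonoidHom, D.subtype_injective.comp φ.symm.injective, by
      rw [MonoidHom.range_comp, MonoidHom.range_eq_top.2 φ.symm.surjective, ← MonoidHom.range_eq_map,
        Subgroup.range_subtype]⟩
  obtain ⟨e, S⟩ := exists_abSet hM hι hB hD
  have hc : Nat.card (Multiplicative (ZMod (2 ^ m) × ZMod (2 ^ m))) = 4 ^ m := by
    rw [Nat.card_eq_fintype_card, Fintype.card_multiplicative, Fintype.card_prod, ZMod.card,
      ← mul_pow]
    rfl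
  rw [← hc]
  exact (S.card_of_rank_two (card_sq_eq_one (by omega))).imp And.right And.right

end Cfsg.Agent.S4552
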