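import Cfsg.Statements.S4553
import Cfsg.Agent.Lib.Block.HZCount
import Cfsg.Agent.Lib.Block.CoverPrin
import Cfsg.Agent.Lib.Char.Degrees
import Cfsg.Agent.Lib.Char.Extend
-- import your own Cfsg.Agent.* helpers here

set_option autoImplicit false
open Cfsg

namespace Cfsg.Agent.S4553

open BT CT GT
open scoped Pointwise ComplexConjugate commutatorElement

theorem card_hom_pow_eq_one {G : Type*} [Group G] [Finite G] {p : ℕ} (N : Subgroup G) [N.Normal]
    (hcyc : IsCyclic (G ⧸ N)) (hp : p ∣ N.index) :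
    Nat.card {f : G →* ℂˣ // N ≤ f.ker ∧ f ^ p = 1} = p := by
  let _ : CommGroup (G ⧸ N) := IsCyclic.commGroup
  let R : Subgroup (G ⧸ N) := (powMonoidHom p : G ⧸ N →* G ⧸ N).range
  let N' : Subgroup G := R.comap (QuotientGroup.mk' N)
  have hN' : N'.Normal := Subgroup.Normal.comap inferInstance _
  have hNN' : N ≤ N' := by
    intro n hn
    change (n : G ⧸ N) ∈ R
    rw [(QuotientGroup.eq_one_iff n).2 hn]
    exact one_mem _
  have hidx : N'.index = p := by
    rw [Subgroup.index_comap_of_surjective _ (QuotientGroup.mk'_surjective N),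
      IsCyclic.index_powMonoidHom_range, Nat.gcd_eq_right_iff_dvd]
    exact hp
  have hc : commutator G ≤ N' := by
    refine le_trans ?_ hNN'
    exact Subgroup.Normal.quotient_commutative_iff_commutator_le.1 ⟨⟨fun a b => mul_comm a b⟩⟩
  refine Eq.trans ?_ ((card_units_hom_le_ker hc).trans hidx)
  refine Nat.card_congr (Equiv.subtypeEquivRight fun f => ⟨fun h g hg => ?_, fun h => ⟨hNN'.trans h, ?_⟩⟩)
  · obtain ⟨y, hy⟩ := hg
    obtain ⟨x, rfl⟩ := QuotientGroup.mk'_surjective N y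
    have h1 : (x ^ p)⁻¹ * g ∈ N := by
      rw [← QuotientGroup.eq]
      exact hy
    have h2 : f (x ^ p) = 1 := by
      rw [map_pow]
      exact DFunLike.congr_fun h.2 x
    have h3 := h.1 h1
    rw [MonoidHom.mem_ker, map_mul, map_inv, h2, inv_one, one_mul] at h3
    exact h3
  · ext x
    have : x ^ p ∈ N' := ⟨(x : G ⧸ N), rfl⟩
    have h2 := h this
    rw [MonoidHom.mem_ker, map_pow] at h2
    simp [h2]

/-- Let G be a finite group, p a prime, P a Sylow p-subgroup, N the p-residual of G (the subgroup generated by the elements of order prime to p, the smallest normal subgroup with G/N a p-group), and M a maximal ideal of the algebraic integers containing p; suppose G/N is cyclic and nontrivial. Let k be a natural number with g ^ k = g ^ (1 + p) for every p-element g and g ^ k = g for every element g of order prime to p (so that χ (g ^ k) is the image of χ g under the field automorphism that raises p-power roots of unity to the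 power 1 + p and fixes the roots of unity of order prime to p). Then the number of members χ of the principal block of G of degree prime to p with χ (g ^ k) = χ g for all g equals p times the number of members θ of the principal block of N of degree prime to p that are invariant under conjugation by P and satisfy θ (n ^ k) = θ n for all n. -/
theorem result {G : Type*} [Group G] [Finite G] (p : ℕ) [Fact p.Prime] (M : Ideal Cfsg.AlgInt) (hM : Cfsg.IsPModular p M) (P : Sylow p G) (N : Subgroup G) [hN : N.Normal] (hNres : N = Cfsg.pResidual p G) (hcyc : IsCyclic (G ⧸ N)) (hnt : N ≠ ⊤) (k : ℕ) (hk₁ : ∀ g : G, (∃ j : ℕ, orderOf g = p ^ j) → g ^ k = g ^ (1 + p)) (hk₂ : ∀ g : G, Nat.Coprime (orderOf g) p → g ^ k = g) : Nat.card {χ : Cfsg.IrrCharacter G // χ ∈ Cfsg.principalBlock M G ∧ ¬ p ∣ Cfsg.charDegree (χ : G → ℂ) ∧ ∀ g : G, (χ : G → ℂ) (g ^ k) = (χ : G → ℂ) g} = p * Nat.card {θ : Cfsg.IrrCharacter ↥N // θ ∈ Cfsg.principalBlock M ↥N ∧ ¬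 p ∣ Cfsg.charDegree (θ : ↥N → ℂ) ∧ (∀ x ∈ (P : Subgroup G), ∀ n : ↥N, (θ : ↥N → ℂ) ⟨x * n * x⁻¹, hN.conj_mem n n.2 x⟩ = (θ : ↥N → ℂ) n) ∧ ∀ n : ↥N, (θ : ↥N → ℂ) (n ^ k) = (θ : ↥N → ℂ) n} := by
  have hp : p.Prime := Fact.out
  have hk : SigmaExp p G k := ⟨hk₁, fun g hg => hk₂ g (isPRegular_iff_coprime.1 hg)⟩
  obtain ⟨a, ha⟩ : ∃ a, N.index = p ^ a := hNres ▸ exists_index_pResidual p G
  have hpa : p ∣ N.index := by
    rw [ha]
    refine dvd_pow_self p fun h => hnt ?_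
    rw [h, pow_zero] at ha
    exact Subgroup.index_eq_one.1 ha
  have hq : IsPGroup p (G ⧸ N) := isPGroup_quotient_iff.2 ⟨a, ha⟩
  have hres : pResidual p N = ⊤ := hNres ▸ pResidual_pResidual
  have hsup : N ⊔ (P : Subgroup G) = ⊤ := hNres ▸ pResidual_sup_sylow P
  have hcop : ∀ n, ¬ p ∣ n → N.index.Coprime n := fun n hn =>
    ha ▸ Nat.Coprime.pow_left a ((Nat.Prime.coprime_iff_not_dvd hp).2 hn)
  obtain ⟨σ, -, hσ⟩ := exists_irrPow_eq_irrGal hk.coprime
  -- the canonical extensions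
  have ext : ∀ θ : IrrCharacter N, ¬ p ∣ charDegree θ.1 →
      (∀ x ∈ (P : Subgroup G), ∀ n : N, θ.1 ⟨x * n * x⁻¹, hN.conj_mem n n.2 x⟩ = θ.1 n) →
      (∀ n : N, θ.1 (n ^ k) = θ.1 n) →
      ∃ χ : IrrCharacter G, res N χ.1 = θ.1 ∧ ∀ g, χ.1 (g ^ k) = χ.1 g := by
    intro θ hd hP hfix
    have hinv : ∀ g : G, g • θ = θ := by
      rw [forall_smul_iff_inertia_eq_top, eq_top_iff, ← hsup]
      exact sup_le (le_inertia θ) fun x hx => conjSmul_eq_iff_mk.2 (hP x hx)
    obtain ⟨χ, hχ, huniq⟩ := existsUnique_canonical_extension N θ (forall_smul_iff.1 hinv)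
      (hcop _ hd) (hcop _ (not_dvd_detOrder_of_pResidual_eq_top hres _))
    refine ⟨χ, hχ.1, (hk.irrPow_eq_iff χ).1 (huniq _ ⟨?_, ?_⟩)⟩
    · funext n
      rw [← hfix n, ← hχ.1]
      rfl
    · rw [hσ]
      change N.index.Coprime (detOrder (gal _ χ.1))
      rw [(irr_isCharacter χ).detOrder_gal]
      exact hχ.2
  choose! E hE1 hE2 using ext
  have hf : ∀ f : G →* ℂˣ, N ≤ f.ker → ∀ g, f (g ^ k) = (f * f ^ p) g := by
    intro f hf g
    have h1 : f (pRegPart p g) = 1 := hf ((isPRegular_pRegPart p g).mem_of_index_eq_pow N ha)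
    have h2 : f (pPart p g) = f g := by
      conv_rhs => rw [← pPart_mul_pRegPart p g, map_mul, h1, mul_one]
    rw [hk.pow_eq, map_mul, h1, mul_one, map_pow, h2, pow_add, pow_one]
    rfl
  refine Eq.trans ?_ (congrArg (· * _) (card_hom_pow_eq_one N hcyc hpa))
  rw [← Nat.card_prod]
  symm
  refine Nat.card_congr (Equiv.ofBijective (fun x => ⟨x.1.1 • E x.2.1, ?_, ?_, ?_⟩) ⟨?_, ?_⟩)
  · obtain ⟨⟨f, hf1, hf2⟩, ⟨θ, h1, h2, h3, h4⟩⟩ := x
    refine mem_principal_of_liesOver_of_index_eq_pow hM ha h1 (liesOver_of_res_eq ?_)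
    rw [res_lin_smul_of_le_ker hf1, hE1 θ h2 h3 h4]
  · obtain ⟨⟨f, hf1, hf2⟩, ⟨θ, h1, h2, h3, h4⟩⟩ := x
    rw [charDegree_lin_smul, ← charDegree_res N, hE1 θ h2 h3 h4]
    exact h2
  · obtain ⟨⟨f, hf1, hf2⟩, ⟨θ, h1, h2, h3, h4⟩⟩ := x
    intro g
    dsimp only
    rw [lin_smul_apply, lin_smul_apply, hE2 θ h2 h3 h4, hf f hf1, hf2]
    simp
  · rintro ⟨⟨f, hf1, hf2⟩, ⟨θ, h1, h2, h3, h4⟩⟩ ⟨⟨f', hf1', hf2'⟩, ⟨θ', h1', h2', h3', h4'⟩⟩ h
    have h5 : f • E θ = f' • E θ' := congrArg Subtype.val h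
    have h6 : θ = θ' := by
      apply Subtype.ext
      rw [← hE1 θ h2 h3 h4, ← hE1 θ' h2' h3' h4', ← res_lin_smul_of_le_ker hf1, h5,
        res_lin_smul_of_le_ker hf1']
    subst h6
    have h7 := units_hom_eq_of_lin_smul_eq (hE1 θ h2 h3 h4) hf1 hf1' h5
    subst h7
    rfl
  · rintro ⟨χ, h1, h2, h3⟩
    let θ : IrrCharacter N := ⟨res N χ.1, isIrr_res_of_isPGroup_quotient hp hq h2⟩
    have hθ : res N χ.1 = θ.1 := rfl
    have t1 : θ ∈ principalBlock M N :=
      (mem_principal_iff_of_index_eq_pow hM ha (liesOver_of_res_eq hθ)).1 h1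
    have t2 : ¬ p ∣ charDegree θ.1 := by rw [← hθ, charDegree_res]; exact h2
    have t3 : ∀ x ∈ (P : Subgroup G), ∀ n : N,
        θ.1 ⟨x * n * x⁻¹, hN.conj_mem n n.2 x⟩ = θ.1 n := fun x _ n => irr_isClassFunction χ _ _
    have t4 : ∀ n : N, θ.1 (n ^ k) = θ.1 n := fun n => h3 n
    obtain ⟨f, hf1, hf2⟩ := exists_lin_smul_of_res_eq (hE1 θ t2 t3 t4) hθ
    have hf3 : f * f ^ p = f := by
      refine units_hom_eq_of_lin_smul_eq (hE1 θ t2 t3 t4) (fun n hn => ?_) hf1 ?_
      · have : f n = 1 := hf1 hn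
        simp [MonoidHom.mem_ker, this]
      · refine Subtype.ext (funext fun g => ?_)
        rw [lin_smul_apply, ← hf f hf1, ← hE2 θ t2 t3 t4 g, ← lin_smul_apply, hf2, h3]
    have hf4 : f ^ p = 1 := mul_left_cancel (hf3.trans (mul_one f).symm)
    exact ⟨⟨⟨f, hf1, hf4⟩, ⟨θ, t1, t2, t3, t4⟩⟩, Subtype.ext hf2⟩

end Cfsg.Agent.S4553
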