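import Cfsg.Statements.S4560
import Cfsg.Agent.Lib.Char.SymSq
import Cfsg.Agent.Lib.Char.Mackey
import Cfsg.Agent.Lib.Char.Clifford

set_option autoImplicit false
open Cfsg

namespace Cfsg.Agent.S4560

set_option linter.unusedSimpArgs false

open CT MulAction Finset
open scoped ComplexConjugate

/-- canonical representative of the kernel of a tuple -/
def pat {k : ℕ} {Ω : Type*} [DecidableEq Ω] (u : Fin k → Ω) : Fin k → Fin k :=
  fun i => (univ.filter fun j => u j = u i).min' ⟨i, by simp⟩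

theorem apply_pat {k : ℕ} {Ω : Type*} [DecidableEq Ω] (u : Fin k → Ω) (i : Fin k) :
    u (pat u i) = u i := by
  have := (univ.filter fun j => u j = u i).min'_mem ⟨i, by simp⟩
  exact (mem_filter.1 this).2

theorem pat_congr {k : ℕ} {Ω Ω' : Type*} [DecidableEq Ω] [DecidableEq Ω'] {u : Fin k → Ω}
    {v : Fin k → Ω'} (h : ∀ i j, u i = u j ↔ v i = v j) : pat u = pat v := by
  funext i
  simp only [pat, h]

theorem pat_eq_iff {k : ℕ} {Ω : Type*} [DecidableEq Ω] (u : Fin k → Ω) (i j : Fin k) :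
    pat u i = pat u j ↔ u i = u j := by
  constructor
  · intro h
    rw [← apply_pat u i, h, apply_pat u j]
  · intro h
    simp only [pat, h]

def cnt {k : ℕ} (σ : Fin k → Fin k) : ℕ :=
  (univ.filter fun m : Fin k → Fin k => (∀ i, m (m i) = m i ∧ m i ≤ i) ∧
    ∀ i j, m (σ i) = m (σ j) ↔ m i = m j).card

theorem pat_self_iff {k : ℕ} (m : Fin k → Fin k) : pat m = m ↔ ∀ i, m (m i) = m i ∧ m i ≤ i := by
  constructor
  · intro h i
    refine ⟨?_, ?_⟩
    · have := apply_pat m i
      rwa [h] at this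
    · rw [← h]
      exact min'_le _ _ (by simp)
  · intro h
    funext i
    apply le_antisymm
    · exact min'_le _ _ (by simp [(h i).1])
    · have := apply_pat m i
      rw [← this]
      exact (h _).2

theorem moment {G Ω : Type*} [Group G] [Fintype G] [Fintype Ω] [DecidableEq Ω] [MulAction G Ω]
    {k : ℕ} (hk : k ≤ Fintype.card Ω)
    (H : ∀ u v : Fin k → Ω, (∀ i j, u i = u j ↔ v i = v j) → ∃ g : G, g • v = u)
    (σ : Fin k → Fin k) :
    ∑ g : G, (univ.filter fun u : Fin k → Ω => g • u = u ∘ σ).card = Fintype.card G * cnt σ := by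
  classical
  obtain ⟨e⟩ : Nonempty (Fin k ↪ Ω) := Function.Embedding.nonempty_of_card_le (by simpa using hk)
  have horb : ∀ u v : Fin k → Ω, u ∈ orbit G v ↔ ∀ i j, u i = u j ↔ v i = v j := by
    intro u v
    refine ⟨?_, H u v⟩
    rintro ⟨g, rfl⟩ i j
    simp
  simp only [card_filter]
  rw [sum_comm]
  have h1 : ∀ u : Fin k → Ω, (∑ g : G, if g • u = u ∘ σ then 1 else 0) =
      if ∀ i j, u (σ i) = u (σ j) ↔ u i = u j then Nat.card (stabilizer G u) else 0 := by
    intro u
    rw [← card_filter]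
    split_ifs with h
    · exact card_filter_smul_eq ((horb _ _).2 h)
    · rw [card_eq_zero, filter_eq_empty_iff]
      exact fun g _ hg => h ((horb _ _).1 ⟨g, hg⟩)
  simp only [h1]
  rw [← sum_fiberwise (s := univ) (g := fun u : Fin k → Ω => pat u), cnt, card_filter, mul_sum]
  refine sum_congr rfl fun m _ => ?_
  by_cases hm : pat m = m
  · have h2 : ∀ u : Fin k → Ω, pat u = m ↔ u ∈ orbit G (e ∘ m) := by
      intro u
      rw [horb]
      constructor
      · intro h i j
        rw [← pat_eq_iff u, h]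
        simp
      · intro h
        rw [← hm]
        exact pat_congr (by simpa using h)
    by_cases hσ : ∀ i j, m (σ i) = m (σ j) ↔ m i = m j
    · rw [if_pos ⟨(pat_self_iff m).1 hm, hσ⟩, mul_one, sum_congr rfl
        (g := fun _ => Nat.card (stabilizer G (e ∘ m)))]
      · rw [sum_const, smul_eq_mul, ← Nat.card_eq_fintype_card,
          ← (stabilizer G (e ∘ m)).index_mul_card, index_stabilizer]
        congr 1
        rw [← Set.ncard_coe_finset]
        congr 1
        ext u
        simp [h2]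
      · intro u hu
        have h3 := (mem_filter.1 hu).2
        rw [if_pos (fun i j => by rw [← pat_eq_iff u, ← pat_eq_iff u i, h3, hσ])]
        obtain ⟨g, rfl⟩ := (h2 u).1 h3
        simp only [stabilizer_smul_eq_stabilizer_map_conj]
        exact Subgroup.card_map_of_injective (MulAut.conj g).injective
    · rw [if_neg (fun h => hσ h.2), mul_zero]
      refine sum_eq_zero fun u hu => if_neg fun h => hσ fun i j => ?_
      rw [← (mem_filter.1 hu).2, pat_eq_iff, pat_eq_iff, h]
  · rw [if_neg (fun h => hm ((pat_self_iff m).2 h.1)), mul_zero]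
    refine sum_eq_zero fun u hu => absurd ?_ hm
    rw [← (mem_filter.1 hu).2]
    exact pat_congr (pat_eq_iff u)

theorem cnt_vals : cnt (id : Fin 1 → Fin 1) = 1 ∧ cnt (id : Fin 2 → Fin 2) = 2 ∧
    cnt (id : Fin 3 → Fin 3) = 5 ∧ cnt (id : Fin 4 → Fin 4) = 15 ∧ cnt (![1, 0] : Fin 2 → Fin 2) = 2 ∧
    cnt (![1, 0, 2] : Fin 3 → Fin 3) = 3 ∧ cnt (![1, 0, 2, 3] : Fin 4 → Fin 4) = 7 ∧
    cnt (![1, 0, 3, 2] : Fin 4 → Fin 4) = 7 := by
  decide +kernel

section
variable {G Ω : Type*} [Group G] [Fintype Ω] [DecidableEq Ω] [MulAction G Ω]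

def fx (Ω : Type*) [Fintype Ω] [DecidableEq Ω] [MulAction G Ω] (g : G) : Finset Ω :=
  univ.filter fun a => g • a = a

theorem card_id (k : ℕ) (g : G) :
    (univ.filter fun u : Fin k → Ω => g • u = u ∘ id).card = (fx Ω g).card ^ k := by
  have : (univ.filter fun u : Fin k → Ω => g • u = u ∘ id) = Fintype.piFinset fun _ => fx Ω g := by
    ext u
    simp [fx, funext_iff]
  rw [this, Fintype.card_piFinset_const]

theorem card_2 (g : G) :
    (univ.filter fun u : Fin 2 → Ω => g • u = u ∘ ![1, 0]).card = (fx Ω (g * g)).card := by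
  refine card_nbij' (fun u => u 0) (fun a => ![a, g • a]) ?_ ?_ ?_ ?_
  · intro u hu
    simp only [coe_filter, mem_univ, true_and, Set.mem_ofPred_eq, funext_iff, Fin.forall_fin_succ,
      fx, mul_smul] at hu ⊢
    simp at hu
    rw [hu.1, hu.2]
  · intro a ha
    simp only [coe_filter, mem_univ, true_and, Set.mem_ofPred_eq, funext_iff, Fin.forall_fin_succ,
      fx, mul_smul] at ha ⊢
    simp [ha]
  · intro u hu
    simp only [coe_filter, mem_univ, true_and, Set.mem_ofPred_eq, funext_iff, Fin.forall_fin_succ,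
      fx, mul_smul] at hu ⊢
    simp at hu
    simp [hu.1]
  · intro a _
    simp

theorem card_3 (g : G) :
    (univ.filter fun u : Fin 3 → Ω => g • u = u ∘ ![1, 0, 2]).card =
      (fx Ω (g * g)).card * (fx Ω g).card := by
  rw [← card_product]
  refine card_nbij' (fun u => (u 0, u 2)) (fun a => ![a.1, g • a.1, a.2]) ?_ ?_ ?_ ?_
  · intro u hu
    simp only [coe_filter, mem_univ, true_and, Set.mem_ofPred_eq, funext_iff, Fin.forall_fin_succ,
      fx, mul_smul, coe_product, Set.mem_prod] at hu ⊢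
    simp at hu
    simp [hu.1, hu.2.1, hu.2.2]
  · intro a ha
    simp only [coe_filter, mem_univ, true_and, Set.mem_ofPred_eq, funext_iff, Fin.forall_fin_succ,
      fx, mul_smul, coe_product, Set.mem_prod] at ha ⊢
    simp [ha]
  · intro u hu
    simp only [coe_filter, mem_univ, true_and, Set.mem_ofPred_eq, funext_iff, Fin.forall_fin_succ,
      fx, mul_smul] at hu ⊢
    simp at hu
    simp [hu.1]
  · intro a _
    simp

theorem card_4 (g : G) :
    (univ.filter fun u : Fin 4 → Ω => g • u = u ∘ ![1, 0, 2, 3]).card =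
      (fx Ω (g * g)).card * ((fx Ω g).card * (fx Ω g).card) := by
  rw [← card_product, ← card_product]
  refine card_nbij' (fun u => (u 0, u 2, u 3)) (fun a => ![a.1, g • a.1, a.2.1, a.2.2]) ?_ ?_ ?_ ?_
  · intro u hu
    simp only [coe_filter, mem_univ, true_and, Set.mem_ofPred_eq, funext_iff, Fin.forall_fin_succ,
      fx, mul_smul, coe_product, Set.mem_prod] at hu ⊢
    simp at hu
    simp [hu.1, hu.2.1, hu.2.2]
  · intro a ha
    simp only [coe_filter, mem_univ, true_and, Set.mem_ofPred_eq, funext_iff, Fin.forall_fin_succ,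
      fx, mul_smul, coe_product, Set.mem_prod] at ha ⊢
    simp [ha]
  · intro u hu
    simp only [coe_filter, mem_univ, true_and, Set.mem_ofPred_eq, funext_iff, Fin.forall_fin_succ,
      fx, mul_smul] at hu ⊢
    simp at hu
    simp [hu.1]
  · intro a _
    simp

theorem card_4' (g : G) :
    (univ.filter fun u : Fin 4 → Ω => g • u = u ∘ ![1, 0, 3, 2]).card =
      (fx Ω (g * g)).card * (fx Ω (g * g)).card := by
  rw [← card_product]
  refine card_nbij' (fun u => (u 0, u 2)) (fun a => ![a.1, g • a.1, a.2, g • a.2]) ?_ ?_ ?_ ?_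
  · intro u hu
    simp only [coe_filter, mem_univ, true_and, Set.mem_ofPred_eq, funext_iff, Fin.forall_fin_succ,
      fx, mul_smul, coe_product, Set.mem_prod] at hu ⊢
    simp at hu
    simp [hu.1, hu.2.1, hu.2.2]
  · intro a ha
    simp only [coe_filter, mem_univ, true_and, Set.mem_ofPred_eq, funext_iff, Fin.forall_fin_succ,
      fx, mul_smul, coe_product, Set.mem_prod] at ha ⊢
    simp [ha]
  · intro u hu
    simp only [coe_filter, mem_univ, true_and, Set.mem_ofPred_eq, funext_iff, Fin.forall_fin_succ,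
      fx, mul_smul] at hu ⊢
    simp at hu
    simp [hu.1, hu.2.2.1]
  · intro a _
    simp

theorem permChar_eq (g : G) : permChar G Ω g = ((fx Ω g).card : ℂ) := by
  rw [permChar_apply', Nat.card_eq_fintype_card, Fintype.card_subtype, fx]

/-- the three characters -/
noncomputable def ch (G Ω : Type*) [Group G] [MulAction G Ω] (i : Fin 3) : G → ℂ :=
  ![permChar G Ω - fun _ => 1, sym2 (permChar G Ω) - (permChar G Ω + permChar G Ω),
    (alt2 (permChar G Ω) + fun _ => 1) - permChar G Ω] i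

noncomputable def val (i : Fin 3) (f f2 : ℂ) : ℂ :=
  ![f - 1, (f ^ 2 + f2) / 2 - 2 * f, (f ^ 2 - f2) / 2 + 1 - f] i

theorem ch_apply (i : Fin 3) (g : G) :
    ch G Ω i g = val i (fx Ω g).card (fx Ω (g * g)).card := by
  fin_cases i <;> simp [ch, val, sym2, alt2, permChar_eq, two_mul]

theorem isIrr_ch [Finite G] (hΩ : 4 ≤ Fintype.card Ω)
    (H : ∀ k ≤ 4, ∀ u v : Fin k → Ω, (∀ i j, u i = u j ↔ v i = v j) → ∃ g : G, g • v = u)
    (i : Fin 3) : IsIrrCharacter G (ch G Ω i) := by
  have := Fintype.ofFinite G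
  have hπ := isCharacter_permChar (G := G) Ω
  have hgen : IsGeneralizedCharacter G (ch G Ω i) := by
    fin_cases i
    · exact hπ.isGen.sub isCharacter_one.isGen
    · exact hπ.sym2.isGen.sub (hπ.add hπ).isGen
    · exact (hπ.alt2.add isCharacter_one).isGen.sub hπ.isGen
  obtain ⟨c1, c2, c3, c4, d2, d3, d4, d5⟩ := cnt_vals
  have m1 := moment (by omega) (H 1 (by omega)) id
  have m2 := moment (by omega) (H 2 (by omega)) id
  have m3 := moment (by omega) (H 3 (by omega)) id
  have m4 := moment (by omega) (H 4 (by omega)) id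
  have n2 := moment (by omega) (H 2 (by omega)) ![1, 0]
  have n3 := moment (by omega) (H 3 (by omega)) ![1, 0, 2]
  have n4 := moment (by omega) (H 4 (by omega)) ![1, 0, 2, 3]
  have n5 := moment (by omega) (H 4 (by omega)) ![1, 0, 3, 2]
  simp only [card_id, card_2, card_3, card_4, card_4', c1, c2, c3, c4, d2, d3, d4, d5] at *
  have m1' := congrArg (Nat.cast : ℕ → ℂ) m1
  have m2' := congrArg (Nat.cast : ℕ → ℂ) m2
  have m3' := congrArg (Nat.cast : ℕ → ℂ) m3
  have m4' := congrArg (Nat.cast : ℕ → ℂ) m4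
  have n2' := congrArg (Nat.cast : ℕ → ℂ) n2
  have n3' := congrArg (Nat.cast : ℕ → ℂ) n3
  have n4' := congrArg (Nat.cast : ℕ → ℂ) n4
  have n5' := congrArg (Nat.cast : ℕ → ℂ) n5
  push_cast at m1' m2' m3' m4' n2' n3' n4' n5'
  have hG : (Fintype.card G : ℂ) ≠ 0 := by exact_mod_cast Fintype.card_ne_zero
  have lin : ∀ a0 a1 a2 a3 a4 b2 b3 b4 b5 : ℂ, ∑ g : G, (a0 + a1 * ((fx Ω g).card : ℂ) ^ 1 +
      a2 * ((fx Ω g).card : ℂ) ^ 2 + a3 * ((fx Ω g).card : ℂ) ^ 3 + a4 * ((fx Ω g).card : ℂ) ^ 4 +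
      b2 * ((fx Ω (g * g)).card : ℂ) + b3 * (((fx Ω (g * g)).card : ℂ) * (fx Ω g).card) +
      b4 * (((fx Ω (g * g)).card : ℂ) * (((fx Ω g).card : ℂ) * (fx Ω g).card)) +
      b5 * (((fx Ω (g * g)).card : ℂ) * (fx Ω (g * g)).card)) = (Fintype.card G : ℂ) *
      (a0 + a1 + 2 * a2 + 5 * a3 + 15 * a4 + 2 * b2 + 3 * b3 + 7 * b4 + 7 * b5) := by
    intro a0 a1 a2 a3 a4 b2 b3 b4 b5
    simp only [sum_add_distrib, ← mul_sum, m1', m2', m3', m4', n2', n3', n4', n5', sum_const,
      card_univ, nsmul_eq_mul]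
    ring
  have hip : ip (ch G Ω i) (ch G Ω i) = 1 := by
    rw [ip_def, Nat.card_eq_fintype_card, inv_mul_eq_one₀ hG]
    simp only [ch_apply]
    fin_cases i
    · rw [show (Fintype.card G : ℂ) = _ from (mul_one _).symm.trans
        (Eq.trans (by norm_num) (lin 1 (-2) 1 0 0 0 0 0 0).symm)]
      refine sum_congr rfl fun g _ => ?_
      simp [val, map_ofNat]; ring
    · rw [show (Fintype.card G : ℂ) = _ from (mul_one _).symm.trans
        (Eq.trans (by norm_num) (lin 0 0 4 (-2) (1/4) 0 (-2) (1/2) (1/4)).symm)]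
      refine sum_congr rfl fun g _ => ?_
      simp [val, map_ofNat]; ring
    · rw [show (Fintype.card G : ℂ) = _ from (mul_one _).symm.trans
        (Eq.trans (by norm_num) (lin 1 (-2) 2 (-1) (1/4) (-1) 1 (-1/2) (1/4)).symm)]
      refine sum_congr rfl fun g _ => ?_
      simp [val, map_ofNat]; ring
  obtain ⟨χ, h | h⟩ := hgen.eq_irr_or_neg_of_ip_self hip
  · rw [h]; exact χ.2
  · exfalso
    have h1 := congrFun h 1
    rw [ch_apply, mul_one, Pi.neg_apply, irr_apply_one] at h1
    have h2 : (fx Ω (1 : G)).card = Fintype.card Ω := by simp [fx]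
    rw [h2] at h1
    have h3 : (4 : ℝ) ≤ Fintype.card Ω := by exact_mod_cast hΩ
    have h4 : (0 : ℝ) ≤ charDegree χ.1 := Nat.cast_nonneg _
    have h5 := irr_degree_pos χ
    have h6 : (1 : ℝ) ≤ charDegree χ.1 := by exact_mod_cast h5
    have h7 := congrArg Complex.re h1
    fin_cases i <;> simp [val, pow_two] at h7 <;> nlinarith
end

theorem trans_alt {n k : ℕ} (hk : k + 2 ≤ n) (u v : Fin k → Fin n)
    (h : ∀ i j, u i = u j ↔ v i = v j) : ∃ g : alternatingGroup (Fin n), g • v = u := by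
  classical
  obtain ⟨s, hs⟩ := Equiv.Perm.exists_extending_pair (f := fun i : {i // pat u i = i} => v i)
    (g := fun i => u i) (fun i j hij => Subtype.ext (by
      rw [← i.2, ← j.2, pat_eq_iff]; exact (h _ _).2 hij))
    (fun i j hij => Subtype.ext (by rw [← i.2, ← j.2, pat_eq_iff]; exact hij))
  have hs' : ∀ i, s (v i) = u i := by
    intro i
    have h1 := hs ⟨pat u i, (pat_eq_iff u _ _).2 (apply_pat u i)⟩
    simp only [apply_pat] at h1
    rw [← h1, (h _ _).1 (apply_pat u i)]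
  by_cases hsg : Equiv.Perm.sign s = 1
  · exact ⟨⟨s, hsg⟩, funext hs'⟩
  · have h2 : 1 < ((univ.image u)ᶜ).card := by
      have := card_image_le (s := univ) (f := u)
      rw [card_compl, Fintype.card_fin]
      rw [card_univ, Fintype.card_fin] at this
      omega
    obtain ⟨a, ha, b, hb, hab⟩ := one_lt_card.1 h2
    refine ⟨⟨Equiv.swap a b * s, ?_⟩, funext fun i => ?_⟩
    · rw [Equiv.Perm.mem_alternatingGroup, map_mul, Equiv.Perm.sign_swap hab,
        (Int.units_eq_one_or _).resolve_left hsg]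
      rfl
    · show Equiv.swap a b (s (v i)) = u i
      rw [hs', Equiv.swap_apply_of_ne_of_ne]
      · rintro rfl; simp at ha
      · rintro rfl; simp at hb

theorem exists_elt {n : ℕ} (m : Multiset ℕ) (h1 : m.sum ≤ n) (h2 : ∀ a ∈ m, 2 ≤ a)
    (h3 : Even (m.sum + m.card)) : ∃ x : alternatingGroup (Fin n), orderOf x = m.lcm ∧
      (fx (Fin n) x).card = n - m.sum ∧ (2 ∉ m → (fx (Fin n) (x * x)).card = n - m.sum) := by
  classical
  obtain ⟨g, rfl⟩ := (Equiv.Perm.exists_with_cycleType_iff (Fin n) (m := m)).2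
    ⟨by simpa using h1, h2⟩
  have hg : g ∈ alternatingGroup (Fin n) := by
    rw [Equiv.Perm.mem_alternatingGroup, Equiv.Perm.sign_of_cycleType, h3.neg_one_pow]
  have h4 : (fx (Fin n) (⟨g, hg⟩ : alternatingGroup (Fin n))).card = n - g.cycleType.sum := by
    have : fx (Fin n) (⟨g, hg⟩ : alternatingGroup (Fin n)) = g.supportᶜ := by
      ext a
      simp [fx, Subgroup.smul_def]
    rw [this, card_compl, Fintype.card_fin, Equiv.Perm.sum_cycleType]
  refine ⟨⟨g, hg⟩, by rw [← Subgroup.orderOf_coe, Equiv.Perm.lcm_cycleType], h4, fun h5 => ?_⟩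
  rw [← h4]
  congr 1
  ext a
  rw [fx, fx, mem_filter, mem_filter]
  simp only [mem_univ, true_and]
  show g (g a) = a ↔ g a = a
  refine ⟨fun h => ?_, fun h => by rw [h, h]⟩
  by_contra ha
  have hc := Equiv.Perm.isCycle_cycleOf g ha
  have h6 : g.cycleOf a ^ 2 = 1 := hc.pow_eq_one_iff.2 ⟨a, by simpa using ha, by
    rw [Equiv.Perm.cycleOf_pow_apply_self, pow_two]; exact h⟩
  have h7 := orderOf_eq_prime h6 hc.ne_one
  apply h5
  rw [Equiv.Perm.cycleType_def, Multiset.mem_map]
  refine ⟨g.cycleOf a, Finset.mem_def.1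
    (Equiv.Perm.cycleOf_mem_cycleFactorsFinset_iff.2 (by simpa using ha)), ?_⟩
  rw [Function.comp_apply, ← hc.orderOf, h7]

theorem exists_pair {n : ℕ} (hn : 7 ≤ n) (i : Fin 3) :
    ∃ χ : IrrCharacter (alternatingGroup (Fin n)), χ.1 = ch _ (Fin n) i ∧
      ∃ ψ : IrrCharacter (Equiv.Perm (Fin n)), ∀ x : alternatingGroup (Fin n), ψ.1 x = χ.1 x := by
  refine ⟨⟨_, isIrr_ch (by simpa using by omega) (fun k hk => trans_alt (by omega)) i⟩, rfl,
    ⟨_, isIrr_ch (G := Equiv.Perm (Fin n)) (Ω := Fin n) (by simpa using by omega)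
      (fun k hk u v h => ?_) i⟩, fun x => ?_⟩
  · obtain ⟨g, hg⟩ := trans_alt (by omega) u v h
    exact ⟨g, hg⟩
  · simp only [ch_apply]
    rfl

theorem lcm_pow {m : Multiset ℕ} (h : ∀ a ∈ m, a ∣ 8) : ∃ j, m.lcm = 2 ^ j := by
  have : m.lcm ∣ 2 ^ 3 := Multiset.lcm_dvd.2 h
  obtain ⟨j, -, hj⟩ := (Nat.dvd_prime_pow Nat.prime_two).1 this
  exact ⟨j, hj⟩

theorem exists_mult (a k : ℕ) (hk : 2 ≤ k) : ∃ m : Multiset ℕ, m.sum = k * a ∧
    (∀ b ∈ m, b = a ∨ b = 2 * a) ∧ Even m.card := by
  rcases Nat.even_or_odd k with h | h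
  · exact ⟨Multiset.replicate k a, by simp, fun b hb => Or.inl (Multiset.eq_of_mem_replicate hb),
      by simpa using h⟩
  · obtain ⟨j, rfl⟩ : ∃ j, k = j + 2 := ⟨k - 2, by omega⟩
    refine ⟨(2 * a) ::ₘ Multiset.replicate j a, by simp; ring, fun b hb => ?_, ?_⟩
    · rcases Multiset.mem_cons.1 hb with h | h
      · exact Or.inr h
      · exact Or.inl (Multiset.eq_of_mem_replicate h)
    · simp only [Multiset.card_cons, Multiset.card_replicate]
      obtain ⟨c, hc⟩ := h
      exact ⟨c, by omega⟩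


/-- For n ≥ 7 the alternating group on n letters has an irreducible character that vanishes at some 2-element and is the restriction of an irreducible character of the symmetric group, and an irreducible character that vanishes at some element of order 3 and is the restriction of an irreducible character of the symmetric group. -/
theorem result (n : ℕ) (hn : 7 ≤ n) : (∃ χ : Cfsg.IrrCharacter (alternatingGroup (Fin n)), (∃ x : alternatingGroup (Fin n), (∃ j : ℕ, orderOf x = 2 ^ j) ∧ (χ : alternatingGroup (Fin n) → ℂ) x = 0) ∧ ∃ ψ : Cfsg.IrrCharacter (Equiv.Perm (Fin n)), ∀ x : alternatingGroup (Fin n), (ψ : Equiv.Perm (Fin n) → ℂ) x = (χ : alternatingGroup (Fin n) → ℂ) x) ∧ (∃ χ : Cfsg.IrrCharacter (alternatingGroup (Fin n)), (∃ y : alternatingGroup (Fin n), orderOf y = 3 ∧ (χ : alternatingGroup (Fin n) → ℂ) y = 0) ∧ ∃ ψ : Cfsg.IrrCharacter (Equiv.Perm (Fin n)), ∀ x : alternatingGroup (Fin n), (ψ : Equiv.Perm (Fin n) → ℂ) x = (χ : alternatingGroup (Fin n) → ℂ)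 x) := by
  constructor
  · rcases Nat.even_or_odd n with h | ⟨k, hk⟩
    · obtain ⟨m, h1, h2, h3⟩ := exists_mult 4 (n / 4) (by obtain ⟨k, hk⟩ := h; omega)
      obtain ⟨x, hx1, hx2, hx3⟩ := exists_elt (n := n) m (by omega)
        (fun a ha => by rcases h2 a ha with h | h <;> omega)
        (Even.add ⟨2 * (n / 4), by omega⟩ h3)
      have hx4 := hx3 fun h => by rcases h2 2 h with h | h <;> omega
      have ho := lcm_pow (m := m) fun a ha => by rcases h2 a ha with rfl | rfl <;> norm_num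
      rw [← hx1] at ho
      by_cases h4 : n % 4 = 0
      · obtain ⟨χ, hχ, hψ⟩ := exists_pair hn 1
        refine ⟨χ, ⟨x, ho, ?_⟩, hψ⟩
        rw [hχ, ch_apply, hx2, hx4, show n - m.sum = 0 by omega]
        simp [val]
      · obtain ⟨χ, hχ, hψ⟩ := exists_pair hn 2
        refine ⟨χ, ⟨x, ho, ?_⟩, hψ⟩
        rw [hχ, ch_apply, hx2, hx4, show n - m.sum = 2 by obtain ⟨k, hk⟩ := h; omega]
        simp [val]; norm_num
    · obtain ⟨m, h1, h2, h3⟩ := exists_mult 2 k (by omega)
      obtain ⟨x, hx1, hx2, -⟩ := exists_elt (n := n) m (by omega)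
        (fun a ha => by rcases h2 a ha with h | h <;> omega)
        (Even.add ⟨k, by omega⟩ h3)
      have ho := lcm_pow (m := m) fun a ha => by rcases h2 a ha with rfl | rfl <;> norm_num
      rw [← hx1] at ho
      obtain ⟨χ, hχ, hψ⟩ := exists_pair hn 0
      refine ⟨χ, ⟨x, ho, ?_⟩, hψ⟩
      rw [hχ, ch_apply, hx2, show n - m.sum = 1 by omega]
      simp [val]
  · obtain ⟨x, hx1, hx2, hx3⟩ := exists_elt (n := n) (Multiset.replicate (n / 3) 3)
      (by simp; omega) (fun a ha => by rw [Multiset.eq_of_mem_replicate ha]; omega)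
      (by simp only [Multiset.sum_replicate, Multiset.card_replicate, smul_eq_mul]
          exact ⟨2 * (n / 3), by omega⟩)
    have hx4 := hx3 fun h => by have := Multiset.eq_of_mem_replicate h; omega
    have ho : orderOf x = 3 := by
      rw [hx1]
      refine Nat.dvd_antisymm (Multiset.lcm_dvd.2 fun b hb => ?_)
        (Multiset.dvd_lcm (Multiset.mem_replicate.2 ⟨by omega, rfl⟩))
      rw [Multiset.eq_of_mem_replicate hb]
    simp only [Multiset.sum_replicate, smul_eq_mul] at hx2 hx4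
    have h3 : n % 3 = 0 ∨ n % 3 = 1 ∨ n % 3 = 2 := by omega
    rcases h3 with h | h | h
    · obtain ⟨χ, hχ, hψ⟩ := exists_pair hn 1
      refine ⟨χ, ⟨x, ho, ?_⟩, hψ⟩
      rw [hχ, ch_apply, hx2, hx4, show n - n / 3 * 3 = 0 by omega]
      simp [val]
    · obtain ⟨χ, hχ, hψ⟩ := exists_pair hn 0
      refine ⟨χ, ⟨x, ho, ?_⟩, hψ⟩
      rw [hχ, ch_apply, hx2, show n - n / 3 * 3 = 1 by omega]
      simp [val]
    · obtain ⟨χ, hχ, hψ⟩ := exists_pair hn 2
      refine ⟨χ, ⟨x, ho, ?_⟩, hψ⟩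
      rw [hχ, ch_apply, hx2, hx4, show n - n / 3 * 3 = 2 by omega]
      simp [val]; norm_num

end Cfsg.Agent.S4560
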