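import Cfsg.Statements.S4561
import Cfsg.Agent.Lib.Char.Wreath
import Cfsg.Agent.Lib.Char.Degrees

set_option autoImplicit false
universe u
open Cfsg

namespace Cfsg.Agent.S4561

open CT GT Subgroup RegularWreathProduct

universe v

/-- The invariant of the induction. -/
def Good (G : Type v) [Group G] : Prop :=
  ∃ (H : Type v) (_ : Group H) (_ : Finite H) (χ : IrrCharacter H) (X : Type v) (_ : Group X)
    (π : H →* X) (f : G →* X), Function.Surjective π ∧ Function.Injective f ∧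
    (∀ h, π h ≠ 1 → χ.1 h = 0) ∧
    (∀ h, π h = 1 → ∃ c : ℂ, c ^ (∏ p ∈ (Nat.card G).primeFactors, p) = 1 ∧ χ.1 h = c * χ.1 1) ∧
    (∀ p : ℕ, p.Prime → p ∣ Nat.card G →
      ∃ h, π h = 1 ∧ ∃ c : ℂ, c ≠ 1 ∧ c ^ p = 1 ∧ χ.1 h = c * χ.1 1) ∧
    ∀ p : ℕ, p.Prime → p ∣ Nat.card H → p ∣ Nat.card G

theorem exists_irr {H Q : Type*} [Group H] [Finite H] [Group Q] [Fintype Q]
    (hQ : (Nat.card Q).Prime) (χ : IrrCharacter H) :
    ∃ ψ : IrrCharacter ((H × (Q →* ℂˣ)) ≀ᵣ Q), (∀ w, w.right ≠ 1 → ψ.1 w = 0) ∧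
      ∀ f : Q → H × (Q →* ℂˣ), ψ.1 ⟨f, 1⟩ = (∏ x, χ.1 (f x).1 * (f x).2 x) *
        ∑ y : Q, ((∏ x, (f x).2) y : ℂ) := by
  let θ := irrCongr (wreathBase (H × (Q →* ℂˣ)) Q)
    (irrPi fun x : Q => irrProd χ (linChar (MonoidHom.eval x)))
  have h1 : ∀ (f : Q → H × (Q →* ℂˣ)) (y : Q), θ.1 (wreathBase _ Q fun x => f (y⁻¹ * x)) =
      (∏ x, χ.1 (f x).1 * (f x).2 x) * (∏ x, (f x).2) y := fun f y => by
    rw [irrCongr_apply_map, irrPi_val, piFun_apply, MonoidHom.finsetProd_apply, Units.coe_prod,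
      ← Finset.prod_mul_distrib]
    refine Fintype.prod_equiv (Equiv.mulLeft y⁻¹) _ _ fun x => ?_
    simp only [irrProd_apply, linChar_apply, MonoidHom.eval_apply_apply, Equiv.coe_mulLeft]
    rw [mul_assoc, ← Units.val_mul, mul_comm ((f _).2 _), ← map_mul, mul_inv_cancel_left]
  have h2 : ∀ (f : Q → H × (Q →* ℂˣ)) (y : Q), inl y * ⟨f, 1⟩ * (inl y)⁻¹ =
      (wreathBase (H × (Q →* ℂˣ)) Q fun x => f (y⁻¹ * x)).1 := fun f y => by
    ext <;> simp [wreathBase]
  have h3 : IsIrrCharacter _ (ind _ θ.1) := by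
    refine (isIrr_ind_iff_inertia_eq θ).2 ((inertia_eq_or_eq_top_of_prime
      (index_ker_rightHom (H × (Q →* ℂˣ)) Q ▸ hQ) θ).resolve_right fun e => ?_)
    have : Fact (Nat.card Q).Prime := ⟨hQ⟩
    have := isCyclic_of_prime_card (α := Q) rfl
    have := Finite.one_lt_card_iff_nontrivial.1 hQ.one_lt
    obtain ⟨y, hy⟩ := exists_ne (1 : Q)
    obtain ⟨c, hc⟩ := exists_units_hom_ne_one_of_comm hy
    classical
    have h3 := mem_inertia_iff.1 (e ▸ mem_top (inl y)) (wreathBase _ Q (Pi.mulSingle 1 (1, c)))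
      _ (h2 _ y).symm
    have h4 := h1 (Pi.mulSingle 1 (1, c)) 1
    simp only [inv_one, one_mul, map_one, Units.val_one, mul_one] at h4
    rw [h1, h4, mul_eq_left₀ (Finset.prod_ne_zero_iff.2 fun x _ => mul_ne_zero ?_
      (Units.ne_zero _)), Finset.prod_eq_single 1 (fun x _ hx => by rw [Pi.mulSingle_eq_of_ne hx]; rfl)
        (by simp), Pi.mulSingle_eq_same] at h3
    · exact hc (Units.val_eq_one.1 h3)
    · rw [show (Pi.mulSingle (M := fun _ => H × (Q →* ℂˣ)) 1 (1, c) x).1 = 1 by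
        by_cases hx : x = 1 <;> simp [hx]]
      exact irr_apply_one_ne_zero χ
  refine ⟨⟨_, h3⟩, fun w hw => ind_apply_eq_zero_of_normal _ hw, fun f => ?_⟩
  refine (ind_apply_eq_sum_transversal _ (fun y : Q => (inl y)⁻¹) ⟨fun a b e => ?_, fun w => ?_⟩
    (irr_isClassFunction θ) _).trans ?_
  · have h4 : a * b⁻¹ = 1 := by simpa using QuotientGroup.eq.1 e
    exact mul_inv_eq_one.1 h4
  · obtain ⟨w, rfl⟩ := QuotientGroup.mk_surjective w
    exact ⟨w.right⁻¹, QuotientGroup.eq.2 (by simp)⟩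
  · rw [Finset.mul_sum]
    exact Finset.sum_congr rfl fun y _ => by
      rw [inv_inv (inl y : (H × (Q →* ℂˣ)) ≀ᵣ Q), h2, extendByZero_coe, h1]

theorem good (G : Type v) [Group G] [Finite G] (hs : Group.IsSolvable G) : Good G := by
  classical
  revert hs
  refine induction_on_card (P := fun G _ _ => Group.IsSolvable G → Good G) ?_ G
  intro G _ _ ih _
  rcases subsingleton_or_nontrivial G with h | h
  · refine ⟨G, inferInstance, inferInstance, irrOne G, G, inferInstance, MonoidHom.id G,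
      MonoidHom.id G, fun x => ⟨x, rfl⟩, fun _ _ h => h, fun x hx => absurd (Subsingleton.elim _ _) hx,
      fun x _ => ⟨1, one_pow _, by simp⟩, fun p hp h => ?_, fun _ _ h => h⟩
    exact absurd (Nat.dvd_one.1 (Nat.card_unique (α := G) ▸ h)) hp.ne_one
  obtain ⟨N, _, hN⟩ := exists_normal_index_prime G
  obtain ⟨H, _, _, χ, X, _, π, f, hπ, hf, h1, h2, h3, h4⟩ := ih N (card_lt_of_ne_top fun e =>
    hN.ne_one (index_eq_one.2 e)) inferInstance
  have := Fintype.ofFinite (G ⧸ N)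
  obtain ⟨ψ, h5, h6⟩ := exists_irr (Q := G ⧸ N) hN χ
  let σ : (H × (G ⧸ N →* ℂˣ)) ≀ᵣ (G ⧸ N) →* (G ⧸ N →* ℂˣ) := MonoidHom.mk'
    (fun w => ∏ x, (w.left x).2) fun a b => by
      simp only [mul_left, Pi.mul_apply, Prod.snd_mul, Finset.prod_mul_distrib]
      congr 1
      exact Fintype.prod_equiv (Equiv.mulLeft a.right⁻¹) _ _ fun x => rfl
  let π' := (wreathMap (G ⧸ N) (π.comp (MonoidHom.fst H (G ⧸ N →* ℂˣ)))).prod σ
  have h7 : ∀ w, π' w = 1 ↔ (∀ x, π (w.left x).1 = 1) ∧ w.right = 1 ∧ ∏ x, (w.left x).2 = 1 :=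
    fun w => by
      rw [Prod.ext_iff, RegularWreathProduct.ext_iff, funext_iff, and_assoc]; rfl
  have h8 : ψ.1 1 = χ.1 1 ^ N.index * N.index := by
    rw [show (1 : (H × (G ⧸ N →* ℂˣ)) ≀ᵣ (G ⧸ N)) = ⟨1, 1⟩ from rfl, h6]
    simp [index_eq_card]
  have h9 : ∀ (c : G ⧸ N →* ℂˣ) x, (c x : ℂ) ^ N.index = 1 := fun c x => by
    rw [← Units.val_pow_eq_pow_val, ← map_pow, index_eq_card, pow_card_eq_one', map_one,
      Units.val_one]
  have h10 : ∀ g : G ⧸ N → H × (G ⧸ N →* ℂˣ), ∏ x, (g x).2 = 1 → ∀ c : G ⧸ N → ℂ,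
      (∀ x, χ.1 (g x).1 = c x * χ.1 1) → ψ.1 ⟨g, 1⟩ = (∏ x, c x * (g x).2 x) * ψ.1 1 :=
    fun g hg c hc => by
      rw [h6, hg, h8]
      simp only [hc, Finset.prod_mul_distrib, Finset.prod_const, MonoidHom.one_apply, Units.val_one,
        Finset.sum_const, Finset.card_univ, ← Nat.card_eq_fintype_card, nsmul_eq_mul, mul_one,
        index_eq_card]
      ring
  have hG : Nat.card G = Nat.card N * N.index := N.card_mul_index.symm
  refine ⟨_, inferInstance, inferInstance, ψ, (X ≀ᵣ (G ⧸ N)) × (G ⧸ N →* ℂˣ), inferInstance, π',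
    (MonoidHom.inl _ _).comp ((wreathMap _ f).comp (wreathEmb N)), fun ⟨a, c⟩ => ?_,
    fun _ _ e => wreathEmb_injective N (wreathMap_injective hf (congrArg Prod.fst e)),
    fun ⟨g, y⟩ hw => ?_,
    fun ⟨g, y⟩ hw => ?_, fun p hp hpG => ?_, fun p hp hpH => ?_⟩
  · choose s hs using hπ
    refine ⟨⟨fun x => (s (a.left x), Pi.mulSingle (M := fun _ => G ⧸ N →* ℂˣ) 1 c x), a.right⟩,
      Prod.ext (RegularWreathProduct.ext (funext fun x => hs _) rfl) ?_⟩
    exact Fintype.prod_pi_mulSingle' 1 c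
  · by_cases hy : y = 1
    swap
    · exact h5 _ hy
    subst hy
    rw [h6]
    by_cases hg : ∀ x, π (g x).1 = 1
    · rw [sum_apply_units_hom, if_neg fun e => hw ((h7 _).2 ⟨hg, rfl, e⟩), mul_zero]
    · obtain ⟨x, hx⟩ := not_forall.1 hg
      rw [Finset.prod_eq_zero (Finset.mem_univ x) (by rw [h1 _ hx, zero_mul]), zero_mul]
  · obtain ⟨hg, rfl, hg'⟩ := (h7 _).1 hw
    choose c hc hc' using fun x => h2 _ (hg x)
    refine ⟨_, ?_, h10 g hg' c hc'⟩
    rw [← Finset.prod_pow]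
    refine Finset.prod_eq_one fun x _ => ?_
    obtain ⟨a, ha⟩ := Finset.prod_dvd_prod_of_subset _ _ (fun p => p)
      (Nat.primeFactors_mono (card_subgroup_dvd_card N) Nat.card_pos.ne')
    obtain ⟨b, hb⟩ := Finset.dvd_prod_of_mem (fun p => p)
      (hN.mem_primeFactors N.index_dvd_card Nat.card_pos.ne')
    rw [mul_pow]
    nth_rewrite 1 [ha]
    rw [hb, pow_mul, pow_mul, hc, h9, one_pow, one_pow, one_mul]
  · rcases (hp.dvd_mul).1 (hG ▸ hpG) with h | h
    · obtain ⟨z, hz, c, hc1, hc, hc'⟩ := h3 p hp h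
      have h11 : ∀ x : G ⧸ N, (Pi.mulSingle (M := fun _ => H × (G ⧸ N →* ℂˣ)) 1 (z, 1) x).2 = 1 :=
        fun x => by by_cases hx : x = 1 <;> simp [hx]
      refine ⟨⟨Pi.mulSingle 1 (z, 1), 1⟩, (h7 _).2 ⟨fun x => ?_, rfl, by simp [h11]⟩, c, hc1, hc, ?_⟩
      · by_cases hx : x = 1 <;> simp [hx, hz]
      · rw [h10 _ (by simp [h11]) (Pi.mulSingle 1 c) fun x => by
          by_cases hx : x = 1 <;> simp [hx, hc']]
        simp [h11]
    · obtain rfl := (Nat.prime_dvd_prime_iff_eq hp hN).1 h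
      have : Fact (Nat.card (G ⧸ N)).Prime := ⟨hN⟩
      have := isCyclic_of_prime_card (α := G ⧸ N) rfl
      have := (Finite.one_lt_card_iff_nontrivial (α := G ⧸ N)).1 hN.one_lt
      obtain ⟨y, hy⟩ := exists_ne (1 : G ⧸ N)
      obtain ⟨c, hc⟩ := exists_units_hom_ne_one_of_comm hy
      let g : G ⧸ N → (G ⧸ N →* ℂˣ) := Pi.mulSingle y c * Pi.mulSingle 1 c⁻¹
      have h11 : ∏ x, g x = 1 := by
        simp only [g, Pi.mul_apply, Finset.prod_mul_distrib, Fintype.prod_pi_mulSingle']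
        exact mul_inv_cancel c
      refine ⟨⟨fun x => (1, g x), 1⟩, (h7 _).2 ⟨fun x => map_one π, rfl, h11⟩, c y,
        fun e => hc (Units.val_eq_one.1 e), h9 c y, ?_⟩
      rw [h10 _ h11 1 fun x => by simp, Finset.prod_eq_single y (fun x _ hx => by
        by_cases h1 : x = 1 <;> simp [g, hx, h1]) (by simp)]
      simp [g, hy]
  · rw [RegularWreathProduct.card, Nat.card_prod, card_units_hom, hG] at *
    rcases (hp.dvd_mul).1 hpH with h | h
    · rcases (hp.dvd_mul).1 (hp.dvd_of_dvd_pow h) with h | h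
      · exact (h4 p hp h).mul_right _
      · exact (h.trans (index_dvd_card _)).mul_left _
    · exact h.mul_left _

/-- For every finite solvable group G there is a finite group H with a faithful irreducible character χ whose degree squared equals the index of the centre Z(H) (so χ is fully ramified over the centre), such that G is isomorphic to a subgroup of H/Z(H), the primes dividing the orders of H, of Z(H) and of G are the same, and the order of Z(H) is squarefree. -/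
theorem result {G : Type u} [Group G] [Finite G] (hsolv : Group.IsSolvable G) : ∃ (H : Type u) (_ : Group H) (_ : Finite H) (χ : Cfsg.IrrCharacter H), (∀ h : H, (χ : H → ℂ) h = (χ : H → ℂ) 1 → h = 1) ∧ (Cfsg.charDegree (χ : H → ℂ)) ^ 2 = (Subgroup.center H).index ∧ (∃ f : G →* H ⧸ Subgroup.center H, Function.Injective f) ∧ (∀ p : ℕ, p.Prime → ((p ∣ Nat.card H ↔ p ∣ Nat.card G) ∧ (p ∣ Nat.card (Subgroup.center H) ↔ p ∣ Nat.card G))) ∧ Squarefree (Nat.card (Subgroup.center H)) := by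
  obtain ⟨H, _, _, χ, X, _, π, f, hπ, hf, h1, h2, h3, h4⟩ := good G hsolv
  obtain ⟨ψ, hχ, hψ⟩ := exists_faithful_inflate_eq χ
  have hv : ∀ h : H, ψ.1 (h : H ⧸ ker χ.1) = χ.1 h := fun h => congrFun (congrArg Subtype.val hχ) h
  have hn : (∏ p ∈ (Nat.card G).primeFactors, p) ≠ 0 :=
    Finset.prod_ne_zero_iff.2 fun p hp => (Nat.prime_of_mem_primeFactors hp).ne_zero
  have h5 : ∀ h : H, (h : H ⧸ ker χ.1) ∈ Subgroup.center (H ⧸ ker χ.1) ↔ π h = 1 := fun h => by
    rw [← irr_center_eq_of_faithful ψ hψ, irr_mem_center_iff, hv]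
    refine ⟨fun e => by_contra fun e' => ?_, fun e => ?_⟩
    · rw [h1 h e', norm_zero] at e
      exact (irr_degree_pos ψ).ne (Nat.cast_injective (R := ℝ) (by simpa using e))
    · obtain ⟨c, hc, hc'⟩ := h2 h e
      rw [hc', norm_mul, Complex.norm_eq_one_of_pow_eq_one hc hn, ← hv 1, QuotientGroup.mk_one,
        irr_apply_one, one_mul, Complex.norm_natCast]
  obtain ⟨lam, hl, hl'⟩ := (irr_isCharacter ψ).exists_monoidHom_of_le_center
    (center_le_irr_center ψ)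
  have h6 : ∀ (h : H) (hh : π h = 1) (c : ℂ), χ.1 h = c * χ.1 1 → ∀ k : ℕ,
      (⟨_, (h5 h).2 hh⟩ : Subgroup.center (H ⧸ ker χ.1)) ^ k = 1 ↔ c ^ k = 1 := fun h hh c hc k => by
    have h6 := hl ⟨_, (h5 h).2 hh⟩ 1
    rw [mul_one, hv, hc, ← QuotientGroup.mk_one, hv] at h6
    rw [mul_right_cancel₀ (irr_apply_one_ne_zero χ) h6, ← map_pow, hl', hψ, mem_bot,
      OneMemClass.coe_eq_one]
  have := irr_isCyclic_center_of_faithful ψ hψ
  have h7 : Nat.card (Subgroup.center (H ⧸ ker χ.1)) ∣ ∏ p ∈ (Nat.card G).primeFactors, p := by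
    rw [← IsCyclic.exponent_eq_card, Monoid.exponent_dvd_iff_forall_pow_eq_one]
    rintro ⟨z, hz⟩
    obtain ⟨h, rfl⟩ := QuotientGroup.mk_surjective z
    obtain ⟨c, hc, hc'⟩ := h2 h ((h5 h).1 hz)
    exact (h6 h ((h5 h).1 hz) c hc' _).2 hc
  have h8 : ∀ p : ℕ, p.Prime → p ∣ Nat.card G →
      p ∣ Nat.card (Subgroup.center (H ⧸ ker χ.1)) := fun p hp hpG => by
    obtain ⟨h, hh, c, hc1, hc, hc'⟩ := h3 p hp hpG
    have : Fact p.Prime := ⟨hp⟩
    exact orderOf_eq_prime ((h6 h hh c hc' p).2 hc)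
      (fun e => hc1 (by simpa using (h6 h hh c hc' 1).1 (by rwa [pow_one]))) ▸ orderOf_dvd_natCard _
  have h9 : ∀ p : ℕ, p.Prime → p ∣ Nat.card (H ⧸ ker χ.1) → p ∣ Nat.card G := fun p hp h =>
    h4 p hp (h.trans (card_quotient_dvd_card _))
  let ρ := (QuotientGroup.mk' (Subgroup.center (H ⧸ ker χ.1))).comp (QuotientGroup.mk' (ker χ.1))
  have h10 : ∀ h, ρ h = 1 ↔ π h = 1 := fun h => (QuotientGroup.eq_one_iff _).trans (h5 h)
  have h11 : Function.Injective (π.liftOfSurjective hπ ⟨ρ, fun h => (h10 h).2⟩) :=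
    (injective_iff_map_eq_one _).2 fun x hx => by
      obtain ⟨h, rfl⟩ := hπ x
      exact (h10 h).1 ((MonoidHom.liftOfRightInverse_comp_apply _ _ _ _ _).symm.trans hx)
  refine ⟨H ⧸ ker χ.1, inferInstance, inferInstance, ψ, (irr_isCharacter ψ).ker_eq_bot_iff.1 hψ,
    (irr_degree_sq_eq_index_iff ψ (center_le_irr_center ψ)).2 fun z hz => ?_,
    ⟨(π.liftOfSurjective hπ ⟨ρ, fun h => (h10 h).2⟩).comp f, h11.comp hf⟩, fun p hp =>
    ⟨⟨h9 p hp, fun h => (h8 p hp h).trans (card_subgroup_dvd_card _)⟩,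
      fun h => h9 p hp (h.trans (card_subgroup_dvd_card _)), h8 p hp⟩, ?_⟩
  · obtain ⟨h, rfl⟩ := QuotientGroup.mk_surjective z
    exact (hv h).trans (h1 h fun e => hz ((h5 h).2 e))
  · refine Squarefree.squarefree_of_dvd h7 ?_
    rw [← Nat.radical_eq_prod_primeFactors]
    exact UniqueFactorizationMonoid.squarefree_radical

end Cfsg.Agent.S4561
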