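import Cfsg.Statements.S4562
import Cfsg.Agent.Lib.Gag.Main

set_option autoImplicit false
open Cfsg

namespace Cfsg.Agent.S4562

/-- Let χ be an irreducible character of the finite group H that is fully ramified over the normal subgroup Z: the restriction of χ to Z is e times an irreducible character of Z with e ^ 2 equal to the index of Z. If for every prime p with p ^ 6 dividing the index of Z the Sylow p-subgroups of H/Z are commutative, then H/Z is solvable. -/
theorem result {H : Type*} [Group H] [Finite H] (Z : Subgroup H) [Z.Normal] (χ : Cfsg.IrrCharacter H) (hfr : ∃ (θ : Cfsg.IrrCharacter ↥Z) (e : ℕ), e ^ 2 = Z.index ∧ ∀ z : ↥Z, (χ : H → ℂ) z = (e : ℂ) * (θ : ↥Z → ℂ) z) (hab : ∀ p : ℕ, p.Prime → p ^ 6 ∣ Z.index → ∀ P : Sylow p (H ⧸ Z), IsMulCommutative P) : Group.IsSolvable (H ⧸ Z) := by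
  obtain ⟨θ, e, he, h⟩ := hfr
  exact GAG.isSolvable_of_fullyRamified (χ := χ) (θ := θ) he (funext h) hab

end Cfsg.Agent.S4562
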