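import Cfsg.Statements.S4563
import Cfsg.Agent.Lib.Char.FullyRam

set_option autoImplicit false
open Cfsg

namespace Cfsg.Agent.S4563

open CT GT Subgroup

/-- Let χ be an irreducible character of the finite group H that is fully ramified over the normal subgroup Z: the restriction of χ to Z is e times an irreducible character of Z with e ^ 2 equal to the index of Z. If K is a proper normal subgroup of H containing Z and χ is induced from a character of K, then H/K is solvable; in particular, if K is solvable then so is H. -/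
theorem result {H : Type*} [Group H] [Fintype H] (Z : Subgroup H) [Z.Normal] (χ : Cfsg.IrrCharacter H) (hfr : ∃ (θ : Cfsg.IrrCharacter ↥Z) (e : ℕ), e ^ 2 = Z.index ∧ ∀ z : ↥Z, (χ : H → ℂ) z = (e : ℂ) * (θ : ↥Z → ℂ) z) (K : Subgroup H) [K.Normal] [Fintype K] (hZK : Z ≤ K) (hK : K ≠ ⊤) (φ : ↥K → ℂ) (hφ : Cfsg.IsCharacter ↥K φ) (hind : Cfsg.indFun K φ = (χ : H → ℂ)) : Group.IsSolvable (H ⧸ K) ∧ (Group.IsSolvable ↥K → Group.IsSolvable H) := by
  obtain ⟨θ, e, he, h⟩ := hfr
  rw [indFun_eq_ind] at hind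
  suffices hs : Group.IsSolvable (H ⧸ K) from ⟨hs, fun _ =>
    Group.isSolvable_of_ker_le_range K.subtype (QuotientGroup.mk' K) (by simp)⟩
  refine isSolvable_of_forall_exists_pComplement _ fun p hp => ?_
  have : Fact p.Prime := ⟨hp⟩
  obtain ⟨S, hS⟩ := exists_isSylowIn p (⊤ : Subgroup H)
  refine exists_pComplement_of_fullyRamified hZK he (funext h) hS ?_
  set P := Z ⊔ S
  intro η a ha h1 σ hσ
  have : ((K ⊓ P).subgroupOf P).Normal := by
    rw [inf_subgroupOf_right]; infer_instance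
  have ha0 : (a : ℂ) ≠ 0 := Nat.cast_ne_zero.2 fun e => ha (e ▸ dvd_zero p)
  have h2 := (vanish_off_iff_mult_sq_eq hσ).1 fun g hg => by
    have h3 := congrFun h1 g
    rw [res_apply, ← hind, ind_apply_eq_zero_of_normal φ (g := g) fun h4 => hg ⟨h4, g.2⟩] at h3
    exact (mul_eq_zero.1 h3.symm).resolve_left ha0
  have h3 := clifford_degree hσ
  have h4 := relIndex_mul_index (le_inertia σ)
  have h5 : charDegree σ.1 ∣ charDegree φ := by
    have h5 := hφ.resLe (inf_le_left : K ⊓ P ≤ K)
    rw [← charDegree_resLe (inf_le_left : K ⊓ P ≤ K), h5.degree_eq_sum_mult]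
    refine Finset.dvd_sum fun τ _ => ?_
    rcases (mult (resLe inf_le_left φ) τ.1).eq_zero_or_pos with h6 | h6
    · rw [h6, zero_mul]; exact dvd_zero _
    have h7 : LiesOver (K ⊓ P) χ.1 τ.1 := by
      let φ' : IrrCharacter K := ⟨φ, isIrr_of_isIrr_ind hφ (hind ▸ χ.2)⟩
      exact LiesOver.trans_le inf_le_left (irr_isCharacter χ) (ψ := φ') (irr_isCharacter τ)
        (hind ▸ liesOver_ind_self φ') ((liesOverLe_iff_mult_pos _ hφ (irr_isCharacter τ)).2 h6)
    have h8 : LiesOverLe inf_le_right η.1 τ.1 := fun e => h7 (by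
      rw [← resLe_res (inf_le_right : K ⊓ P ≤ P), h1, resLe_smul, ip_smul_left, e, mul_zero])
    rw [← hσ.degree_eq_of_liesOver ((liesOver_irrOf_iff _).2 h8), charDegree_irrOf]
    exact dvd_mul_left _ _
  obtain ⟨c, hc⟩ := h5
  have h6 : K.index * charDegree φ = a * charDegree η.1 := by
    rw [← charDegree_ind hφ, hind]
    exact charDegree_eq_of_apply_one (by
      rw [Nat.cast_mul, ← irr_apply_one]; exact congrFun h1 1)
  obtain ⟨k, hk⟩ := hS.isPGroup.exists_relIndex_eq_pow K
  have h7 : ((K ⊓ P).subgroupOf P).index = p ^ k := by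
    rw [← relIndex, inf_relIndex_right, ← relIndex_sup_left, ← sup_assoc, sup_eq_left.2 hZK,
      relIndex_sup_left, hk]
  have h8 : p ^ k ∣ K.index := hk ▸ relIndex_dvd_index_of_normal K S
  rw [← h2, h7] at h4
  rw [h3, hc, mul_comm _ c, ← mul_assoc, ← mul_assoc] at h6
  replace h6 := Nat.eq_of_mul_eq_mul_right (irr_degree_pos σ) h6
  have h9 := (liesOver_iff_mult_pos (irr_isCharacter η) (irr_isCharacter σ)).1 hσ
  have h10 := Nat.le_of_dvd (Nat.mul_pos h9 (index_pos _))
    ((Nat.Coprime.pow_left k (hp.coprime_iff_not_dvd.2 ha)).dvd_of_dvd_mul_left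
      (h6 ▸ h8.mul_right c))
  rw [← h4, sq] at h10
  exact le_antisymm (Nat.le_of_mul_le_mul_left (by
    simpa using Nat.le_of_mul_le_mul_right h10 (index_pos _)) h9) h9

end Cfsg.Agent.S4563
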