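import Cfsg.Statements.S4564
import Cfsg.Agent.Lib.Char.FullyRam

set_option autoImplicit false
open Cfsg

namespace Cfsg.Agent.S4564

open CT GT Subgroup

/-- Let χ be an irreducible character of the finite group H that is fully ramified over the normal subgroup Z: the restriction of χ to Z is e times an irreducible character of Z with e ^ 2 equal to the index of Z. Let K be a normal subgroup of H containing Z and P a cyclic Sylow p-subgroup of H/K. Then P has a complement in H/K: a subgroup meeting P trivially whose product with P is the whole group. -/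
theorem result {H : Type*} [Group H] [Finite H] (Z : Subgroup H) [Z.Normal] (χ : Cfsg.IrrCharacter H) (hfr : ∃ (θ : Cfsg.IrrCharacter ↥Z) (e : ℕ), e ^ 2 = Z.index ∧ ∀ z : ↥Z, (χ : H → ℂ) z = (e : ℂ) * (θ : ↥Z → ℂ) z) (K : Subgroup H) [K.Normal] (hZK : Z ≤ K) (p : ℕ) [Fact p.Prime] (P : Sylow p (H ⧸ K)) (hcyc : IsCyclic P) : ∃ M : Subgroup (H ⧸ K), M.IsComplement' (P : Subgroup (H ⧸ K)) := by
  obtain ⟨θ, e, he, h⟩ := hfr
  have hP : IsSylowIn p (P : Subgroup (H ⧸ K)) ((⊤ : Subgroup H).map (QuotientGroup.mk' K)) := by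
    rw [map_top_of_surjective _ (QuotientGroup.mk'_surjective K)]; exact isSylowIn_sylow P
  obtain ⟨S, hS, h1⟩ := hP.exists_map_eq
  obtain ⟨M, hM, k, hk⟩ := exists_pComplement_of_fullyRamified hZK he (funext h) hS
    fun η a _ _ σ hσ => by
      have h2 : (Z ⊔ S).map (QuotientGroup.mk' K) ≤ P := by
        rw [Subgroup.map_sup, map_mk'_eq_bot_iff.2 hZK, bot_sup_eq, h1]
      have : ((K ⊓ (Z ⊔ S)).subgroupOf (Z ⊔ S)).Normal := by
        rw [inf_subgroupOf_right]; infer_instance
      have : IsCyclic (↥(Z ⊔ S) ⧸ (K ⊓ (Z ⊔ S)).subgroupOf (Z ⊔ S)) :=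
        isCyclic_quotient_of_eq_ker (f := ((QuotientGroup.mk' K).comp (Z ⊔ S).subtype).codRestrict
          (P : Subgroup (H ⧸ K)) fun x => h2 (mem_map_of_mem _ x.2)) (by
            rw [MonoidHom.ker_codRestrict, ← MonoidHom.comap_ker, QuotientGroup.ker_mk',
              inf_subgroupOf_right]; rfl)
      exact hσ.mult_eq_one_of_isCyclic
  exact ⟨M, isComplement'_sylow_of_pComplement P hM hk⟩

end Cfsg.Agent.S4564
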