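import Cfsg.Statements.S4565
import Cfsg.Agent.Lib.Char.Degrees
import Cfsg.Agent.Lib.Char.Extend

set_option autoImplicit false
open Cfsg

namespace Cfsg.Agent.S4565

/-- Let χ be an irreducible character of the finite group H that is fully ramified over the normal subgroup Z: the restriction of χ to Z is e times an irreducible character of Z with e ^ 2 equal to the index of Z. If Z ≠ H, then H/Z has no cyclic subgroup that is its own centralizer. -/
theorem result {H : Type*} [Group H] [Finite H] (Z : Subgroup H) [Z.Normal] (χ : Cfsg.IrrCharacter H) (hfr : ∃ (θ : Cfsg.IrrCharacter ↥Z) (e : ℕ), e ^ 2 = Z.index ∧ ∀ z : ↥Z, (χ : H → ℂ) z = (e : ℂ) * (θ : ↥Z → ℂ) z) (hZ : Z ≠ ⊤) (C : Subgroup (H ⧸ Z)) (hC : IsCyclic C) : Subgroup.centralizer (C : Set (H ⧸ Z)) ≠ C := by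
  classical
  intro hcen
  obtain ⟨θ, e, he, hres⟩ := hfr
  have hres' : CT.res Z χ.1 = (e : ℂ) • θ.1 := funext hres
  have hinv := CT.smul_eq_of_res_eq_smul (CT.irr_isClassFunction χ)
    (CT.ne_zero_of_res_eq_smul hres') hres'
  have hvan := (CT.fullyRamified_iff_vanish hres').1 he
  have huniq := (CT.fullyRamified_iff_unique hres').1 he
  obtain ⟨c, hc⟩ := (Subgroup.isCyclic_iff_exists_zpowers_eq_top _).1 hC
  obtain ⟨c, rfl⟩ := QuotientGroup.mk_surjective c
  set D := C.comap (QuotientGroup.mk' Z) with hD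
  have hZD : Z ≤ D := GT.le_comap_mk' Z C
  have hcD : c ∈ D := by
    change (c : H ⧸ Z) ∈ C
    rw [← hc]; exact Subgroup.mem_zpowers _
  have hcomm : ∀ x : H, (x : H ⧸ Z) * c = c * x → x ∈ D := by
    intro x hx
    change (x : H ⧸ Z) ∈ C
    rw [← hcen, ← hc, GT.centralizer_zpowers, Subgroup.mem_centralizer_singleton_iff]
    exact hx
  have hcZ : c ∉ Z := by
    intro h
    have h1 : (c : H ⧸ Z) = 1 := (QuotientGroup.eq_one_iff c).2 h
    apply hZ
    rw [eq_top_iff]
    intro x _
    have h2 : (x : H ⧸ Z) ∈ C := hcomm x (by rw [h1, mul_one, one_mul])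
    rw [← hc, h1, Subgroup.zpowers_one_eq_bot, Subgroup.mem_bot] at h2
    exact (QuotientGroup.eq_one_iff x).1 h2
  have hcyc : IsCyclic (D ⧸ Z.subgroupOf D) := by
    refine CT.isCyclic_quotient_of_sup_zpowers_eq_top (g := ⟨c, hcD⟩) ?_
    rw [eq_top_iff]
    rintro ⟨x, hx⟩ _
    have h2 : (x : H ⧸ Z) ∈ Subgroup.zpowers (c : H ⧸ Z) := hc ▸ hx
    obtain ⟨k, hk⟩ := h2
    have h3 : x * (c ^ k)⁻¹ ∈ Z := by
      rw [← QuotientGroup.eq_one_iff, QuotientGroup.mk_mul, QuotientGroup.mk_inv,
        QuotientGroup.mk_zpow]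
      simp only at hk
      rw [hk, mul_inv_cancel]
    have e1 : (⟨x, hx⟩ : D) = ⟨x * (c ^ k)⁻¹, hZD h3⟩ * ⟨c, hcD⟩ ^ k := by
      apply Subtype.ext; simp
    rw [e1]
    exact Subgroup.mul_mem_sup h3 ⟨k, rfl⟩
  obtain ⟨η, hη⟩ := CT.exists_extension_le_of_isCyclic hZD θ
    (fun x _ => CT.isConjCharOf_iff_smul.2 (hinv x))
  have hη' := (CT.res_subgroupOf_eq_irrOf_iff hZD).2 hη
  obtain ⟨n, hn, hne⟩ := CT.exists_apply_mul_ne_zero_of_res_irr (CT.irr_isCharacter η) hη'
    ⟨c, hcD⟩
  set y : D := ⟨c, hcD⟩ * n with hy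
  have hyc : ((y : H) : H ⧸ Z) = c := by
    rw [hy, Subgroup.coe_mul, QuotientGroup.mk_mul, (QuotientGroup.eq_one_iff (n : H)).2 hn,
      mul_one]
  have hyZ : (y : H) ∉ Z := fun h => hcZ (by
    rw [← QuotientGroup.eq_one_iff, ← hyc, QuotientGroup.eq_one_iff]; exact h)
  have hab : commutator D ≤ Z.subgroupOf D := CT.commutator_le_of_isCyclic_quotient
  -- the function `η` cut off to the coset of `c`
  let F : D → ℂ := fun d => if ((d : H) : H ⧸ Z) = c then η.1 d else 0
  have hFc : IsClassFunction D F := by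
    intro a b
    have h1 : (((b * a * b⁻¹ : D) : H) : H ⧸ Z) = ((a : H) : H ⧸ Z) := by
      have h2 : (b * a * b⁻¹ * a⁻¹ : D) ∈ Z.subgroupOf D :=
        hab (Subgroup.commutator_mem_commutator (Subgroup.mem_top b) (Subgroup.mem_top a))
      rw [eq_comm, QuotientGroup.eq]
      have h3 := (inferInstance : Z.Normal).conj_mem _ h2 (a : H)⁻¹
      simpa [mul_assoc] using h3
    simp only [F, h1, CT.irr_isClassFunction η a b]
  have hval : CT.ind D F y = η.1 y := by
    rw [CT.ind_apply_of_TI_aux hFc y]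
    · simp only [F, hyc, if_true]
    · intro g hg
      by_cases hm : g⁻¹ * y * g ∈ D
      · rw [CT.extendByZero_of_mem _ _ hm]
        refine if_neg fun h => hg (hcomm g ?_)
        simp only [QuotientGroup.mk_mul, QuotientGroup.mk_inv, hyc] at h
        calc (g : H ⧸ Z) * c = g * ((g : H ⧸ Z)⁻¹ * c * g) := by rw [h]
          _ = c * g := by group
      · exact CT.extendByZero_of_notMem _ _ hm
  have hzero : CT.ind D F y = 0 := by
    rw [(CT.isClassFunction_ind D F).apply_eq_sum_irr]
    refine Finset.sum_eq_zero fun ψ _ => ?_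
    by_cases hψ : ψ = χ
    · rw [hψ, hvan _ hyZ, mul_zero]
    · rw [CT.ip_ind_left _ _ (CT.irr_isClassFunction ψ)]
      refine mul_eq_zero_of_left ?_ _
      rw [CT.ip_eq_sum_irr hFc ((CT.irr_isClassFunction ψ).res D)]
      refine Finset.sum_eq_zero fun φ _ => ?_
      by_cases hφ : CT.LiesOverLe hZD φ.1 θ.1
      · refine mul_eq_zero_of_right _ ?_
        rw [map_eq_zero]
        by_contra h
        exact hψ (huniq ψ (CT.LiesOver.trans_le hZD (CT.irr_isCharacter ψ)
          (CT.irr_isCharacter θ) h hφ))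
      · refine mul_eq_zero_of_left ?_ _
        let F0 : D ⧸ Z.subgroupOf D → ℂ := fun q =>
          if q = ((⟨c, hcD⟩ : D) : D ⧸ Z.subgroupOf D) then 1 else 0
        have hq := CT.isMulCommutative_quotient_of_commutator_le hab
        have hF0 : IsClassFunction _ F0 := by
          intro a b
          rw [hq.is_comm.comm b a, mul_inv_cancel_right]
        have hF : F = ∑ β : IrrCharacter (D ⧸ Z.subgroupOf D),
            CT.ip F0 β.1 • ((CT.inflate _ β).1 * η.1) := by
          funext d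
          simp only [Finset.sum_apply, Pi.smul_apply, Pi.mul_apply, CT.inflate_apply, smul_eq_mul,
            ← mul_assoc]
          rw [← Finset.sum_mul, ← hF0.apply_eq_sum_irr]
          have h1 : (((d : H) : H ⧸ Z) = c) ↔
              ((d : D ⧸ Z.subgroupOf D) = ((⟨c, hcD⟩ : D) : D ⧸ Z.subgroupOf D)) := by
            rw [QuotientGroup.eq, QuotientGroup.eq]; rfl
          simp only [F, F0, h1]
          split_ifs <;> simp
        rw [hF, CT.ip_sum_left]
        refine Finset.sum_eq_zero fun β _ => ?_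
        rw [CT.ip_smul_left]
        refine mul_eq_zero_of_right _ ?_
        by_contra h
        exact hφ ((CT.liesOver_irrOf_iff hZD).1
          ((CT.liesOver_of_res_eq hη').of_ip_inflate_mul h))
  exact hne (hval.symm.trans hzero)

end Cfsg.Agent.S4565
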