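import Cfsg.Statements.S4566
import Cfsg.Agent.Lib.Char.Gallagher
import Cfsg.Agent.Lib.Char.Values

set_option autoImplicit false
open Cfsg

namespace Cfsg.Agent.S4566
open scoped commutatorElement

/-- Let N be a central subgroup of the finite group G, ψ a faithful irreducible (hence degree-one) character of N, and χ an irreducible character of G whose restriction to N contains ψ. If g ∈ G and some x ∈ G has commutator x⁻¹ g⁻¹ x g in N but different from 1, then χ g = 0. -/
theorem result {G : Type*} [Group G] [Fintype G] (N : Subgroup G) [Fintype N] (hN : N ≤ Subgroup.center G) (ψ : Cfsg.IrrCharacter ↥N) (hfaith : ∀ n : ↥N, (ψ : ↥N → ℂ) n = (ψ : ↥N → ℂ) 1 → n = 1) (χ : Cfsg.IrrCharacter G) (hover : Cfsg.classInner (fun n : ↥N => (χ : G → ℂ) n) (ψ : ↥N → ℂ) ≠ 0) (g x : G) (hcomm : x⁻¹ * g⁻¹ * x * g ∈ N) (hne : x⁻¹ * g⁻¹ * x * g ≠ 1) : (χ : G → ℂ) g = 0 := by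
  rw [CT.classInner_eq_ip] at hover
  have : N.Normal := ⟨fun n hn y => by
    rw [Subgroup.mem_center_iff.1 (hN hn) y, mul_inv_cancel_right]; exact hn⟩
  have hres := CT.clifford_invariant (fun g => CT.conjSmul_of_le_center hN g ψ) hover
  have e : x⁻¹ * g⁻¹ * x * g = ⁅x⁻¹, g⁻¹⁆ := by simp [commutatorElement_def]
  have h0 : χ.1 g⁻¹ = 0 := by
    refine (CT.irr_isCharacter χ).apply_eq_zero_of_commutator (x := x⁻¹) ?_ ?_
    · exact e ▸ CT.center_le_irr_center χ (hN hcomm)
    · rw [← e, CT.irr_mem_ker_iff]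
      intro h
      have h1 : χ.1 (x⁻¹ * g⁻¹ * x * g) = _ := congrFun hres ⟨_, hcomm⟩
      have h2 : χ.1 1 = _ := congrFun hres 1
      rw [h1, h2] at h
      simp only [Pi.smul_apply, smul_eq_mul] at h
      have h3 := mul_left_cancel₀ (CT.ne_zero_of_res_eq_smul hres) h
      exact hne (congrArg Subtype.val (hfaith _ h3))
  rw [(CT.irr_isCharacter χ).apply_inv] at h0
  simpa using h0

end Cfsg.Agent.S4566
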