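import Cfsg.Statements.S4567
import Cfsg.Agent.Lib.Char.Degrees
import Cfsg.Agent.Lib.Char.FrobSchur

set_option autoImplicit false
open Cfsg

namespace Cfsg.Agent.S4567

open CT
open scoped ComplexConjugate

def Sp {G : Type*} [Group G] (N : Subgroup G) (g : G) : Prop :=
  ∀ x : G, x⁻¹ * g⁻¹ * x * g ∈ N → x * g = g * x

theorem Sp.of_isConj {G : Type*} [Group G] {N : Subgroup G} [hn : N.Normal]
    (hN : N ≤ Subgroup.center G) {g h : G} (hg : Sp N g)
    (e : IsConj (g : G ⧸ N) (h : G ⧸ N)) : Sp N h := by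
  obtain ⟨c, hc⟩ := isConj_iff.1 e
  obtain ⟨c, rfl⟩ := QuotientGroup.mk_surjective c
  rw [← QuotientGroup.mk_mul, ← QuotientGroup.mk_inv, ← QuotientGroup.mk_mul,
    QuotientGroup.eq] at hc
  obtain ⟨n, hn', rfl⟩ : ∃ n ∈ N, h = c * g * c⁻¹ * n := ⟨_, hc, by group⟩
  have hz := Subgroup.mem_center_iff.1 (hN hn')
  intro x hx
  have h1 : x⁻¹ * (c * g * c⁻¹ * n)⁻¹ * x * (c * g * c⁻¹ * n) =
      c * ((c⁻¹ * x * c)⁻¹ * g⁻¹ * (c⁻¹ * x * c) * g) * c⁻¹ := by
    calc _ = x⁻¹ * n⁻¹ * ((c * g⁻¹ * c⁻¹ * x * c * g * c⁻¹) * n) := by group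
      _ = _ := by rw [hz]; group
  rw [h1] at hx
  have h2 := hg (c⁻¹ * x * c) (by simpa [mul_assoc] using hn.conj_mem _ hx c⁻¹)
  calc x * (c * g * c⁻¹ * n) = c * (c⁻¹ * x * c * g) * c⁻¹ * n := by group
    _ = c * g * c⁻¹ * (x * n) := by rw [h2]; group
    _ = _ := by rw [hz]; group

theorem sum_mul {G : Type*} [Group G] [Finite G] {N : Subgroup G} [N.Normal] [Fintype N]
    (hN : N ≤ Subgroup.center G) (ψ : IrrCharacter N) (χ : IrrCharacter G) (g : G)
    [Decidable (LiesOver N χ.1 ψ.1)] :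
    ∑ n : N, conj (ψ.1 n) * χ.1 (g * n) =
      if LiesOver N χ.1 ψ.1 then (Nat.card N : ℂ) * χ.1 g else 0 := by
  have h1 : ∑ n : N, conj (ψ.1 n) * χ.1 (g * n) =
      (Nat.card N : ℂ) * ip (res N χ.1) ψ.1 * (χ.1 g / χ.1 1) := by
    rw [ip_def, mul_inv_cancel_left₀ card_cast_ne_zero, Finset.sum_mul]
    refine Finset.sum_congr rfl fun n _ => ?_
    rw [Subgroup.mem_center_iff.1 (hN n.2) g, irr_apply_central_mul χ (hN n.2), res_apply]
    ring
  rw [h1]
  split_ifs with h
  · have h2 := clifford_degree h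
    have hc : IsMulCommutative N := GT.isMulCommutative_iff_forall.2 fun a _ b hb =>
      Subgroup.mem_center_iff.1 (hN hb) a
    rw [forall_smul_iff_inertia_eq_top.1 fun g => conjSmul_of_le_center hN g ψ, Subgroup.index_top,
      irr_degree_eq_one_of_isMulCommutative ψ, mul_one, mul_one] at h2
    rw [((irr_isCharacter χ).res N).ip_eq_mult (irr_isCharacter ψ), ← h2, ← irr_apply_one]
    field_simp [irr_apply_one_ne_zero χ]
  · rw [not_not.1 h]; simp

theorem inner {G : Type*} [Group G] [Finite G] {N : Subgroup G} [N.Normal] [Fintype N]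
    (hN : N ≤ Subgroup.center G) (ψ : IrrCharacter N) (hf : ∀ n : N, ψ.1 n = ψ.1 1 → n = 1)
    (g : G) [Decidable (Sp N g)] :
    ∑ n : N, conj (ψ.1 n) * ∑ χ : IrrCharacter G, χ.1 (g * n) * conj (χ.1 g) =
      if Sp N g then (Nat.card N : ℂ) *
        Nat.card (Subgroup.centralizer ({(g : G ⧸ N)} : Set (G ⧸ N))) else 0 := by
  classical
  have hc : IsMulCommutative N := GT.isMulCommutative_iff_forall.2 fun a _ b hb =>
    Subgroup.mem_center_iff.1 (hN hb) a
  obtain ⟨f, rfl⟩ := exists_linChar_eq_of_isMulCommutative ψ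
  split_ifs with h
  · rw [Finset.sum_eq_single 1 (fun n _ hn => ?_) (by simp)]
    · have h1 : Subgroup.centralizer {g} =
          (Subgroup.centralizer ({(g : G ⧸ N)} : Set (G ⧸ N))).comap (QuotientGroup.mk' N) := by
        ext x
        rw [Subgroup.mem_comap, Subgroup.mem_centralizer_singleton_iff,
          Subgroup.mem_centralizer_singleton_iff, QuotientGroup.mk'_apply, ← QuotientGroup.mk_mul,
          ← QuotientGroup.mk_mul, eq_comm (b := ((g * x : G) : G ⧸ N)), QuotientGroup.eq]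
        refine ⟨fun e => by rw [e, inv_mul_cancel]; exact N.one_mem, fun e => h x ?_⟩
        simpa [mul_assoc] using e
      rw [sum_irr_mul_conj, OneMemClass.coe_one, mul_one, if_pos (IsConj.refl g), h1,
        GT.card_comap_mk']
      simp [mul_comm]
    · rw [sum_irr_mul_conj, if_neg, mul_zero]
      intro e
      obtain ⟨c, hc⟩ := isConj_iff.1 e.symm
      have h1 : c⁻¹⁻¹ * g⁻¹ * c⁻¹ * g = (n : G)⁻¹ := by
        rw [inv_inv, show c * g⁻¹ * c⁻¹ = (c * g * c⁻¹)⁻¹ by group, hc]; group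
      have h2 := h c⁻¹ (h1 ▸ N.inv_mem n.2)
      rw [mul_assoc, h2] at h1
      exact hn (Subtype.ext (inv_eq_one.1 (by rw [← h1]; group)))
  · simp only [Sp, not_forall] at h
    obtain ⟨x, hx, hne⟩ := h
    set c : N := ⟨_, hx⟩ with hc_def
    have h1 : f c ≠ 1 := fun e => hne (by
      have h2 := congrArg Subtype.val (hf c (by simp [e]))
      calc x * g = g * x * (x⁻¹ * g⁻¹ * x * g) := by group
        _ = _ := by rw [show x⁻¹ * g⁻¹ * x * g = 1 from h2, mul_one])
    have h2 : ∀ (n : N) (χ : IrrCharacter G), χ.1 (g * (c * n : N)) = χ.1 (g * n) := by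
      intro n χ
      rw [← (irr_isClassFunction χ).conj' (g * n) x⁻¹]
      refine congrArg χ.1 ?_
      have h3 := Subgroup.mem_center_iff.1 (hN hx) x
      have h4 := Subgroup.mem_center_iff.1 (hN n.2) x⁻¹
      calc g * ((x⁻¹ * g⁻¹ * x * g) * n) = g * ((x⁻¹ * g⁻¹ * x * g) * x) * (x⁻¹ * n) := by group
        _ = _ := by rw [← h3, h4]; group
    set T := ∑ n : N, conj ((linChar f).1 n) * ∑ χ : IrrCharacter G, χ.1 (g * n) * conj (χ.1 g)
      with hT
    have h3 : T = conj (f c : ℂ) * T := by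
      conv_lhs => rw [hT, ← Equiv.sum_comp (Equiv.mulLeft c)]
      rw [hT, Finset.mul_sum]
      refine Finset.sum_congr rfl fun n _ => ?_
      simp only [Equiv.coe_mulLeft, h2, linChar_apply, map_mul, Units.val_mul, mul_assoc]
    by_contra h4
    have h5 : conj (f c : ℂ) = 1 := mul_right_cancel₀ h4 (by rw [← h3, one_mul])
    exact h1 (Units.ext (by simpa using congrArg conj h5))

/-- Let N be a central subgroup of the finite group G and ψ a faithful irreducible (hence degree-one) character of N. Call a coset g N special when every x ∈ G whose commutator x⁻¹ g⁻¹ x g lies in N actually commutes with g (this depends only on the coset). Then the number of irreducible characters of G whose restriction to N contains ψ equals the number of conjugacy classes of G/N consisting of special cosets. -/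
theorem result {G : Type*} [Group G] [Fintype G] (N : Subgroup G) [N.Normal] [Fintype N] (hN : N ≤ Subgroup.center G) (ψ : Cfsg.IrrCharacter ↥N) (hfaith : ∀ n : ↥N, (ψ : ↥N → ℂ) n = (ψ : ↥N → ℂ) 1 → n = 1) : Nat.card {χ : Cfsg.IrrCharacter G // Cfsg.classInner (fun n : ↥N => (χ : G → ℂ) n) (ψ : ↥N → ℂ) ≠ 0} = Nat.card {C : ConjClasses (G ⧸ N) // ∃ g : G, ConjClasses.mk (g : G ⧸ N) = C ∧ ∀ x : G, x⁻¹ * g⁻¹ * x * g ∈ N → x * g = g * x} := by
  classical
  simp only [classInner_eq_ip]
  change Nat.card {χ : IrrCharacter G // LiesOver N χ.1 ψ.1} = _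
  set P : ConjClasses (G ⧸ N) → Prop := fun C => ∃ g : G, ConjClasses.mk (g : G ⧸ N) = C ∧ Sp N g
  change _ = Nat.card {C // P C}
  have hP : ∀ g : G, Sp N g ↔ P (ConjClasses.mk (g : G ⧸ N)) := fun g =>
    ⟨fun h => ⟨g, rfl, h⟩, fun ⟨g', e, h⟩ => h.of_isConj hN (ConjClasses.mk_eq_mk_iff_isConj.1 e)⟩
  have h1 : ∑ g : G, ∑ n : N, conj (ψ.1 n) * ∑ χ : IrrCharacter G, χ.1 (g * n) * conj (χ.1 g) =
      (Nat.card N : ℂ) * Nat.card G * Nat.card {χ : IrrCharacter G // LiesOver N χ.1 ψ.1} := by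
    simp only [Finset.mul_sum, ← mul_assoc]
    rw [Finset.sum_congr rfl fun g _ => Finset.sum_comm, Finset.sum_comm]
    simp only [← Finset.sum_mul, sum_mul hN]
    rw [Nat.card_eq_fintype_card (α := {χ : IrrCharacter G // _}), Fintype.card_subtype,
      Finset.card_filter]
    push_cast
    rw [Finset.mul_sum]
    refine Finset.sum_congr rfl fun χ _ => ?_
    split_ifs
    · have h2 := ip_irr_self χ
      rw [ip_def, inv_mul_eq_iff_eq_mul₀ card_cast_ne_zero] at h2
      simp only [mul_assoc, ← Finset.mul_sum, h2]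
    · simp
  have h2 := sum_comp_of_surjective (QuotientGroup.mk' N) (QuotientGroup.mk'_surjective N)
    (fun q => if P (ConjClasses.mk q) then (Nat.card N : ℂ) *
      Nat.card (Subgroup.centralizer ({q} : Set (G ⧸ N))) else 0)
  have h3 := congrArg (Nat.cast : ℕ → ℂ) (sum_card_centralizer_filter P)
  simp only [inner hN ψ hfaith, hP] at h1
  simp only [QuotientGroup.mk'_apply, QuotientGroup.ker_mk'] at h2
  replace h2 := h1.symm.trans (Eq.trans (Finset.sum_congr rfl fun g _ => by congr) h2)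
  push_cast at h3
  rw [← Finset.sum_filter, ← Finset.mul_sum] at h2
  have h4 : (Nat.card G : ℂ) = Nat.card N * Nat.card (G ⧸ N) := by
    rw [Subgroup.card_eq_card_quotient_mul_card_subgroup N]; push_cast; ring
  have h5 : (Nat.card N : ℂ) * Nat.card G * Nat.card {χ : IrrCharacter G // LiesOver N χ.1 ψ.1} =
      (Nat.card N : ℂ) * Nat.card G * Nat.card {C // P C} := by
    rw [h2, h4]
    refine Eq.trans (congrArg (fun t => (Nat.card N : ℂ) * (Nat.card N * t))
      (Eq.trans (by congr) h3)) ?_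
    ring
  exact_mod_cast mul_left_cancel₀ (mul_ne_zero card_cast_ne_zero card_cast_ne_zero) h5

end Cfsg.Agent.S4567
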