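import Cfsg.Statements.S4568
import Cfsg.Agent.Lib.Block.AbPrimeFT
import Cfsg.Agent.Lib.FT.Main

set_option autoImplicit false
open Cfsg

namespace Cfsg.Agent.S4568

/-- Let G be a finite group with a commutative Sylow 2-subgroup P, let e be the index of the centralizer of P in the normalizer of P, and let M be a maximal ideal of the algebraic integers containing 2. If e is a prime number, then the principal 2-block has 2-regular rank e (e irreducible Brauer characters), and if moreover G is not solvable it contains exactly as many irreducible characters as P has elements. -/
theorem result {G : Type*} [Group G] [Finite G] (M : Ideal Cfsg.AlgInt) (hM : Cfsg.IsPModular 2 M) (P : Sylow 2 G) (hab : IsMulCommutative P) (he : ((Subgroup.centralizer ((P : Subgroup G) : Set G)).relIndex (Subgroup.normalizer ((P : Subgroup G) : Set G))).Prime) : Cfsg.blockRank 2 (Cfsg.principalBlock M G) = (Subgroup.centralizer ((P : Subgroup G) : Set G)).relIndex (Subgroup.normalizer ((P : Subgroup G) : Set G)) ∧ (¬ Group.IsSolvable G → Nat.card (Cfsg.principalBlock M G) = Nat.card P) := by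
  exact BT.principal_of_prime_of_oddOrder (fun H _ _ h => FT.feit_thompson H h) M hM P hab he

end Cfsg.Agent.S4568
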