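import Cfsg.Statements.S4574
import Cfsg.Agent.Lib.Char.Galois

set_option autoImplicit false
open Cfsg

namespace Cfsg.Agent.S4574

/-- Let χ be an irreducible character of the finite group G, of degree d, and let Z(χ) be the set of elements g with |χ g| = d (the centre of χ). Then χ vanishes on at least (d ^ 2 - 1) · |Z(χ)| elements of G, with equality when every value |χ g| is 0, 1 or d. -/
theorem result {G : Type*} [Group G] [Fintype G] [DecidableEq G] (χ : G → ℂ) (hχ : Cfsg.IsIrrCharacter G χ) : (Cfsg.charDegree χ ^ 2 - 1) * (Finset.univ.filter (fun g : G => ‖χ g‖ = (Cfsg.charDegree χ : ℝ))).card ≤ (Finset.univ.filter (fun g : G => χ g = 0)).card ∧ ((∀ g : G, ‖χ g‖ = 0 ∨ ‖χ g‖ = 1 ∨ ‖χ g‖ = (Cfsg.charDegree χ : ℝ)) → (Cfsg.charDegree χ ^ 2 - 1) * (Finset.univ.filter (fun g : G => ‖χ g‖ = (Cfsg.charDegree χ : ℝ))).card = (Finset.univ.filter (fun g : G => χ g = 0)).card) := by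
  classical
  let c : IrrCharacter G := ⟨χ, hχ⟩
  have hc := CT.irr_isCharacter c
  have hsum : ∑ g : G, ‖χ g‖ ^ 2 = Nat.card G := CT.irr_sum_norm_sq c
  set d := charDegree χ with hd
  have hdpos : 0 < d := CT.irr_degree_pos c
  set Z := Finset.univ.filter (fun g : G => ‖χ g‖ = (d : ℝ)) with hZ
  set O := Finset.univ.filter (fun g : G => χ g = 0) with hO
  set S := Finset.univ.filter (fun g : G => ¬ ‖χ g‖ = (d : ℝ)) with hS
  have h1 : ∑ g ∈ Z, ‖χ g‖ ^ 2 + ∑ g ∈ S, ‖χ g‖ ^ 2 = Nat.card G := by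
    rw [← hsum, Finset.sum_filter_add_sum_filter_not]
  have h2 : ∑ g ∈ Z, ‖χ g‖ ^ 2 = Z.card * (d : ℝ) ^ 2 := by
    rw [Finset.sum_congr rfl (g := fun _ => (d : ℝ) ^ 2) (fun g hg => by
      rw [(Finset.mem_filter.1 hg).2]), Finset.sum_const, nsmul_eq_mul]
  have h3 : Z.card + S.card = Nat.card G := by
    rw [Finset.card_filter_add_card_filter_not, Nat.card_eq_fintype_card, Finset.card_univ]
  have h4 : (S.filter (fun g => χ g ≠ 0)).card + O.card = S.card := by
    rw [← Finset.card_filter_add_card_filter_not (s := S) (fun g => χ g ≠ 0)]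
    congr 2
    ext g
    simp only [hO, hS, Finset.mem_filter, Finset.mem_univ, true_and, not_not]
    refine ⟨fun h => ⟨?_, h⟩, fun h => h.2⟩
    rw [h, norm_zero]
    exact_mod_cast hdpos.ne
  have hcast : ((d ^ 2 - 1 : ℕ) : ℝ) = (d : ℝ) ^ 2 - 1 := by
    rw [Nat.cast_sub (Nat.one_le_pow _ _ hdpos)]; simp
  have h3' : (Z.card : ℝ) + S.card = Nat.card G := by exact_mod_cast h3
  have h4' : ((S.filter (fun g => χ g ≠ 0)).card : ℝ) + O.card = S.card := by exact_mod_cast h4
  constructor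
  · have h5 := hc.isGen.card_ne_zero_le_sum_norm_sq S (fun g hg k hk => by
      simp only [hS, Finset.mem_filter, Finset.mem_univ, true_and] at hg ⊢
      intro h
      apply hg
      have h6 : g ^ k ∈ CT.center χ := hc.mem_center_iff.2 h
      obtain ⟨m, hm⟩ := exists_pow_eq_self_of_coprime hk
      exact hc.mem_center_iff.1 (hm ▸ (CT.center χ).pow_mem h6 m))
    have : (((d ^ 2 - 1) * Z.card : ℕ) : ℝ) ≤ O.card := by
      rw [Nat.cast_mul, hcast]
      have h5' : ((S.filter (fun g => χ g ≠ 0)).card : ℝ) ≤ ∑ g ∈ S, ‖χ g‖ ^ 2 := by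
        convert h5
      nlinarith
    exact_mod_cast this
  · intro hval
    have h5 : ∑ g ∈ S, ‖χ g‖ ^ 2 = ((S.filter (fun g => χ g ≠ 0)).card : ℝ) := by
      rw [Finset.card_filter, Nat.cast_sum]
      refine Finset.sum_congr rfl fun g hg => ?_
      have hg' := (Finset.mem_filter.1 hg).2
      rcases hval g with h | h | h
      · rw [if_neg (by simpa using h), h]; simp
      · rw [if_pos (by intro h0; simp [h0] at h), h]; simp
      · exact absurd h hg'
    have : (((d ^ 2 - 1) * Z.card : ℕ) : ℝ) = O.card := by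
      rw [Nat.cast_mul, hcast]
      nlinarith
    exact_mod_cast this

end Cfsg.Agent.S4574
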