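import Cfsg.Statements.S4575
import Cfsg.Agent.Lib.Block.QuadBound

set_option autoImplicit false
open Cfsg

namespace Cfsg.Agent.S4575

open CT BT
open scoped MonoidAlgebra ComplexConjugate

/-- Let B be a 2-block of the finite group G (relative to a maximal ideal M of the algebraic integers containing 2) of defect d with defect group D. Let z be an element of D commuting with every element of D, and let b be a block of the centralizer of z with defect group D that induces B (a major subsection (z, b)). If the number of irreducible characters in B exceeds the 2-regular rank of b by at most three, then B contains at most 2 ^ d irreducible characters. -/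
theorem result {G : Type*} [Group G] [Finite G] (M : Ideal Cfsg.AlgInt) (hM : Cfsg.IsPModular 2 M) (B : Set (Cfsg.IrrCharacter G)) (hB : Cfsg.IsPBlock M B) (D : Subgroup G) (hD : Cfsg.IsDefectGroup 2 M B D) (z : G) (hzD : z ∈ D) (hzc : ∀ d ∈ D, d * z = z * d) (b : Set (Cfsg.IrrCharacter ↥(Subgroup.centralizer ({z} : Set G)))) (hb : Cfsg.IsInducedBlock M (Subgroup.centralizer ({z} : Set G)) b B) (hbD : Cfsg.IsDefectGroup 2 M b (D.subgroupOf (Subgroup.centralizer ({z} : Set G)))) (h : Nat.card B ≤ Cfsg.blockRank 2 b + 3) : Nat.card B ≤ 2 ^ Cfsg.blockDefect 2 B := by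
  classical
  have : Fact (Nat.Prime 2) := ⟨Nat.prime_two⟩
  have hu := isPElt_of_mem_defectGroup hM hB hD hzD
  have hd := blockDefect_eq_of_subgroupOf hM hB hD
    (fun d hd => Subgroup.mem_centralizer_singleton_iff.2 (hzc d hd)) hb.1 hbD
  obtain ⟨a, h1, h2, h3, h4⟩ := exists_avg_two hM rfl hu hb
  by_cases hd0 : blockDefect 2 B = 0
  · have := brauer_feit hM hB
    rw [hd0] at this ⊢
    omega
  by_cases h' : ∃ χ ∈ B, blockHeight 2 B χ.1 = 0 ∧ 2 ^ blockDefect 2 B - a χ ≤ 1
  · obtain ⟨χ, hχ, h0, h5⟩ := h'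
    have h6 := (((h4 hd χ hχ).1 h0).2 hd0).trans (mul_le_mul_of_nonneg_left h5 (by positivity))
    rw [mul_one] at h6
    exact_mod_cast h6
  · have h5 : ∑ χ ∈ bset B, (3 : ℤ) ≤ ∑ χ ∈ bset B, (2 ^ blockDefect 2 B - a χ) := by
      refine Finset.sum_le_sum fun χ hχ => ?_
      have hχ := mem_bset.1 hχ
      by_cases h0 : blockHeight 2 B χ.1 = 0
      · have h7 : ¬ 2 ^ blockDefect 2 B - a χ ≤ 1 := fun h'' => h' ⟨χ, hχ, h0, h''⟩
        obtain ⟨c, hc⟩ := (h3 χ hχ h0).1
        obtain ⟨e, he⟩ := dvd_pow_self (2 : ℤ) hd0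
        omega
      · obtain ⟨h6, -, h7⟩ := (h4 hd χ hχ).2 h0
        obtain ⟨c, hc⟩ := (pow_dvd_pow (2 : ℤ) (show 2 ≤ _ by omega)).trans h6
        have h8 := height_add_two_le hM hB hχ h0
        obtain ⟨e, he⟩ := pow_dvd_pow (2 : ℤ) (show 2 ≤ blockDefect 2 B by omega)
        omega
    rw [Finset.sum_sub_distrib, h1, Finset.sum_const, Finset.sum_const, card_bset, hd,
      nsmul_eq_mul, nsmul_eq_mul] at h5
    have h6 : (Nat.card B : ℤ) ≤ blockRank 2 b + 3 := by exact_mod_cast h
    have h7 : (0 : ℤ) ≤ 2 ^ blockDefect 2 B := by positivity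
    have h8 : (Nat.card B : ℤ) ≤ 2 ^ blockDefect 2 B := by nlinarith
    exact_mod_cast h8

end Cfsg.Agent.S4575
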