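import Cfsg.Statements.S4578
import Cfsg.Agent.Lib.Block.RobAlt
import Cfsg.Agent.Lib.Sym.SpinCover

set_option autoImplicit false
open Cfsg

namespace Cfsg.Agent.S4578

theorem result {H : Type*} [Group H] [Finite H] (hq : Cfsg.IsQuasisimple H) (n : ℕ) (hn : 5 ≤ n) (e : H ⧸ Subgroup.center H ≃* alternatingGroup (Fin n)) (p : ℕ) [Fact p.Prime] (M : Ideal Cfsg.AlgInt) (hM : Cfsg.IsPModular p M) (B : Set (Cfsg.IrrCharacter H)) (hB : Cfsg.IsPBlock M B) (D : Subgroup H) (hD : Cfsg.IsDefectGroup p M B D) (χ : Cfsg.IrrCharacter H) (hχ : χ ∈ B) :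
    Cfsg.blockHeight p B (χ : H → ℂ) ≤ ((Subgroup.center D).index).factorization p ∧
      (Cfsg.blockHeight p B (χ : H → ℂ) = ((Subgroup.center D).index).factorization p ↔ IsMulCommutative D) := by
  let π := (alternatingGroup (Fin n)).subtype.comp
    (e.toMonoidHom.comp (QuotientGroup.mk' (Subgroup.center H)))
  have hr : π.range = alternatingGroup (Fin n) := by
    rw [MonoidHom.range_comp, MonoidHom.range_eq_top.2
      (e.surjective.comp (QuotientGroup.mk'_surjective _)), ← MonoidHom.range_eq_map,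
      Subgroup.range_subtype]
  have hπ : π.ker ≤ Subgroup.center H := fun x hx =>
    (QuotientGroup.eq_one_iff x).1 (e.map_eq_one_iff.1 (Subtype.ext hx))
  refine BT.height_le_index_center hM hB hD (BT.height_add_center_lt_alt hM hB hD hχ hr hπ
    hq.1.commutator_eq_top (by simpa using hn) fun h8 hk hp2 h => ?_)
  rw [Fintype.card_fin]
  exact SQ.exists_wt_spin hn π hr hπ hk hq.1.commutator_eq_top
    (fun _ _ _ _ h1 h2 h3 _ => GT.card_ker_le_two h1 h2 h3 h8) Fact.out hp2 χ h

end Cfsg.Agent.S4578
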