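import Cfsg.Statements.S4580
import Cfsg.Agent.Lib.Block.CentralDef
import Cfsg.Agent.Lib.Char.Gallagher
-- import your own Cfsg.Agent.* helpers here

set_option autoImplicit false
open Cfsg

namespace Cfsg.Agent.S4580

open BT CT GT
open scoped Pointwise ComplexConjugate commutatorElement

/-- Let N be a normal subgroup of the finite group G, M a maximal ideal of the algebraic integers containing 2, and θ a real-valued irreducible character of N of odd degree that extends to G (some irreducible character of G restricts to θ). Then θ has an extension to G lying in the principal 2-block of G. -/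
theorem result {G : Type*} [Group G] [Finite G] (N : Subgroup G) [N.Normal] (M : Ideal Cfsg.AlgInt) (hM : Cfsg.IsPModular 2 M) (θ : Cfsg.IrrCharacter N) (hreal : ∀ n : N, ((θ : N → ℂ) n).im = 0) (hodd : Odd (Cfsg.charDegree (θ : N → ℂ))) (hext : ∃ η : Cfsg.IrrCharacter G, ∀ n : N, (η : G → ℂ) n = (θ : N → ℂ) n) :
    ∃ η : Cfsg.IrrCharacter G, (∀ n : N, (η : G → ℂ) n = (θ : N → ℂ) n) ∧ η ∈ Cfsg.principalBlock M G := by

  classical
  have : Fact (Nat.Prime 2) := ⟨Nat.prime_two⟩
  obtain ⟨η, hη⟩ := hext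
  have hres : res N η.1 = θ.1 := funext hη
  have hres' : res N (irrBar η).1 = θ.1 := by
    funext n
    change conj (η.1 n) = _
    rw [hη n]
    exact Complex.conj_eq_iff_im.2 (hreal n)
  obtain ⟨f, hf, hfη⟩ := exists_lin_smul_of_res_eq hres hres'
  obtain ⟨a, m, hm, hG⟩ := Nat.exists_eq_two_pow_mul_odd (n := Nat.card G) Nat.card_pos.ne'
  obtain ⟨k, hk⟩ := hm
  have hker : N ≤ (f ^ (k + 1)).ker := fun n hn => by
    have := hf hn
    rw [MonoidHom.mem_ker] at this ⊢
    rw [MonoidHom.pow_apply, this, one_pow]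
  have hres2 : res N ((f ^ (k + 1)) • η).1 = θ.1 := by
    rw [res_lin_smul_of_le_ker hker, hres]
  refine ⟨(f ^ (k + 1)) • η, fun n => congrFun hres2 n, ?_⟩
  set ψ := (f ^ (k + 1)) • η with hψ
  have hdeg : charDegree ψ.1 = charDegree θ.1 := by
    rw [← hres2]; rfl
  refine mem_principalBlock_of_inv hM (isPBlock_blockOf ψ) ?_ (mem_blockOf_self hM ψ) fun x hx => ?_
  · have h := factorization_degree_add_defect (p := 2) (mem_blockOf_self hM ψ)
    have h2 := blockDefect_le (p := 2) (blockOf M ψ.1)
    rw [hdeg, Nat.factorization_eq_zero_of_not_dvd (Nat.two_dvd_ne_zero.2 (Nat.odd_iff.1 hodd))] at h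
    omega
  · have hxm : x ^ (2 * k + 1) = 1 := by
      rw [← hk, ← orderOf_dvd_iff_pow_eq_one]
      have h1 : orderOf x ∣ 2 ^ a * m := hG ▸ orderOf_dvd_natCard x
      exact (Nat.Coprime.pow_right a ((Nat.Prime.coprime_iff_not_dvd Nat.prime_two).2 hx).symm).dvd_of_dvd_mul_left h1
    have hfx : (f x : ℂ) ^ (2 * k + 1) = 1 := by
      rw [← Units.val_pow_eq_pow_val, ← map_pow, hxm, map_one, Units.val_one]
    have hinv : η.1 x⁻¹ = f x * η.1 x := by
      rw [η.2.isCharacter.apply_inv, ← lin_smul_apply, hfη]; rfl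
    have hval : ψ.1 x⁻¹ = ψ.1 x := by
      rw [hψ, lin_smul_apply, lin_smul_apply, hinv, map_inv, MonoidHom.pow_apply,
        Units.val_inv_eq_inv_val, Units.val_pow_eq_pow_val, ← mul_assoc]
      congr 1
      have h0 : (f x : ℂ) ≠ 0 := (f x).ne_zero
      field_simp
      rw [← pow_mul]
      linear_combination (-(f x : ℂ)) * hfx
    rw [centralChar, centralChar, ← eq_centralizer_inv rfl, hval, sub_self]
    exact (locIdeal hM).zero_mem

end Cfsg.Agent.S4580
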