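import Cfsg.Statements.S4581
import Cfsg.Agent.Lib.Char.RealOdd

set_option autoImplicit false
open Cfsg

namespace Cfsg.Agent.S4581

/-- Let G be a finite solvable group, P a Sylow 2-subgroup and N its normalizer. Then G and N have the same number of real-valued irreducible characters of odd degree; and every odd-degree irreducible character of G is real-valued exactly when the derived subgroup of P equals the Frattini subgroup of P and P is its own normalizer in G. -/
theorem result {G : Type*} [Group G] [Finite G] [Group.IsSolvable G] (P : Sylow 2 G) :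
    Nat.card {χ : Cfsg.IrrCharacter G // (∀ g : G, ((χ : G → ℂ) g).im = 0) ∧ Odd (Cfsg.charDegree (χ : G → ℂ))} =
      Nat.card {ψ : Cfsg.IrrCharacter (Subgroup.normalizer ((P : Subgroup G) : Set G)) // (∀ g, ((ψ : Subgroup.normalizer ((P : Subgroup G) : Set G) → ℂ) g).im = 0) ∧ Odd (Cfsg.charDegree (ψ : Subgroup.normalizer ((P : Subgroup G) : Set G) → ℂ))} ∧
    ((∀ χ : Cfsg.IrrCharacter G, Odd (Cfsg.charDegree (χ : G → ℂ)) → ∀ g : G, ((χ : G → ℂ) g).im = 0) ↔
      (commutator (P : Subgroup G) = frattini (P : Subgroup G) ∧ Subgroup.normalizer ((P : Subgroup G) : Set G) = (P : Subgroup G))) := by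
  have hS := GT.isSylowIn_sylow P
  have e : ∀ {H : Type _} [Group H] [Finite H] (χ : IrrCharacter H),
      ((∀ g, ((χ : H → ℂ) g).im = 0) ∧ Odd (charDegree (χ : H → ℂ))) ↔ CT.OddAdm False χ :=
    fun χ => by rw [CT.OddAdm, false_or, CT.isReal_iff_im, and_comm]
  refine ⟨?_, ?_⟩
  · rw [Nat.card_congr (Equiv.subtypeEquivRight e), Nat.card_congr (Equiv.subtypeEquivRight e)]
    exact CT.card_real_odd_eq hS
  · rw [← CT.forall_odd_isReal_iff hS]
    simp only [CT.isReal_iff_im]

end Cfsg.Agent.S4581
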