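import Cfsg.Statements.S4582
import Mathlib

set_option autoImplicit false
open Cfsg

namespace Cfsg.Agent.S4582

theorem core {G : Type*} [Group G] [Finite G] (N P : Subgroup G) [hNn : N.Normal]
    (hsup : P ⊔ N = ⊤) (hodd : Odd P.index) {A : Type*} [CommGroup A] (hA : IsPGroup 2 A)
    (ϕ : P →* A) (hP : ∀ x ∈ P, x ^ 2 ∈ N ⊔ commutator G) (hQ : ∀ q : P, (q : G) ∈ N → ϕ q ^ 2 = 1)
    (hN : ∀ (f : N →* A) (n : N), f n = 1) (x : P) : ϕ x ^ 2 = 1 := by
  have : Fintype (Quotient (MulAction.orbitRel (Subgroup.zpowers (x : G)) (G ⧸ P))) :=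
    Fintype.ofFinite _
  have h1 : (MonoidHom.transfer ϕ (x : G)) ^ 2 = 1 := by
    rw [← map_pow, ← MonoidHom.mem_ker]
    refine (sup_le ?_ (Abelianization.commutator_subset_ker _) : N ⊔ commutator G ≤ _) (hP x x.2)
    intro n hn
    exact hN ((MonoidHom.transfer ϕ).comp N.subtype) ⟨n, hn⟩
  have h2 : ∀ (k : ℕ) (g : G) (h : g⁻¹ * (x : G) ^ k * g ∈ P),
      ϕ ⟨_, h⟩ ^ 2 = (ϕ x ^ 2) ^ k := by
    intro k g h
    have hg : g ∈ ((N ⊔ P : Subgroup G) : Set G) := by
      rw [sup_comm, hsup]; trivial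
    rw [Subgroup.normal_mul] at hg
    obtain ⟨n, hn, y, hy, rfl⟩ := hg
    have h3 : ((x : G) ^ k)⁻¹ * (n⁻¹ * (x : G) ^ k * n) ∈ P := by
      refine P.mul_mem (P.inv_mem (P.pow_mem x.2 k)) ?_
      have := P.mul_mem (P.mul_mem hy h) (P.inv_mem hy)
      simpa [mul_assoc] using this
    have h4 : ((x : G) ^ k)⁻¹ * (n⁻¹ * (x : G) ^ k * n) ∈ N := by
      have := N.mul_mem (hNn.conj_mem _ (N.inv_mem hn) ((x : G) ^ k)⁻¹) hn
      simpa [mul_assoc] using this
    have h5 : (⟨_, h⟩ : P) = (⟨y, hy⟩ : P)⁻¹ * (x ^ k * ⟨_, h3⟩) * ⟨y, hy⟩ := by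
      apply Subtype.ext
      simp [mul_assoc]
    rw [h5, map_mul, map_mul, map_inv, mul_comm (ϕ _)⁻¹, inv_mul_cancel_right, map_mul, mul_pow,
      hQ ⟨_, h3⟩ h4, mul_one, map_pow, ← pow_mul, ← pow_mul, mul_comm]
  rw [MonoidHom.transfer_eq_prod_quotient_orbitRel_zpowers_quot, ← Finset.prod_pow] at h1
  simp only [h2] at h1
  rw [Finset.prod_pow_eq_pow_sum, ← Subgroup.index_eq_sum_minimalPeriod P (x : G)] at h1
  have h6 := hA.orderOf_coprime ((Nat.coprime_two_left).mpr hodd) (ϕ x ^ 2)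
  exact orderOf_eq_one_iff.mp (Nat.Coprime.eq_one_of_dvd h6 (orderOf_dvd_of_pow_eq_one h1))


/-- Let N be a normal subgroup of the finite group G, P a Sylow 2-subgroup of G and Q = P ∩ N. Suppose that P/QP' and Q/Q' are elementary abelian (every square of an element of P lies in the subgroup generated by Q and the derived subgroup of P, and every square of an element of Q lies in the derived subgroup of Q), and that the commutator factor group N/N' has odd order. Then P/P' is elementary abelian. -/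
theorem result {G : Type*} [Group G] [Finite G] (N : Subgroup G) [N.Normal] (P : Sylow 2 G)
    (hP : ∀ x ∈ (P : Subgroup G), x ^ 2 ∈ ((P : Subgroup G) ⊓ N) ⊔ ⁅(P : Subgroup G), (P : Subgroup G)⁆)
    (hQ : ∀ x ∈ (P : Subgroup G) ⊓ N, x ^ 2 ∈ ⁅(P : Subgroup G) ⊓ N, (P : Subgroup G) ⊓ N⁆)
    (hodd : Odd (Nat.card (Abelianization N))) :
    ∀ x ∈ (P : Subgroup G), x ^ 2 ∈ ⁅(P : Subgroup G), (P : Subgroup G)⁆ := by
  intro x hx
  have : Fact (Nat.Prime 2) := ⟨Nat.prime_two⟩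
  set H : Subgroup G := (P : Subgroup G) ⊔ N with hH
  have hPH : (P : Subgroup G) ≤ H := le_sup_left
  have hNH : N ≤ H := le_sup_right
  let e := Subgroup.subgroupOfEquivOfLe hPH
  let ϕ : (P : Subgroup G).subgroupOf H →* Abelianization (P : Subgroup G) :=
    Abelianization.of.comp e.toMonoidHom
  have hA : IsPGroup 2 (Abelianization (P : Subgroup G)) := P.isPGroup'.to_quotient _
  have hmem : ∀ y : (P : Subgroup G), Abelianization.of y ^ 2 = 1 ↔
      (y : G) ^ 2 ∈ ⁅(P : Subgroup G), (P : Subgroup G)⁆ := by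
    intro y
    rw [← map_pow, ← MonoidHom.mem_ker, Abelianization.ker_of, ← Subgroup.map_subtype_commutator]
    constructor
    · intro h; exact ⟨_, h, rfl⟩
    · rintro ⟨z, hz, h⟩
      have : z = y ^ 2 := Subtype.ext h
      exact this ▸ hz
  have key := core (N.subgroupOf H) ((P : Subgroup G).subgroupOf H) ?_ ?_ hA ϕ ?_ ?_ ?_
    ⟨⟨x, hPH hx⟩, hx⟩
  · exact (hmem ⟨x, hx⟩).mp key
  · rw [← Subgroup.subgroupOf_sup hPH hNH, Subgroup.subgroupOf_eq_top]
  · have h1 : ¬ 2 ∣ (P : Subgroup G).index := P.not_dvd_index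
    rw [← Nat.not_even_iff_odd, even_iff_two_dvd]
    exact fun h => h1 (h.trans (Subgroup.relIndex_dvd_index_of_le hPH))
  · intro y hy
    have h1 := hP y hy
    have h2 : ((P : Subgroup G) ⊓ N) ⊔ ⁅(P : Subgroup G), (P : Subgroup G)⁆ ≤
        (N.subgroupOf H ⊔ commutator H).map H.subtype := by
      rw [Subgroup.map_sup, Subgroup.map_subgroupOf_eq_of_le hNH, Subgroup.map_subtype_commutator]
      exact sup_le_sup inf_le_right (Subgroup.commutator_mono hPH hPH)
    obtain ⟨z, hz, h⟩ := h2 h1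
    have : z = y ^ 2 := Subtype.ext h
    exact this ▸ hz
  · intro q hq
    refine (hmem (e q)).mpr ?_
    exact Subgroup.commutator_mono inf_le_left inf_le_left (hQ q ⟨q.2, hq⟩)
  · intro f n
    let f' := Abelianization.lift (f.comp (Subgroup.subgroupOfEquivOfLe hNH).symm.toMonoidHom)
    have h1 : f n = f' (Abelianization.of (Subgroup.subgroupOfEquivOfLe hNH n)) := by
      simp [f']
    have h2 : f n ^ Nat.card (Abelianization N) = 1 := by
      rw [h1, ← map_pow, pow_card_eq_one', map_one]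
    have h6 := hA.orderOf_coprime ((Nat.coprime_two_left).mpr hodd) (f n)
    exact orderOf_eq_one_iff.mp (Nat.Coprime.eq_one_of_dvd h6 (orderOf_dvd_of_pow_eq_one h2))

end Cfsg.Agent.S4582
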