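import Cfsg.Statements.S4583
import Cfsg.Agent.Lib.Block.CoverPrin
import Cfsg.Agent.Lib.Grp.SchurZ
-- import your own Cfsg.Agent.* helpers here

set_option autoImplicit false
open Cfsg

namespace Cfsg.Agent.S4583

open BT CT GT
open scoped Pointwise ComplexConjugate commutatorElement

/-- Let N be a normal subgroup of the finite group G, p a prime, M a maximal ideal of the algebraic integers containing p, and P a Sylow p-subgroup of G. Let θ be an irreducible character of N of degree prime to p lying in the principal p-block of N, and suppose θ extends to the subgroup NP (some irreducible character of NP restricts to θ). Then some irreducible character χ of G of degree prime to p in the principal p-block of G lies over θ (θ is a constituent of the restriction of χ to N). -/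
theorem result {G : Type*} [Group G] [Finite G] (N : Subgroup G) [N.Normal] (p : ℕ) [Fact p.Prime] (M : Ideal Cfsg.AlgInt) (hM : Cfsg.IsPModular p M) (P : Sylow p G)
    (θ : Cfsg.IrrCharacter N) (hθ : θ ∈ Cfsg.principalBlock M N) (hdeg : ¬ p ∣ Cfsg.charDegree (θ : N → ℂ))
    (hext : ∃ η : Cfsg.IrrCharacter ↥(N ⊔ (P : Subgroup G)), ∀ n : N, (η : ↥(N ⊔ (P : Subgroup G)) → ℂ) (Subgroup.inclusion le_sup_left n) = (θ : N → ℂ) n) :
    ∃ χ : Cfsg.IrrCharacter G, χ ∈ Cfsg.principalBlock M G ∧ ¬ p ∣ Cfsg.charDegree (χ : G → ℂ) ∧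
      haveI := Fintype.ofFinite N; Cfsg.classInner (fun n : N => (χ : G → ℂ) n) (θ : N → ℂ) ≠ 0 := by
  obtain ⟨η, hη⟩ := hext
  have hp : p.Prime := Fact.out
  let L : Subgroup G := N ⊔ (P : Subgroup G)
  have hηθ : resLe (le_sup_left : N ≤ L) η.1 = θ.1 := funext hη
  have hlη : LiesOverLe (le_sup_left : N ≤ L) η.1 θ.1 := liesOverLe_of_resLe_eq hηθ
  obtain ⟨k, hk⟩ : ∃ k, N.relIndex L = p ^ k := by
    have h1 : N.relIndex L = N.relIndex (P : Subgroup G) := Subgroup.relIndex_sup_left _ _
    obtain ⟨m, hm⟩ := IsPGroup.iff_card.1 P.isPGroup'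
    have h2 : N.relIndex (P : Subgroup G) ∣ p ^ m := hm ▸ Subgroup.relIndex_dvd_card _ _
    obtain ⟨k, -, hk⟩ := (Nat.dvd_prime_pow hp).1 h2
    exact ⟨k, h1.trans hk⟩
  have hηB : η ∈ principalBlock M L :=
    mem_principal_of_liesOverLe_of_relIndex_eq_pow hM Subgroup.le_normalizer_of_normal hk hθ hlη
  let H : Subgroup G := Subgroup.normalizer (L : Set G)
  have hLH : L ≤ H := Subgroup.le_normalizer
  have : (L.subgroupOf H).Normal := Subgroup.normal_in_normalizer
  obtain ⟨ξ, hξ, hl⟩ := exists_principal_liesOverLe hM hLH hηB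
  have hPL : (P : Subgroup G) ≤ L := le_sup_right
  have hξd : ¬ p ∣ charDegree ξ.1 := by
    obtain ⟨m, hm, hd⟩ := hl.exists_degree_eq_mul
    rw [hd, hp.dvd_mul, not_or]
    refine ⟨fun h => (isSylowIn_sylow_of_le P (hPL.trans hLH)).not_dvd_relIndex_of_le hPL
      (h.trans hm), ?_⟩
    rwa [← charDegree_resLe (le_sup_left : N ≤ L), hηθ]
  have hC : Subgroup.centralizer ((P : Subgroup G) : Set G) ≤ H := by
    intro c hc
    rw [← conj_smul_eq_iff_mem_normalizer, Subgroup.smul_sup, conj_smul_of_normal,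
      conj_smul_eq_of_mem_normalizer (Subgroup.centralizer_le_normalizer _ hc)]
  obtain ⟨χ, hχ, hd, hm⟩ := exists_principal_not_dvd_liesOver hM (isSylowIn_sylow P)
    (hPL.trans hLH) hC hξ hξd
  refine ⟨χ, hχ, hd, ?_⟩
  rw [@classInner_eq_ip _ _ (Fintype.ofFinite N)]
  have h1 : LiesOver H χ.1 ξ.1 :=
    (liesOver_iff_mult_pos (irr_isCharacter χ) (irr_isCharacter ξ)).2
      (Nat.pos_of_ne_zero fun h => hm (h ▸ dvd_zero p))
  exact LiesOver.trans_le (le_sup_left.trans hLH) (irr_isCharacter χ) (irr_isCharacter θ) h1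
    (LiesOverLe.trans (irr_isCharacter ξ) (irr_isCharacter θ) hl hlη)

end Cfsg.Agent.S4583
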