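import Cfsg.Statements.S4584
import Cfsg.Agent.Lib.Grp.CyclicExt

set_option autoImplicit false
open Cfsg

namespace Cfsg.Agent.S4584

theorem comm_of_index_dvd {H : Type*} [Group H] (p : ℕ) [Fact p.Prime] (B : Subgroup H)
    (hB : B ≤ Subgroup.center H) (hidx : B.index ∣ p) : IsMulCommutative H := by
  have : IsCyclic (H ⧸ Subgroup.center H) :=
    isCyclic_of_card_dvd_prime (p := p) ((Subgroup.index_dvd_of_le hB).trans hidx)
  exact isMulCommutative_of_isCyclic_quotient_center_self H

theorem pow_lt_card {P : Type*} [Group P] [Finite P] (p : ℕ) [Fact p.Prime] (hP : IsPGroup p P)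
    {A B : Subgroup P} (h : A < B) {k : ℕ} (hk : p ^ k ∣ Nat.card A) : p ^ (k + 1) ∣ Nat.card B := by
  have hp : p.Prime := Fact.out
  obtain ⟨a, ha⟩ := (hP.to_subgroup A).exists_card_eq
  obtain ⟨b, hb⟩ := (hP.to_subgroup B).exists_card_eq
  have h1 : Nat.card A < Nat.card B := by
    by_contra h2
    exact h.ne (Subgroup.eq_of_le_of_card_ge h.le (not_lt.mp h2))
  rw [ha, hb, Nat.pow_lt_pow_iff_right hp.one_lt] at h1
  rw [ha, Nat.pow_dvd_pow_iff_le_right hp.one_lt] at hk
  rw [hb, Nat.pow_dvd_pow_iff_le_right hp.one_lt]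
  omega

theorem center_lt_sup {P : Type*} [Group P] {x : P} (hx : x ∉ Subgroup.center P) :
    Subgroup.center P < Subgroup.center P ⊔ Subgroup.zpowers x :=
  lt_of_le_of_ne le_sup_left fun h => hx (h ▸ Subgroup.mem_sup_right (Subgroup.mem_zpowers x))

theorem sup_le_centralizer {P : Type*} [Group P] (x : P) :
    Subgroup.center P ⊔ Subgroup.zpowers x ≤ Subgroup.centralizer {x} :=
  sup_le (Subgroup.center_le_centralizer _)
    (Subgroup.zpowers_le.mpr (Subgroup.mem_centralizer_singleton_iff.mpr rfl))

theorem card_mul_card {P : Type*} [Group P] [Finite P] (p : ℕ) [Fact p.Prime]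
    (hP : Nat.card P = p ^ 4) (x : P) (hx : x ∉ Subgroup.center P)
    (hi : (Subgroup.centralizer {x}).index = p) :
    Nat.card (Subgroup.center P) * Nat.card (commutator P) = p ^ 3 := by
  have hp : p.Prime := Fact.out
  have hPp : IsPGroup p P := IsPGroup.of_card hP
  set A := Subgroup.centralizer ({x} : Set P) with hA
  have hcA : Nat.card A = p ^ 3 := by
    have := A.card_mul_index
    rw [hi, hP, pow_succ] at this
    exact Nat.eq_of_mul_eq_mul_right hp.pos this
  have : A.Normal := by
    apply Subgroup.normal_of_index_eq_minFac_card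
    rw [hi, hP, hp.pow_minFac (by norm_num)]
  have h1 : p ^ 1 ∣ Nat.card (Subgroup.center P) := by
    obtain ⟨k, hk, h⟩ := IsPGroup.card_center_eq_prime_pow hP (by norm_num)
    rw [h]; exact pow_dvd_pow p hk
  have h2 := pow_lt_card p hPp (center_lt_sup hx) h1
  have hle := sup_le_centralizer x
  have hcomm : IsMulCommutative A := by
    apply comm_of_index_dvd p ((Subgroup.center P ⊔ Subgroup.zpowers x).subgroupOf A)
    · intro b hb
      rw [Subgroup.mem_center_iff]
      intro a
      have : Subgroup.center P ⊔ Subgroup.zpowers x ≤ Subgroup.centralizer {(a : P)} := by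
        refine sup_le (Subgroup.center_le_centralizer _) (Subgroup.zpowers_le.mpr ?_)
        rw [Subgroup.mem_centralizer_singleton_iff]
        exact (Subgroup.mem_centralizer_singleton_iff.mp a.2).symm
      exact Subtype.ext (Subgroup.mem_centralizer_singleton_iff.mp (this hb)).symm
    · have h3 := ((Subgroup.center P ⊔ Subgroup.zpowers x).subgroupOf A).card_mul_index
      rw [Nat.card_congr (Subgroup.subgroupOfEquivOfLe hle).toEquiv, hcA] at h3
      obtain ⟨c, hc⟩ := h2
      rw [hc, mul_assoc, show p ^ 3 = p ^ (1 + 1) * p by ring] at h3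
      exact Dvd.intro_left c (Nat.eq_of_mul_eq_mul_left (pow_pos hp.pos _) h3)
  have hcomm' : ∀ a ∈ A, ∀ b ∈ A, a * b = b * a := fun a ha b hb =>
    congrArg Subtype.val (hcomm.is_comm.comm ⟨a, ha⟩ ⟨b, hb⟩)
  have hex : ∃ y : P, y ∉ A := by
    by_contra h
    push Not at h
    have : A = ⊤ := eq_top_iff.mpr fun x _ => h x
    rw [this, Subgroup.index_top] at hi
    exact hp.one_lt.ne hi
  obtain ⟨y, hy⟩ := hex
  have hsup := GT.sup_zpowers_eq_top_of_index_prime (hi ▸ hp) hy
  have h4 := GT.card_eq_card_centralizer_mul_card_commutator A hcomm' y hsup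
  rw [GT.inf_centralizer_eq_inf_center_of_sup_zpowers A hcomm' y hsup,
    inf_eq_right.mpr (Subgroup.center_le_centralizer _), hcA] at h4
  exact h4.symm

theorem index_centralizer_ne_one {P : Type*} [Group P] {x : P} (hx : x ∉ Subgroup.center P) :
    (Subgroup.centralizer {x}).index ≠ 1 := by
  intro h
  rw [Subgroup.index_eq_one] at h
  apply hx
  rw [Subgroup.mem_center_iff]
  intro g
  exact Subgroup.mem_centralizer_singleton_iff.mp (h ▸ Subgroup.mem_top g)


/-- Let p be a prime and P a group of order p^4. Then the derived subgroup P' has order p if and only if the centre Z(P) has index p^2 in P. -/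
theorem result {P : Type*} [Group P] [Finite P] (p : ℕ) [Fact p.Prime] (hP : Nat.card P = p ^ 4) :
    Nat.card (commutator P) = p ↔ (Subgroup.center P).index = p ^ 2 := by
  have hp : p.Prime := Fact.out
  have hPp : IsPGroup p P := IsPGroup.of_card hP
  have hZ := (Subgroup.center P).card_mul_index
  constructor
  · intro h
    have hex : ∃ x : P, x ∉ Subgroup.center P := by
      by_contra h'
      push Not at h'
      have : Subgroup.center P = ⊤ := eq_top_iff.mpr fun x _ => h' x
      rw [← commutator_eq_bot_iff_center_eq_top] at this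
      rw [this, Subgroup.card_bot] at h
      exact hp.one_lt.ne h
    obtain ⟨x, hx⟩ := hex
    have hi : (Subgroup.centralizer {x}).index = p := by
      obtain ⟨k, hk⟩ := hPp.index (Subgroup.centralizer {x})
      have h1 : (Subgroup.centralizer {x}).index ≤ p := by
        rw [← h]
        have f : commutatorSet P ↪ commutator P :=
          ⟨fun a => ⟨a.1, by rw [commutator_eq_closure]; exact Subgroup.subset_closure a.2⟩,
            fun a b hab => Subtype.ext (Subtype.mk.inj hab)⟩
        exact Nat.card_le_card_of_injective _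
          ((Subgroup.quotientCentralizerEmbedding x).trans f).injective
      have h2 := index_centralizer_ne_one hx
      rw [hk] at h1 h2 ⊢
      have h3 : k ≤ 1 := by
        rw [← Nat.pow_le_pow_iff_right hp.one_lt, pow_one]; exact h1
      have h4 : k ≠ 0 := by rintro rfl; exact h2 (pow_zero p)
      rw [show k = 1 by omega, pow_one]
    have h5 := card_mul_card p hP x hx hi
    rw [h, pow_succ] at h5
    rw [Nat.eq_of_mul_eq_mul_right hp.pos h5, hP, show p ^ 4 = p ^ 2 * p ^ 2 by ring] at hZ
    exact Nat.eq_of_mul_eq_mul_left (pow_pos hp.pos _) hZ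
  · intro h
    rw [h, hP, show p ^ 4 = p ^ 2 * p ^ 2 by ring] at hZ
    have hZ' := Nat.eq_of_mul_eq_mul_right (pow_pos hp.pos _) hZ
    have hex : ∃ x : P, x ∉ Subgroup.center P := by
      by_contra h'
      push Not at h'
      have : Subgroup.center P = ⊤ := eq_top_iff.mpr fun x _ => h' x
      rw [this, Subgroup.index_top] at h
      exact (Nat.one_lt_pow (by norm_num) hp.one_lt).ne h
    obtain ⟨x, hx⟩ := hex
    have hi : (Subgroup.centralizer {x}).index = p := by
      have h2 := pow_lt_card p hPp (center_lt_sup hx) (k := 2) (by rw [hZ'])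
      obtain ⟨c, hc⟩ := h2.trans (Subgroup.card_dvd_of_le (sup_le_centralizer x))
      have h3 := (Subgroup.centralizer {x}).card_mul_index
      rw [hc, hP, mul_assoc, show p ^ 4 = p ^ (2 + 1) * p by ring] at h3
      have h4 := Dvd.intro_left c (Nat.eq_of_mul_eq_mul_left (pow_pos hp.pos _) h3)
      exact ((Nat.dvd_prime hp).mp h4).resolve_left (index_centralizer_ne_one hx)
    have h5 := card_mul_card p hP x hx hi
    rw [hZ', pow_succ p 2] at h5
    exact Nat.eq_of_mul_eq_mul_left (pow_pos hp.pos _) h5

end Cfsg.Agent.S4584
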