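import Cfsg.Statements.S4585
import Cfsg.Agent.S4584

set_option autoImplicit false
open Cfsg

namespace Cfsg.Agent.S4585

theorem lcs_lt {P : Type*} [Group P] [Group.IsNilpotent P] (n : ℕ)
    (h : (⊤ : Subgroup P).lowerCentralSeries n ≠ ⊥) :
    (⊤ : Subgroup P).lowerCentralSeries (n + 1) < (⊤ : Subgroup P).lowerCentralSeries n := by
  refine lt_of_le_of_ne (Subgroup.lowerCentralSeries_antitone _ (Nat.le_succ n)) fun heq => h ?_
  have key : ∀ k, (⊤ : Subgroup P).lowerCentralSeries (n + k) =
      (⊤ : Subgroup P).lowerCentralSeries n := by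
    intro k
    induction k with
    | zero => rfl
    | succ k ih => rw [← add_assoc, Subgroup.lowerCentralSeries_succ, ih,
        ← Subgroup.lowerCentralSeries_succ, heq]
  rw [← key (Group.nilpotencyClass P), Subgroup.lowerCentralSeries_eq_bot_iff_nilpotencyClass_le]
  omega

/-- In a nilpotent group with cyclic abelianization the commutator subgroup is trivial. -/
theorem commutator_eq_bot_of_isCyclic {P : Type*} [Group P] [Group.IsNilpotent P]
    [IsCyclic (P ⧸ commutator P)] : commutator P = ⊥ := by
  by_contra h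
  have h1 := lcs_lt (P := P) 1 h
  set K := (⊤ : Subgroup P).lowerCentralSeries (1 + 1) with hK
  have hle : K ≤ commutator P := h1.le
  let f : P ⧸ K →* P ⧸ commutator P := QuotientGroup.map K (commutator P) (MonoidHom.id P) hle
  have hf : f.ker ≤ Subgroup.center (P ⧸ K) := by
    intro x hx
    obtain ⟨x, rfl⟩ := QuotientGroup.mk_surjective x
    have hx' : x ∈ commutator P := by
      rw [MonoidHom.mem_ker] at hx
      exact (QuotientGroup.eq_one_iff x).mp hx
    rw [Subgroup.mem_center_iff]
    intro g
    obtain ⟨g, rfl⟩ := QuotientGroup.mk_surjective g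
    symm
    rw [← commutatorElement_eq_one_iff_mul_comm, ← QuotientGroup.mk'_apply,
      ← QuotientGroup.mk'_apply, ← map_commutatorElement, QuotientGroup.mk'_apply,
      QuotientGroup.eq_one_iff]
    exact Subgroup.commutator_mem_commutator hx' (Subgroup.mem_top g)
  have h2 := f.isMulCommutative_of_isCyclic_of_ker_le_center hf
  rw [Subgroup.Normal.quotient_commutative_iff_commutator_le] at h2
  exact h1.not_ge h2


/-- Let p be a prime and P a group of order p^4. Then P' has index p^2 in P if and only if P has maximal nilpotency class, that is, nilpotency class exactly 3. -/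
theorem result {P : Type*} [Group P] [Finite P] (p : ℕ) [Fact p.Prime] (hP : Nat.card P = p ^ 4) :
    (commutator P).index = p ^ 2 ↔ Group.nilpotencyClass P = 3 := by
  have hp : p.Prime := Fact.out
  have hPp : IsPGroup p P := IsPGroup.of_card hP
  have hnil : Group.IsNilpotent P := hPp.isNilpotent
  have hC := (commutator P).card_mul_index
  have hlt := fun {A B : Subgroup P} (h : A < B) {k : ℕ} (hk : p ^ k ∣ Nat.card A) =>
    S4584.pow_lt_card p hPp h hk
  constructor
  · intro h
    rw [h, hP, show p ^ 4 = p ^ 2 * p ^ 2 by ring] at hC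
    have hC' := Nat.eq_of_mul_eq_mul_right (pow_pos hp.pos _) hC
    apply le_antisymm
    · rw [← Subgroup.lowerCentralSeries_eq_bot_iff_nilpotencyClass_le]
      by_contra h3
      have h2 : (⊤ : Subgroup P).lowerCentralSeries 2 ≠ ⊥ := fun h2 =>
        h3 (eq_bot_iff.mpr (h2 ▸ Subgroup.lowerCentralSeries_antitone _ (by norm_num)))
      have h1 : (⊤ : Subgroup P).lowerCentralSeries 1 ≠ ⊥ := fun h1 =>
        h2 (eq_bot_iff.mpr (h1 ▸ Subgroup.lowerCentralSeries_antitone _ (by norm_num)))
      have := hlt (lcs_lt 1 h1) (hlt (lcs_lt 2 h2) (hlt (bot_lt_iff_ne_bot.mpr h3) (k := 0)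
        (by simp)))
      rw [Subgroup.top_lowerCentralSeries_one, hC', Nat.pow_dvd_pow_iff_le_right hp.one_lt] at this
      omega
    · by_contra h3
      have h2 : Group.nilpotencyClass P ≤ 2 := by omega
      rw [← Subgroup.lowerCentralSeries_eq_bot_iff_nilpotencyClass_le] at h2
      have h4 : commutator P ≤ Subgroup.center P := by
        rw [← Subgroup.commutator_top_right_eq_bot_iff_le_center]
        exact h2
      have h5 : (Subgroup.center P).index ∣ p ^ 2 := h ▸ Subgroup.index_dvd_of_le h4
      obtain ⟨k, hk, hk'⟩ := (Nat.dvd_prime_pow hp).mp h5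
      have h6 : k ≠ 2 := by
        rintro rfl
        have := (S4584.result p hP).mpr hk'
        rw [hC'] at this
        have := Nat.pow_right_injective hp.two_le (this.trans (pow_one p).symm)
        omega
      have h7 : (Subgroup.center P).index ∣ p := by
        rw [hk']
        conv_rhs => rw [← pow_one p]
        exact pow_dvd_pow p (by omega)
      have h8 := S4584.comm_of_index_dvd p _ le_rfl h7
      rw [← commutator_eq_bot_iff] at h8
      rw [h8, Subgroup.card_bot] at hC'
      exact (Nat.one_lt_pow (by norm_num) hp.one_lt).ne hC'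
  · intro h
    have h2 : (⊤ : Subgroup P).lowerCentralSeries 2 ≠ ⊥ := by
      rw [Ne, Subgroup.lowerCentralSeries_eq_bot_iff_nilpotencyClass_le]; omega
    have h1 : (⊤ : Subgroup P).lowerCentralSeries 1 ≠ ⊥ := fun h1 =>
      h2 (eq_bot_iff.mpr (h1 ▸ Subgroup.lowerCentralSeries_antitone _ (by norm_num)))
    have h3 := hlt (lcs_lt 1 h1) (hlt (bot_lt_iff_ne_bot.mpr h2) (k := 0) (by simp))
    rw [Subgroup.top_lowerCentralSeries_one] at h3 h1
    obtain ⟨c, hc⟩ := h3
    rw [hc, hP, mul_assoc, show p ^ 4 = p ^ (0 + 1 + 1) * p ^ 2 by ring] at hC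
    have h5 := Dvd.intro_left c (Nat.eq_of_mul_eq_mul_left (pow_pos hp.pos _) hC)
    obtain ⟨k, hk, hk'⟩ := (Nat.dvd_prime_pow hp).mp h5
    by_contra h6
    have h7 : k ≠ 2 := by rintro rfl; exact h6 hk'
    have h8 : (commutator P).index ∣ p := by
      rw [hk']
      conv_rhs => rw [← pow_one p]
      exact pow_dvd_pow p (by omega)
    have : IsCyclic (P ⧸ commutator P) := isCyclic_of_card_dvd_prime (p := p) h8
    exact h1 commutator_eq_bot_of_isCyclic

end Cfsg.Agent.S4585
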