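import Cfsg.Statements.S4586
import Cfsg.Agent.Lib.Grp.CyclicExt

set_option autoImplicit false
open Cfsg

namespace Cfsg.Agent.S4586


/-- Let p be a prime, P a finite p-group and N a normal subgroup of P of index p. For x ∈ P write c(x) for the number of elements n of N whose commutator x n x⁻¹ n⁻¹ lies in the derived subgroup N' (so c(x)/#N' is the order of the centralizer of x acting on N/N'). Then [P : P'] = p² if and only if c(x) = p·#N' for every x ∈ P outside N, and also if and only if c(x) = p·#N' for some x ∈ P outside N. -/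
theorem result {P : Type*} [Group P] [Finite P] (p : ℕ) [Fact p.Prime] (hP : IsPGroup p P) (N : Subgroup P) [N.Normal] (hN : N.index = p) :
    ((commutator P).index = p ^ 2 ↔ ∀ x : P, x ∉ N →
        Nat.card {n : N // x * n * x⁻¹ * (n : P)⁻¹ ∈ (commutator N).map N.subtype} = p * Nat.card (commutator N)) ∧
    ((commutator P).index = p ^ 2 ↔ ∃ x : P, x ∉ N ∧
        Nat.card {n : N // x * n * x⁻¹ * (n : P)⁻¹ ∈ (commutator N).map N.subtype} = p * Nat.card (commutator N)) := by
  have hp : p.Prime := Fact.out
  have hc : Nat.card (commutator N) = Nat.card ↥⁅N, N⁆ := by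
    rw [← Subgroup.map_subtype_commutator, Subgroup.card_map_of_injective N.subtype_injective]
  rw [Subgroup.map_subtype_commutator, hc]
  have key : ∀ x : P, x ∉ N → ((commutator P).index = p ^ 2 ↔
      Nat.card {n : N // x * n * x⁻¹ * (n : P)⁻¹ ∈ ⁅N, N⁆} = p * Nat.card ↥⁅N, N⁆) := by
    intro x hx
    have h1 := GT.card_mul_card_commutator_of_sup_zpowers N x
      (GT.sup_zpowers_eq_top_of_index_prime (hN ▸ hp) hx)
    have h2 := (commutator P).card_mul_index
    have h3 := N.card_mul_index
    rw [hN, ← h2] at h3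
    have h4 : 0 < Nat.card (commutator P) := Nat.card_pos
    have h5 : 0 < Nat.card ↥⁅N, N⁆ := Nat.card_pos
    generalize Nat.card {n : N // x * n * x⁻¹ * (n : P)⁻¹ ∈ ⁅N, N⁆} = c at *
    generalize Nat.card (commutator P) = d at *
    generalize Nat.card ↥⁅N, N⁆ = e at *
    generalize (commutator P).index = i at *
    generalize Nat.card N = n at *
    have h6 : i * e = c * p := by
      apply Nat.eq_of_mul_eq_mul_left h4
      calc d * (i * e) = (n * p) * e := by rw [h3]; ring
        _ = (n * e) * p := by ring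
        _ = _ := by rw [h1]; ring
    constructor
    · rintro rfl
      apply Nat.eq_of_mul_eq_mul_right hp.pos
      rw [← h6]; ring
    · rintro rfl
      apply Nat.eq_of_mul_eq_mul_right h5
      rw [h6]; ring
  have hex : ∃ x : P, x ∉ N := by
    by_contra h
    push Not at h
    have : N = ⊤ := eq_top_iff.mpr fun x _ => h x
    rw [this, Subgroup.index_top] at hN
    exact hp.one_lt.ne hN
  obtain ⟨x₀, hx₀⟩ := hex
  exact ⟨⟨fun h x hx => (key x hx).mp h, fun h => (key x₀ hx₀).mpr (h x₀ hx₀)⟩,
    ⟨fun h => ⟨x₀, hx₀, (key x₀ hx₀).mp h⟩, fun ⟨x, hx, h⟩ => (key x hx).mpr h⟩⟩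

end Cfsg.Agent.S4586
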