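import Cfsg.Statements.S4587
import Cfsg.Agent.Lib.Char.Tate
import Cfsg.Agent.Lib.Grp.CyclicExt
import Cfsg.Agent.Lib.Grp.Frob

set_option autoImplicit false
open Cfsg

namespace Cfsg.Agent.S4587

open CT GT Subgroup MulAction
open scoped Pointwise commutatorElement

theorem index_commutator_le {R : Type*} [Group R] [Finite R] (x : R) :
    (commutator R).index ≤ Nat.card (centralizer ({x} : Set R)) := by
  classical
  have h1 := sum_irr_mul_conj x x
  rw [if_pos (IsConj.refl x)] at h1
  simp only [Complex.mul_conj] at h1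
  have h2 : ∑ χ : IrrCharacter R, Complex.normSq (χ.1 x) =
      (Nat.card (centralizer ({x} : Set R)) : ℝ) := by exact_mod_cast h1
  have h3 : ((commutator R).index : ℝ) =
      ∑ χ : IrrCharacter R, if charDegree χ.1 = 1 then (1 : ℝ) else 0 := by
    rw [Finset.sum_boole, ← card_linear_eq_index_commutator, Nat.card_eq_fintype_card,
      Fintype.card_subtype]
  have h4 : ((commutator R).index : ℝ) ≤ (Nat.card (centralizer ({x} : Set R)) : ℝ) := by
    rw [h3, ← h2]
    refine Finset.sum_le_sum fun χ _ => ?_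
    split_ifs with h
    · rw [Complex.normSq_eq_norm_sq, (irr_isCharacter χ).norm_eq_one_of_degree_one h]; simp
    · exact Complex.normSq_nonneg _
  exact_mod_cast h4

theorem index_dvd_of_sup {R : Type*} [Group R] [Finite R] {p : ℕ} [hp : Fact p.Prime]
    (hR : IsPGroup p R) (K : Subgroup R) [K.Normal] (h : (K ⊔ commutator R).index ∣ p) :
    K.index ∣ p := by
  haveI : Group.IsNilpotent (R ⧸ K) := (hR.to_quotient K).isNilpotent
  have h1 : (commutator (R ⧸ K)).index ∣ p := by
    have : commutator (R ⧸ K) = (commutator R).map (QuotientGroup.mk' K) := by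
      rw [_root_.commutator_def, _root_.commutator_def, map_commutator, ← MonoidHom.range_eq_map,
        MonoidHom.range_eq_top.2 (QuotientGroup.mk'_surjective K)]
    rwa [this, index_map_mk', sup_comm]
  haveI : IsCyclic ((R ⧸ K) ⧸ commutator (R ⧸ K)) := isCyclic_of_card_dvd_prime h1
  haveI : IsCyclic (R ⧸ K) := isCyclic_of_isCyclic_quotient_commutator
  have h2 : commutator R ≤ K := by
    rw [_root_.commutator_def, Subgroup.commutator_le]
    intro a _ b _
    rw [← QuotientGroup.eq_one_iff, ← QuotientGroup.mk'_apply, map_commutatorElement,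
      commutatorElement_eq_one_iff_mul_comm]
    exact isMulCommutative_iff_forall'.1 IsCyclic.isMulCommutative _ _
  rwa [sup_eq_left.2 h2] at h

theorem wreath {R : Type*} [Group R] [Finite R] {p : ℕ} [hp : Fact p.Prime]
    (hR : IsPGroup p R) (Q S T : Subgroup R) [Q.Normal] (hQ : Q.index = p)
    (hR' : (commutator R).index = p ^ 2) (hST : S ⊔ T = Q) (hd : Disjoint S T)
    (hT : Q ≤ normalizer (T : Set R)) (h : ∀ u ∉ Q, ∀ a ∈ S, u⁻¹ * a * u ∈ T) :
    Nat.card S ∣ p := by
  classical
  have hSQ : S ≤ Q := hST ▸ le_sup_left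
  have hTQ : T ≤ Q := hST ▸ le_sup_right
  haveI : (T.subgroupOf Q).Normal := (normal_subgroupOf_iff_le_normalizer hTQ).2 hT
  have htr : ∀ l : Q →* ℂˣ, T.subgroupOf Q ≤ l.ker → ∀ a (ha : a ∈ S),
      MonoidHom.transfer l a = l ⟨a, hSQ ha⟩ := by
    intro l hl a ha
    let τ : Q.LeftTransversal := default
    rw [MonoidHom.transfer_def l τ, leftTransversals.diff]
    rw [Finset.prod_eq_single (1 : R ⧸ Q)]
    · have h1 : (τ.2.leftQuotientEquiv (1 : R ⧸ Q) : R) ∈ Q := by
        rw [← QuotientGroup.eq_one_iff]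
        exact τ.2.quotientGroupMk_leftQuotientEquiv 1
      have h2 : (⟨_, h1⟩ : Q)⁻¹ * ⟨a, hSQ ha⟩ * ⟨_, h1⟩ =
          ⟨(τ.2.leftQuotientEquiv (1 : R ⧸ Q) : R)⁻¹ * (a • τ).2.leftQuotientEquiv 1,
            QuotientGroup.leftRel_apply.mp <| Quotient.exact'
              ((τ.2.leftQuotientEquiv.symm_apply_apply 1).trans
                ((a • τ).2.leftQuotientEquiv.symm_apply_apply 1).symm)⟩ := by
        apply Subtype.ext
        have h3 : a⁻¹ • (1 : R ⧸ Q) = 1 := by
          rw [← QuotientGroup.mk_one, Quotient.smul_mk, QuotientGroup.mk_one,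
            QuotientGroup.eq_one_iff]
          simpa using hSQ ha
        simp only [Subgroup.coe_mul, InvMemClass.coe_inv, smul_apply_eq_smul_apply_inv_smul, h3,
          smul_eq_mul, mul_assoc]
      rw [← h2, map_mul, map_mul, map_inv, mul_comm, ← mul_assoc, mul_inv_cancel, one_mul]
    · intro q _ hq
      apply hl
      rw [mem_subgroupOf]
      have h1 : (τ.2.leftQuotientEquiv q : R) ∉ Q := by
        rw [← QuotientGroup.eq_one_iff]
        exact fun h => hq ((τ.2.quotientGroupMk_leftQuotientEquiv q).symm.trans h)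
      have h3 : a⁻¹ • q = q := by
        obtain ⟨g, rfl⟩ := QuotientGroup.mk_surjective q
        rw [Quotient.smul_mk, smul_eq_mul, QuotientGroup.mk_mul,
          (QuotientGroup.eq_one_iff _).2 (Q.inv_mem (hSQ ha)), one_mul]
      simp only [smul_apply_eq_smul_apply_inv_smul, h3, smul_eq_mul, ← mul_assoc]
      exact h _ h1 a ha
    · intro h1
      exact absurd (@Finset.mem_univ _ Q.fintypeQuotientOfFiniteIndex _) h1
  have hcQ : commutator R ≤ Q := GT.commutator_le_of_index_prime (hQ ▸ hp.out)
  have hW : commutator Q ≤ (commutator R).subgroupOf Q := by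
    rw [_root_.commutator_def, Subgroup.commutator_le]
    exact fun a _ b _ => Subgroup.commutator_mem_commutator (mem_top _) (mem_top _)
  have hWi : ((commutator R).subgroupOf Q).index = p := by
    have := relIndex_mul_index hcQ
    rw [hQ, hR', pow_two] at this
    exact Nat.eq_of_mul_eq_mul_right hp.out.pos this
  let f : {l : Q →* ℂˣ // T.subgroupOf Q ⊔ commutator Q ≤ l.ker} →
      {l : Q →* ℂˣ // (commutator R).subgroupOf Q ≤ l.ker} := fun l =>
    ⟨(MonoidHom.transfer l.1).comp Q.subtype, fun x hx =>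
      mem_commutator_iff_forall_units_hom.1 hx (MonoidHom.transfer l.1)⟩
  have hf : Function.Injective f := by
    intro l m hlm
    apply Subtype.ext
    ext1 x
    have hx : (x : R) ∈ S ⊔ T := hST ▸ x.2
    obtain ⟨a, ha, t, ht, hat⟩ := (mem_sup_of_le_normalizer_right (hSQ.trans hT)).1 hx
    have h1 : x = ⟨a, hSQ ha⟩ * ⟨t, hTQ ht⟩ := Subtype.ext hat.symm
    have h2 : l.1 ⟨t, hTQ ht⟩ = 1 := (le_sup_left.trans l.2) ht
    have h3 : m.1 ⟨t, hTQ ht⟩ = 1 := (le_sup_left.trans m.2) ht
    rw [h1, map_mul, map_mul, h2, h3, ← htr _ (le_sup_left.trans l.2) a ha,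
      ← htr _ (le_sup_left.trans m.2) a ha]
    exact congrArg (fun z => (z.1 ⟨a, hSQ ha⟩) * 1) hlm
  have h4 := Nat.card_le_card_of_injective f hf
  rw [card_units_hom_le_ker le_sup_right, card_units_hom_le_ker hW, hWi] at h4
  have h5 : (T.subgroupOf Q ⊔ commutator Q).index ∣ p := by
    obtain ⟨k, hk⟩ := (hR.to_subgroup Q).index (T.subgroupOf Q ⊔ commutator Q)
    rw [hk] at h4 ⊢
    have : k ≤ 1 := (Nat.pow_le_pow_iff_right hp.out.one_lt).1 (by rwa [pow_one])
    exact (pow_dvd_pow p this).trans (by rw [pow_one])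
  have h6 := index_dvd_of_sup (hR.to_subgroup Q) _ h5
  have h7 := card_sup_of_disjoint_of_le_normalizer (hSQ.trans hT) hd
  have h8 := card_mul_relIndex hTQ
  rw [hST, ← h8, mul_comm] at h7
  rwa [← Nat.eq_of_mul_eq_mul_right Nat.card_pos h7]

theorem relIndex_commutator {G : Type*} [Group G] (P : Subgroup G) :
    (⁅P, P⁆).relIndex P = (commutator P).index := by
  rw [← map_subtype_commutator, relIndex, ← comap_subtype,
    comap_map_eq_self_of_injective P.subtype_injective]

theorem relIndex_dvd {G : Type*} [Group G] [Finite G] {p : ℕ} [hp : Fact p.Prime] {P : Subgroup G}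
    (hP : IsPGroup p P) (h2 : (commutator P).index = p ^ 2) {K : Subgroup G}
    (hK : P ≤ normalizer (K : Set G)) (h : ¬ K ⊓ P ≤ ⁅P, P⁆) : K.relIndex P ∣ p := by
  haveI : (K.subgroupOf P).Normal := by
    rw [← inf_subgroupOf_right]
    exact (normal_subgroupOf_iff_le_normalizer inf_le_right).2 (le_normalizer_inf hK le_normalizer)
  refine index_dvd_of_sup hP _ ?_
  have h3 := relIndex_mul_index (le_sup_right : commutator P ≤ K.subgroupOf P ⊔ commutator P)
  have h4 : (commutator P).relIndex (K.subgroupOf P ⊔ commutator P) ≠ 1 := by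
    rw [Ne, relIndex_eq_one]
    intro h5
    apply h
    rintro x ⟨hxK, hxP⟩
    rw [← map_subtype_commutator]
    exact ⟨⟨x, hxP⟩, h5 (le_sup_left (a := K.subgroupOf P) hxK), rfl⟩
  rw [h2] at h3
  obtain ⟨j, -, hj⟩ := (Nat.dvd_prime_pow hp.out).1 (Dvd.intro _ h3)
  rcases j with _ | j
  · exact absurd hj h4
  · rw [hj, pow_succ, mul_assoc, pow_two, mul_comm, mul_assoc] at h3
    exact Dvd.intro _ (Nat.eq_of_mul_eq_mul_left hp.out.pos h3)

theorem lower {G : Type*} [Group G] [Finite G] {p : ℕ} [hp : Fact p.Prime] {P : Subgroup G}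
    (hP : IsPGroup p P) {y : G} (hy : y ∈ P) : (commutator P).index ≤
      p ^ (Nat.card (centralizer ({y} : Set G))).factorization p := by
  have h1 := index_commutator_le (⟨y, hy⟩ : P)
  have h2 : centralizer ({⟨y, hy⟩} : Set P) = (centralizer ({y} : Set G)).subgroupOf P := by
    ext z
    simp [mem_centralizer_singleton_iff, mem_subgroupOf, Subtype.ext_iff]
  rw [h2, card_subgroupOf] at h1
  obtain ⟨S, hS⟩ := exists_isSylowIn (p := p) (centralizer ({y} : Set G))
  rw [← hS.card_eq]
  exact h1.trans (hS.card_le (hP.to_le inf_le_right) inf_le_left)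

theorem finish {G : Type*} [Group G] [Finite G] {p : ℕ} [hp : Fact p.Prime] (P : Sylow p G)
    (h2 : (commutator (P : Subgroup G)).index = p ^ 2) {N : Subgroup G} [N.Normal]
    (hN : N.relIndex P = p) {y : G} (hy : y ∈ (P : Subgroup G))
    (h : (Nat.card ↥(N ⊓ centralizer ({y} : Set G))).factorization p ≤ 1) :
    (Nat.card (centralizer ({y} : Set G))).factorization p = 2 := by
  apply le_antisymm
  · have h3 := ((isSylowIn_sylow P).map_top_of_surjective
      (QuotientGroup.mk'_surjective N)).card_eq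
    rw [card_map_mk', hN, card_top] at h3
    have h4 : (N.index).factorization p = 1 :=
      (Nat.pow_right_injective hp.out.two_le ((pow_one p).trans h3)).symm
    have h5 : N.relIndex (centralizer ({y} : Set G)) ∣ N.index := relIndex_dvd_index_of_normal _ _
    have h6 := (Nat.factorization_le_iff_dvd (relIndex_pos _ _).ne' (index_pos _).ne').2 h5 p
    rw [← card_inf_mul_relIndex N, Nat.factorization_mul Nat.card_pos.ne' (relIndex_pos _ _).ne',
      Finsupp.add_apply]
    omega
  · have := lower P.isPGroup' hy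
    rw [h2] at this
    exact (Nat.pow_le_pow_iff_right hp.out.one_lt).1 this

theorem nonabelian {G : Type*} [Group G] [Finite G] {p : ℕ} [hp : Fact p.Prime] (P : Sylow p G)
    (hcore : pPrimeCore p G = ⊥) (h2 : (commutator (P : Subgroup G)).index = p ^ 2)
    (hdis : ∀ A B : Subgroup G, A.relIndex P ∣ p → B.relIndex P ∣ p → A ⊓ B ≠ ⊥)
    {N : Subgroup G} (hN : IsMinNormal N) (hna : ¬ IsMulCommutative N) (hns : ¬ IsSimpleGroup N) :
    ∃ x : G, (∃ k : ℕ, orderOf x = p ^ k) ∧
      (Nat.card (Subgroup.centralizer ({x} : Set G))).factorization p = 2 := by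
  haveI := hN.normal
  have hnt : ∀ K : Subgroup G, K ≤ normalizer (N : Set G) := fun K => by
    rw [normalizer_eq_top]; exact le_top
  obtain ⟨S, ⟨hSN, hS1, hNS⟩, hmin⟩ := exists_minimal_of_wellFoundedLT
    (fun K : Subgroup G => K ≤ N ∧ K ≠ ⊥ ∧ N ≤ normalizer (K : Set G))
    ⟨N, le_rfl, hN.bot_lt.ne', le_normalizer⟩
  have hmin' : ∀ K ≤ S, N ≤ normalizer (K : Set G) → K = ⊥ ∨ K = S := by
    intro K hK hNK
    by_cases h : K = ⊥
    · exact Or.inl h
    · exact Or.inr (le_antisymm hK (hmin ⟨hK.trans hSN, h, hNK⟩ hK))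
  have hZ := hN.inf_centralizer_eq_bot hna
  have hcN : ∀ g : G, MulAut.conj g • S ≤ N := fun g =>
    conj_smul_le_iff.2 fun s hs => hN.normal.conj_mem s (hSN hs) g
  have hcn : ∀ g : G, N ≤ normalizer ((MulAut.conj g • S : Subgroup G) : Set G) := fun g => by
    rw [← conj_smul_normalizer, ← conj_smul_of_normal g N]
    exact conj_smul_mono g hNS
  have hdich : ∀ g : G, MulAut.conj g • S = S ∨ MulAut.conj g • S ≤ centralizer (S : Set G) := by
    intro g
    rcases hmin' (S ⊓ MulAut.conj g • S) inf_le_left (le_normalizer_inf hNS (hcn g)) with h | h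
    · right
      exact commute_of_normal_of_disjoint' (hSN.trans (hcn g)) ((hcN g).trans hNS)
        (disjoint_iff.2 (by rw [inf_comm]; exact h))
    · left
      exact (Subgroup.eq_of_le_of_card_ge (h.ge.trans inf_le_right) (card_conj_smul g S).le).symm
  have hdich' : ∀ g u : G, MulAut.conj g • S = MulAut.conj u • S ∨
      MulAut.conj g • S ≤ centralizer ((MulAut.conj u • S : Subgroup G) : Set G) := by
    intro g u
    have e : MulAut.conj g • S = MulAut.conj u • MulAut.conj (u⁻¹ * g) • S := by
      rw [conj_smul_conj_smul, mul_inv_cancel_left]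
    rcases hdich (u⁻¹ * g) with h | h
    · left; rw [e, h]
    · right; rw [e, ← conj_smul_centralizer]; exact conj_smul_mono u h
  have hgen : ∀ K : Subgroup G, (∀ g : G, MulAut.conj g • S ≤ K) → N ≤ K := by
    intro K hK
    have h1 : S ≤ K.normalCore := fun s hs b => hK b (conj_mem_conj_smul.2 hs)
    exact (hN.le_of_inf_ne_bot (K := K.normalCore) fun h =>
      hS1 (le_bot_iff.1 (h ▸ le_inf hSN h1))).trans K.normalCore_le
  have hsplit : ∀ A ≤ N, (∀ g : G, MulAut.conj g • S ≤ A ∨
      MulAut.conj g • S ≤ centralizer (A : Set G)) →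
      A ⊔ (N ⊓ centralizer (A : Set G)) = N ∧ A ⊓ (N ⊓ centralizer (A : Set G)) = ⊥ := by
    intro A hA h
    have h1 : A ⊔ (N ⊓ centralizer (A : Set G)) = N :=
      le_antisymm (sup_le hA inf_le_left) (hgen _ fun g => (h g).elim (fun h => h.trans le_sup_left)
        fun h => (le_inf (hcN g) h).trans le_sup_right)
    refine ⟨h1, ?_⟩
    rw [eq_bot_iff, ← hZ]
    rintro x ⟨hxA, hxN, hxC⟩
    refine ⟨hxN, ?_⟩
    rw [← h1, centralizer_sup]
    exact ⟨hxC, fun b hb => (hb.2 x hxA).symm⟩
  have hnil : ¬ HasNormalPComplement p S := by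
    intro h
    rcases hmin' _ (map_subtype_le (pPrimeCore p S))
      (hNS.trans (normalizer_le_normalizer_map_pPrimeCore S)) with h1 | h1
    · have h3 : pPrimeCore p S = ⊥ := (map_eq_bot_iff_of_injective _ S.subtype_injective).1 h1
      obtain ⟨k, hk⟩ := hasNormalPComplement_iff_index_pPrimeCore.1 h
      rw [h3, index_bot] at hk
      have h4 := le_map_pCore hSN hNS (IsPGroup.of_card hk)
      rw [map_subtype_pCore] at h4
      have h5 := hN.le_of_inf_ne_bot (K := pCore p G) fun h =>
        hS1 (le_bot_iff.1 (h ▸ le_inf hSN (h4.trans inf_le_left)))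
      haveI := IsPGroup.isSolvable' ((isPGroup_pCore p G).to_le h5)
      exact hna hN.isMulCommutative_of_isSolvable
    · have h4 := le_map_pPrimeCore hSN hNS (h1 ▸ not_dvd_card_map_pPrimeCore S)
      rw [map_subtype_pPrimeCore, hcore, bot_inf_eq, le_bot_iff] at h4
      exact hS1 h4
  have hidx : ∀ (A : Subgroup G) (g : G), MulAut.conj g • S ≤ A →
      (P : Subgroup G) ≤ normalizer (A : Set G) → A.relIndex P ∣ p := by
    intro A g hg hA
    refine relIndex_dvd P.isPGroup' h2 hA fun h => hnil ?_
    have h1 := hasNormalPComplement_map (hasNormalPComplement_of_le (tate_of_le_normalizer P A hA h)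
      hg) (MulAut.conj g⁻¹).toMonoidHom
    rwa [← conj_smul_eq_map, conj_inv_smul_conj_smul] at h1
  set A : Subgroup G := ⨆ u : (P : Subgroup G), MulAut.conj (u : G) • S with hA
  have hAN : A ≤ N := iSup_le fun u => hcN u
  have hSA : ∀ u ∈ (P : Subgroup G), MulAut.conj u • S ≤ A := fun u hu =>
    le_iSup (fun u : (P : Subgroup G) => MulAut.conj (u : G) • S) ⟨u, hu⟩
  have hcA : ∀ c : G, (∀ u ∈ (P : Subgroup G),
      c ∈ centralizer ((MulAut.conj u • S : Subgroup G) : Set G)) → c ∈ centralizer (A : Set G) := by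
    intro c hc
    have : A ≤ centralizer {c} := iSup_le fun u x hx =>
      mem_centralizer_singleton_iff.2 (hc u u.2 x hx)
    exact fun x hx => mem_centralizer_singleton_iff.1 (this hx)
  have hPA : (P : Subgroup G) ≤ normalizer (A : Set G) := by
    intro v hv
    refine mem_normalizer_of_conj_mem fun x hx => ?_
    have : A ≤ MulAut.conj v⁻¹ • A := iSup_le fun u => by
      have h1 := conj_smul_mono v⁻¹ (hSA _ ((P : Subgroup G).mul_mem hv u.2))
      rwa [conj_smul_conj_smul, inv_mul_cancel_left] at h1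
    simpa using mem_conj_smul.1 (this hx)
  have hAall : ∀ g : G, MulAut.conj g • S ≤ A ∨ MulAut.conj g • S ≤ centralizer (A : Set G) := by
    intro g
    by_cases h : ∃ u ∈ (P : Subgroup G), MulAut.conj g • S = MulAut.conj u • S
    · obtain ⟨u, hu, h⟩ := h
      exact Or.inl (h ▸ hSA u hu)
    · push Not at h
      exact Or.inr fun c hc => hcA c fun u hu => (hdich' g u).resolve_left (h u hu) hc
  have hNA : N ≤ A := by
    refine hgen A fun g => (hAall g).elim id fun h => ?_
    exact absurd (hsplit A hAN hAall).2 (hdis _ _ (hidx A 1 (hSA 1 (one_mem _)) hPA)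
      (hidx _ g (le_inf (hcN g) h) (le_normalizer_inf (hnt _) (le_normalizer_centralizer hPA))))
  have hPS : ¬ (P : Subgroup G) ≤ normalizer (S : Set G) := by
    intro h
    have h1 : S = N := le_antisymm hSN (hNA.trans (iSup_le fun u =>
      (conj_smul_eq_of_mem_normalizer (h u.2)).le))
    apply hns
    subst h1
    haveI := hN.nontrivial
    refine ⟨fun K hK => ?_⟩
    rcases hmin' (K.map S.subtype) (map_subtype_le K) (by
      have := (normal_subgroupOf_iff_le_normalizer (map_subtype_le K)).1
        (by rwa [← comap_subtype, comap_map_eq_self_of_injective S.subtype_injective])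
      exact this) with h | h
    · exact Or.inl ((map_eq_bot_iff_of_injective _ S.subtype_injective).1 h)
    · right
      apply map_injective S.subtype_injective
      rw [h, ← MonoidHom.range_eq_map, range_subtype]
  obtain ⟨y, hyP, hyS⟩ := SetLike.not_le_iff_exists.1 hPS
  have hNi : N.relIndex P = p := by
    rcases (Nat.dvd_prime hp.out).1 (hidx N 1 (hcN 1) (hnt _)) with h | h
    · exact absurd (hNS (relIndex_eq_one.1 h hyP)) hyS
    · exact h
  have hmax : ∀ K : Subgroup G, N ⊓ P ≤ K → ∀ u ∈ (P : Subgroup G), u ∈ K → u ∉ N →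
      (P : Subgroup G) ≤ K := by
    intro K hK u hu huK huN
    have h1 := sup_zpowers_eq_top_of_index_prime (N := N.subgroupOf P) (x := ⟨u, hu⟩)
      (by rw [← hNi] at hp; exact hp.out) huN
    have h3 : (⊤ : Subgroup (P : Subgroup G)) ≤ K.subgroupOf P := by
      rw [← h1]
      exact sup_le (fun x hx => hK ⟨hx, x.2⟩) (zpowers_le.2 huK)
    exact fun x hx => h3 (mem_top (⟨x, hx⟩ : (P : Subgroup G)))
  have hout : ∀ u ∈ (P : Subgroup G), u ∉ N → MulAut.conj u • S ≤ centralizer (S : Set G) := by
    intro u hu huN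
    refine (hdich u).resolve_left fun h => hPS ?_
    exact hmax _ (inf_le_left.trans hNS) u hu (conj_smul_eq_iff_mem_normalizer.1 h) huN
  obtain ⟨hs1, hs2⟩ := hsplit S hSN fun g => (hdich g).imp_left fun h => h.le
  set T := N ⊓ centralizer (S : Set G) with hT
  have hNT : N ≤ normalizer (T : Set G) :=
    le_normalizer_inf le_normalizer (le_normalizer_centralizer hNS)
  have hcard : Nat.card N = Nat.card S * Nat.card T := by
    rw [← card_sup_of_disjoint_of_le_normalizer (hSN.trans hNT) (disjoint_iff.2 hs2), hs1]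
  have hQ : IsSylowIn p ((P : Subgroup G) ⊓ N) N := isSylowIn_inf_of_normal P N
  have hS0 := hQ.inf_of_le_normalizer hSN hNS
  have hT0 := hQ.inf_of_le_normalizer (inf_le_left : T ≤ N) hNT
  have hd0 : Disjoint ((P : Subgroup G) ⊓ N ⊓ S) ((P : Subgroup G) ⊓ N ⊓ T) :=
    (disjoint_iff.2 hs2).mono inf_le_right inf_le_right
  have hn0 : (P : Subgroup G) ⊓ N ≤ normalizer (((P : Subgroup G) ⊓ N ⊓ T : Subgroup G) : Set G) :=
    le_normalizer_inf le_normalizer (inf_le_right.trans hNT)
  have hsup0 : ((P : Subgroup G) ⊓ N ⊓ S) ⊔ ((P : Subgroup G) ⊓ N ⊓ T) = (P : Subgroup G) ⊓ N := by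
    apply Subgroup.eq_of_le_of_card_ge (sup_le inf_le_left inf_le_left)
    rw [card_sup_of_disjoint_of_le_normalizer (inf_le_left.trans hn0) hd0, hQ.card_eq, hS0.card_eq,
      hT0.card_eq, hcard, Nat.factorization_mul Nat.card_pos.ne' Nat.card_pos.ne',
      Finsupp.add_apply, pow_add]
  haveI : (((P : Subgroup G) ⊓ N).subgroupOf P).Normal := by
    rw [inf_subgroupOf_left]; infer_instance
  have hw := wreath P.isPGroup' (((P : Subgroup G) ⊓ N).subgroupOf P)
    (((P : Subgroup G) ⊓ N ⊓ S).subgroupOf P) (((P : Subgroup G) ⊓ N ⊓ T).subgroupOf P)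
    (by rw [inf_subgroupOf_left]; exact hNi) h2
    (by rw [← subgroupOf_sup (inf_le_left.trans inf_le_left) (inf_le_left.trans inf_le_left), hsup0])
    (by
      rw [Subgroup.disjoint_def] at hd0 ⊢
      exact fun {x} h1 h2 => Subtype.ext (hd0 h1 h2))
    (subgroupOf_le_normalizer_subgroupOf hn0 _)
    (by
      rintro u hu a ⟨⟨haP, haN⟩, haS⟩
      have huN : ((u⁻¹ : (P : Subgroup G)) : G) ∉ N := fun h => hu ⟨u.2, N.inv_mem_iff.1 h⟩
      have h3 := hN.normal.conj_mem' a haN u
      refine ⟨⟨(u⁻¹ * a * u).2, h3⟩, h3, hout _ (u⁻¹).2 huN ?_⟩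
      rw [mem_conj_smul]
      simpa [mul_assoc] using haS)
  rw [card_subgroupOf_of_le (inf_le_left.trans inf_le_left), hS0.card_eq] at hw
  have hS1' : (Nat.card S).factorization p ≤ 1 :=
    (Nat.pow_le_pow_iff_right hp.out.one_lt).1 (by rw [pow_one]; exact Nat.le_of_dvd hp.out.pos hw)
  refine ⟨y, isPElt_of_mem_sylow P hyP, finish P h2 hNi hyP ?_⟩
  have hd : Disjoint (N ⊓ centralizer ({y} : Set G)) T := by
    rw [disjoint_iff, eq_bot_iff, ← hZ]
    rintro c ⟨⟨hcN', hcy⟩, -, hcS⟩
    refine ⟨hcN', centralizer_anti hNA (hcA c ?_)⟩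
    have hyN : y ∉ N := fun h => hyS (hNS h)
    have h1 := sup_zpowers_eq_top_of_index_prime (N := N.subgroupOf P) (x := ⟨y, hyP⟩)
      (by rw [← hNi] at hp; exact hp.out) hyN
    intro u hu
    have h3 : (⟨u, hu⟩ : (P : Subgroup G)) ∈ zpowers (⟨y, hyP⟩ : (P : Subgroup G)) ⊔
        N.subgroupOf P := by rw [sup_comm, h1]; trivial
    obtain ⟨_, ⟨i, rfl⟩, n, hn, h4⟩ := mem_sup_of_normal_right.1 h3
    have h5 : u = y ^ i * n := (congrArg Subtype.val h4).symm
    rw [h5, ← conj_smul_conj_smul, conj_smul_eq_of_mem_normalizer (g := (n : G)) (hNS hn),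
      ← conj_smul_centralizer, mem_conj_smul]
    have h6 : Commute c (y ^ i) := Commute.zpow_right (mem_centralizer_singleton_iff.1 hcy) i
    rwa [mul_assoc, h6.eq, inv_mul_cancel_left]
  have h7 : Nat.card ↥(N ⊓ centralizer ({y} : Set G)) * Nat.card T ∣ Nat.card S * Nat.card T := by
    rw [← hcard, ← card_sup_of_disjoint_of_le_normalizer (inf_le_left.trans hNT) hd]
    exact card_dvd_of_le (sup_le inf_le_left inf_le_left)
  have h8 := Nat.dvd_of_mul_dvd_mul_right Nat.card_pos h7
  exact ((Nat.factorization_le_iff_dvd Nat.card_pos.ne' Nat.card_pos.ne').2 h8 p).trans hS1'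


/-- Let G be a finite group, p a prime and P a Sylow p-subgroup of order at least p². Assume that G has no nontrivial normal subgroup of order prime to p, that the derived subgroup P' of P contains no nontrivial normal subgroup of G, and that G is not almost simple (there is no non-abelian simple normal subgroup of G with trivial centralizer). Then [P : P'] = p² if and only if some p-element x of G has centralizer whose order has p-part exactly p². -/
theorem result {G : Type*} [Group G] [Finite G] (p : ℕ) [Fact p.Prime] (P : Sylow p G) (hbig : p ^ 2 ∣ Nat.card G) (hcore : Cfsg.pPrimeCore p G = ⊥)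
    (hcore' : (⁅(P : Subgroup G), (P : Subgroup G)⁆).normalCore = ⊥) (hnas : ¬ ∃ S : Subgroup G, S.Normal ∧ IsSimpleGroup S ∧ ¬ IsMulCommutative S ∧ Subgroup.centralizer (S : Set G) = ⊥) :
    (⁅(P : Subgroup G), (P : Subgroup G)⁆).relIndex (P : Subgroup G) = p ^ 2 ↔
      ∃ x : G, (∃ k : ℕ, orderOf x = p ^ k) ∧ (Nat.card (Subgroup.centralizer ({x} : Set G))).factorization p = 2 := by
  have hp : p.Prime := Fact.out
  rw [relIndex_commutator]
  have hbigP : p ^ 2 ∣ Nat.card (P : Subgroup G) := by
    rw [P.card_eq_multiplicity]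
    exact pow_dvd_pow p ((hp.pow_dvd_iff_le_factorization Nat.card_pos.ne').1 hbig)
  constructor
  · intro h2
    by_cases hP2 : Nat.card (P : Subgroup G) ≤ p ^ 2
    · refine ⟨1, ⟨0, by simp⟩, ?_⟩
      have h1 : centralizer ({1} : Set G) = ⊤ := by
        rw [eq_top_iff]; intro x _; simp [mem_centralizer_iff]
      have h3 := le_antisymm hP2 (Nat.le_of_dvd Nat.card_pos hbigP)
      rw [P.card_eq_multiplicity] at h3
      rw [h1, card_top]
      exact Nat.pow_right_injective hp.two_le h3
    have hdis : ∀ A B : Subgroup G, A.relIndex P ∣ p → B.relIndex P ∣ p → A ⊓ B ≠ ⊥ := by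
      intro A B hA hB h
      have := relIndex_inf_le (H := A) (K := B) (L := (P : Subgroup G))
      rw [h, relIndex_bot_left] at this
      exact hP2 (this.trans (by
        rw [pow_two]; exact Nat.mul_le_mul (Nat.le_of_dvd hp.pos hA) (Nat.le_of_dvd hp.pos hB)))
    have hnorm : ∀ K : Subgroup G, K.Normal → K ≠ ⊥ → K.relIndex P ∣ p := by
      intro K hK hK1
      refine relIndex_dvd P.isPGroup' h2 (by rw [normalizer_eq_top]; exact le_top) fun h => hK1 ?_
      obtain ⟨k, hk⟩ := hasNormalPComplement_iff_index_pPrimeCore.1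
        (tate_hasNormalPComplement P K h)
      have h3 : pPrimeCore p K = ⊥ := by
        rw [← map_eq_bot_iff_of_injective _ K.subtype_injective, map_subtype_pPrimeCore, hcore,
          bot_inf_eq]
      rw [h3, index_bot] at hk
      have h4 : K ≤ P := (le_pCore (IsPGroup.of_card hk)).trans (pCore_le_sylow P)
      rw [eq_bot_iff, ← hcore', normal_le_normalCore]
      exact (le_inf le_rfl h4).trans h
    haveI : Nontrivial G := by
      rw [← Finite.one_lt_card_iff_nontrivial]
      exact lt_of_lt_of_le (Nat.one_lt_pow two_ne_zero hp.one_lt) (Nat.le_of_dvd Nat.card_pos hbig)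
    obtain ⟨N, hN⟩ := exists_isMinNormal G
    haveI := hN.normal
    by_cases hab : IsMulCommutative N
    · have hpN : p ∣ Nat.card N := by
        by_contra h
        exact hN.bot_lt.ne' (le_bot_iff.1 (hcore ▸ le_pPrimeCore' h))
      have hNp : IsPGroup p N := IsElementaryAbelian.isPGroup' (hN.isElementaryAbelian_of_dvd hpN)
      have hNP : N ≤ P := (le_pCore hNp).trans (pCore_le_sylow P)
      have hNi : N.relIndex P = p := by
        rcases (Nat.dvd_prime hp).1 (hnorm N inferInstance hN.bot_lt.ne') with h | h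
        · exfalso
          haveI : IsMulCommutative (P : Subgroup G) := isMulCommutative_of_le (relIndex_eq_one.1 h)
          rw [commutator_eq_bot, index_bot] at h2
          exact hP2 h2.le
        · exact h
      obtain ⟨y, hyP, hyN⟩ := SetLike.not_le_iff_exists.1
        (fun h : (P : Subgroup G) ≤ N => hp.one_lt.ne' (hNi.symm.trans (relIndex_eq_one.2 h)))
      refine ⟨y, isPElt_of_mem_sylow P hyP, finish P h2 hNi hyP ?_⟩
      have h1 := sup_zpowers_eq_top_of_index_prime (N := N.subgroupOf P) (x := ⟨y, hyP⟩)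
        (by rw [← hNi] at hp; exact hp) hyN
      have h3 := card_eq_card_centralizer_mul_card_commutator (N.subgroupOf P)
        (fun a ha b hb => Subtype.ext (isMulCommutative_iff_forall.1 hab _ ha _ hb)) _ h1
      have h4 : N.subgroupOf P ⊓ centralizer ({⟨y, hyP⟩} : Set (P : Subgroup G)) =
          (N ⊓ centralizer ({y} : Set G)).subgroupOf P := by
        ext z
        simp [mem_centralizer_singleton_iff, mem_subgroupOf, Subtype.ext_iff]
      rw [h4, card_subgroupOf_of_le (inf_le_left.trans hNP)] at h3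
      have h5 := (N.subgroupOf P).card_mul_index
      have h6 := (commutator (P : Subgroup G)).card_mul_index
      rw [show (N.subgroupOf P).index = p from hNi, h3, ← h6, h2] at h5
      have h7 : Nat.card ↥(N ⊓ centralizer ({y} : Set G)) = p := by
        have h8 : 0 < Nat.card (commutator (P : Subgroup G)) * p := Nat.mul_pos Nat.card_pos hp.pos
        apply Nat.eq_of_mul_eq_mul_right h8
        rw [← mul_assoc, h5]; ring
      rw [h7, hp.factorization_self]
    · refine nonabelian P hcore h2 hdis hN hab fun hs => hnas ⟨N, inferInstance, hs, hab, ?_⟩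
      by_contra h
      exact hdis _ _ (hnorm N inferInstance hN.bot_lt.ne') (hnorm _ inferInstance h)
        (hN.inf_centralizer_eq_bot hab)
  · rintro ⟨x, hx, h⟩
    obtain ⟨g, hg⟩ := IsPElt.exists_conj_mem_sylow hx P
    have h1 := lower P.isPGroup' hg
    rw [← conj_smul_centralizer_singleton, card_conj_smul, h] at h1
    refine le_antisymm h1 (Nat.le_of_dvd (index_pos _) ?_)
    by_cases hc : IsCyclic (P : Subgroup G)
    · haveI : IsMulCommutative (P : Subgroup G) := IsCyclic.isMulCommutative
      rwa [commutator_eq_bot, index_bot]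
    · exact (sq_dvd_index_frattini P.isPGroup' hc).trans (index_dvd_of_le
        ((frattini_le_iff P.isPGroup').1 le_rfl).1)

end Cfsg.Agent.S4587
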