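import Cfsg.Statements.S4588
import Cfsg.Agent.Lib.Block.QuotCartan
import Cfsg.Agent.Lib.Block.Principal
import Cfsg.Agent.Lib.Block.DefectA

set_option autoImplicit false
open Cfsg

namespace Cfsg.Agent.S4588

open CT BT
open scoped MonoidAlgebra ComplexConjugate

/-- Let G be a finite group, p a prime and M a maximal ideal of the algebraic integers containing p. If some p-element x of G (possibly x = 1) has centralizer whose order has p-part at most p², then the principal p-block of G contains at most p² irreducible characters of degree prime to p. -/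
theorem result {G : Type*} [Group G] [Finite G] (p : ℕ) [Fact p.Prime] (M : Ideal Cfsg.AlgInt) (hM : Cfsg.IsPModular p M)
    (hx : ∃ x : G, (∃ k : ℕ, orderOf x = p ^ k) ∧ (Nat.card (Subgroup.centralizer ({x} : Set G))).factorization p ≤ 2) :
    Nat.card {χ : Cfsg.IrrCharacter G // χ ∈ Cfsg.principalBlock M G ∧ ¬ p ∣ Cfsg.charDegree (χ : G → ℂ)} ≤ p ^ 2 := by
  classical
  have hp : p.Prime := Fact.out
  obtain ⟨x, ⟨k, hk⟩, hx⟩ := hx
  have hpx : GT.IsPElt p x := ⟨k, hk⟩
  let T : Finset (IrrCharacter G) := (bset (principalBlock M G)).filter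
    fun χ => ¬ p ∣ charDegree (χ : G → ℂ)
  have hT : Nat.card {χ : Cfsg.IrrCharacter G // χ ∈ Cfsg.principalBlock M G ∧
      ¬ p ∣ Cfsg.charDegree (χ : G → ℂ)} = T.card := by
    rw [← Nat.card_eq_finsetCard]
    exact Nat.card_congr (Equiv.subtypeEquivRight fun χ => by simp [T])
  rw [hT]
  rcases eq_or_ne x 1 with rfl | h1
  · have h2 : blockDefect p (principalBlock M G) ≤ 2 := by
      rw [blockDefect_principal hM]
      rwa [show Subgroup.centralizer ({1} : Set G) = ⊤ by
        ext; simp [Subgroup.mem_centralizer_singleton_iff], Subgroup.card_top] at hx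
    refine (Finset.card_filter_le _ _).trans ?_
    rw [card_bset]
    exact (card_le_pow_of_defect_le_two hM isPBlock_principalBlock h2).trans
      (Nat.pow_le_pow_right hp.pos h2)
  obtain ⟨S⟩ : Nonempty (Sylow p (Subgroup.centralizer ({x} : Set G))) := inferInstance
  have hS := (isDefectGroup_principal_iff hM _).2 ⟨S, rfl⟩
  have hB := isInducedBlock_principal_of_eq hM rfl hpx
  have hc : Nat.card S ∣ p ^ 2 := S.card_eq_multiplicity ▸ pow_dvd_pow p hx
  refine (card_le_of_card_dvd hM rfl hpx hB hS (hc.trans ?_) (Finset.filter_subset _ _)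
    fun χ hχ => ?_).trans (Nat.le_of_dvd (pow_pos hp.pos 2) hc)
  · rw [sq, hk]
    refine mul_dvd_mul_right (dvd_pow_self p ?_) p
    rintro rfl
    exact h1 (orderOf_eq_one_iff.1 hk)
  · obtain ⟨h2, h3⟩ := Finset.mem_filter.1 hχ
    refine subsec_ne_zero_of_height_zero hM rfl hpx hB (mem_bset.1 h2) ?_
    have h4 := factorization_degree_add_defect (p := p) (mem_bset.1 h2)
    rw [blockDefect_principal hM, Nat.factorization_eq_zero_of_not_dvd h3] at h4
    omega

end Cfsg.Agent.S4588
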