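import Cfsg.Statements.S4591
import Cfsg.Agent.Lib.Char.RelDeg2
import Cfsg.Agent.Lib.Char.Glauberman

set_option autoImplicit false
open Cfsg

namespace Cfsg.Agent.S4591

open CT GT Subgroup

variable {G : Type*} [Group G] [Finite G] {p : ℕ} [hp : Fact p.Prime]

theorem eq_one_iff (P : Sylow p G) (U : Subgroup G) [U.Normal] (hU : ¬ p ∣ Nat.card U) :
    U ⊓ centralizer ((P : Subgroup G) : Set G) = ⊥ ↔
      ∀ θ : IrrCharacter U, InvBy (P : Subgroup G) θ.1 → θ = irrOne U := by
  have : Group.IsSolvable (P : Subgroup G) := by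
    have := P.isPGroup'.isNilpotent
    infer_instance
  have hcop : (Nat.card U).Coprime (Nat.card (P : Subgroup G)) := by
    obtain ⟨k, hk⟩ := IsPGroup.iff_card.1 P.isPGroup'
    rw [hk]
    exact (((Nat.Prime.coprime_iff_not_dvd hp.out).2 hU).symm).pow_right k
  have h := card_invBy_eq (S := (P : Subgroup G)) (G := U) le_normalizer_of_normal hcop rfl
  have h1 : InvBy (P : Subgroup G) (irrOne U).1 := invBy_iff_smul.2 fun s _ => conjSmul_irrOne s
  constructor
  · intro hC θ hθ
    rw [hC, card_irr_of_isMulCommutative, card_bot, Nat.card_eq_one_iff_unique] at h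
    exact congrArg Subtype.val (h.1.elim ⟨θ, hθ⟩ ⟨_, h1⟩)
  · intro hθ
    have h2 : Nat.card {χ : IrrCharacter U // InvBy (P : Subgroup G) χ.1} = 1 :=
      Nat.card_eq_one_iff_unique.2 ⟨⟨fun a b => Subtype.ext ((hθ _ a.2).trans (hθ _ b.2).symm)⟩,
        ⟨⟨_, h1⟩⟩⟩
    rw [h, Nat.card_eq_one_iff_unique] at h2
    rw [eq_bot_iff]
    intro x hx
    have h3 : (⟨x, hx⟩ : (U ⊓ centralizer ((P : Subgroup G) : Set G) : Subgroup G)) ∈
        ⨅ χ : IrrCharacter (U ⊓ centralizer ((P : Subgroup G) : Set G) : Subgroup G), ker χ.1 := by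
      rw [mem_iInf]
      intro χ
      rw [h2.1.elim χ (irrOne _), irr_mem_ker_iff]
      rfl
    rw [iInf_ker_irr, mem_bot] at h3
    exact congrArg Subtype.val h3

/-- Let G be a finite group, p a prime and P a Sylow p-subgroup, and let N be the largest normal subgroup of G in which P has trivial centralizer (N is normal with C_N(P) = 1 and contains every normal subgroup with that property). Then the intersection of the kernels of the irreducible characters of G of degree prime to p is the normal core in G of the subgroup N·P' (P' the derived subgroup of P). In particular, when G has no nontrivial normal subgroup of order prime to p, that intersection is the normal core of P'. -/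
theorem result {G : Type*} [Group G] [Finite G] (p : ℕ) [Fact p.Prime] (P : Sylow p G) (N : Subgroup G) [N.Normal]
    (hN : N ⊓ Subgroup.centralizer ((P : Subgroup G) : Set G) = ⊥)
    (hmax : ∀ L : Subgroup G, L.Normal → L ⊓ Subgroup.centralizer ((P : Subgroup G) : Set G) = ⊥ → L ≤ N) :
    {g : G | ∀ χ : Cfsg.IrrCharacter G, ¬ p ∣ Cfsg.charDegree (χ : G → ℂ) → (χ : G → ℂ) g = (χ : G → ℂ) 1} =
      ((N ⊔ ⁅(P : Subgroup G), (P : Subgroup G)⁆).normalCore : Set G) := by
  have hp : p.Prime := Fact.out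
  set K : Subgroup G := ⨅ χ : {χ : IrrCharacter G // ¬ p ∣ charDegree χ.1}, ker χ.1.1 with hK
  have hKle : ∀ χ : IrrCharacter G, ¬ p ∣ charDegree χ.1 → K ≤ ker χ.1 := fun χ h =>
    iInf_le (fun χ : {χ : IrrCharacter G // ¬ p ∣ charDegree χ.1} => ker χ.1.1) ⟨χ, h⟩
  have hKn : K.Normal := Subgroup.normal_iInf_normal fun χ => inferInstance
  suffices h : K = (N ⊔ ⁅(P : Subgroup G), (P : Subgroup G)⁆).normalCore by
    rw [← h]
    ext g
    simp only [hK, Set.mem_ofPred_eq, SetLike.mem_coe, mem_iInf, Subtype.forall, irr_mem_ker_iff]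
  apply le_antisymm
  · rw [normal_le_normalCore]
    have h1 : HasNormalPComplement p K := hasNormalPComplement_of_relDegrees fun χ h => by
      by_contra h2
      exact h ((commutator_le_left K K).trans (hKle χ h2))
    obtain ⟨U, hUK, hU1, hU2, k, hk⟩ := hasNormalPComplement_subgroup_iff.1 h1
    have hUle : U ≤ pPrimeCore p G ⊓ K := by
      rw [← map_subtype_pPrimeCore]
      exact le_map_pPrimeCore hUK hU1 hU2
    set W := pPrimeCore p G ⊓ K with hW
    have hW1 : ¬ p ∣ Nat.card W := fun h =>
      not_dvd_card_pPrimeCore p G (h.trans (card_dvd_of_le inf_le_left))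
    have hWN : W ≤ N := by
      refine hmax W inferInstance ((eq_one_iff P W hW1).2 fun θ hθ => ?_)
      have h2 : (P : Subgroup G) ≤ MulAction.stabilizer G θ := invBy_iff_smul.1 hθ
      obtain ⟨χ, h3, h4⟩ := exists_liesOver_not_pow_dvd (p := p) (θ := θ)
        (fun h => hW1 (h.trans (irr_degree_dvd_card θ)))
        (fun h => hW1 (h.trans (detOrder_dvd_card _))) (k := 1)
        (by rw [pow_one]; exact not_dvd_index_of_sylow_le P h2)
      rw [pow_one] at h4
      have h5 := (liesOver_irrOne_iff (N := W) χ).2 fun n hn =>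
        (irr_mem_ker_iff χ).1 (hKle χ h4 hn.2)
      obtain ⟨g, hg⟩ := h5.mem_orbit h3
      rw [← hg]
      exact conjSmul_irrOne g
    have hPK : (P : Subgroup G) ⊓ K ≤ ⁅(P : Subgroup G), (P : Subgroup G)⁆ := by
      intro x hx
      have h2 : (⟨x, hx.1⟩ : (P : Subgroup G)) ∈ commutator (P : Subgroup G) := by
        rw [mem_commutator_iff_forall_linear]
        intro θ hθ
        obtain ⟨χ, h3, h4⟩ := exists_liesOver_not_dvd (irr_isCharacter θ) (d := p)
          (by rw [hθ, mul_one]; exact P.not_dvd_index)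
        have h5 : (⟨x, hx.1⟩ : (P : Subgroup G)) ∈ ker (res (P : Subgroup G) χ.1) :=
          comap_ker_le_ker_comp (P : Subgroup G).subtype χ.1 (hKle χ h4 hx.2)
        have h6 := ker_le_ker_of_ip_ne_zero ((irr_isClassFunction χ).res _) h3 h5
        rw [irr_mem_ker_iff, irr_apply_one, hθ] at h6
        simpa using h6
      rw [← map_subtype_commutator]
      exact ⟨_, h2, rfl⟩
    rw [← (isSylowIn_inf_of_normal P K).sup_eq_of_relIndex_eq_pow hUK hk]
    exact sup_le_sup (hUle.trans hWN) hPK
  · have hN1 : ¬ p ∣ Nat.card N := by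
      intro hd
      have h1 := (isSylowIn_inf_of_normal P N).ne_bot hd
      refine inf_centralizer_ne_bot_of_isPGroup P.isPGroup' P.isPGroup'.to_inf_left h1
        ((le_inf le_normalizer le_normalizer_of_normal).trans inf_normalizer_le_normalizer_inf) ?_
      rw [eq_bot_iff, ← hN]
      exact inf_le_inf_right _ inf_le_right
    refine le_iInf fun ⟨χ, hχ⟩ => ?_
    set T := N ⊔ (P : Subgroup G) with hT
    obtain ⟨ψ, h1, h2⟩ := exists_liesUnder_not_dvd T (irr_isCharacter χ) hχ
    have hNT : N ≤ T := le_sup_left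
    obtain ⟨k, hk⟩ : ∃ k, N.relIndex T = p ^ k := by
      rw [hT, relIndex_sup_left]
      exact P.isPGroup'.exists_relIndex_eq_pow N
    have h3 : IsIrrCharacter N (resLe hNT ψ.1) :=
      (isIrr_res_subgroupOf_iff hNT).1 (isIrr_res_of_isPGroup_quotient hp
        (isPGroup_quotient_iff.2 ⟨k, hk⟩) h2)
    have h4 := (eq_one_iff P N hN1).1 hN ⟨_, h3⟩ fun s hs =>
      isConjCharOf_resLe_of_mem (irr_isClassFunction ψ) hNT (le_sup_right (a := N) hs)
    have h5 : N.subgroupOf T ≤ ker ψ.1 := by
      intro x hx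
      rw [irr_mem_ker_iff]
      have a := congrFun (congrArg Subtype.val h4) ⟨x, hx⟩
      have b := congrFun (congrArg Subtype.val h4) 1
      exact a.trans b.symm
    have h6 : charDegree ψ.1 = 1 := by
      have := irr_degree_dvd_index_of_le_ker ψ h5
      rw [show (N.subgroupOf T).index = p ^ k from hk] at this
      obtain ⟨j, -, hj⟩ := (Nat.dvd_prime_pow hp).1 this
      rcases j with _ | j
      · simpa using hj
      · exact absurd (hj ▸ dvd_pow_self p j.succ_ne_zero) h2
    have h7 := (irr_degree_eq_one_iff_commutator_le_ker ψ).1 h6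
    have h8 : N ⊔ ⁅(P : Subgroup G), (P : Subgroup G)⁆ ≤ (ker ψ.1).map T.subtype := by
      refine sup_le (fun x hx => ⟨⟨x, hNT hx⟩, h5 hx, rfl⟩) ?_
      refine le_trans (commutator_mono le_sup_right le_sup_right : _ ≤ ⁅T, T⁆) ?_
      rw [← map_subtype_commutator]
      exact map_mono h7
    have h9 : (N ⊔ ⁅(P : Subgroup G), (P : Subgroup G)⁆).normalCore ≤ T :=
      (normalCore_le _).trans (h8.trans (map_subtype_le _))
    rw [h1.le_ker_iff h9]
    intro x hx
    obtain ⟨y, hy, hyx⟩ := h8 (normalCore_le _ hx)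
    rwa [← show y = x from Subtype.ext hyx]

end Cfsg.Agent.S4591
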