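import Cfsg.Statements.S4593
import Cfsg.Agent.Lib.Block.ZStar
import Cfsg.Agent.Lib.Grp.Coprime

set_option autoImplicit false
open Cfsg

namespace Cfsg.Agent.S4593

open Subgroup

theorem aux {Γ : Type*} [Group Γ] [Finite Γ] (hO : pPrimeCore 2 Γ = ⊥) (T : Sylow 2 Γ)
    (hab : ∀ x ∈ (T : Subgroup Γ), ∀ y ∈ (T : Subgroup Γ), x * y = y * x) {t : Γ}
    (ht : t ∈ (T : Subgroup Γ)) : ∃ x ∈ commutator Γ, ∃ c ∈ center Γ, x * c = t := by
  set N := normalizer ((T : Subgroup Γ) : Set Γ) with hN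
  have hS : GT.IsSylowIn 2 (T : Subgroup Γ) N := GT.isSylowIn_sylow_of_le T le_normalizer
  obtain ⟨A', hA'⟩ := Subgroup.exists_right_complement'_of_coprime
    (N := (T : Subgroup Γ).subgroupOf N) (by
      rw [GT.card_subgroupOf_of_le le_normalizer]; exact hS.coprime_card_relIndex)
  have hA : GT.CoprimeAct (A'.map N.subtype) (T : Subgroup Γ) :=
    GT.coprimeAct_of_isPGroup_right (map_subtype_le _) T.isPGroup' (by
      rw [card_map_of_injective N.subtype_injective, ← hA'.symm.index_eq_card]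
      exact hS.not_dvd_relIndex_of_le le_rfl)
  obtain ⟨x, hx, c, hc, e⟩ := hA.exists_commutator_mul_centralizer ht
  refine ⟨x, commutator_mono le_top le_top hx, c,
    BT.mem_center_of_abelian_of_normalizer hO T hab hc.1 fun n hn => ?_, e⟩
  obtain ⟨⟨s, a⟩, h, -⟩ := hA'.existsUnique ⟨n, hn⟩
  have h1 : ((s : N) : Γ) * ((a : N) : Γ) = n := congrArg Subtype.val h
  have h2 : ((a : N) : Γ) * c = c * (a : N) := hc.2 _ ⟨_, a.2, rfl⟩
  have h3 := hab _ s.2 _ hc.1
  rw [← h1, mul_assoc (s : N).1, h2, ← mul_assoc]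
  erw [h3]
  simp [mul_assoc]

/-- Let G be a finite group with trivial centre and no nontrivial normal subgroup of odd order, whose Sylow 2-subgroups are abelian, and let P be a Sylow 2-subgroup. Every automorphism of G of 2-power order that fixes P elementwise is inner. -/
theorem result {G : Type*} [Group G] [Finite G] (hZ : Subgroup.center G = ⊥) (hcore : Cfsg.pPrimeCore 2 G = ⊥) (P : Sylow 2 G) (hab : IsMulCommutative (P : Subgroup G))
    (α : MulAut G) (h2 : ∃ j : ℕ, orderOf α = 2 ^ j) (hfix : ∀ x ∈ (P : Subgroup G), α x = x) :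
    ∃ g : G, ∀ x : G, α x = g * x * g⁻¹ := by
  let Γ := G ⋊[(zpowers α).subtype] zpowers α
  have : Finite Γ := Finite.of_equiv _ SemidirectProduct.equivProd.symm
  have hα : IsPGroup 2 (zpowers α) := GT.IsPElt.isPGroup_zpowers h2
  have hfix' : ∀ β : zpowers α, ∀ x ∈ (P : Subgroup G), β.1 x = x := by
    rintro ⟨β, hβ⟩ x hx
    have : zpowers α ≤ MulAction.stabilizer (MulAut G) x := zpowers_le.2 (hfix x hx)
    exact this hβ
  let i : G →* Γ := SemidirectProduct.inl
  let j : zpowers α →* Γ := SemidirectProduct.inr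
  have hi : Function.Injective i := SemidirectProduct.inl_injective
  have hcomm : ∀ x ∈ (P : Subgroup G), ∀ β, i x * j β = j β * i x := by
    intro x hx β
    have h := SemidirectProduct.inl_aut (φ := (zpowers α).subtype) β x
    rw [map_inv, Subgroup.subtype_apply, hfix' β x hx] at h
    exact (eq_mul_inv_iff_mul_eq.1 h)
  have hc : j.range ≤ centralizer (((P : Subgroup G).map i : Subgroup Γ) : Set Γ) := by
    rintro _ ⟨β, rfl⟩ _ ⟨x, hx, rfl⟩
    exact hcomm x hx β
  have hn := GT.le_normalizer_of_le_centralizer hc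
  have hK : (⊤ : Subgroup G).map i = (SemidirectProduct.rightHom : Γ →* _).ker := by
    rw [← MonoidHom.range_eq_map]; exact SemidirectProduct.range_inl_eq_ker_rightHom
  have hKn : ((⊤ : Subgroup G).map i).Normal := by rw [hK]; infer_instance
  have hT : GT.IsSylowIn 2 (j.range ⊔ (P : Subgroup G).map i) ⊤ := by
    rw [GT.isSylowIn_top_iff']
    refine ⟨IsPGroup.to_sup_of_normal_right' (hα.of_surjective _ j.rangeRestrict_surjective)
      (P.isPGroup'.map _) hn, ?_⟩
    rw [GT.index_eq_relIndex_of_sup_eq_top' (N := (⊤ : Subgroup G).map i)]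
    · exact ((GT.isSylowIn_sylow P).map_of_injective hi).not_dvd_relIndex_of_le le_sup_right
    · rw [eq_top_iff]
      intro x _
      rw [← SemidirectProduct.inl_left_mul_inr_right x]
      exact mul_mem (mem_sup_right ⟨_, mem_top _, rfl⟩) (mem_sup_left (mem_sup_left ⟨_, rfl⟩))
  have hO : pPrimeCore 2 Γ = ⊥ := by
    rw [eq_bot_iff]
    intro x hx
    have h1 : x ∈ (⊤ : Subgroup G).map i := by
      rw [hK]
      exact (GT.isPElt_of_isPGroup hα _).eq_one_of_isPRegular
        ((GT.isPRegular_of_mem_pPrimeCore hx).map _)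
    obtain ⟨g, -, rfl⟩ := h1
    have h3 : (pPrimeCore 2 Γ).comap i ≤ pPrimeCore 2 G :=
      GT.le_pPrimeCore' (GT.not_dvd_card_iff_forall_isPRegular.2 fun y hy =>
        (GT.isPRegular_map_iff hi).1 (GT.isPRegular_of_mem_pPrimeCore hy))
    have h4 := h3 hx
    rw [hcore, mem_bot] at h4
    rw [h4, map_one]; exact one_mem _
  obtain ⟨x, hx, c, hc', e⟩ := aux hO hT.toSylowTop (by
    intro x hx y hy
    rw [GT.IsSylowIn.coe_toSylowTop, GT.mem_sup_of_le_normalizer_right hn] at hx hy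
    obtain ⟨_, ⟨β, rfl⟩, _, ⟨x, hx, rfl⟩, rfl⟩ := hx
    obtain ⟨_, ⟨γ, rfl⟩, _, ⟨y, hy, rfl⟩, rfl⟩ := hy
    have e1 : Commute (j β) (j γ) := Commute.map (x := β) (y := γ) (Subtype.ext
      (GT.commute_of_mem_zpowers β.2 (GT.commute_of_mem_zpowers γ.2 (Commute.refl α)).symm)) j
    have e2 : Commute (i x) (i y) :=
      Commute.map (congrArg Subtype.val (hab.is_comm.comm ⟨x, hx⟩ ⟨y, hy⟩)) i
    have e3 : Commute (i x) (j γ) := hcomm x hx γ
    have e4 : Commute (i y) (j β) := hcomm y hy β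
    exact ((e1.mul_right e4.symm).mul_left (e3.mul_right e2)).eq)
    (t := j ⟨α, mem_zpowers α⟩) (mem_sup_left ⟨_, rfl⟩)
  have hx' : x ∈ (⊤ : Subgroup G).map i := by
    rw [hK]
    refine (commutator_le.2 fun a _ b _ => ?_ : commutator Γ ≤ _) hx
    rw [MonoidHom.mem_ker, map_commutatorElement, commutatorElement_eq_one_iff_commute]
    exact Subtype.ext (GT.commute_of_mem_zpowers (Subtype.prop _)
      (GT.commute_of_mem_zpowers (Subtype.prop _) (Commute.refl α)).symm)
  obtain ⟨g, -, rfl⟩ := hx'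
  refine ⟨g, fun y => ?_⟩
  apply hi
  have h5 : i (α y) = j ⟨α, mem_zpowers α⟩ * i y * (j ⟨α, mem_zpowers α⟩)⁻¹ := by
    rw [← map_inv]
    exact SemidirectProduct.inl_aut (φ := (zpowers α).subtype) ⟨α, mem_zpowers α⟩ y
  rw [h5, ← e, mul_assoc (i g), ← mem_center_iff.1 hc']
  simp [mul_assoc]

end Cfsg.Agent.S4593
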