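import Cfsg.Statements.S4594
import Cfsg.Agent.Lib.GW.Main
import Cfsg.Agent.Lib.GW.ProdE

set_option autoImplicit false
open Cfsg

namespace Cfsg.Agent.S4594

/-- Let G be a finite quasisimple group with a non-abelian Sylow 2-subgroup P whose centre has index 4 in P. Then P has order 8, and G is isomorphic to the alternating group on 7 letters, or G has centre of order 3 with central quotient isomorphic to the alternating group on 7 letters, or the central quotient of G is isomorphic to PSL(2, F) for some finite field F of odd order. -/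
theorem result {G : Type*} [Group G] [Finite G] (hq : Cfsg.IsQuasisimple G) (P : Sylow 2 G) (hna : ¬ IsMulCommutative (P : Subgroup G)) (hZ : (Subgroup.center (P : Subgroup G)).index = 4) :
    Nat.card (P : Subgroup G) = 8 ∧
      (Nonempty (G ≃* alternatingGroup (Fin 7)) ∨
       (Nat.card (Subgroup.center G) = 3 ∧ Nonempty (G ⧸ Subgroup.center G ≃* alternatingGroup (Fin 7))) ∨
       ∃ (F : Type) (_ : Field F) (_ : Fintype F), Odd (Fintype.card F) ∧ Nonempty (G ⧸ Subgroup.center G ≃* Matrix.ProjectiveSpecialLinearGroup (Fin 2) F)) :=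
  GW.Fu.main (GW.Fu.ProdStmt.simple fun G _ _ _ _ _ h1 h2 h3 h4 h5 h6 h7 =>
    GW.product G h1 h2 h3 h4 h5 h6 h7) GW.gwStmt hq P hna hZ

end Cfsg.Agent.S4594
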