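import Cfsg.Statements.S4602
import Cfsg.Agent.Lib.Grp.Coprime
import Cfsg.Agent.Lib.Grp.PSolv

set_option autoImplicit false
open Cfsg

namespace Cfsg.Agent.S4602

open Subgroup GT

theorem exists_of_not_dvd {G : Type*} [Group G] [Finite G] (p q : ℕ) [Fact p.Prime] [Fact q.Prime]
    (h : ¬ q ∣ (pPrimeCore p G).index) :
    ∃ (P : Sylow p G) (Q : Sylow q G), (P : Subgroup G) ≤ normalizer ((Q : Subgroup G) : Set G) := by
  obtain ⟨Q⟩ : Nonempty (Sylow q G) := inferInstance
  have hQ : (Q : Subgroup G) ≤ pPrimeCore p G := sylow_le_of_not_dvd_index Q h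
  have h1 := (isSylowIn_sylow_of_le Q hQ).frattini_top
  have h2 : ¬ p ∣ (normalizer ((Q : Subgroup G) : Set G)).index := by
    rw [sup_comm] at h1
    rw [index_eq_relIndex_of_sup_eq_top' h1]
    exact fun hd => not_dvd_card_pPrimeCore p G (hd.trans (relIndex_dvd_card _ _))
  obtain ⟨P, hP⟩ := exists_sylow_le_of_not_dvd_index h2
  exact ⟨P, Q, hP⟩


/-- Let G be a finite p-solvable group and q a prime different from p. Some Sylow p-subgroup of G normalizes some Sylow q-subgroup of G if and only if q does not divide the order of G/O_{p'}(G), the quotient by the largest normal subgroup of order prime to p. -/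
theorem result {G : Type*} [Group G] [Finite G] (p q : ℕ) [Fact p.Prime] [Fact q.Prime] (hpq : p ≠ q) (hsolv : Cfsg.IsPSolvable p G) :
    (∃ (P : Sylow p G) (Q : Sylow q G), (P : Subgroup G) ≤ Subgroup.normalizer ((Q : Subgroup G) : Set G)) ↔ ¬ q ∣ (Cfsg.pPrimeCore p G).index := by
  refine ⟨?_, exists_of_not_dvd p q⟩
  rintro ⟨P, Q, hPQ⟩
  set K := pPrimeCore p G
  let f := QuotientGroup.mk' K
  have hs : IsPSolvable p (G ⧸ K) := isPSolvable_quotient hsolv K
  have hC := centralizer_pCore_le hs (pPrimeCore_quotient_pPrimeCore p G)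
  have hP := (isSylowIn_sylow P).map_top_of_surjective (QuotientGroup.mk'_surjective K)
  have hQ := (isSylowIn_sylow Q).map_top_of_surjective (QuotientGroup.mk'_surjective K)
  have hO : pCore p (G ⧸ K) ≤ (P : Subgroup G).map f := by
    rw [← hP.coe_toSylowTop]
    exact pCore_le_sylow _
  have hd : Disjoint (pCore p (G ⧸ K)) ((Q : Subgroup G).map f) :=
    IsPGroup.disjoint_of_ne p q hpq _ _ (isPGroup_pCore p _) hQ.isPGroup
  have h1 : (Q : Subgroup G).map f ≤ centralizer (pCore p (G ⧸ K) : Set (G ⧸ K)) :=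
    commute_of_normal_of_disjoint' (hO.trans (map_le_normalizer_map hPQ f))
      (by rw [normalizer_eq_top]; exact le_top) hd.symm
  have h2 : (Q : Subgroup G).map f = ⊥ := by
    rw [eq_bot_iff, ← hd.eq_bot]
    exact le_inf (h1.trans hC) le_rfl
  exact not_dvd_index_of_sylow_le Q (map_mk'_eq_bot_iff.1 h2)

end Cfsg.Agent.S4602
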