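import Cfsg.Statements.S4601
import Cfsg.Agent.S4602

set_option autoImplicit false
open Cfsg

namespace Cfsg.Agent.S4601

open Subgroup GT
open scoped Pointwise

theorem hyp_quotient {G : Type*} [Group G] [Finite G] {p q : ℕ} [Fact q.Prime]
    (h : ∀ y : G, IsPElt q y → ¬ p ∣ (centralizer ({y} : Set G)).index) (N : Subgroup G)
    [N.Normal] (y : G ⧸ N) (hy : IsPElt q y) :
    ¬ p ∣ (centralizer ({y} : Set (G ⧸ N))).index := by
  obtain ⟨x, rfl⟩ := QuotientGroup.mk_surjective y
  have h1 : ((pPart q x : G) : G ⧸ N) = x := by rw [mk_pPart, hy.pPart_eq]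
  intro hd
  apply h _ (isPElt_pPart q x)
  rw [← index_comap_mk'] at hd
  refine hd.trans (index_dvd_of_le ?_)
  intro c hc
  rw [mem_comap, mem_centralizer_singleton_iff, ← h1]
  have := mem_centralizer_singleton_iff.1 hc
  simp only [QuotientGroup.mk'_apply, ← QuotientGroup.mk_mul, this]

universe u

theorem aux (p q : ℕ) [Fact p.Prime] [Fact q.Prime] (hpq : p ≠ q) (G : Type u) [Group G]
    [Finite G] : IsPSolvable q G →
    (∀ y : G, IsPElt q y → ¬ p ∣ (centralizer ({y} : Set G)).index) →
    ∃ Q : Subgroup G, IsSylowIn q Q ⊤ ∧ ¬ p ∣ (normalizer (Q : Set G)).index := by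
  refine induction_on_card (P := fun G _ _ => IsPSolvable q G →
    (∀ y : G, IsPElt q y → ¬ p ∣ (centralizer ({y} : Set G)).index) →
    ∃ Q : Subgroup G, IsSylowIn q Q ⊤ ∧ ¬ p ∣ (normalizer (Q : Set G)).index)
    (fun G _ _ ih => ?_) G
  intro hs h
  rcases subsingleton_or_nontrivial G with hG | hG
  · obtain ⟨Q, hQ⟩ := exists_isSylowIn (p := q) (⊤ : Subgroup G)
    refine ⟨Q, hQ, ?_⟩
    rw [Subsingleton.elim (normalizer (Q : Set G)) ⊤, index_top]
    exact (Fact.out : p.Prime).one_lt.ne' ∘ Nat.dvd_one.1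
  have key : ∀ (N : Subgroup G) [N.Normal], N ≠ ⊥ →
      (∀ Q : Subgroup G, IsSylowIn q Q ⊤ → ¬ p ∣ (normalizer (Q : Set G)).relIndex N) →
      ∃ Q : Subgroup G, IsSylowIn q Q ⊤ ∧ ¬ p ∣ (normalizer (Q : Set G)).index := by
    intro N _ hN hrel
    obtain ⟨Q', hQ', hp'⟩ := ih (G ⧸ N) (card_quotient_lt hN) (isPSolvable_quotient hs N)
      (hyp_quotient h N)
    rw [← map_top_of_surjective _ (QuotientGroup.mk'_surjective N)] at hQ'
    obtain ⟨Q, hQ, rfl⟩ := hQ'.exists_map_eq
    refine ⟨Q, hQ, ?_⟩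
    set H := normalizer ((Q ⊔ N : Subgroup G) : Set G) with hH
    have hH1 : (normalizer ((Q.map (QuotientGroup.mk' N) : Subgroup (G ⧸ N)) : Set (G ⧸ N))).comap
        (QuotientGroup.mk' N) = H := by
      rw [comap_normalizer_eq_of_surjective _ (QuotientGroup.mk'_surjective N), comap_map_mk'_eq]
    have hH2 : ¬ p ∣ H.index := by rwa [← hH1, index_comap_mk']
    have hle : normalizer (Q : Set G) ≤ H :=
      le_normalizer_sup le_rfl (by rw [normalizer_eq_top N]; exact le_top)
    have hNH : N ≤ H := le_sup_right.trans le_normalizer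
    have hfr : normalizer (Q : Set G) ⊔ N = H := by
      have h1 := (hQ.of_le (le_sup_left : Q ≤ Q ⊔ N) le_top).frattini_sup (H := H) le_normalizer
        le_rfl
      rw [inf_eq_left.2 hle] at h1
      rw [← h1, sup_comm Q N, sup_assoc, sup_eq_right.2 (le_normalizer : Q ≤ _), sup_comm]
    rw [← relIndex_mul_index hle]
    intro hd
    rcases (Fact.out : p.Prime).dvd_mul.1 hd with h1 | h1
    · apply hrel Q hQ
      have h2 := card_sup_mul_card_inf (normalizer (Q : Set G)) N
      rw [hfr, ← card_mul_relIndex hle, ← card_inf_mul_relIndex (normalizer (Q : Set G)) N,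
        mul_assoc, mul_comm (relIndex _ _)] at h2
      rwa [← Nat.eq_of_mul_eq_mul_left Nat.card_pos (Nat.eq_of_mul_eq_mul_left Nat.card_pos h2)]
    · exact hH2 h1
  rcases pCore_ne_bot_or_pPrimeCore_ne_bot hs with h1 | h1
  · refine key _ h1 fun Q hQ => ?_
    have : pCore q G ≤ normalizer (Q : Set G) := by
      refine le_trans ?_ le_normalizer
      rw [← hQ.coe_toSylowTop]
      exact pCore_le_sylow _
    rw [relIndex_eq_one.2 this]
    exact (Fact.out : p.Prime).one_lt.ne' ∘ Nat.dvd_one.1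
  · refine key _ h1 fun Q hQ => ?_
    set K := pPrimeCore q G
    have hact : CoprimeAct Q K := coprimeAct_of_isPGroup_left
      (by rw [normalizer_eq_top]; exact le_top) hQ.isPGroup (not_dvd_card_pPrimeCore q G)
    obtain ⟨S, hS, hQS⟩ := hact.exists_isSylowIn (p := p)
    refine hS.not_dvd_relIndex_of_le (le_trans ?_ (centralizer_le_normalizer _))
    rw [le_centralizer_iff]
    intro y hy
    obtain ⟨P, hP⟩ := exists_sylow_le_of_not_dvd_index (h y (isPElt_of_mem hQ.isPGroup hy))
    have hy' : zpowers y ≤ Q := zpowers_le.2 hy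
    have hPc : (P : Subgroup G) ⊓ K ≤ centralizer (zpowers y : Set G) := by
      rw [centralizer_zpowers]
      exact inf_le_left.trans hP
    obtain ⟨c, hc, hcS⟩ := (hact.of_le_left hy').exists_mem_centralizer_conj_eq_of_isSylowIn
      (isSylowIn_inf_of_normal P K) hS
      (le_normalizer_of_le_centralizer (le_centralizer_iff.1 hPc)) (hy'.trans hQS)
    have : S ≤ centralizer (zpowers y : Set G) := by
      rw [← hcS, conj_smul_le_iff]
      intro a ha
      exact mul_mem (mul_mem hc.2 (hPc ha)) (inv_mem hc.2)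
    exact le_centralizer_iff.1 this (mem_zpowers y)


/-- Let p and q be primes and G a finite group that is p-solvable or q-solvable, in which no q-element has conjugacy class size divisible by p. Then some Sylow p-subgroup of G normalizes some Sylow q-subgroup of G. -/
theorem result {G : Type*} [Group G] [Finite G] (p q : ℕ) [Fact p.Prime] [Fact q.Prime] (hsolv : Cfsg.IsPSolvable p G ∨ Cfsg.IsPSolvable q G)
    (h : ∀ y : G, (∃ k : ℕ, orderOf y = q ^ k) → ¬ p ∣ (Subgroup.centralizer ({y} : Set G)).index) :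
    ∃ (P : Sylow p G) (Q : Sylow q G), (P : Subgroup G) ≤ Subgroup.normalizer ((Q : Subgroup G) : Set G) := by
  by_cases hpq : p = q
  · subst hpq
    obtain ⟨P⟩ : Nonempty (Sylow p G) := inferInstance
    exact ⟨P, P, le_normalizer⟩
  rcases hsolv with hs | hs
  · apply S4602.exists_of_not_dvd
    set K := pPrimeCore p G
    intro hd
    obtain ⟨y, hy⟩ := exists_prime_orderOf_dvd_card' (G := G ⧸ K) q hd
    have hyq : IsPElt q y := ⟨1, by simpa using hy⟩
    obtain ⟨P, hP⟩ := exists_sylow_le_of_not_dvd_index (hyp_quotient h K y hyq)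
    have hC := centralizer_pCore_le (isPSolvable_quotient hs K) (pPrimeCore_quotient_pPrimeCore p G)
    have h1 : y ∈ pCore p (G ⧸ K) := by
      apply hC
      rw [mem_centralizer_iff]
      intro a ha
      exact mem_centralizer_singleton_iff.1 (hP (pCore_le_sylow P ha))
    have h2 := (isPElt_of_mem (isPGroup_pCore p _) h1).eq_one_of_isPRegular
      (hyq.isPRegular_of_ne hpq)
    rw [h2, orderOf_one] at hy
    exact (Fact.out : q.Prime).one_lt.ne hy
  · obtain ⟨Q, hQ, h1⟩ := aux p q hpq G hs h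
    obtain ⟨P, hP⟩ := exists_sylow_le_of_not_dvd_index h1
    exact ⟨P, hQ.toSylowTop, hP⟩

end Cfsg.Agent.S4601
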