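import Cfsg.Statements.S4604
import Cfsg.Agent.Lib.Char.CommSum
import Cfsg.Agent.Lib.Grp.SylowIn

set_option autoImplicit false
open Cfsg

namespace Cfsg.Agent.S4604

/-- The average of a character over a coset of a normal subgroup is an algebraic integer. -/
theorem exists_sum_coset {H : Type*} [Group H] [Finite H] (N : Subgroup H) [N.Normal] [Fintype N]
    {χ : H → ℂ} (hχ : IsCharacter H χ) (h : H) :
    ∃ a : ℂ, IsIntegral ℤ a ∧ ∑ n : N, χ (h * n) = Nat.card N * a := by
  classical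
  have key : ∀ θ : IrrCharacter H, ∃ a : ℂ, IsIntegral ℤ a ∧
      ∑ n : N, θ.1 (h * n) = Nat.card N * a := by
    intro θ
    by_cases hθ : N ≤ CT.ker θ.1
    · refine ⟨θ.1 h, CT.irr_isIntegral θ h, ?_⟩
      have : ∀ n : N, θ.1 (h * n) = θ.1 h := fun n =>
        CT.ker_apply_mul_right (CT.irr_isClassFunction θ) (hθ n.2) h
      simp only [this, Finset.sum_const, Finset.card_univ, nsmul_eq_mul, Nat.card_eq_fintype_card]
    · exact ⟨0, isIntegral_zero, by rw [CT.sum_normal_irr_eq_zero N hθ, mul_zero]⟩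
  choose a ha ha' using key
  obtain ⟨m, rfl⟩ := hχ.exists_nat_comb
  refine ⟨∑ θ, m θ * a θ, IsIntegral.sum _ fun θ _ => (isIntegral_natCast _).mul (ha θ), ?_⟩
  simp only [Finset.sum_apply, Pi.smul_apply, smul_eq_mul]
  rw [Finset.sum_comm, Finset.mul_sum]
  refine Finset.sum_congr rfl fun θ _ => ?_
  rw [← Finset.mul_sum, ha']
  ring

theorem prime_dvd_of_eq {p n : ℕ} (hp : p.Prime) {γ : ℂ} (hγ : IsIntegral ℤ γ)
    (h : (n : ℂ) = p * γ) : p ∣ n := by
  have hp0 : (p : ℂ) ≠ 0 := Nat.cast_ne_zero.mpr hp.ne_zero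
  have h1 : γ = algebraMap ℚ ℂ ((n : ℚ) / p) := by
    simp only [map_div₀, map_natCast]
    rw [h]; field_simp
  rw [h1, isIntegral_algebraMap_iff (algebraMap ℚ ℂ).injective] at hγ
  obtain ⟨m, hm⟩ := IsIntegrallyClosed.algebraMap_eq_of_integral hγ
  have hp1 : (p : ℚ) ≠ 0 := Nat.cast_ne_zero.mpr hp.ne_zero
  have h2 : (n : ℚ) = p * m := by
    rw [eq_intCast] at hm
    rw [hm]; field_simp
  have h3 : (n : ℤ) = p * m := by exact_mod_cast h2
  exact Int.natCast_dvd_natCast.mp ⟨m, h3⟩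

/-- `p`-regular elements on which all irreducible characters agree modulo `p` are conjugate. -/
theorem isConj_of_forall_irr {G : Type*} [Group G] [Finite G] (p : ℕ) [hp : Fact p.Prime] {u v : G}
    (hu : IsPRegular p u) (hv : IsPRegular p v)
    (h : ∀ χ : IrrCharacter G, ∃ γ : ℂ, IsIntegral ℤ γ ∧ χ.1 u - χ.1 v = p * γ) : IsConj u v := by
  classical
  by_contra hc
  obtain ⟨P, hP⟩ := GT.exists_isSylowIn (p := p) (Subgroup.centralizer ({u} : Set G))
  have hcomm : ∀ t ∈ P, Commute t u := fun t ht =>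
    Subgroup.mem_centralizer_singleton_iff.mp (hP.le ht)
  have huN : u ∈ Subgroup.normalizer (P : Set G) := by
    apply GT.mem_normalizer_of_conj_mem
    intro t ht
    rw [← (hcomm t ht).eq, mul_inv_cancel_right]; exact ht
  have := Fintype.ofFinite P
  have := Fintype.ofFinite (P.subgroupOf (Subgroup.normalizer (P : Set G)))
  have key : ∀ χ : IrrCharacter G, ∃ a : ℂ, IsIntegral ℤ a ∧
      ∑ t : P, χ.1 (u * t) = Nat.card P * a := by
    intro χ
    obtain ⟨a, ha, h1⟩ := exists_sum_coset (P.subgroupOf (Subgroup.normalizer (P : Set G)))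
      ((CT.irr_isCharacter χ).res _) ⟨u, huN⟩
    refine ⟨a, ha, ?_⟩
    rw [← GT.card_subgroupOf_of_le Subgroup.le_normalizer, ← h1]
    exact (Fintype.sum_equiv (Subgroup.subgroupOfEquivOfLe Subgroup.le_normalizer).toEquiv _ _
      fun n => rfl).symm
  choose a ha ha' using key
  choose γ hγ hγ' using h
  have hreg : ∀ (w : G) (t : P), IsPRegular p w → IsConj w (u * t) → t = 1 := by
    intro w t hw hwt
    have h1 : IsPRegular p (u * t) := hw.of_isConj hwt
    have h2 := GT.pPart_mul_eq' (hcomm t t.2) (GT.isPElt_of_mem hP.isPGroup t.2) hu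
    rw [h1.pPart_eq] at h2
    exact Subtype.ext h2.symm
  have h1 : ∑ t : P, ∑ χ : IrrCharacter G, χ.1 u * (starRingEnd ℂ) (χ.1 (u * t)) =
      Nat.card (Subgroup.centralizer ({u} : Set G)) := by
    rw [Finset.sum_eq_single 1]
    · rw [CT.sum_irr_mul_conj, if_pos (by rw [OneMemClass.coe_one, mul_one])]
    · intro t _ ht
      rw [CT.sum_irr_mul_conj, if_neg (fun hh => ht (hreg u t hu hh))]
    · simp
  have h2 : ∑ t : P, ∑ χ : IrrCharacter G, χ.1 v * (starRingEnd ℂ) (χ.1 (u * t)) = 0 := by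
    refine Finset.sum_eq_zero fun t _ => ?_
    rw [CT.sum_irr_mul_conj, if_neg]
    intro hh
    have := hreg v t hv hh
    rw [this] at hh
    exact hc (by simpa using hh.symm)
  have h3 : (Nat.card (Subgroup.centralizer ({u} : Set G)) : ℂ) =
      Nat.card P * (p * ∑ χ : IrrCharacter G, γ χ * (starRingEnd ℂ) (a χ)) := by
    rw [← sub_zero (Nat.card (Subgroup.centralizer ({u} : Set G)) : ℂ), ← h1, ← h2,
      ← Finset.sum_sub_distrib]
    simp only [← Finset.sum_sub_distrib, ← sub_mul, hγ']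
    rw [Finset.sum_comm, Finset.mul_sum, Finset.mul_sum]
    refine Finset.sum_congr rfl fun χ _ => ?_
    rw [← Finset.mul_sum, ← map_sum, ha', map_mul, map_natCast]
    ring
  rw [← GT.card_mul_relIndex hP.le, Nat.cast_mul] at h3
  have h4 := mul_left_cancel₀ CT.card_cast_ne_zero h3
  apply hP.not_dvd
  refine prime_dvd_of_eq hp.out (IsIntegral.sum _ fun χ _ => (hγ χ).mul ?_) h4
  exact (ha χ).map ((starRingEnd ℂ).toIntAlgHom)


/-- Let G be a finite group, p a prime and p^a the p-part of the order of G. Let x, y ∈ G and let x′, y′ be their p-regular parts: x′ has order prime to p, commutes with x·x′⁻¹, and x·x′⁻¹ has p-power order (likewise for y). Then x′ and y′ are conjugate in G if and only if for every irreducible character χ of G the algebraic integer χ(x)^(p^a) − χ(y)^(p^a) is p times an algebraic integer. -/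
theorem result {G : Type*} [Group G] [Finite G] (p : ℕ) [Fact p.Prime] (x y x' y' : G)
    (hx : (∃ k : ℕ, orderOf (x * x'⁻¹) = p ^ k) ∧ Commute (x * x'⁻¹) x' ∧ ¬ p ∣ orderOf x')
    (hy : (∃ k : ℕ, orderOf (y * y'⁻¹) = p ^ k) ∧ Commute (y * y'⁻¹) y' ∧ ¬ p ∣ orderOf y') :
    IsConj x' y' ↔ ∀ χ : Cfsg.IrrCharacter G, ∃ γ : Cfsg.AlgInt,
      (χ : G → ℂ) x ^ (p ^ (Nat.card G).factorization p) - (χ : G → ℂ) y ^ (p ^ (Nat.card G).factorization p) = (p : ℂ) * (γ : ℂ) := by
  have hp : p.Prime := Fact.out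
  set q := p ^ (Nat.card G).factorization p with hq
  have hpow : ∀ z z' : G, ((∃ k : ℕ, orderOf (z * z'⁻¹) = p ^ k) ∧ Commute (z * z'⁻¹) z' ∧
      ¬ p ∣ orderOf z') → z ^ q = z' ^ q := by
    rintro z z' ⟨⟨k, hk⟩, hc, -⟩
    have h1 : (z * z'⁻¹) ^ q = 1 := by
      apply orderOf_dvd_iff_pow_eq_one.mp
      rw [hk]
      apply pow_dvd_pow
      rw [← hp.pow_dvd_iff_le_factorization Nat.card_pos.ne', ← hk]
      exact orderOf_dvd_natCard _
    conv_lhs => rw [← inv_mul_cancel_right z z', hc.mul_pow, h1, one_mul]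
  have key : ∀ χ : IrrCharacter G, ∃ γ : AlgInt,
      χ.1 x ^ q - χ.1 y ^ q - (χ.1 (x' ^ q) - χ.1 (y' ^ q)) = p * (γ : ℂ) := by
    intro χ
    obtain ⟨a, ha⟩ := (CT.irr_isCharacter χ).isGen.apply_pow_prime_pow hp
      ((Nat.card G).factorization p) x
    obtain ⟨b, hb⟩ := (CT.irr_isCharacter χ).isGen.apply_pow_prime_pow hp
      ((Nat.card G).factorization p) y
    refine ⟨a - b, ?_⟩
    rw [← hpow x x' hx, ← hpow y y' hy]
    push_cast
    linear_combination ha - hb
  constructor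
  · intro h χ
    obtain ⟨γ, hγ⟩ := key χ
    refine ⟨γ, ?_⟩
    rw [← hγ, (CT.irr_isClassFunction χ).of_isConj (h.pow q), sub_self, sub_zero]
  · intro h
    have h1 : IsConj (x' ^ q) (y' ^ q) := by
      refine isConj_of_forall_irr p (IsPRegular.pow hx.2.2 q) (IsPRegular.pow hy.2.2 q) fun χ => ?_
      obtain ⟨γ, hγ⟩ := key χ
      obtain ⟨δ, hδ⟩ := h χ
      refine ⟨(δ - γ : AlgInt), (δ - γ).2, ?_⟩
      push_cast
      linear_combination hδ - hγ
    have hcop : q.Coprime (orderOf x' * orderOf y') := by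
      apply Nat.Coprime.pow_left
      exact Nat.Coprime.mul_right ((Nat.Prime.coprime_iff_not_dvd hp).mpr hx.2.2)
        ((Nat.Prime.coprime_iff_not_dvd hp).mpr hy.2.2)
    have hpos : 0 < orderOf x' * orderOf y' := Nat.mul_pos (orderOf_pos _) (orderOf_pos _)
    obtain ⟨m, hm⟩ : ∃ m : ℕ, q * m ≡ 1 [MOD orderOf x' * orderOf y'] := by
      rcases Nat.lt_or_ge 1 (orderOf x' * orderOf y') with h2 | h2
      · obtain ⟨m, -, hm⟩ := Nat.exists_mul_mod_eq_one_of_coprime hcop h2
        exact ⟨m, by rw [Nat.ModEq, hm, Nat.mod_eq_of_lt h2]⟩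
      · refine ⟨0, ?_⟩
        rw [show orderOf x' * orderOf y' = 1 by omega]
        exact Nat.modEq_one
    have h2 := h1.pow m
    rw [← pow_mul, ← pow_mul, pow_eq_pow_iff_modEq.mpr (hm.of_dvd (Dvd.intro _ rfl)),
      pow_eq_pow_iff_modEq.mpr (hm.of_dvd (Dvd.intro_left _ rfl)), pow_one, pow_one] at h2
    exact h2

end Cfsg.Agent.S4604
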