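import Cfsg.Statements.S4608
import Cfsg.Agent.Lib.Block.SmallAb

set_option autoImplicit false
open Cfsg

namespace Cfsg.Agent.S4608

/-- Let G be a finite group, p a prime, M a maximal ideal of the algebraic integers containing p, and B a p-block of G with defect group D. If B has p-regular rank one and exactly five irreducible characters, then D is cyclic of order 5, or D has order 8 and is non-abelian (dihedral or quaternion). -/
theorem result {G : Type*} [Group G] [Finite G] (p : ℕ) [Fact p.Prime] (M : Ideal Cfsg.AlgInt) (hM : Cfsg.IsPModular p M) (B : Set (Cfsg.IrrCharacter G)) (hB : Cfsg.IsPBlock M B) (D : Subgroup G) (hD : Cfsg.IsDefectGroup p M B D)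
    (hl : Cfsg.blockRank p B = 1) (hk : Nat.card B = 5) :
    (Nat.card D = 5) ∨ (Nat.card D = 8 ∧ ¬ IsMulCommutative D) := by
  have h1 := BT.card_defectGroup hM hB hD
  rcases BT.card_defect_of_rank_one_card_five hM hB hl hk with h | h
  · exact Or.inl (h1.trans h)
  refine Or.inr ⟨h1.trans h, fun hc => ?_⟩
  have hp : p.Prime := Fact.out
  have h8 : (8 : ℕ) = 2 ^ 3 := by norm_num
  have hd0 : Cfsg.blockDefect p B ≠ 0 := fun h0 => by rw [h0] at h; norm_num at h
  obtain rfl : p = 2 := by
    have : p ∣ 2 ^ 3 := by rw [← h8, ← h]; exact dvd_pow_self p hd0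
    exact (Nat.prime_dvd_prime_iff_eq hp Nat.prime_two).1 (hp.dvd_of_dvd_pow this)
  have hd : Cfsg.blockDefect 2 B = 3 := Nat.pow_right_injective le_rfl (h.trans h8)
  have h2 := BT.odd_card_add_blockRank_of_abelian hM hB hD
    (fun x hx y hy => congrArg Subtype.val (hc.is_comm.comm (⟨y, hy⟩ : D) ⟨x, hx⟩)) hd0 hd.le
  rw [hk, hl] at h2
  exact absurd h2 (by decide)

end Cfsg.Agent.S4608
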