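import Cfsg.Statements.S4609
import Cfsg.Agent.Lib.Block.NormThree
import Cfsg.Agent.Lib.Block.QuotCartan
import Cfsg.Agent.Lib.Block.NormDef

set_option autoImplicit false
open Cfsg

namespace Cfsg.Agent.S4609

/-- Let G be a finite group, p a prime, M a maximal ideal of the algebraic integers containing p, and B a p-block of G with defect group D containing exactly three irreducible characters. Suppose the number of height-zero characters of B equals the number of height-zero characters of its Brauer correspondent b, the block of N_G(D) with defect group D inducing B (as the Alperin–McKay conjecture predicts). Then D has order 3. -/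
theorem result {G : Type*} [Group G] [Finite G] (p : ℕ) [Fact p.Prime] (M : Ideal Cfsg.AlgInt) (hM : Cfsg.IsPModular p M) (B : Set (Cfsg.IrrCharacter G)) (hB : Cfsg.IsPBlock M B) (D : Subgroup G) (hD : Cfsg.IsDefectGroup p M B D) (hk : Nat.card B = 3)
    (b : Set (Cfsg.IrrCharacter (Subgroup.normalizer (D : Set G)))) (hbB : Cfsg.IsInducedBlock M (Subgroup.normalizer (D : Set G)) b B)
    (hbD : Cfsg.IsDefectGroup p M b (D.subgroupOf (Subgroup.normalizer (D : Set G))))
    (hAM : Nat.card {χ : Cfsg.IrrCharacter G // χ ∈ B ∧ Cfsg.blockHeight p B (χ : G → ℂ) = 0} =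
           Nat.card {ψ : Cfsg.IrrCharacter (Subgroup.normalizer (D : Set G)) // ψ ∈ b ∧ Cfsg.blockHeight p b (ψ : Subgroup.normalizer (D : Set G) → ℂ) = 0}) :
    Nat.card D = 3 := by
  classical
  have hp : p.Prime := Fact.out
  have hDp := (BT.defGrp_of_isDefectGroup hM hB hD).pgroup
  have h1 := BT.card_defectGroup hM hB hD
  have hDN : D ≤ Subgroup.normalizer (D : Set G) := Subgroup.le_normalizer
  let N := Subgroup.normalizer (D : Set G)
  let E := D.subgroupOf N
  have e : E ≃* D := Subgroup.subgroupOfEquivOfLe hDN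
  have hEp : IsPGroup p E := hDp.of_equiv e.symm
  haveI : E.Normal := Subgroup.normal_in_normalizer
  let π := QuotientGroup.mk' ⁅E, E⁆
  have hπ : Function.Surjective π := QuotientGroup.mk'_surjective _
  have hker : π.ker = ⁅E, E⁆ := QuotientGroup.ker_mk' _
  have hEE : ⁅E, E⁆ ≤ E := Subgroup.commutator_le_left E E
  obtain ⟨c, hc, h2, h3⟩ := BT.exists_dominated_defect_map hM hπ (hEp.to_le (hker.le.trans hEE)) hbB.1 hbD
  haveI : (E.map π).Normal := Subgroup.Normal.map inferInstance π hπ
  haveI : IsMulCommutative (E.map π) := ⟨⟨by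
    rintro ⟨_, x, hx, rfl⟩ ⟨_, y, hy, rfl⟩
    refine Subtype.ext (commutatorElement_eq_one_iff_mul_comm.1 ?_)
    rw [← map_commutatorElement, ← MonoidHom.mem_ker, hker]
    exact Subgroup.commutator_mem_commutator hx hy⟩⟩
  have h4 : Nat.card c ≤ 3 := by
    refine le_trans (Nat.card_le_card_of_injective (fun ψ => (⟨CT.irrComp π hπ ψ, h2 ψ.2,
      BT.blockHeight_eq_zero_of_dvd_index hM hbB.1 hbD (h2 ψ.2)
        (CT.irr_degree_dvd_index_of_commutator_le_ker _ E
          (hker.ge.trans ((CT.exists_irrComp_eq_iff π hπ _).1 ⟨ψ, rfl⟩)))⟩ :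
      {ψ : IrrCharacter N // ψ ∈ b ∧ blockHeight p b (ψ : N → ℂ) = 0}))
      fun ψ ψ' h => Subtype.ext (CT.irrComp_injective π hπ (congrArg Subtype.val h))) ?_
    refine hAM.ge.trans (le_trans ?_ hk.le)
    exact Nat.card_le_card_of_injective (fun χ => (⟨χ.1, χ.2.1⟩ : B))
      fun χ χ' h => Subtype.ext (congrArg (fun x : B => x.1) h)
  have h5 : Nat.card (E.map π) ≤ 3 := BT.card_le_three_of_normal_abelian hM hc h3 h4
  have h6 : Nat.card (E ⧸ commutator E) = Nat.card (E.map π) := by
    have h7 : (π.subgroupMap E).ker = commutator E := by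
      ext x
      rw [MonoidHom.mem_ker, Subtype.ext_iff, ← Subgroup.mem_map_iff_mem E.subtype_injective,
        Subgroup.map_subtype_commutator]
      exact QuotientGroup.eq_one_iff _
    rw [← h7]
    exact Nat.card_congr (QuotientGroup.quotientKerEquivOfSurjective _
      (π.subgroupMap_surjective E)).toEquiv
  haveI : IsCyclic (E ⧸ commutator E) := by
    have h7 : 0 < Nat.card (E ⧸ commutator E) := Nat.card_pos
    rw [← h6] at h5
    obtain h | h | h : Nat.card (E ⧸ commutator E) = 1 ∨ Nat.card (E ⧸ commutator E) = 2 ∨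
      Nat.card (E ⧸ commutator E) = 3 := by omega
    · haveI := (Nat.card_eq_one_iff_unique.1 h).1
      infer_instance
    · exact isCyclic_of_prime_card h
    · exact isCyclic_of_prime_card h
  haveI := hEp.isNilpotent
  haveI : IsCyclic E := GT.isCyclic_of_isCyclic_quotient_commutator
  have h7 : commutator E = ⊥ := by
    rw [commutator_eq_bot_iff_center_eq_top]
    exact eq_top_iff.2 fun x _ => Subgroup.mem_center_iff.2 fun y => mul_comm' y x
  rw [h7, Nat.card_congr QuotientGroup.quotientBot.toEquiv, Nat.card_congr e.toEquiv] at h6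
  have h8 : blockDefect p B ≤ 2 := by
    by_contra h
    have := (Nat.pow_le_pow_left hp.two_le 3).trans (Nat.pow_le_pow_right hp.pos (not_le.1 h))
    omega
  have := BT.card_le_pow_of_defect_le_two hM hB h8
  omega

end Cfsg.Agent.S4609
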