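import Cfsg.Statements.S4610
import Cfsg.Agent.Lib.Block.Principal

set_option autoImplicit false
open Cfsg

namespace Cfsg.Agent.S4610

open BT CT GT

/-- If the principal `p`- and `q`-blocks meet trivially, every `p`-element centralizes a Sylow
`q`-subgroup. -/
theorem key {G : Type*} [Group G] [Finite G] {p q : ℕ} [hp : Fact p.Prime] [hq : Fact q.Prime]
    (hpq : q ≠ p) {Mp Mq : Ideal AlgInt} (hMp : IsPModular p Mp) (hMq : IsPModular q Mq)
    (h : ∀ χ : IrrCharacter G, χ ∈ principalBlock Mp G → χ ∈ principalBlock Mq G →
      (χ : G → ℂ) = fun _ => 1) {u : G} (hu : IsPElt p u) :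
    ¬ q ∣ (Subgroup.centralizer ({u} : Set G)).index := by
  classical
  set C := Subgroup.centralizer ({u} : Set G) with hC
  have hG1 := irrOne_mem_principalBlock (G := G) hMq
  have hC1 := irrOne_mem_principalBlock (G := C) hMq
  have hur : IsPRegular q u := hu.isPRegular_of_ne hpq
  have h1 := blockPart_principal_apply_mul hMp hC hu
    (isClassFunction_pRegularPart (p := q) (irr_isClassFunction (irrOne G))) (s := 1)
    not_dvd_orderOf_one
  have h2 : shift C u (pRegularPart q (irrOne G).1) = pRegularPart q (irrOne C).1 := by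
    funext c
    have hc : Commute u c := (Subgroup.mem_centralizer_singleton_iff.1 c.2).symm
    change pRegularPart q (irrOne G).1 (u * c) = _
    by_cases hd : q ∣ orderOf c
    · rw [pRegularPart_of_dvd _ hd, pRegularPart_of_dvd]
      by_contra hn
      have h3 : IsPRegular q (u⁻¹ * (u * c)) :=
        hur.inv.mul_of_commute hn ((Commute.refl u).mul_right hc).inv_left
      rw [inv_mul_cancel_left, isPRegular_iff, Subgroup.orderOf_coe] at h3
      exact h3 hd
    · rw [pRegularPart_of_not_dvd _ hd, pRegularPart_of_not_dvd]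
      · rfl
      · exact hur.mul_of_commute (by rwa [isPRegular_iff, Subgroup.orderOf_coe]) hc
  have h3 : blockPart (principalBlock Mp G) (pRegularPart q (irrOne G).1) (u * (1 : C)) =
      ip (pRegularPart q (irrOne G).1) (irrOne G).1 := by
    rw [blockPart_apply_eq_sum_bset, Finset.sum_eq_single (irrOne G)]
    · simp
    · intro χ hχ h1
      have hn : χ ∉ principalBlock Mq G := fun e => h1 (Subtype.ext (h χ (mem_bset.1 hχ) e))
      rw [← blockPart_irr_of_mem hG1,
        ← blockPart_pRegularPart hMq isPBlock_principalBlock (irr_isClassFunction _),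
        ip_blockPart_of_not_mem _ hn, zero_mul]
    · exact fun e => (e (mem_bset.2 (irrOne_mem_principalBlock hMp))).elim
  obtain ⟨n, hn⟩ := (isGen_blockPart (principalBlock Mp C)
    (isGen_pow_defect_pRegularPart (p := q) hC1)).exists_int_apply_one
  rw [blockPart_smul, Pi.smul_apply, ← h2, ← h1, h3, blockDefect_principal hMq, smul_eq_mul] at hn
  have h4 := cm_cast_irr (p := q) hG1 (irrOne G)
  have h5 : blockHeight q (principalBlock Mq G) (irrOne G).1 = 0 := by
    have := factorization_degree_add_defect (p := q) hG1
    rw [blockDefect_principal hMq, charDegree_irrOne] at this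
    simpa using this.symm
  have h6 := (dvd_cm_iff hMq isPBlock_principalBlock hG1 hG1).not.2 (by simp [h5])
  rw [blockDefect_principal hMq, ← factorization_index_add C, pow_add, mul_assoc, hn] at h4
  intro hd
  have h7 : 1 ≤ C.index.factorization q :=
    (hq.out.dvd_iff_one_le_factorization C.index_ne_zero_of_finite).1 hd
  refine h6 ?_
  rw [show cm q _ _ _ = (q : ℤ) ^ C.index.factorization q * n by exact_mod_cast h4]
  exact (dvd_pow_self _ (by omega)).mul_right _

/-- Let G be a finite group and p a prime dividing its order; fix for every prime r a maximal ideal M r of the algebraic integers containing r. Then, for every prime q ≠ p dividing the order of G, the principal p-block and the principal q-block of G have only the principal character in common, if and only if a Sylow p-subgroup P of G is normal and G is generated by P and its largest normal subgroup of order prime to p (that is, G is the direct product of P and that subgroup). -/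
theorem result {G : Type*} [Group G] [Finite G] (p : ℕ) [Fact p.Prime] (hp : p ∣ Nat.card G) (M : ℕ → Ideal Cfsg.AlgInt) (hM : ∀ r : ℕ, r.Prime → Cfsg.IsPModular r (M r)) (P : Sylow p G) :
    (∀ q : ℕ, q.Prime → q ≠ p → q ∣ Nat.card G →
        ∀ χ : Cfsg.IrrCharacter G, χ ∈ Cfsg.principalBlock (M p) G → χ ∈ Cfsg.principalBlock (M q) G → (χ : G → ℂ) = fun _ => 1) ↔
      ((P : Subgroup G).Normal ∧ (P : Subgroup G) ⊔ Cfsg.pPrimeCore p G = ⊤) := by
  constructor
  · intro h
    have hPi : ¬ p ∣ (P : Subgroup G).index := P.not_dvd_index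
    have hN : (P : Subgroup G).Normal := ⟨fun u hu g => by
      obtain ⟨x, hx, c, hc, rfl⟩ := exists_mul_eq_of_coprime_index (H := P)
        (K := Subgroup.centralizer {u}) (Nat.coprime_of_dvd fun q hq h1 h2 => by
          haveI := Fact.mk hq
          have hqp : q ≠ p := fun e => hPi (e ▸ h1)
          exact key hqp (hM p Fact.out) (hM q hq)
            (h q hq hqp (h1.trans (Subgroup.index_dvd_card _))) (isPElt_of_mem P.2 hu) h2) g
      rw [show x * c * u * (x * c)⁻¹ = x * (c * u * c⁻¹) * x⁻¹ by group,
        Subgroup.mem_centralizer_singleton_iff.1 hc, mul_inv_cancel_right]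
      exact mul_mem (mul_mem hx hu) (inv_mem hx)⟩
    have hq : ∀ q, q.Prime → q ≠ p → ∀ v : G, IsPElt q v →
        v ∈ Subgroup.centralizer ((P : Subgroup G) : Set G) := by
      intro q hq hqp v hv
      haveI := Fact.mk hq
      by_cases v1 : v = 1
      · exact v1 ▸ one_mem _
      have h1 := key hqp.symm (hM q hq) (hM p Fact.out) (fun χ h1 h2 => h q hq hqp
        ((hv.dvd_orderOf v1).trans (orderOf_dvd_natCard v)) χ h2 h1) hv
      obtain ⟨R, hR⟩ := exists_sylow_le_of_not_dvd_index h1
      haveI := Sylow.unique_of_normal P hN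
      rw [Subsingleton.elim R P] at hR
      exact Subgroup.mem_centralizer_iff.2 fun a ha =>
        Subgroup.mem_centralizer_singleton_iff.1 (hR ha)
    have hi := Nat.eq_prime_pow_of_unique_prime_dvd
      (Subgroup.centralizer ((P : Subgroup G) : Set G)).index_ne_zero_of_finite (p := p)
      fun {q} hq' hd => by
        by_contra hqp
        haveI := Fact.mk hq'
        obtain ⟨Q⟩ : Nonempty (Sylow q G) := inferInstance
        exact not_dvd_index_of_sylow_le Q (fun v hv => hq q hq' hqp v (isPElt_of_mem Q.2 hv)) hd
    have hc : HasNormalPComplement p G := hasNormalPComplement_iff_forall_mem_centralizer.2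
      fun Q hQ g _ hg => Subgroup.centralizer_le (le_of_isPGroup_of_not_dvd_index hQ hPi)
        (hg.mem_of_index_eq_pow _ hi)
    refine ⟨hN, ?_⟩
    rw [sup_comm]
    exact sup_sylow_eq_top_of_index_eq_pow P (index_pPrimeCore_of_hasNormalPComplement hc)
  · rintro ⟨hN, hs⟩ q hq hqp - χ h1 h2
    haveI := Fact.mk hq
    have h3 := pPrimeCore_le_ker_of_mem_principal (hM p Fact.out) h1
    have h4 := le_ker_of_mem_principal_n (hM q hq) (P : Subgroup G) (fun e => by
      obtain ⟨k, hk⟩ := P.2.exists_card_eq
      exact hqp ((Nat.prime_dvd_prime_iff_eq hq Fact.out).1 (hq.dvd_of_dvd_pow (hk ▸ e)))) h2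
    rw [(ker_irr_eq_top_iff χ).1 (eq_top_iff.2 (hs.ge.trans (sup_le h4 h3)))]
    rfl

end Cfsg.Agent.S4610
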