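import Cfsg.Statements.S4611
import Cfsg.Agent.Lib.Block.Fong
-- import your own Cfsg.Agent.* helpers here

set_option autoImplicit false
open Cfsg

namespace Cfsg.Agent.S4611

open BT CT GT
open scoped Pointwise ComplexConjugate

/-- Let G be a finite solvable group and π a nonempty set of primes, each dividing the order of G; fix for each p in π a maximal ideal M p of the algebraic integers containing p. Then the only irreducible character lying in the principal p-block for every p in π is the principal character if and only if G is generated by the subgroups O_{p'}(G), p in π (the largest normal subgroups of order prime to p). -/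
theorem result {G : Type*} [Group G] [Finite G] [Group.IsSolvable G] (π : Set ℕ) (hπ : ∀ p ∈ π, p.Prime ∧ p ∣ Nat.card G) (hne : π.Nonempty) (M : ℕ → Ideal Cfsg.AlgInt) (hM : ∀ p ∈ π, Cfsg.IsPModular p (M p)) :
    (∀ χ : Cfsg.IrrCharacter G, (∀ p ∈ π, χ ∈ Cfsg.principalBlock (M p) G) → (χ : G → ℂ) = fun _ => 1) ↔
      ⨆ p ∈ π, Cfsg.pPrimeCore p G = ⊤ := by
  have key : ∀ p ∈ π, ∀ χ : IrrCharacter G,
      χ ∈ principalBlock (M p) G ↔ pPrimeCore p G ≤ ker χ.1 := by
    intro p hp χ
    have : Fact p.Prime := ⟨(hπ p hp).1⟩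
    exact mem_principal_iff_of_isPSolvable (hM p hp) isPSolvable_of_isSolvable χ
  constructor
  · intro h
    by_contra hne'
    have : ∀ p, (⨆ (_ : p ∈ π), pPrimeCore p G).Normal := fun p => Subgroup.iSup_normal _
    have : (⨆ p ∈ π, pPrimeCore p G).Normal := Subgroup.iSup_normal _
    obtain ⟨χ, h1, h2⟩ := exists_irr_le_ker_not_le (⨆ p ∈ π, pPrimeCore p G) (K := ⊤)
      (fun h' => hne' (top_le_iff.1 h'))
    apply h2
    have := h χ fun p hp => (key p hp χ).2 (le_trans (le_iSup₂_of_le (f := fun p (_ : p ∈ π) =>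
      pPrimeCore p G) p hp le_rfl) h1)
    rw [this]
    exact le_of_eq ker_irrOne.symm
  · intro h χ hχ
    have : ker χ.1 = ⊤ := by
      rw [eq_top_iff, ← h]
      exact iSup₂_le fun p hp => (key p hp χ).1 (hχ p hp)
    rw [(ker_irr_eq_top_iff χ).1 this]; rfl

end Cfsg.Agent.S4611
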