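import Cfsg.Statements.S4620
import Cfsg.Agent.Lib.Grp.Coprime
import Cfsg.Agent.Lib.Grp.MinNormal

set_option autoImplicit false
open scoped Pointwise
open Cfsg

namespace Cfsg.Agent.S4620

open Subgroup GT

/-- Element form of the trivial intersection property. -/
def IsTI {G : Type*} [Group G] (P : Subgroup G) : Prop :=
  ∀ g : G, ∀ x ∈ P, x ≠ 1 → g * x * g⁻¹ ∈ P → g ∈ normalizer (P : Set G)

theorem isTI_iff {G : Type*} [Group G] (P : Subgroup G) :
    IsTI P ↔ ∀ g : G, g ∉ normalizer (P : Set G) → P ⊓ (MulAut.conj g • P) = ⊥ := by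
  constructor
  · intro h g hg
    rw [eq_bot_iff]
    rintro y ⟨hy1, hy2⟩
    obtain ⟨x, hx, rfl⟩ := mem_conj_smul'.1 hy2
    by_contra hne
    refine hg (h g x hx ?_ hy1)
    rintro rfl
    simp at hne
  · intro h g x hx hx1 hgx
    by_contra hg
    have : g * x * g⁻¹ ∈ P ⊓ (MulAut.conj g • P) := ⟨hgx, conj_mem_conj_smul.2 hx⟩
    rw [h g hg, mem_bot] at this
    apply hx1
    calc x = g⁻¹ * (g * x * g⁻¹) * g := by group
      _ = 1 := by rw [this]; group

theorem IsTI.conj {G : Type*} [Group G] {P : Subgroup G} (h : IsTI P) (c : G) :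
    IsTI (MulAut.conj c • P) := by
  intro g x hx hx1 hgx
  rw [← conj_smul_normalizer, mem_conj_smul]
  refine h _ _ (mem_conj_smul.1 hx) ?_ ?_
  · intro e
    apply hx1
    calc x = c * (c⁻¹ * x * c) * c⁻¹ := by group
      _ = 1 := by rw [e]; group
  · have := mem_conj_smul.1 hgx
    convert this using 1
    group

theorem isTI_sylow_normal {G : Type*} [Group G] [Finite G] {p : ℕ} [Fact p.Prime] (P : Sylow p G)
    (h : IsTI (P : Subgroup G)) (N : Subgroup G) [hN : N.Normal] (Q : Sylow p N) :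
    IsTI (Q : Subgroup N) := by
  obtain ⟨R, hR, hRN⟩ := (isSylowIn_map_subtype Q).exists_inf_eq (K := ⊤) le_top
  obtain ⟨c, -, rfl⟩ := (isSylowIn_sylow P).exists_conj_eq hR
  have hT := h.conj c
  set R := MulAut.conj c • (P : Subgroup G)
  have hmem : ∀ x : N, x ∈ (Q : Subgroup N) ↔ (x : G) ∈ R := by
    intro x
    rw [← mem_map_iff_mem N.subtype_injective, ← hRN]
    exact ⟨fun h => h.1, fun h => ⟨h, x.2⟩⟩
  intro g x hx hx1 hgx
  have := hT g x ((hmem x).1 hx) (fun e => hx1 (Subtype.ext e)) ((hmem _).1 hgx)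
  apply mem_normalizer_of_conj_mem
  intro y hy
  exact (hmem _).2 (conj_mem_of_mem_normalizer this ((hmem y).1 hy))

theorem exists_unique_min {G : Type*} [Group G] [Finite G] {p : ℕ} [Fact p.Prime] [Nontrivial G]
    (hOp : pCore p G = ⊥) (hOp' : pPrimeCore p G = ⊥) (P : Sylow p G)
    (h : IsTI (P : Subgroup G)) :
    ∃ N : Subgroup G, IsMinNormal N ∧ ∀ K : Subgroup G, K.Normal → K ≠ ⊥ → N ≤ K := by
  obtain ⟨N, hN⟩ := exists_isMinNormal G
  refine ⟨N, hN, fun K hK hK1 => ?_⟩
  obtain ⟨M, hM, hMK⟩ := exists_isMinNormal_le hK hK1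
  by_cases hNM : N = M
  · exact hNM ▸ hMK
  exfalso
  have hdvd : ∀ A : Subgroup G, IsMinNormal A → (P : Subgroup G) ⊓ A ≠ ⊥ := by
    intro A hA
    have := hA.normal
    refine (isSylowIn_inf_of_normal P A).ne_bot ?_
    by_contra hd
    exact hA.ne_bot (pPrimeCore_eq_bot_iff.1 hOp' A hA.normal hd)
  obtain ⟨⟨x, hx⟩, hx1⟩ := ne_bot_iff_exists_ne_one.1 (hdvd N hN)
  have hx1' : x ≠ 1 := fun e => hx1 (Subtype.ext e)
  have hc := hN.le_centralizer_of_ne hM hNM hx.2
  have hMP : M ≤ normalizer ((P : Subgroup G) : Set G) := by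
    intro m hm
    refine h m x hx.1 hx1' ?_
    rw [mem_centralizer_iff.1 hc m hm, mul_inv_cancel_right]
    exact hx.1
  have := hM.normal
  have h1 : M ≤ normalizer (((P : Subgroup G) ⊓ M : Subgroup G) : Set G) :=
    le_normalizer_inf hMP le_normalizer
  have h2 := (isSylowIn_inf_of_normal P M).normalizer_le_normalizer h1
  rw [normalizer_eq_top M, top_le_iff, normalizer_eq_top_iff] at h2
  exact hdvd M hM (pCore_eq_bot_iff.1 hOp _ h2 (P.isPGroup'.to_le inf_le_left))


/-- Let H be a finite group with no nontrivial normal p-subgroup and no nontrivial normal subgroup of order prime to p, whose Sylow p-subgroup P is nontrivial and a trivial-intersection set (P meets its conjugates by elements outside N_H(P) trivially). Then H has a unique minimal normal subgroup N; N is non-abelian simple with trivial centralizer in H (so H embeds in Aut(N)), and a Sylow p-subgroup of N is again a nontrivial trivial-intersection set in N. -/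
theorem result {H : Type*} [Group H] [Finite H] (p : ℕ) [Fact p.Prime] (hOp : Cfsg.pCore p H = ⊥) (hOp' : Cfsg.pPrimeCore p H = ⊥) (P : Sylow p H) (hP1 : (P : Subgroup H) ≠ ⊥)
    (hTI : ∀ g : H, g ∉ Subgroup.normalizer ((P : Subgroup H) : Set H) → (P : Subgroup H) ⊓ (MulAut.conj g • (P : Subgroup H)) = ⊥) :
    ∃ N : Subgroup H, N.Normal ∧ N ≠ ⊥ ∧ (∀ K : Subgroup H, K.Normal → K ≠ ⊥ → N ≤ K) ∧
      IsSimpleGroup N ∧ ¬ IsMulCommutative N ∧ Subgroup.centralizer (N : Set H) = ⊥ ∧
      ∀ Q : Sylow p N, (Q : Subgroup N) ≠ ⊥ ∧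
        ∀ n : N, n ∉ Subgroup.normalizer ((Q : Subgroup N) : Set N) → (Q : Subgroup N) ⊓ (MulAut.conj n • (Q : Subgroup N)) = ⊥ := by
  have hT := (isTI_iff _).2 hTI
  have : Nontrivial H := by
    by_contra hn
    rw [not_nontrivial_iff_subsingleton] at hn
    exact hP1 (Subsingleton.elim _ _)
  obtain ⟨N, hN, hmin⟩ := exists_unique_min hOp hOp' P hT
  have := hN.normal
  have hpN : p ∣ Nat.card N := by
    by_contra hd
    exact hN.ne_bot (pPrimeCore_eq_bot_iff.1 hOp' N hN.normal hd)
  have hab : ¬ IsMulCommutative N := by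
    intro hc
    exact hN.ne_bot (pCore_eq_bot_iff.1 hOp N hN.normal
      (IsElementaryAbelian.isPGroup' (hN.isElementaryAbelian_of_dvd hpN)))
  refine ⟨N, hN.normal, hN.ne_bot, hmin, ?_, hab, ?_, fun Q => ⟨?_, ?_⟩⟩
  · have := hN.nontrivial
    obtain ⟨Q⟩ : Nonempty (Sylow p N) := inferInstance
    have h1 : pCore p N = ⊥ := by
      rw [← map_eq_bot_iff_of_injective _ N.subtype_injective, map_subtype_pCore, hOp, bot_inf_eq]
    have h2 : pPrimeCore p N = ⊥ := by
      rw [← map_eq_bot_iff_of_injective _ N.subtype_injective, map_subtype_pPrimeCore, hOp',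
        bot_inf_eq]
    obtain ⟨S, hS, hSmin⟩ := exists_unique_min h1 h2 Q (isTI_sylow_normal P hT N Q)
    have hchar : S.Characteristic := by
      rw [characteristic_iff_le_map]
      intro e
      have := hS.map_mulEquiv e
      exact hSmin _ this.normal this.ne_bot
    rcases hN.eq_bot_or_top S with h3 | h3
    · exact absurd h3 hS.ne_bot
    · exact isMinNormal_top_iff.1 (h3 ▸ hS)
  · by_contra hne
    have := hN.inf_centralizer_eq_bot hab
    rw [inf_eq_left.2 (hmin _ inferInstance hne)] at this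
    exact hN.ne_bot this
  · exact (isSylowIn_sylow Q).ne_bot (by rwa [card_top])
  · exact (isTI_iff _).1 (isTI_sylow_normal P hT N Q)

end Cfsg.Agent.S4620
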