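import Cfsg.Statements.S4624
import Cfsg.Agent.Lib.Lin.InvSysLin

set_option autoImplicit false
open Cfsg

namespace Cfsg.Agent.S4624

/-- Let F be a finite field of odd order and n ≥ 1. A Sylow 2-subgroup P of the symplectic group Sp_{2n}(F) has P/P' elementary abelian: the square of every element of P lies in the derived subgroup of P. -/
theorem result {F : Type*} [Field F] [Fintype F] (hF : Odd (Fintype.card F)) (n : ℕ) (hn : 1 ≤ n) (P : Sylow 2 (Matrix.symplecticGroup (Fin n) F)) :
    ∀ x : (P : Subgroup (Matrix.symplecticGroup (Fin n) F)), x ^ 2 ∈ commutator (P : Subgroup (Matrix.symplecticGroup (Fin n) F)) := by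
  have h : LG.IsoRep (Matrix.toBilin' (Matrix.J (Fin n) F))
      ((Matrix.toLinAlgEquiv' : Matrix (Fin n ⊕ Fin n) (Fin n ⊕ Fin n) F ≃ₐ[F] _).toMonoidHom.comp
        (Matrix.symplecticGroup (Fin n) F).subtype) :=
    { two := LG.two_ne_zero_of_odd_card hF
      inj := fun a b e => Subtype.ext (Matrix.toLinAlgEquiv'.injective e)
      iso := fun g v w => by
        have := Matrix.toBilin'_comp (Matrix.J (Fin n) F) g.1 g.1
        rw [SymplecticGroup.mem_iff'.1 g.2] at this
        exact congrArg (fun B : LinearMap.BilinForm F _ => B v w) this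
      ex := fun f _ hf => by
        refine ⟨⟨LinearMap.toMatrix' f, SymplecticGroup.mem_iff'.2 ?_⟩, Matrix.toLin'_toMatrix' f⟩
        apply Matrix.toBilin'.injective
        rw [← Matrix.toBilin'_comp, Matrix.toLin'_toMatrix']
        exact LinearMap.ext₂ hf }
  refine h.sq_mem_commutator_sp hF (fun v w => ?_) (fun v hv => ?_) P
  · rw [Matrix.toBilin'_apply', Matrix.toBilin'_apply', Matrix.dotProduct_mulVec,
      ← Matrix.mulVec_transpose, Matrix.J_transpose, Matrix.neg_mulVec, neg_dotProduct,
      dotProduct_comm]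
  · ext i
    have := hv ((-Matrix.J (Fin n) F).mulVec (Pi.single i 1))
    rwa [Matrix.toBilin'_apply', Matrix.mulVec_mulVec, Matrix.mul_neg, Matrix.J_squared, neg_neg,
      Matrix.one_mulVec, dotProduct_single_one] at this

end Cfsg.Agent.S4624
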