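import Cfsg.Statements.S4629
import Cfsg.Agent.Lib.Lin.InvSysOrth

set_option autoImplicit false
open Cfsg

namespace Cfsg.Agent.S4629

/-- Let F be a finite field of odd order and m ≥ 3. For the commutator subgroup Ω of the isometry group of the non-singular quadratic form x₀² + Σ x_i y_i in dimension 2m + 1 over F, a Sylow 2-subgroup P of Ω has P/P' elementary abelian: the square of every element of P lies in the derived subgroup of P. -/
theorem result {F : Type*} [Field F] [Fintype F] (hF : Odd (Fintype.card F)) (m : ℕ) (hm : 3 ≤ m) (P : Sylow 2 (Cfsg.Omega F (Cfsg.quadFormOdd m F))) : ∀ x : (P : Subgroup (Cfsg.Omega F (Cfsg.quadFormOdd m F))), x ^ 2 ∈ commutator (P : Subgroup (Cfsg.Omega F (Cfsg.quadFormOdd m F))) := by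
  have h2 := LG.two_ne_zero_of_odd_card hF
  let B : LinearMap.BilinForm F (Unit ⊕ (Fin m ⊕ Fin m) → F) := LinearMap.mk₂ F
    (fun v w => 2 * v (.inl ()) * w (.inl ()) +
      ∑ i : Fin m, (v (.inr (.inl i)) * w (.inr (.inr i)) + v (.inr (.inr i)) * w (.inr (.inl i))))
    (fun a b c => by simp [add_mul, mul_add, Finset.sum_add_distrib]; ring)
    (fun a b c => by simp [mul_add, Finset.mul_sum, mul_assoc, mul_left_comm])
    (fun a b c => by simp [mul_add, Finset.sum_add_distrib]; ring)
    (fun a b c => by simp [mul_add, Finset.mul_sum, mul_assoc, mul_left_comm])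
  refine LG.sq_mem_commutator_Omega hF (B := B) (fun v w => ?_) (fun v hv => ?_) (fun v => ?_)
    (by simp; omega) P
  · simp only [B, LinearMap.mk₂_apply]
    congr 1
    · ring
    · exact Finset.sum_congr rfl fun i _ => by ring
  · ext (i | i | i)
    · simpa [B, h2] using hv (Pi.single (.inl ()) 1)
    · simpa [B, Pi.single_apply] using hv (Pi.single (.inr (.inr i)) 1)
    · simpa [B, Pi.single_apply] using hv (Pi.single (.inr (.inl i)) 1)
  · simp only [B, LinearMap.mk₂_apply, quadFormOdd, Finset.sum_add_distrib]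
    rw [Finset.sum_congr rfl fun i _ => mul_comm (v (.inr (.inr i))) (v (.inr (.inl i)))]
    ring

end Cfsg.Agent.S4629
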