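import Cfsg.Statements.S4630
import Cfsg.Agent.Lib.Lin.InvSysOrth

set_option autoImplicit false
open Cfsg

namespace Cfsg.Agent.S4630

/-- Let F be a finite field of odd order and m ≥ 1 with m even or m ≥ 4. For the commutator subgroup Ω of the isometry group of the plus-type quadratic form Σ_{i<m} x_i y_i in dimension 2m over F, a Sylow 2-subgroup P of Ω has P/P' elementary abelian: the square of every element of P lies in the derived subgroup of P. -/
theorem result {F : Type*} [Field F] [Fintype F] (hF : Odd (Fintype.card F)) (m : ℕ) (hm : 1 ≤ m) (hm' : Even m ∨ 4 ≤ m) (P : Sylow 2 (Cfsg.Omega F (Cfsg.quadFormPlus m F))) : ∀ x : (P : Subgroup (Cfsg.Omega F (Cfsg.quadFormPlus m F))), x ^ 2 ∈ commutator (P : Subgroup (Cfsg.Omega F (Cfsg.quadFormPlus m F))) := by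
  let B : LinearMap.BilinForm F (Fin m ⊕ Fin m → F) := LinearMap.mk₂ F
    (fun v w => ∑ i : Fin m, (v (.inl i) * w (.inr i) + v (.inr i) * w (.inl i)))
    (fun a b c => by simp [add_mul, Finset.sum_add_distrib]; ring)
    (fun a b c => by simp [mul_add, Finset.mul_sum, mul_assoc])
    (fun a b c => by simp [mul_add, Finset.sum_add_distrib]; ring)
    (fun a b c => by simp [mul_add, Finset.mul_sum, mul_left_comm])
  refine LG.sq_mem_commutator_Omega hF (B := B) (fun v w => ?_) (fun v hv => ?_) (fun v => ?_)
    (by
      simp only [Fintype.card_sum, Fintype.card_fin]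
      rcases hm' with ⟨k, hk⟩ | hk <;> omega) P
  · simp only [B, LinearMap.mk₂_apply]
    exact Finset.sum_congr rfl fun i _ => by ring
  · ext (i | i)
    · simpa [B, Pi.single_apply] using hv (Pi.single (.inr i) 1)
    · simpa [B, Pi.single_apply] using hv (Pi.single (.inl i) 1)
  · simp only [B, LinearMap.mk₂_apply, quadFormPlus, Finset.sum_add_distrib]
    rw [Finset.sum_congr rfl fun i _ => mul_comm (v (.inr i)) (v (.inl i))]

end Cfsg.Agent.S4630
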