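import Cfsg.Statements.S4631
import Cfsg.Agent.Lib.Lin.InvSysOrth

set_option autoImplicit false
open Cfsg

namespace Cfsg.Agent.S4631

/-- Let F be a finite field of odd order, m ≥ 4, and a, b ∈ F with z₁² + a z₁ z₂ + b z₂² anisotropic. For the commutator subgroup Ω of the isometry group of the minus-type quadratic form Σ_{i<m−1} x_i y_i + (z₁² + a z₁ z₂ + b z₂²) in dimension 2m over F, a Sylow 2-subgroup P of Ω has P/P' elementary abelian: the square of every element of P lies in the derived subgroup of P. -/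
theorem result {F : Type*} [Field F] [Fintype F] (hF : Odd (Fintype.card F)) (m : ℕ) (hm : 4 ≤ m) (a b : F) (hab : ∀ z₁ z₂ : F, z₁ ^ 2 + a * z₁ * z₂ + b * z₂ ^ 2 = 0 → z₁ = 0 ∧ z₂ = 0) (P : Sylow 2 (Cfsg.Omega F (Cfsg.quadFormMinus (m - 1) F a b))) : ∀ x : (P : Subgroup (Cfsg.Omega F (Cfsg.quadFormMinus (m - 1) F a b))), x ^ 2 ∈ commutator (P : Subgroup (Cfsg.Omega F (Cfsg.quadFormMinus (m - 1) F a b))) := by
  have h2 := LG.two_ne_zero_of_odd_card hF
  let B : LinearMap.BilinForm F ((Fin (m - 1) ⊕ Fin (m - 1)) ⊕ Fin 2 → F) := LinearMap.mk₂ F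
    (fun v w => ∑ i : Fin (m - 1),
      (v (.inl (.inl i)) * w (.inl (.inr i)) + v (.inl (.inr i)) * w (.inl (.inl i))) +
      (2 * v (.inr 0) * w (.inr 0) + a * (v (.inr 0) * w (.inr 1) + v (.inr 1) * w (.inr 0)) +
        2 * b * v (.inr 1) * w (.inr 1)))
    (fun a b c => by simp [add_mul, mul_add, Finset.sum_add_distrib]; ring)
    (fun a b c => by simp [mul_add, Finset.mul_sum, mul_assoc, mul_left_comm])
    (fun a b c => by simp [mul_add, Finset.sum_add_distrib]; ring)
    (fun a b c => by simp [mul_add, Finset.mul_sum, mul_assoc, mul_left_comm])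
  refine LG.sq_mem_commutator_Omega hF (B := B) (fun v w => ?_) (fun v hv => ?_) (fun v => ?_)
    (by simp; omega) P
  · simp only [B, LinearMap.mk₂_apply]
    congr 1
    · exact Finset.sum_congr rfl fun i _ => by ring
    · ring
  · have e0 := hv (Pi.single (.inr 0) 1)
    have e1 := hv (Pi.single (.inr 1) 1)
    simp [B] at e0 e1
    obtain ⟨f0, f1⟩ := hab (v (.inr 0)) (v (.inr 1)) (by
      apply mul_left_cancel₀ h2
      linear_combination v (.inr 0) * e0 + v (.inr 1) * e1)
    ext ((i | i) | i)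
    · simpa [B, Pi.single_apply] using hv (Pi.single (.inl (.inr i)) 1)
    · simpa [B, Pi.single_apply] using hv (Pi.single (.inl (.inl i)) 1)
    · fin_cases i
      · exact f0
      · exact f1
  · simp only [B, LinearMap.mk₂_apply, quadFormMinus, Finset.sum_add_distrib]
    rw [Finset.sum_congr rfl fun i _ => mul_comm (v (.inl (.inr i))) (v (.inl (.inl i)))]
    ring

end Cfsg.Agent.S4631
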