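import Cfsg.Statements.S4632
import Cfsg.Agent.Lib.Lin.CompAlg

set_option autoImplicit false
open Cfsg

namespace Cfsg.Agent.S4632

open Cfsg.Lie

section
variable {F : Type*} [Field F]

theorem zorn_eq (x y : Fin 8 → F) : zornMul x y =
    ![x 0 * y 0 + (x 1 * y 4 + x 2 * y 5 + x 3 * y 6),
      x 0 * y 1 + y 7 * x 1 - (x 5 * y 6 - x 6 * y 5),
      x 0 * y 2 + y 7 * x 2 - (x 6 * y 4 - x 4 * y 6),
      x 0 * y 3 + y 7 * x 3 - (x 4 * y 5 - x 5 * y 4),
      y 0 * x 4 + x 7 * y 4 + (x 2 * y 3 - x 3 * y 2),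
      y 0 * x 5 + x 7 * y 5 + (x 3 * y 1 - x 1 * y 3),
      y 0 * x 6 + x 7 * y 6 + (x 1 * y 2 - x 2 * y 1),
      (x 4 * y 1 + x 5 * y 2 + x 6 * y 3) + x 7 * y 7] := by
  ext i
  fin_cases i <;> simp [zornMul, dot3, cross3]

theorem z0 (x y : Fin 8 → F) : zornMul x y 0 = x 0 * y 0 + (x 1 * y 4 + x 2 * y 5 + x 3 * y 6) := by
  rw [zorn_eq]; rfl

theorem z1 (x y : Fin 8 → F) : zornMul x y 1 = x 0 * y 1 + y 7 * x 1 - (x 5 * y 6 - x 6 * y 5) := by
  rw [zorn_eq]; rfl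

theorem z2 (x y : Fin 8 → F) : zornMul x y 2 = x 0 * y 2 + y 7 * x 2 - (x 6 * y 4 - x 4 * y 6) := by
  rw [zorn_eq]; rfl

theorem z3 (x y : Fin 8 → F) : zornMul x y 3 = x 0 * y 3 + y 7 * x 3 - (x 4 * y 5 - x 5 * y 4) := by
  rw [zorn_eq]; rfl

theorem z4 (x y : Fin 8 → F) : zornMul x y 4 = y 0 * x 4 + x 7 * y 4 + (x 2 * y 3 - x 3 * y 2) := by
  rw [zorn_eq]; rfl

theorem z5 (x y : Fin 8 → F) : zornMul x y 5 = y 0 * x 5 + x 7 * y 5 + (x 3 * y 1 - x 1 * y 3) := by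
  rw [zorn_eq]; rfl

theorem z6 (x y : Fin 8 → F) : zornMul x y 6 = y 0 * x 6 + x 7 * y 6 + (x 1 * y 2 - x 2 * y 1) := by
  rw [zorn_eq]; rfl

theorem z7 (x y : Fin 8 → F) : zornMul x y 7 = (x 4 * y 1 + x 5 * y 2 + x 6 * y 3) + x 7 * y 7 := by
  rw [zorn_eq]; rfl

theorem ext8 {x y : Fin 8 → F} (h0 : x 0 = y 0) (h1 : x 1 = y 1) (h2 : x 2 = y 2) (h3 : x 3 = y 3)
    (h4 : x 4 = y 4) (h5 : x 5 = y 5) (h6 : x 6 = y 6) (h7 : x 7 = y 7) : x = y := by
  ext i; fin_cases i <;> assumption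

/-- Zorn multiplication as a bilinear map. -/
def zm : (Fin 8 → F) →ₗ[F] (Fin 8 → F) →ₗ[F] (Fin 8 → F) := LinearMap.mk₂ F zornMul
  (fun a b c => by apply ext8 <;> simp only [z0, z1, z2, z3, z4, z5, z6, z7, Pi.add_apply, Pi.smul_apply, smul_eq_mul] <;> ring)
  (fun a b c => by apply ext8 <;> simp only [z0, z1, z2, z3, z4, z5, z6, z7, Pi.add_apply, Pi.smul_apply, smul_eq_mul] <;> ring)
  (fun a b c => by apply ext8 <;> simp only [z0, z1, z2, z3, z4, z5, z6, z7, Pi.add_apply, Pi.smul_apply, smul_eq_mul] <;> ring)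
  (fun a b c => by apply ext8 <;> simp only [z0, z1, z2, z3, z4, z5, z6, z7, Pi.add_apply, Pi.smul_apply, smul_eq_mul] <;> ring)

/-- The polar form of the norm. -/
def zBil : LinearMap.BilinForm F (Fin 8 → F) := LinearMap.mk₂ F
  (fun x y => x 0 * y 7 + x 7 * y 0 - (x 1 * y 4 + x 2 * y 5 + x 3 * y 6) -
    (x 4 * y 1 + x 5 * y 2 + x 6 * y 3))
  (fun a b c => by simp; ring) (fun a b c => by simp; ring) (fun a b c => by simp; ring)
  (fun a b c => by simp; ring)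

/-- Conjugation. -/
def zc : (Fin 8 → F) →ₗ[F] (Fin 8 → F) where
  toFun x := ![x 7, -x 1, -x 2, -x 3, -x 4, -x 5, -x 6, x 0]
  map_add' x y := by ext i; fin_cases i <;> simp <;> ring
  map_smul' a x := by ext i; fin_cases i <;> simp

theorem zm_apply (x y : Fin 8 → F) : zm x y = zornMul x y := rfl

theorem zBil_apply (x y : Fin 8 → F) : zBil x y = x 0 * y 7 + x 7 * y 0 -
    (x 1 * y 4 + x 2 * y 5 + x 3 * y 6) - (x 4 * y 1 + x 5 * y 2 + x 6 * y 3) := rfl

theorem zc_apply (x : Fin 8 → F) : zc x = ![x 7, -x 1, -x 2, -x 3, -x 4, -x 5, -x 6, x 0] := rfl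

theorem c0 (x : Fin 8 → F) : zc x 0 = x 7 := rfl

theorem c1 (x : Fin 8 → F) : zc x 1 = -x 1 := rfl

theorem c2 (x : Fin 8 → F) : zc x 2 = -x 2 := rfl

theorem c3 (x : Fin 8 → F) : zc x 3 = -x 3 := rfl

theorem c4 (x : Fin 8 → F) : zc x 4 = -x 4 := rfl

theorem c5 (x : Fin 8 → F) : zc x 5 = -x 5 := rfl

theorem c6 (x : Fin 8 → F) : zc x 6 = -x 6 := rfl

theorem c7 (x : Fin 8 → F) : zc x 7 = x 0 := rfl

theorem compAlg (h2 : (2 : F) ≠ 0) : LG.CompAlg (zm (F := F)) ![1, 0, 0, 0, 0, 0, 0, 1] zBil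
    (fun x => x 0 * x 7 - (x 1 * x 4 + x 2 * x 5 + x 3 * x 6)) zc where
  two := h2
  e_ne := fun e => by simpa using congrFun e 0
  one_mul x := by apply ext8 <;> simp [zm_apply, z0, z1, z2, z3, z4, z5, z6, z7]
  mul_one x := by apply ext8 <;> simp [zm_apply, z0, z1, z2, z3, z4, z5, z6, z7]
  symm x y := by simp only [zBil_apply]; ring
  nondeg x hx := by
    apply ext8
    · simpa [zBil_apply] using hx (Pi.single 7 1)
    · simpa [zBil_apply] using hx (Pi.single 4 1)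
    · simpa [zBil_apply] using hx (Pi.single 5 1)
    · simpa [zBil_apply] using hx (Pi.single 6 1)
    · simpa [zBil_apply] using hx (Pi.single 1 1)
    · simpa [zBil_apply] using hx (Pi.single 2 1)
    · simpa [zBil_apply] using hx (Pi.single 3 1)
    · simpa [zBil_apply] using hx (Pi.single 0 1)
  self x := by simp only [zBil_apply]; ring
  N_one := by simp
  conj x := by apply ext8 <;> simp [zBil_apply, c0, c1, c2, c3, c4, c5, c6, c7]
  left x y w := by
    apply ext8 <;> simp only [zm_apply, zBil_apply, z0, z1, z2, z3, z4, z5, z6, z7, c0, c1, c2, c3, c4, c5, c6, c7, Pi.add_apply, Pi.smul_apply, smul_eq_mul] <;> ring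
  right x w := by
    apply ext8 <;> simp only [zm_apply, z0, z1, z2, z3, z4, z5, z6, z7, c0, c1, c2, c3, c4, c5, c6, c7, Pi.smul_apply, smul_eq_mul] <;> ring
  adj x y w := by simp only [zm_apply, zBil_apply, z0, z1, z2, z3, z4, z5, z6, z7, c0, c1, c2, c3, c4, c5, c6, c7]; ring
  conj_mul x y := by
    apply ext8 <;> simp only [zm_apply, z0, z1, z2, z3, z4, z5, z6, z7, c0, c1, c2, c3, c4, c5, c6, c7] <;> ring

end


/-- Let F be a finite field of odd order and G₂(F) the automorphism group of the split octonion algebra over F (realized on F⁸ with the Zorn vector-matrix multiplication). A Sylow 2-subgroup P of G₂(F) has P/P' elementary abelian: the square of every element of P lies in the derived subgroup of P. -/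
theorem result {F : Type*} [Field F] [Fintype F] (hF : Odd (Fintype.card F)) (P : Sylow 2 (Cfsg.Lie.G2 F)) : ∀ x : (P : Subgroup (Cfsg.Lie.G2 F)), x ^ 2 ∈ commutator (P : Subgroup (Cfsg.Lie.G2 F)) := by
  refine (compAlg (LG.two_ne_zero_of_odd_card hF)).sq_mem_commutator (by simp)
    ((Matrix.toLinAlgEquiv' : Matrix (Fin 8) (Fin 8) F ≃ₐ[F] _).toMonoidHom.comp
      ((Units.coeHom (Matrix (Fin 8) (Fin 8) F)).comp (Cfsg.Lie.G2 F).subtype))
    (fun a b e => Subtype.ext (Units.ext (Matrix.toLinAlgEquiv'.injective e)))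
    (fun g x y => g.2 x y) (fun f hf hm => ?_) P
  have hu : IsUnit (LinearMap.toMatrix' f) := by
    have : IsUnit f := (LinearMap.isUnit_iff_ker_eq_bot f).2 (LinearMap.ker_eq_bot.2 hf)
    exact this.map (LinearMap.toMatrixAlgEquiv' : _ ≃ₐ[F] Matrix (Fin 8) (Fin 8) F)
  refine ⟨⟨hu.unit, fun x y => ?_⟩, Matrix.toLin'_toMatrix' f⟩
  show (LinearMap.toMatrix' f).mulVec _ =
    zornMul ((LinearMap.toMatrix' f).mulVec x) ((LinearMap.toMatrix' f).mulVec y)
  simp only [LinearMap.toMatrix'_mulVec]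
  exact hm x y

end Cfsg.Agent.S4632
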