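import Cfsg.Statements.S4741
import Cfsg.Agent.Lib.Block.Robinson

set_option autoImplicit false
open Cfsg

namespace Cfsg.Agent.S4741

open CT BT
open scoped MonoidAlgebra ComplexConjugate

attribute [local irreducible] instFieldResF

/-- Let p be a prime, M a maximal ideal of the algebraic integers containing p, and D a subgroup of the finite group G. Let x₁, …, x_r be pairwise non-conjugate elements of G such that D is a Sylow p-subgroup of the centralizer of each xᵢ, and such that for any conjugates g of some xᵢ and h of some xⱼ the element g h⁻¹ is never a non-identity p-element. Then there are r distinct p-blocks B₁, …, B_r of G, each having D as a defect group, such that for every choice of characters χᵢ ∈ Bᵢ of height zero the determinant of the r × r matrix (χᵢ(xⱼ)) does not lie in the local ideal at M. -/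
theorem result {G : Type*} [Group G] [Finite G] (p : ℕ) [Fact p.Prime] (M : Ideal Cfsg.AlgInt) (hM : Cfsg.IsPModular p M) (D : Subgroup G) {r : ℕ} (x : Fin r → G) (hx : ∀ i j : Fin r, IsConj (x i) (x j) → i = j) (hD : ∀ i : Fin r, ∃ S : Sylow p ↥(Subgroup.centralizer ({x i} : Set G)), (S : Subgroup ↥(Subgroup.centralizer ({x i} : Set G))).map (Subgroup.centralizer ({x i} : Set G)).subtype = D) (hsep : ∀ i j : Fin r, ∀ g h : G, IsConj (x i) g → IsConj (x j) h → ∀ k : ℕ, 0 < k → orderOf (g * h⁻¹) ≠ p ^ k) : ∃ B : Fin r → Set (Cfsg.IrrCharacter G), Function.Injective B ∧ (∀ i : Fin r, Cfsg.IsPBlock M (B i) ∧ Cfsg.IsDefectGroup p M (B i) D) ∧ ∀ χ : Fin r → Cfsg.IrrCharacter G, (∀ i : Fin r, χ i ∈ B i ∧ Cfsg.blockHeight p (B i) (χ i : G → ℂ) = 0) → ¬ Cfsg.MemLocalIdeal M (Matrix.det (Matrix.of fun i j : Fin r => (χ i : G → ℂ) (x j))) := by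
  classical
  have hp : p.Prime := Fact.out
  have hS : ∀ i, GT.IsSylowIn p D (Subgroup.centralizer ({x i} : Set G)) := fun i =>
    GT.isSylowIn_iff.2 (let ⟨Q, hQ⟩ := hD i; ⟨Q, hQ.symm⟩)
  obtain ⟨S⟩ : Nonempty (Sylow p G) := inferInstance
  choose χ hχ using fun B : Bl M G => block_nonempty hM B.2
  obtain ⟨c, hc, h⟩ := robinson hM S D χ hχ
  choose m hm hmx using fun i => exists_index_centralizer_eq_of_isSylowIn (hS i)
  let T := {B : Bl M G // IsDefectGroup p M B.1 D}
  let P : Matrix (Fin r) T (ResF hM) := fun i B => red hM (centralChar (χ B.1).1 (x i)⁻¹) * c B.1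
  let Q : Matrix T (Fin r) (ResF hM) := fun B j => red hM (centralChar (χ B.1).1 (x j))
  have key : ∀ i j g g', IsConj (x i) g → IsConj (x j) g' → g' * g⁻¹ ∈ (S : Subgroup G) →
      g' = g := fun i j g g' hg hg' hs => by
    obtain ⟨k, hk⟩ := IsPGroup.iff_orderOf.1 S.isPGroup' ⟨_, hs⟩
    rw [← Subgroup.orderOf_coe] at hk
    rcases Nat.eq_zero_or_pos k with h0 | h0
    · rw [h0, pow_zero, orderOf_eq_one_iff] at hk
      exact mul_inv_eq_one.1 hk
    · exact absurd hk (hsep j i g' g hg' hg k h0)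
  have hm0 : ∀ i, (m i : ResF hM) ≠ 0 := fun i => by
    rw [Ne, CharP.cast_eq_zero_iff (ResF hM) p]; exact hm i
  have hPQ : P * Q = Matrix.diagonal fun i => (m i : ResF hM) := by
    ext i j
    rw [Matrix.mul_apply, ← (h _ _ (hS i) (hS j)).2, Matrix.diagonal_apply]
    split_ifs with hij
    · subst hij
      have : robN (S : Subgroup G) (x i) (x i) = (Subgroup.centralizer ({x i} : Set G)).index := by
        rw [← card_conj_eq_index, robN]
        refine Nat.card_congr ⟨fun a => ⟨a.1.1, a.2.1⟩,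
          fun a => ⟨(a.1, a.1), a.2, a.2, by simp⟩, fun a => ?_, fun a => rfl⟩
        exact Subtype.ext (Prod.ext rfl (key i i _ _ a.2.1 a.2.2.1 a.2.2.2).symm)
      rw [this, hmx, Nat.mul_div_cancel_left _ (pow_pos hp.pos _)]
    · have : robN (S : Subgroup G) (x i) (x j) = 0 := by
        rw [robN]
        haveI : IsEmpty {yz : G × G // IsConj (x i) yz.1 ∧ IsConj (x j) yz.2 ∧
            yz.2 * yz.1⁻¹ ∈ (S : Subgroup G)} := ⟨fun a => hij (hx i j (a.2.1.trans
          ((key i j _ _ a.2.1 a.2.2.1 a.2.2.2) ▸ a.2.2.1.symm)))⟩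
        exact Nat.card_of_isEmpty
      rw [this, Nat.zero_div, Nat.cast_zero]
  obtain ⟨f, hf, hdet⟩ := exists_det_rows_ne_zero P Q (by
    rw [hPQ, Matrix.det_diagonal]; exact Finset.prod_ne_zero_iff.2 fun i _ => hm0 i)
  refine ⟨fun i => (f i).1.1, fun i j hij => hf (Subtype.ext (Subtype.ext hij)),
    fun i => ⟨(f i).1.2, (f i).2⟩, fun ψ hψ hmem => ?_⟩
  have hint : ∀ i j, (Matrix.of fun i j : Fin r => (ψ i : G → ℂ) (x j)) i j ∈ locRing hM :=
    fun i j => mem_locRing_of_isIntegral hM (isIntegral_character_value (irr_isCharacter _) _)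
  obtain ⟨h1, h2⟩ := red_det hM hint
  rw [← mem_locIdeal hM, ← red_eq_zero_iff hM h1, h2] at hmem
  have h3 : (Matrix.of fun i j : Fin r => (ψ i : G → ℂ) (x j)).map (red hM) *
      Matrix.diagonal (fun j => (m j : ResF hM)) =
      Matrix.diagonal (fun i => (rdeg p (f i).1.1 (ψ i).1 : ResF hM)) *
        Matrix.of fun i j => Q (f i) j := by
    ext i j
    rw [Matrix.mul_diagonal, Matrix.diagonal_mul, Matrix.map_apply, Matrix.of_apply,
      Matrix.of_apply]
    simp only [Q]
    rw [← lam_classSum, ← lam_eq_of_mem hM (f i).1.2 (hψ i).1 (hχ _), lam_classSum,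
      ← red_natCast hM, ← red_natCast hM, ← red_mul hM (show (ψ i).1 (x j) ∈ _ from hint i j) (natCast_mem _ _),
      ← red_mul hM (natCast_mem _ _) (centralChar_mem_locRing hM _ _)]
    congr 1
    have h4 := irr_apply_one_ne_zero (ψ i)
    have h5 := irr_apply_one_eq_rdeg (p := p) (hψ i).1
    rw [← factorization_card_defectGroup hM (f i).1.2 (f i).2] at h5
    rw [centralChar, hmx, mul_div_assoc', eq_div_iff h4, h5]
    push_cast
    ring
  have h6 := congrArg Matrix.det h3
  rw [Matrix.det_mul, Matrix.det_mul, hmem, zero_mul, Matrix.det_diagonal] at h6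
  refine mul_ne_zero (Finset.prod_ne_zero_iff.2 fun i _ => ?_) hdet h6.symm
  rw [Ne, CharP.cast_eq_zero_iff (ResF hM) p, dvd_rdeg_iff (hψ i).1]
  exact not_not.2 (hψ i).2

end Cfsg.Agent.S4741
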