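import Cfsg.Statements.S4742
import Cfsg.Agent.Lib.Char.Invol

set_option autoImplicit false
open Cfsg

namespace Cfsg.Agent.S4742

open CT

/-- Let p ≠ q be primes dividing the order of the finite group G, and suppose the centralizer of every non-identity p-element of G has order prime to q. Then either G has an irreducible character of p-defect zero, or for every non-identity q-element z of G there are conjugates g, h of z such that g h⁻¹ is a non-identity p-element. -/
theorem result {G : Type*} [Group G] [Finite G] (p q : ℕ) [Fact p.Prime] [Fact q.Prime] (hppq : p ≠ q) (hpG : p ∣ Nat.card G) (hqG : q ∣ Nat.card G) (hC : ∀ g : G, g ≠ 1 → (∃ k : ℕ, orderOf g = p ^ k) → ¬ q ∣ Nat.card ↥(Subgroup.centralizer ({g} : Set G))) : (∃ χ : Cfsg.IrrCharacter G, (Cfsg.charDegree (χ : G → ℂ)).factorization p = (Nat.card G).factorization p) ∨ ∀ z : G, z ≠ 1 → (∃ k : ℕ, orderOf z = q ^ k) → ∃ g h : G, IsConj z g ∧ IsConj z h ∧ g * h⁻¹ ≠ 1 ∧ ∃ k : ℕ, orderOf (g * h⁻¹) = p ^ k := by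
  by_contra hc
  push Not at hc
  obtain ⟨h0, z, hz1, hz, h⟩ := hc
  have hx : ¬ p ∣ Nat.card (Subgroup.centralizer ({z} : Set G)) := fun hd => by
    obtain ⟨y, hy⟩ := exists_prime_orderOf_dvd_card' p hd
    have h1 : orderOf (y : G) = p := by rw [Subgroup.orderOf_coe, hy]
    refine hC y (fun e => (Fact.out : p.Prime).ne_one (by rw [← h1, e, orderOf_one]))
      ⟨1, by rw [h1, pow_one]⟩ ((GT.IsPElt.dvd_orderOf hz hz1).trans
        (Subgroup.orderOf_dvd_natCard _ ?_))
    exact Subgroup.mem_centralizer_singleton_iff.2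
      (Subgroup.mem_centralizer_singleton_iff.1 y.2).symm
  obtain ⟨χ, -, hχ⟩ := exists_irr_defect_zero_of_forall z hx fun g g' hg hg' ⟨k, hk⟩ => by
    by_contra hne
    exact h g g' hg hg' (fun e => hne (mul_inv_eq_one.1 e)) k hk
  exact h0 χ hχ

end Cfsg.Agent.S4742
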