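import Cfsg.Statements.S4743
import Cfsg.Agent.Lib.Char.Invol

set_option autoImplicit false
open Cfsg

namespace Cfsg.Agent.S4743

open CT Cfsg

theorem not_dvd {G : Type*} [Group G] [Finite G] {p q : ℕ} [Fact q.Prime]
    (h : ∀ x y : G, orderOf x = p → orderOf y = q → ¬ Commute x y) {x : G} (hx : orderOf x = p) :
    ¬ q ∣ Nat.card (Subgroup.centralizer ({x} : Set G)) := fun hd => by
  obtain ⟨y, hy⟩ := exists_prime_orderOf_dvd_card' q hd
  exact h x y hx (by rw [Subgroup.orderOf_coe, hy])
    (Subgroup.mem_centralizer_singleton_iff.1 y.2).symm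

theorem key {G : Type*} [Group G] [Finite G] (p q : ℕ) [hp : Fact p.Prime] [hq : Fact q.Prime]
    (hpq : p ≠ q) (hpG : p ∣ Nat.card G)
    (h : ∀ x y : G, orderOf x = p → orderOf y = q → ¬ Commute x y) (hs : IsPSolvable p G) :
    (∃ χ : IrrCharacter G, (charDegree χ.1).factorization p = (Nat.card G).factorization p) ∨
    (∃ χ : IrrCharacter G, (charDegree χ.1).factorization q = (Nat.card G).factorization q) := by
  by_cases h1 : q ∣ Nat.card (pPrimeCore p G)
  · obtain ⟨x, hx⟩ := exists_prime_orderOf_dvd_card' q h1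
    obtain ⟨χ, -, hχ⟩ := exists_irr_defect_zero_of_mem_normal (GT.not_dvd_card_pPrimeCore p G) x.2
      (not_dvd (fun a b ha hb hc => h b a hb ha hc.symm) (by rw [Subgroup.orderOf_coe, hx]))
    exact Or.inl ⟨χ, hχ⟩
  · obtain ⟨k, hk⟩ := GT.exists_relIndex_pPrimePCore (p := p) (G := G)
    have h2 := Subgroup.card_mul_index ((pPrimeCore p G).subgroupOf (pPrimePCore p G))
    rw [Nat.card_congr (Subgroup.subgroupOfEquivOfLe GT.pPrimeCore_le_pPrimePCore).toEquiv] at h2
    change _ * (pPrimeCore p G).relIndex (pPrimePCore p G) = _ at h2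
    have h3 : ¬ q ∣ Nat.card (pPrimePCore p G) := by
      rw [← h2, hk, hq.out.dvd_mul, not_or]
      exact ⟨h1, fun e => hpq ((Nat.prime_dvd_prime_iff_eq hq.out hp.out).1
        (hq.out.dvd_of_dvd_pow e)).symm⟩
    have h4 : p ∣ Nat.card (pPrimePCore p G) := by
      by_contra h4
      have h5 : pPrimeCore p G ≠ ⊤ := fun e => GT.pPrimeCore_eq_top_iff.1 e hpG
      have : Nontrivial (G ⧸ pPrimeCore p G) := QuotientGroup.nontrivial_iff.2 h5
      refine GT.pCore_ne_bot_of_pPrimeCore_eq_bot (GT.isPSolvable_quotient hs _)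
        (GT.pPrimeCore_quotient_pPrimeCore p G) ?_
      rw [← GT.map_mk'_pPrimePCore, Subgroup.map_eq_bot_iff, QuotientGroup.ker_mk']
      exact GT.le_pPrimeCore' h4
    obtain ⟨x, hx⟩ := exists_prime_orderOf_dvd_card' p h4
    obtain ⟨χ, -, hχ⟩ := exists_irr_defect_zero_of_mem_normal h3 x.2
      (not_dvd h (by rw [Subgroup.orderOf_coe, hx]))
    exact Or.inr ⟨χ, hχ⟩


/-- Let p ≠ q be primes dividing the order of the finite group G, suppose the centralizer of every non-identity p-element has order prime to q, and suppose G is p-solvable or q-solvable. Then G has an irreducible character of p-defect zero or an irreducible character of q-defect zero. -/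
theorem result {G : Type*} [Group G] [Finite G] (p q : ℕ) [Fact p.Prime] [Fact q.Prime] (hppq : p ≠ q) (hpG : p ∣ Nat.card G) (hqG : q ∣ Nat.card G) (hC : ∀ g : G, g ≠ 1 → (∃ k : ℕ, orderOf g = p ^ k) → ¬ q ∣ Nat.card ↥(Subgroup.centralizer ({g} : Set G))) (hsolv : Cfsg.IsPSolvable p G ∨ Cfsg.IsPSolvable q G) : (∃ χ : Cfsg.IrrCharacter G, (Cfsg.charDegree (χ : G → ℂ)).factorization p = (Nat.card G).factorization p) ∨ (∃ χ : Cfsg.IrrCharacter G, (Cfsg.charDegree (χ : G → ℂ)).factorization q = (Nat.card G).factorization q) := by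
  have h : ∀ x y : G, orderOf x = p → orderOf y = q → ¬ Commute x y := fun x y hx hy hc =>
    hC x (fun e => (Fact.out : p.Prime).ne_one (by rw [← hx, e, orderOf_one]))
      ⟨1, by rw [hx, pow_one]⟩ (hy ▸ Subgroup.orderOf_dvd_natCard _
        (Subgroup.mem_centralizer_singleton_iff.2 hc.symm))
  rcases hsolv with hs | hs
  · exact key p q hppq hpG h hs
  · exact (key q p hppq.symm hqG (fun a b ha hb hc => h b a hb ha hc.symm) hs).symm

end Cfsg.Agent.S4743
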