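import Cfsg.Statements.S4744
import Cfsg.Agent.Lib.Char.Invol

set_option autoImplicit false
open Cfsg

namespace Cfsg.Agent.S4744

open CT

/-- Let p be an odd prime and G a finite group of even order divisible by p in which the centralizer of every non-identity p-element has odd order. Then either G has an irreducible character of p-defect zero, or the normalizer of every Sylow p-subgroup P of G has even order and P is abelian. -/
theorem result {G : Type*} [Group G] [Finite G] (p : ℕ) [Fact p.Prime] (hp2 : p ≠ 2) (hpG : p ∣ Nat.card G) (h2G : 2 ∣ Nat.card G) (hC : ∀ g : G, g ≠ 1 → (∃ k : ℕ, orderOf g = p ^ k) → Odd (Nat.card ↥(Subgroup.centralizer ({g} : Set G)))) : (∃ χ : Cfsg.IrrCharacter G, (Cfsg.charDegree (χ : G → ℂ)).factorization p = (Nat.card G).factorization p) ∨ ∀ P : Sylow p G, Even (Nat.card ↥(Subgroup.normalizer ((P : Subgroup G) : Set G))) ∧ IsMulCommutative ↥(P : Subgroup G) := by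
  by_contra hc
  push Not at hc
  obtain ⟨h0, P, hP⟩ := hc
  obtain ⟨t, ht⟩ := exists_prime_orderOf_dvd_card' 2 h2G
  obtain ⟨Q, hQ⟩ := exists_sylow_inverted_of_no_defect_zero hC h0 ht
  obtain ⟨c, rfl⟩ := MulAction.exists_smul_eq G Q P
  have h1 : ∀ s ∈ ((c • Q : Sylow p G) : Subgroup G), (c * t * c⁻¹) * s * (c * t * c⁻¹)⁻¹ = s⁻¹ := by
    intro s hs
    rw [Sylow.coe_subgroup_smul, GT.mem_conj_smul] at hs
    calc c * t * c⁻¹ * s * (c * t * c⁻¹)⁻¹ = c * (t * (c⁻¹ * s * c) * t⁻¹) * c⁻¹ := by group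
      _ = s⁻¹ := by rw [hQ _ hs]; group
  refine hP ?_ (GT.isMulCommutative_iff_forall.2 fun a ha b hb => GT.mul_comm_of_inverted h1 ha hb)
  rw [even_iff_two_dvd, ← ht, ← GT.orderOf_conj' t c]
  exact Subgroup.orderOf_dvd_natCard _ (GT.mem_normalizer_of_conj_mem fun x hx => by
    rw [h1 x hx]; exact inv_mem hx)

end Cfsg.Agent.S4744
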