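import Cfsg.Statements.S4746
import Cfsg.Agent.Lib.Char.Invol

set_option autoImplicit false
open Cfsg

namespace Cfsg.Agent.S4746

open CT

/-- Let p be an odd prime and G a finite group of even order divisible by p in which the centralizer of every non-identity p-element has odd order. Then G has an irreducible character of p-defect zero or an irreducible character of even degree. -/
theorem result {G : Type*} [Group G] [Finite G] (p : ℕ) [Fact p.Prime] (hp2 : p ≠ 2) (hpG : p ∣ Nat.card G) (h2G : 2 ∣ Nat.card G) (hC : ∀ g : G, g ≠ 1 → (∃ k : ℕ, orderOf g = p ^ k) → Odd (Nat.card ↥(Subgroup.centralizer ({g} : Set G)))) : (∃ χ : Cfsg.IrrCharacter G, (Cfsg.charDegree (χ : G → ℂ)).factorization p = (Nat.card G).factorization p) ∨ ∃ χ : Cfsg.IrrCharacter G, Even (Cfsg.charDegree (χ : G → ℂ)) := by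
  by_contra hc
  rw [not_or] at hc
  obtain ⟨h0, h2⟩ := hc
  push Not at h0
  obtain ⟨t, ht⟩ := exists_prime_orderOf_dvd_card' 2 h2G
  obtain ⟨Q, hQ⟩ := exists_sylow_inverted_of_no_defect_zero hC h0 ht
  obtain ⟨z, hz, hz1⟩ := (Subgroup.bot_or_exists_ne_one (Q : Subgroup G)).resolve_left
    (Q.ne_bot_of_dvd_card hpG)
  exact h2 (exists_irr_even_degree_of_isConj_inv hz1 (isConj_iff.2 ⟨t, hQ z hz⟩)
    (hC z hz1 (GT.isPElt_of_mem_sylow Q hz)))

end Cfsg.Agent.S4746
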