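import Cfsg.Statements.S4754
import Cfsg.Agent.Lib.Char.CommSum

set_option autoImplicit false
open Cfsg

namespace Cfsg.Agent.S4754


/-- For elements x, y of a finite group G, the conjugacy class of x y equals the set of all products of a conjugate of x with a conjugate of y if and only if χ(1) χ(a x a⁻¹ b y b⁻¹) = χ(x) χ(y) for all a, b ∈ G and every irreducible character χ. -/
theorem result {G : Type*} [Group G] [Finite G] (x y : G) : (∀ z : G, IsConj (x * y) z ↔ ∃ a b : G, z = a * x * a⁻¹ * (b * y * b⁻¹)) ↔ ∀ (a b : G) (χ : Cfsg.IrrCharacter G), (χ : G → ℂ) 1 * (χ : G → ℂ) (a * x * a⁻¹ * (b * y * b⁻¹)) = (χ : G → ℂ) x * (χ : G → ℂ) y := by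
  have := Fintype.ofFinite G
  have hG : (Nat.card G : ℂ) ≠ 0 := CT.card_cast_ne_zero
  constructor
  · intro h a b χ
    have hχ := CT.irr_apply_one_ne_zero χ
    have h1 : ∀ a b : G, χ.1 (a * x * a⁻¹ * (b * y * b⁻¹)) = χ.1 (x * y) := fun a b =>
      ((CT.irr_isClassFunction χ).of_isConj ((h _).mpr ⟨a, b, rfl⟩)).symm
    have h2 := CT.sum_irr_conjugate_mul χ x (1 * y * 1⁻¹)
    simp only [h1] at h2
    simp only [Finset.sum_const, Finset.card_univ, nsmul_eq_mul, ← Nat.card_eq_fintype_card,
      one_mul, inv_one, mul_one] at h2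
    rw [h1]
    field_simp at h2
    linear_combination h2
  · intro h z
    constructor
    · intro hz
      obtain ⟨c, rfl⟩ := isConj_iff.mp hz
      exact ⟨c, c, by group⟩
    · rintro ⟨a, b, rfl⟩
      rw [CT.isConj_iff_forall_irr]
      intro χ
      apply mul_left_cancel₀ (CT.irr_apply_one_ne_zero χ)
      rw [h a b χ, ← h 1 1 χ]
      simp

end Cfsg.Agent.S4754
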