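import Cfsg.Statements.S4755
import Cfsg.Agent.S4754

set_option autoImplicit false
open Cfsg

namespace Cfsg.Agent.S4755


/-- Let x, y be non-identity elements of the finite group G such that χ(x' y') = χ(x') χ(y') for all conjugates x' of x, y' of y and every irreducible character χ. Then the conjugacy class of x y is the set of all products of a conjugate of x with a conjugate of y; every irreducible character of degree greater than 1 vanishes at x y; and the conjugacy class of x y is the coset of the commutator subgroup containing x y. -/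
theorem result {G : Type*} [Group G] [Finite G] (x y : G) (hx : x ≠ 1) (hy : y ≠ 1) (h : ∀ (a b : G) (χ : Cfsg.IrrCharacter G), (χ : G → ℂ) (a * x * a⁻¹ * (b * y * b⁻¹)) = (χ : G → ℂ) (a * x * a⁻¹) * (χ : G → ℂ) (b * y * b⁻¹)) : (∀ z : G, IsConj (x * y) z ↔ ∃ a b : G, z = a * x * a⁻¹ * (b * y * b⁻¹)) ∧ (∀ χ : Cfsg.IrrCharacter G, (χ : G → ℂ) 1 ≠ 1 → (χ : G → ℂ) (x * y) = 0) ∧ (∀ z : G, IsConj (x * y) z ↔ (x * y)⁻¹ * z ∈ commutator G) := by
  classical
  have h0 : ∀ (a b : G) (χ : IrrCharacter G),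
      χ.1 (a * x * a⁻¹ * (b * y * b⁻¹)) = χ.1 x * χ.1 y := fun a b χ => by
    rw [h, CT.irr_isClassFunction χ x, CT.irr_isClassFunction χ y]
  have h1 : ∀ χ : IrrCharacter G, χ.1 (x * y) = χ.1 x * χ.1 y := fun χ => by
    simpa using h0 1 1 χ
  have hA : ∀ z : G, IsConj (x * y) z ↔ ∃ a b : G, z = a * x * a⁻¹ * (b * y * b⁻¹) := by
    intro z
    constructor
    · intro hz
      obtain ⟨c, rfl⟩ := isConj_iff.mp hz
      exact ⟨c, c, by group⟩
    · rintro ⟨a, b, rfl⟩
      rw [CT.isConj_iff_forall_irr]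
      intro χ
      rw [h0, h1]
  have hB : ∀ χ : IrrCharacter G, χ.1 1 ≠ 1 → χ.1 (x * y) = 0 := by
    intro χ hχ
    have h2 := (S4754.result x y).mp hA 1 1 χ
    simp only [one_mul, inv_one, mul_one] at h2
    rw [← h1] at h2
    have h3 : (χ.1 1 - 1) * χ.1 (x * y) = 0 := by linear_combination h2
    exact (mul_eq_zero.mp h3).resolve_left (sub_ne_zero.mpr hχ)
  refine ⟨hA, hB, fun z => ⟨fun hz => ?_, fun hz => ?_⟩⟩
  · obtain ⟨c, rfl⟩ := isConj_iff.mp hz
    have := Subgroup.commutator_mem_commutator (Subgroup.mem_top (x * y)⁻¹) (Subgroup.mem_top c)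
    rw [commutatorElement_def, inv_inv] at this
    rw [commutator_def]
    simpa only [mul_assoc] using this
  · by_contra hc
    have h2 := CT.sum_irr_mul_conj (x * y) z
    rw [if_neg hc] at h2
    have h3 : ∀ χ : IrrCharacter G, χ.1 (x * y) * (starRingEnd ℂ) (χ.1 z) =
        χ.1 (x * y) * (starRingEnd ℂ) (χ.1 (x * y)) := by
      intro χ
      by_cases hχ : χ.1 1 = 1
      · have h4 : charDegree χ.1 = 1 := CT.charDegree_eq_of_apply_one (by rw [hχ]; simp)
        have h5 := CT.commutator_le_ker_of_degree_one (CT.irr_isCharacter χ) h4 hz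
        have h6 := CT.ker_apply_mul_right (CT.irr_isClassFunction χ) h5 (x * y)
        rw [mul_inv_cancel_left] at h6
        rw [h6]
      · rw [hB χ hχ, zero_mul, zero_mul]
    simp only [h3] at h2
    rw [CT.sum_irr_mul_conj, if_pos (IsConj.refl _)] at h2
    exact CT.card_cast_ne_zero h2

end Cfsg.Agent.S4755
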