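import Cfsg.Statements.S4756
import Cfsg.Agent.Lib.Char.CommSum
import Cfsg.Agent.Lib.Char.Linear
import Cfsg.Agent.Lib.Grp.Frob

set_option autoImplicit false
open Cfsg

namespace Cfsg.Agent.S4756

open CT GT Subgroup
open scoped ComplexConjugate Pointwise commutatorElement

theorem isConj_of_vanish {G : Type*} [Group G] [Finite G] {g d : G}
    (h : ∀ χ : IrrCharacter G, charDegree χ.1 ≠ 1 → χ.1 g = 0) (hd : d ∈ commutator G) :
    IsConj (g * d) g := by
  classical
  by_contra hc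
  have h1 := sum_irr_mul_conj (g * d) g
  rw [if_neg hc] at h1
  have h2 : ∀ χ : IrrCharacter G, χ.1 (g * d) * conj (χ.1 g) =
      if charDegree χ.1 = 1 then 1 else 0 := by
    intro χ
    split_ifs with hχ
    · have hk : d ∈ ker χ.1 := (irr_degree_eq_one_iff_commutator_le_ker χ).1 hχ hd
      rw [(irr_isClassFunction χ).apply_mul_of_mem_ker hk, Complex.mul_conj,
        Complex.normSq_eq_norm_sq, (irr_isCharacter χ).norm_eq_one_of_degree_one hχ]
      simp
    · rw [h χ hχ]; simp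
  simp only [h2, Finset.sum_boole, Nat.cast_eq_zero, Finset.card_eq_zero] at h1
  have : irrOne G ∈ Finset.univ.filter (fun χ : IrrCharacter G => charDegree χ.1 = 1) := by
    simp [charDegree_irrOne]
  rw [h1] at this
  simp at this

theorem vanish_of_hyp {G : Type*} [Group G] [Finite G]
    (H : ∀ (x y : G) (χ : Cfsg.IrrCharacter G), x ≠ 1 → y ≠ 1 → (∃ p q a b : ℕ, p.Prime ∧ q.Prime ∧ p ≠ q ∧ orderOf x = p ^ a ∧ orderOf y = q ^ b) → (χ : G → ℂ) (x * y) = (χ : G → ℂ) x * (χ : G → ℂ) y)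
    {x y : G} (hx : x ≠ 1) (hy : y ≠ 1) {p q a b : ℕ} (hp : p.Prime) (hq : q.Prime) (hpq : p ≠ q)
    (ha : orderOf x = p ^ a) (hb : orderOf y = q ^ b) (χ : IrrCharacter G)
    (hχ : charDegree χ.1 ≠ 1) : χ.1 (x * y) = 0 := by
  classical
  have := Fintype.ofFinite G
  have h1 := sum_irr_mul_conjugate χ y x
  have h2 : ∀ g : G, χ.1 (x * (g * y * g⁻¹)) = χ.1 x * χ.1 y := by
    intro g
    rw [H x (g * y * g⁻¹) χ hx (by simpa using hy)
      ⟨p, q, a, b, hp, hq, hpq, ha, by rw [orderOf_conj', hb]⟩]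
    rw [irr_isClassFunction χ y g]
  simp only [h2, Finset.sum_const, Finset.card_univ, nsmul_eq_mul] at h1
  rw [← Nat.card_eq_fintype_card] at h1
  have hG : (Nat.card G : ℂ) ≠ 0 := card_cast_ne_zero
  have h0 := irr_apply_one_ne_zero χ
  have h3 : χ.1 x * χ.1 y * (χ.1 1 - 1) = 0 := by
    field_simp at h1
    linear_combination h1
  have h4 : χ.1 1 - 1 ≠ 0 := by
    rw [irr_apply_one, sub_ne_zero]
    exact_mod_cast hχ
  rw [H x y χ hx hy ⟨p, q, a, b, hp, hq, hpq, ha, hb⟩]
  exact (mul_eq_zero.1 h3).resolve_right h4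

theorem forward {G : Type*} [Group G] [Finite G]
    (H : ∀ (x y : G) (χ : Cfsg.IrrCharacter G), x ≠ 1 → y ≠ 1 → (∃ p q a b : ℕ, p.Prime ∧ q.Prime ∧ p ≠ q ∧ orderOf x = p ^ a ∧ orderOf y = q ^ b) → (χ : G → ℂ) (x * y) = (χ : G → ℂ) x * (χ : G → ℂ) y)
    (h1 : ¬ ∃ p : ℕ, p.Prime ∧ IsPGroup p G) (h2 : ¬ IsMulCommutative G) :
    ∃ (p : ℕ) (_ : Fact p.Prime) (P : Sylow p G) (A : Subgroup G), (P : Subgroup G).Normal ∧ IsCyclic ↥A ∧ A ≠ ⊥ ∧ (Nat.card ↥A).Coprime p ∧ A ⊔ (P : Subgroup G) = ⊤ ∧ IsMulCommutative ↥((P : Subgroup G) ⊓ Subgroup.centralizer (A : Set G)) ∧ (⁅A, (P : Subgroup G)⁆).Normal ∧ ((P : Subgroup G) ⊓ Subgroup.centralizer (A : Set G)) ⊔ ⁅A, (P : Subgroup G)⁆ = (P : Subgroup G) ∧ ((P : Subgroup G) ⊓ Subgroup.centralizer (A : Set G)) ⊓ ⁅A, (P : Subgroup G)⁆ = ⊥ ∧ ∀ a ∈ A, a ≠ 1 → ∀ d ∈ ⁅A, (P : Subgroup G)⁆, a * d = d * a → d = 1 := by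
  have hD : commutator G ≠ ⊥ := by
    intro h
    exact h2 (isMulCommutative_iff_forall_degree_one.2
      (commutator_eq_bot_iff_forall_degree_one.1 h))
  have hc1 : Nat.card (commutator G) ≠ 1 := by
    rwa [Ne, Subgroup.card_eq_one]
  obtain ⟨p, hp, hpd⟩ := Nat.exists_prime_and_dvd hc1
  haveI : Fact p.Prime := ⟨hp⟩
  obtain ⟨x0, hx0⟩ := exists_prime_orderOf_dvd_card' p hpd
  have hxo : orderOf (x0 : G) = p ^ 1 := by rw [Subgroup.orderOf_coe, hx0, pow_one]
  have hx1 : (x0 : G) ≠ 1 := by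
    intro h
    rw [h, orderOf_one, pow_one] at hxo
    exact hp.one_lt.ne hxo
  -- key: for a `q`-element `y ≠ 1`, `q ≠ p`, the coset `y G'` consists of conjugates of `y`
  have key : ∀ (y : G) (q b : ℕ), q.Prime → q ≠ p → y ≠ 1 → orderOf y = q ^ b →
      ∀ d ∈ commutator G, IsConj (y * d) y := by
    intro y q b hq hqp hy hb d hd
    have hv := vanish_of_hyp H hy hx1 hq hp hqp hb hxo
    have e1 := isConj_of_vanish hv (d := (x0 : G)⁻¹ * d)
      ((commutator G).mul_mem ((commutator G).inv_mem x0.2) hd)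
    have e2 := isConj_of_vanish hv (d := (x0 : G)⁻¹) ((commutator G).inv_mem x0.2)
    simp only [mul_assoc, mul_inv_cancel_left, mul_inv_cancel, mul_one] at e1 e2
    exact e1.trans e2.symm
  have hPG : IsPGroup p (commutator G) := by
    rw [isPGroup_iff_isPiNat]
    intro q hq hqd
    by_contra hqp
    haveI : Fact q.Prime := ⟨hq⟩
    obtain ⟨y, hy⟩ := exists_prime_orderOf_dvd_card' q hqd
    have hyo : orderOf (y : G) = q ^ 1 := by rw [Subgroup.orderOf_coe, hy, pow_one]
    have hy1 : (y : G) ≠ 1 := by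
      intro h
      rw [h, orderOf_one, pow_one] at hyo
      exact hq.one_lt.ne hyo
    have := key y q 1 hq hqp hy1 hyo (y : G)⁻¹ ((commutator G).inv_mem y.2)
    rw [mul_inv_cancel, isConj_one_right] at this
    exact hy1 this
  obtain ⟨P, hP⟩ := hPG.exists_le_sylow
  haveI hPn : (P : Subgroup G).Normal := Subgroup.Normal.of_commutator_le G hP
  obtain ⟨A, hA⟩ := Subgroup.exists_right_complement'_of_coprime (N := (P : Subgroup G))
    (P.card_coprime_index)
  have hAc : Nat.card A = (P : Subgroup G).index := hA.symm.index_eq_card.symm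
  have hpA : ¬ p ∣ Nat.card A := by rw [hAc]; exact P.not_dvd_index
  have hAne : A ≠ ⊥ := by
    intro h
    have := hA.sup_eq_top
    rw [h, sup_bot_eq] at this
    exact h1 ⟨p, hp, isPGroup_top_iff.1 (this ▸ P.isPGroup')⟩
  have hAcomm : IsMulCommutative A := by
    rw [isMulCommutative_iff_forall]
    intro a ha b hb
    have : ⁅a, b⁆ ∈ (P : Subgroup G) ⊓ A :=
      ⟨hP (Subgroup.commutator_mem_commutator (Subgroup.mem_top a) (Subgroup.mem_top b)), A.mul_mem (A.mul_mem (A.mul_mem ha hb)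
        (A.inv_mem ha)) (A.inv_mem hb)⟩
    rw [hA.disjoint.eq_bot, Subgroup.mem_bot, commutatorElement_eq_one_iff_mul_comm] at this
    exact this
  have hF : FrobAct A (commutator G) := by
    refine ⟨by rw [Subgroup.normalizer_eq_top]; exact le_top, ?_⟩
    intro a ha ha1 n hn hna
    have ho1 : orderOf a ≠ 1 := by rwa [Ne, orderOf_eq_one_iff]
    obtain ⟨q, hq, hqd⟩ := Nat.exists_prime_and_dvd ho1
    have hqA : q ∣ Nat.card A := by
      refine hqd.trans ?_
      have := orderOf_dvd_natCard (⟨a, ha⟩ : A)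
      rwa [← Subgroup.orderOf_coe] at this
    have hqp : q ≠ p := fun h => hpA (h ▸ hqA)
    haveI : Fact q.Prime := ⟨hq⟩
    set y := a ^ (orderOf a / q) with hy
    have hyo : orderOf y = q ^ 1 := by
      rw [pow_one]
      exact orderOf_pow_orderOf_div (orderOf_pos a).ne' hqd
    have hy1 : y ≠ 1 := by
      intro h
      rw [h, orderOf_one, pow_one] at hyo
      exact hq.one_lt.ne hyo
    have hc := key y q 1 hq hqp hy1 hyo n hn
    have hcm : Commute y n := (Commute.pow_left (show Commute a n from hna.symm) _)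
    have hpn : IsPElt p n := isPElt_of_mem hPG hn
    have hoc := orderOf_eq_of_isConj hc
    have h3 : (y * n) ^ q = 1 := by rw [← orderOf_dvd_iff_pow_eq_one, hoc, hyo, pow_one]
    have h4 : y ^ q = 1 := by rw [← orderOf_dvd_iff_pow_eq_one, hyo, pow_one]
    rw [hcm.mul_pow, h4, one_mul] at h3
    refine hpn.eq_one_of_isPRegular (isPRegular_of_pow_eq_one ?_ h3)
    rw [Nat.prime_dvd_prime_iff_eq hp hq]
    exact fun h => hqp h.symm
  have hDeq : ⁅A, (P : Subgroup G)⁆ = commutator G := by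
    apply le_antisymm
    · exact Subgroup.commutator_mono le_top le_top
    · conv_lhs => rw [← hF.commutator_eq hAne]
      rw [Subgroup.commutator_comm]
      exact Subgroup.commutator_mono le_rfl hP
  have hact : CoprimeAct A (P : Subgroup G) :=
    coprimeAct_of_isPGroup_right (by rw [Subgroup.normalizer_eq_top]; exact le_top) P.isPGroup' hpA
  have hinf : ((P : Subgroup G) ⊓ Subgroup.centralizer (A : Set G)) ⊓ commutator G = ⊥ := by
    have := hF.inf_centralizer_eq_bot' le_rfl hAne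
    rw [eq_bot_iff, ← this]
    exact fun x hx => ⟨hx.2, hx.1.2⟩
  refine ⟨p, inferInstance, P, A, hPn, hF.isCyclic_of_isMulCommutative hD le_rfl, hAne,
    ((Nat.Prime.coprime_iff_not_dvd hp).2 hpA).symm, by rw [sup_comm]; exact hA.sup_eq_top, ?_,
    by rw [hDeq]; infer_instance, ?_, by rw [hDeq]; exact hinf, ?_⟩
  · rw [isMulCommutative_iff_forall]
    intro a ha b hb
    have : ⁅a, b⁆ ∈ ((P : Subgroup G) ⊓ Subgroup.centralizer (A : Set G)) ⊓ commutator G :=
      ⟨Subgroup.mul_mem _ (Subgroup.mul_mem _ (Subgroup.mul_mem _ ha hb)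
        (Subgroup.inv_mem _ ha)) (Subgroup.inv_mem _ hb), Subgroup.commutator_mem_commutator (Subgroup.mem_top a) (Subgroup.mem_top b)⟩
    rw [hinf, Subgroup.mem_bot, commutatorElement_eq_one_iff_mul_comm] at this
    exact this
  · rw [Subgroup.commutator_comm]
    exact hact.inf_centralizer_sup_commutator
  · intro a ha ha1 d hd had
    rw [hDeq] at hd
    exact hF.fpf a ha ha1 d hd had.symm

theorem backward {G : Type*} [Group G] [Finite G] {p : ℕ} [hp : Fact p.Prime] (P : Sylow p G)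
    (A : Subgroup G) [hPn : (P : Subgroup G).Normal] [IsCyclic A] (hA : (Nat.card ↥A).Coprime p)
    (hs : A ⊔ (P : Subgroup G) = ⊤)
    (hC : IsMulCommutative ↥((P : Subgroup G) ⊓ Subgroup.centralizer (A : Set G)))
    [hD : (⁅A, (P : Subgroup G)⁆).Normal]
    (hCD : ((P : Subgroup G) ⊓ Subgroup.centralizer (A : Set G)) ⊔ ⁅A, (P : Subgroup G)⁆ = (P : Subgroup G))
    (hf : ∀ a ∈ A, a ≠ 1 → ∀ d ∈ ⁅A, (P : Subgroup G)⁆, a * d = d * a → d = 1) :
    commutator G ≤ (P : Subgroup G) ∧ ∀ (χ : IrrCharacter G), charDegree χ.1 ≠ 1 →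
      ∀ g, g ∉ (P : Subgroup G) → χ.1 g = 0 := by
  classical
  set D := ⁅A, (P : Subgroup G)⁆ with hDdef
  set C := (P : Subgroup G) ⊓ Subgroup.centralizer (A : Set G) with hCdef
  have hDP : D ≤ (P : Subgroup G) := by rw [← hCD]; exact le_sup_right
  have hAC : ∀ u ∈ A ⊔ C, ∀ v ∈ A ⊔ C, u * v = v * u := by
    have hAcomm : ∀ a ∈ A, ∀ b ∈ A, a * b = b * a := by
      exact isMulCommutative_iff_forall.1 IsCyclic.isMulCommutative
    have hCcomm := isMulCommutative_iff_forall.1 hC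
    have h1 : A ⊔ C ≤ centralizer (A : Set G) :=
      sup_le (fun a ha b hb => hAcomm b hb a ha) inf_le_right
    have h2 : A ⊔ C ≤ centralizer (C : Set G) :=
      sup_le (fun a ha c hc => (hc.2 a ha).symm) (fun a ha b hb => hCcomm b hb a ha)
    intro u hu v hv
    have : v ∈ centralizer ((A ⊔ C : Subgroup G) : Set G) := by
      rw [centralizer_sup]; exact ⟨h1 hv, h2 hv⟩
    exact this u hu
  have htop : (A ⊔ C) ⊔ D = ⊤ := by rw [sup_assoc, hCD, hs]
  have hcD : commutator G ≤ D := by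
    rw [_root_.commutator_def, Subgroup.commutator_le]
    intro g _ h _
    have hg : g ∈ (A ⊔ C) ⊔ D := htop ▸ Subgroup.mem_top g
    have hh : h ∈ (A ⊔ C) ⊔ D := htop ▸ Subgroup.mem_top h
    obtain ⟨u, hu, d, hd, rfl⟩ := Subgroup.mem_sup_of_normal_right.1 hg
    obtain ⟨v, hv, e, he, rfl⟩ := Subgroup.mem_sup_of_normal_right.1 hh
    rw [← QuotientGroup.eq_one_iff]
    have hd' : (d : G ⧸ D) = 1 := (QuotientGroup.eq_one_iff d).2 hd
    have he' : (e : G ⧸ D) = 1 := (QuotientGroup.eq_one_iff e).2 he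
    have huv : (u : G ⧸ D) * v = v * u := by
      rw [← QuotientGroup.mk_mul, hAC u hu v hv, QuotientGroup.mk_mul]
    simp only [commutatorElement_def, QuotientGroup.mk_mul, QuotientGroup.mk_inv, hd', he',
      mul_one, huv, mul_inv_cancel_right, mul_inv_cancel]
  refine ⟨hcD.trans hDP, fun χ hχ g hg => ?_⟩
  have hk : ¬ D ≤ ker χ.1 := fun h => hχ (irr_degree_eq_one_of_le_ker hcD h)
  have hfpf : ∀ n ∈ D, n * g = g * n → n = 1 := by
    intro n hn hng
    have hr : IsPRegular p (pRegPart p g) := isPRegular_pRegPart p g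
    have hrP : pRegPart p g ≠ 1 := by
      intro h
      apply hg
      rw [← pPart_mul_pRegPart p g, h, mul_one]
      exact (isPElt_pPart p g).mem_of_coprime_index _
        ((Nat.Prime.coprime_iff_not_dvd hp.out).2 P.not_dvd_index)
    obtain ⟨k, -, hk⟩ := exists_le_conj_of_le_sup (N := (P : Subgroup G))
      (U := zpowers (pRegPart p g)) (S := A) (by rw [Subgroup.normalizer_eq_top]; exact le_top)
      (by rw [sup_comm, hs]; exact le_top)
      (P.isPGroup'.coprime_card (by rw [Nat.card_zpowers]; exact hr))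
      (Or.inl (IsPGroup.isSolvable' P.isPGroup'))
    have ha := mem_conj_smul.1 (hk (mem_zpowers _))
    have hc : Commute (pRegPart p g) n := commute_pRegPart_left p hng.symm
    have := hf _ ha (fun h => hrP (by
      calc pRegPart p g = k * (k⁻¹ * pRegPart p g * k) * k⁻¹ := by group
        _ = 1 := by rw [h]; group)) (k⁻¹ * n * k) (hD.conj_mem' n hn k) (by
      calc k⁻¹ * pRegPart p g * k * (k⁻¹ * n * k) = k⁻¹ * (pRegPart p g * n) * k := by group
        _ = k⁻¹ * n * k * (k⁻¹ * pRegPart p g * k) := by rw [hc.eq]; group)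
    calc n = k * (k⁻¹ * n * k) * k⁻¹ := by group
      _ = 1 := by rw [this]; group
  have := Fintype.ofFinite D
  have h0 := sum_normal_irr_eq_zero D hk g
  have h1 : ∀ n : D, χ.1 (g * n) = χ.1 g := by
    intro n
    obtain ⟨k, -, hk⟩ := exists_conj_eq_mul_of_fpf (N := D) (x := g)
      (by rw [Subgroup.normalizer_eq_top]; trivial) hfpf n.2
    rw [(irr_isClassFunction χ).mul_comm, ← hk, irr_isClassFunction χ g k]
  simp only [h1, Finset.sum_const, Finset.card_univ, nsmul_eq_mul, mul_eq_zero,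
    Nat.cast_eq_zero, Fintype.card_ne_zero, false_or] at h0
  exact h0


/-- For a finite group G the following are equivalent. (1) χ(x y) = χ(x) χ(y) for every irreducible character χ and all non-identity elements x, y of prime power orders for two different primes. (2) G is a p-group for some prime p, or G is abelian, or for some prime p: G = A P with P a normal Sylow p-subgroup and A a nontrivial cyclic subgroup of order prime to p such that, with C = C_P(A) and D = [A, P], one has P = C D, C abelian, D normal in G, C ∩ D = 1, and A acts fixed-point-freely on D (no non-identity element of A centralizes a non-identity element of D). -/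
theorem result {G : Type*} [Group G] [Finite G] : (∀ (x y : G) (χ : Cfsg.IrrCharacter G), x ≠ 1 → y ≠ 1 → (∃ p q a b : ℕ, p.Prime ∧ q.Prime ∧ p ≠ q ∧ orderOf x = p ^ a ∧ orderOf y = q ^ b) → (χ : G → ℂ) (x * y) = (χ : G → ℂ) x * (χ : G → ℂ) y) ↔ ((∃ p : ℕ, p.Prime ∧ IsPGroup p G) ∨ IsMulCommutative G ∨ ∃ (p : ℕ) (_ : Fact p.Prime) (P : Sylow p G) (A : Subgroup G), (P : Subgroup G).Normal ∧ IsCyclic ↥A ∧ A ≠ ⊥ ∧ (Nat.card ↥A).Coprime p ∧ A ⊔ (P : Subgroup G) = ⊤ ∧ IsMulCommutative ↥((P : Subgroup G) ⊓ Subgroup.centralizer (A : Set G)) ∧ (⁅A, (P : Subgroup G)⁆).Normal ∧ ((P : Subgroup G) ⊓ Subgroup.centralizer (A : Set G)) ⊔ ⁅A, (P : Subgroup G)⁆ = (P : Subgroup G) ∧ ((P : Subgroup G) ⊓ Subgroup.centralizer (A : Set G)) ⊓ ⁅A, (P : Subgroup G)⁆ = ⊥ ∧ ∀ a ∈ A, a ≠ 1 → ∀ d ∈ ⁅A, (P : Subgroup G)⁆, a * d = d * a → d = 1) := by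
  constructor
  · intro H
    by_cases h1 : ∃ p : ℕ, p.Prime ∧ IsPGroup p G
    · exact Or.inl h1
    by_cases h2 : IsMulCommutative G
    · exact Or.inr (Or.inl h2)
    exact Or.inr (Or.inr (forward H h1 h2))
  · have aux : ∀ (r : ℕ) [Fact r.Prime] (x : G) (p a : ℕ), p.Prime → x ≠ 1 → orderOf x = p ^ a →
        IsPElt r x → p = r := by
      intro r hr x p a hp hx ha hrx
      have := hrx.dvd_orderOf hx
      rw [ha] at this
      exact ((Nat.prime_dvd_prime_iff_eq hr.out hp).1 (hr.out.dvd_of_dvd_pow this)).symm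
    rintro (⟨r, hr, hG⟩ | hG | ⟨r, hr, P, A, hPn, hcyc, -, hA, hs, hC, hD, hCD, -, hf⟩)
      x y χ hx hy ⟨p, q, a, b, hp, hq, hpq, ha, hb⟩
    · haveI : Fact r.Prime := ⟨hr⟩
      exact absurd ((aux r x p a hp hx ha (isPElt_of_isPGroup hG x)).trans
        (aux r y q b hq hy hb (isPElt_of_isPGroup hG y)).symm) hpq
    · exact (irr_isCharacter χ).map_mul_of_degree_one (irr_degree_eq_one_of_isMulCommutative χ) x y
    · by_cases hχ : charDegree χ.1 = 1
      · exact (irr_isCharacter χ).map_mul_of_degree_one hχ x y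
      obtain ⟨hc, hv⟩ := backward P A hA hs hC hCD hf
      have hxy : x ∉ (P : Subgroup G) ∨ y ∉ (P : Subgroup G) := by
        by_contra h
        push Not at h
        exact hpq ((aux r x p a hp hx ha (isPElt_of_mem_sylow P h.1)).trans
          (aux r y q b hq hy hb (isPElt_of_mem_sylow P h.2)).symm)
      have hm : x * y ∉ (P : Subgroup G) := by
        intro h
        have h1 : (x : G ⧸ (P : Subgroup G)) * y = 1 := by
          rw [← QuotientGroup.mk_mul, QuotientGroup.eq_one_iff]; exact h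
        have h2 : (x : G ⧸ (P : Subgroup G)) = (y : G ⧸ (P : Subgroup G))⁻¹ :=
          eq_inv_of_mul_eq_one_left h1
        have h3 : orderOf (x : G ⧸ (P : Subgroup G)) ∣ p ^ a :=
          ha ▸ orderOf_map_dvd (QuotientGroup.mk' (P : Subgroup G)) x
        have h4 : orderOf (x : G ⧸ (P : Subgroup G)) ∣ q ^ b := by
          rw [h2, orderOf_inv]
          exact hb ▸ orderOf_map_dvd (QuotientGroup.mk' (P : Subgroup G)) y
        have h5 : orderOf (x : G ⧸ (P : Subgroup G)) = 1 :=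
          Nat.eq_one_of_dvd_coprimes (Nat.coprime_pow_primes a b hp hq hpq) h3 h4
        rw [orderOf_eq_one_iff] at h5
        have h6 : x ∈ (P : Subgroup G) := (QuotientGroup.eq_one_iff x).1 h5
        have h7 : y ∈ (P : Subgroup G) := by
          simpa using (P : Subgroup G).mul_mem ((P : Subgroup G).inv_mem h6) h
        exact hxy.elim (fun h => h h6) (fun h => h h7)
      rw [hv χ hχ _ hm]
      rcases hxy with h | h <;> rw [hv χ hχ _ h] <;> simp

end Cfsg.Agent.S4756
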