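import Cfsg.Statements.S4757
import Cfsg.Agent.Lib.Char.Linear
import Cfsg.Agent.Lib.Char.Values
import Cfsg.Agent.Lib.Grp.Core
import Cfsg.Agent.Lib.Grp.CyclicExt

set_option autoImplicit false
open Cfsg

namespace Cfsg.Agent.S4757

open Subgroup CT GT
open scoped ComplexConjugate


/-- Let u ≠ 1 be an element of the finite group G and c a complex number such that every non-principal irreducible character χ satisfies χ(1) − χ(u) = c or χ(u) = 0. Then the following are equivalent: (a) u has order 2, G is generated by u together with O(G), the largest normal subgroup of G of odd order, and the centralizer of u is {1, u}; (b) G is not perfect; (c) c = 2. -/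
theorem result {G : Type*} [Group G] [Finite G] (u : G) (hu : u ≠ 1) (c : ℂ) (hyp : ∀ χ : Cfsg.IrrCharacter G, (χ : G → ℂ) ≠ (fun _ => (1 : ℂ)) → ((χ : G → ℂ) 1 - (χ : G → ℂ) u = c ∨ (χ : G → ℂ) u = 0)) : ((orderOf u = 2 ∧ Subgroup.zpowers u ⊔ Cfsg.oddCore G = ⊤ ∧ Subgroup.centralizer ({u} : Set G) = Subgroup.zpowers u) ↔ commutator G ≠ ⊤) ∧ (commutator G ≠ ⊤ ↔ c = 2) := by
  classical
  have hyp' : ∀ χ : IrrCharacter G, χ ≠ irrOne G → χ.1 u = χ.1 1 - c ∨ χ.1 u = 0 := by
    intro χ hχ
    rcases hyp χ (fun e => hχ (Subtype.ext e)) with h | h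
    · left; rw [← h]; ring
    · right; exact h
  have hcol := sum_irr_degree_mul u
  rw [if_neg hu] at hcol
  have hc0 : c ≠ 0 := by
    rintro rfl
    rw [Finset.sum_congr rfl
      (g := fun χ => ((if χ.1 u = 0 then 0 else charDegree χ.1 ^ 2 : ℕ) : ℂ))] at hcol
    · rw [← Nat.cast_sum, Nat.cast_eq_zero, Finset.sum_eq_zero_iff] at hcol
      have := hcol (irrOne G) (Finset.mem_univ _)
      simp [charDegree_irrOne] at this
    · intro χ _
      split_ifs with h0
      · simp [h0]
      · by_cases h1 : χ = irrOne G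
        · simp [h1, charDegree_irrOne]
        · rw [(hyp' χ h1).resolve_right h0, sub_zero, irr_apply_one]
          push_cast; ring
  have hlin : ∀ f : G →* ℂˣ, f ≠ 1 → (f u : ℂ) = 1 - c := by
    intro f hf
    rcases hyp' (linChar f) (fun e => hf (linChar_eq_irrOne_iff.1 e)) with h | h
    · simpa using h
    · simp at h
  have hb : commutator G ≠ ⊤ ↔ ∃ f : G →* ℂˣ, f ≠ 1 := by
    rw [Ne, commutator_eq_top_iff_forall_linear]
    constructor
    · intro h
      push Not at h
      obtain ⟨χ, h1, h2⟩ := h
      obtain ⟨f, rfl⟩ := (exists_linChar_eq_iff χ).2 h1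
      exact ⟨f, fun e => h2 (linChar_eq_irrOne_iff.2 e)⟩
    · rintro ⟨f, hf⟩ h
      exact hf (linChar_eq_irrOne_iff.1 (h _ (charDegree_linChar f)))
  have hbc : commutator G ≠ ⊤ → c = 2 := by
    intro h
    obtain ⟨f, hf⟩ := hb.1 h
    have h1 := hlin f hf
    have h0 : (f u : ℂ) ≠ 0 := Units.ne_zero _
    by_cases h2 : f * f = 1
    · have h3 : (f u : ℂ) * f u = 1 := by
        rw [← Units.val_mul, ← MonoidHom.mul_apply, h2]; simp
      rw [h1] at h3
      apply mul_left_cancel₀ hc0
      linear_combination h3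
    · have h3 := hlin _ h2
      rw [MonoidHom.mul_apply, Units.val_mul, ← h1] at h3
      have h4 : (f u : ℂ) = 1 := mul_left_cancel₀ h0 (by rw [h3, mul_one])
      exfalso
      apply hc0
      linear_combination h1 - h4
  let b : IrrCharacter G → ℤ := fun χ => if χ = irrOne G then 1 else if χ.1 u = 0 then 0 else
    (charDegree χ.1 : ℤ) * (charDegree χ.1 - 2)
  have hsum : c = 2 → ∑ χ, b χ = 0 := by
    rintro rfl
    have : ((∑ χ, b χ : ℤ) : ℂ) = 0 := by
      rw [← hcol, Int.cast_sum]
      refine Finset.sum_congr rfl fun χ _ => ?_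
      simp only [b]
      split_ifs with h1 h0
      · simp [h1]
      · simp [h0]
      · rw [(hyp' χ h1).resolve_right h0, irr_apply_one]
        push_cast; ring
    exact_mod_cast this
  have hnn : ∀ χ : IrrCharacter G, charDegree χ.1 ≠ 1 → 0 ≤ b χ := by
    intro χ h1
    simp only [b]
    split_ifs
    · exact zero_le_one
    · exact le_rfl
    · have := irr_degree_pos χ
      have h2 : (2 : ℤ) ≤ charDegree χ.1 := by omega
      exact mul_nonneg (by omega) (by omega)
  have hcb : c = 2 → commutator G ≠ ⊤ := by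
    intro h h1
    have h2 := hsum h
    rw [← Finset.add_sum_erase _ _ (Finset.mem_univ (irrOne G))] at h2
    have h3 : 0 ≤ ∑ χ ∈ Finset.univ.erase (irrOne G), b χ := by
      refine Finset.sum_nonneg fun χ hχ => hnn χ fun e => ?_
      exact (Finset.mem_erase.1 hχ).1 (commutator_eq_top_iff_forall_linear.1 h1 χ e)
    have h4 : b (irrOne G) = 1 := by simp [b]
    omega
  refine ⟨⟨?_, fun h => ?_⟩, hbc, hcb⟩
  · rintro ⟨h1, h2, -⟩ h3
    have h4 : u ∉ oddCore G := by
      intro h
      have := isPRegular_of_mem_pPrimeCore h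
      rw [isPRegular_iff, h1] at this
      exact this dvd_rfl
    have h5 : commutator G ≤ oddCore G := by
      have : IsCyclic (G ⧸ oddCore G) := by
        refine ⟨⟨(u : G ⧸ oddCore G), fun q => ?_⟩⟩
        have h6 := map_mk'_eq_top_iff.2 h2
        rw [MonoidHom.map_zpowers] at h6
        have : q ∈ zpowers (QuotientGroup.mk' (oddCore G) u) := h6 ▸ mem_top q
        exact this
      exact Subgroup.Normal.quotient_commutative_iff_commutator_le.1 IsCyclic.isMulCommutative
    rw [h3] at h5
    exact h4 (h5 (mem_top u))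
  · have hc := hbc h
    obtain ⟨f, hf⟩ := hb.1 h
    have hfu : ∀ f' : G →* ℂˣ, f' ≠ 1 → (f' u : ℂ) = -1 := by
      intro f' hf'
      rw [hlin f' hf', hc]; norm_num
    have huniq : ∀ f' : G →* ℂˣ, f' ≠ 1 → f' = f := by
      intro f' hf'
      by_contra hne
      have h1 := hfu (f' * f⁻¹) (fun e => hne (mul_inv_eq_one.1 e))
      have h2 : f' u = f u := Units.ext (by rw [hfu f' hf', hfu f hf])
      rw [MonoidHom.mul_apply, MonoidHom.inv_apply, h2, mul_inv_cancel] at h1
      norm_num at h1
    have hne : linChar f ≠ irrOne G := fun e => hf (linChar_eq_irrOne_iff.1 e)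
    have hmem : linChar f ∈ Finset.univ.erase (irrOne G) :=
      Finset.mem_erase.2 ⟨hne, Finset.mem_univ _⟩
    have hdeg : ∀ χ ∈ (Finset.univ.erase (irrOne G)).erase (linChar f), charDegree χ.1 ≠ 1 := by
      intro χ hχ e
      obtain ⟨f', rfl⟩ := (exists_linChar_eq_iff χ).2 e
      obtain ⟨h1, h2⟩ := Finset.mem_erase.1 hχ
      exact h1 (by rw [huniq f' fun e => (Finset.mem_erase.1 h2).1 (linChar_eq_irrOne_iff.2 e)])
    have hz : ∀ χ ∈ (Finset.univ.erase (irrOne G)).erase (linChar f), χ.1 u = 0 := by
      have h2 := hsum hc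
      rw [← Finset.add_sum_erase _ _ (Finset.mem_univ (irrOne G)),
        ← Finset.add_sum_erase _ _ hmem] at h2
      have h4 : b (irrOne G) = 1 := by simp [b]
      have h5 : b (linChar f) = -1 := by simp [b, hne, charDegree_linChar]
      rw [h4, h5, ← add_assoc, add_neg_cancel, zero_add,
        Finset.sum_eq_zero_iff_of_nonneg fun χ hχ => hnn χ (hdeg χ hχ)] at h2
      intro χ hχ
      have h6 := h2 χ hχ
      have h7 : χ ≠ irrOne G := (Finset.mem_erase.1 (Finset.mem_erase.1 hχ).2).1
      by_contra h0
      simp only [b, if_neg h7, if_neg h0] at h6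
      have h8 := irr_degree_pos χ
      have h9 : charDegree χ.1 = 2 := by
        rcases mul_eq_zero.1 h6 with h | h <;> omega
      apply h0
      rw [(hyp' χ h7).resolve_right h0, irr_apply_one, h9, hc]
      norm_num
    have hC : Nat.card (centralizer ({u} : Set G)) = 2 := by
      have h1 := sum_irr_mul_conj u u
      rw [if_pos (IsConj.refl u), ← Finset.add_sum_erase _ _ (Finset.mem_univ (irrOne G)),
        ← Finset.add_sum_erase _ _ hmem, Finset.sum_eq_zero fun χ hχ => by rw [hz χ hχ, zero_mul]]
        at h1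
      simp only [irrOne_apply, linChar_apply, hfu f hf] at h1
      norm_num at h1
      exact_mod_cast h1.symm
    have hle : zpowers u ≤ centralizer ({u} : Set G) :=
      zpowers_le.2 (mem_centralizer_singleton_iff.2 rfl)
    have hou : orderOf u = 2 := by
      have h1 := card_dvd_of_le hle
      rw [Nat.card_zpowers, hC] at h1
      exact ((Nat.dvd_prime Nat.prime_two).1 h1).resolve_left (fun e => hu (orderOf_eq_one_iff.1 e))
    have heq : centralizer ({u} : Set G) = zpowers u :=
      (eq_of_le_of_card_ge hle (by rw [Nat.card_zpowers, hC, hou])).symm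
    refine ⟨hou, ?_, heq⟩
    have hidx : (commutator G).index = 2 := by
      rw [← card_units_hom, Nat.card_eq_two_iff' 1]
      exact ⟨f, hf, huniq⟩
    have hup : IsPElt 2 u := ⟨1, by simpa using hou⟩
    obtain ⟨P, hP⟩ := hup.exists_mem_sylow
    have hPC : (P : Subgroup G) ≤ centralizer ({u} : Set G) := by
      have h1 := inf_centralizer_ne_bot_of_isPGroup P.isPGroup' P.isPGroup' (by
        intro e
        rw [e] at hP
        exact hu (mem_bot.1 hP)) le_normalizer
      obtain ⟨⟨z, hz1, hz2⟩, hz3⟩ := ne_bot_iff_exists_ne_one.1 h1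
      have hz4 : z ≠ 1 := fun e => hz3 (Subtype.ext e)
      have hz5 : z ∈ centralizer ({u} : Set G) :=
        mem_centralizer_singleton_iff.2 (mem_centralizer_iff.1 hz2 u hP).symm
      obtain ⟨y, -, hy⟩ := (Nat.card_eq_two_iff' (1 : centralizer ({u} : Set G))).1 hC
      have h2 := hy ⟨z, hz5⟩ fun e => hz4 (congrArg Subtype.val e)
      have h3 := hy ⟨u, hle (mem_zpowers u)⟩ fun e => hu (congrArg Subtype.val e)
      have h4 : z = u := congrArg Subtype.val (h2.trans h3.symm)
      intro a ha
      rw [mem_centralizer_singleton_iff, ← h4]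
      exact mem_centralizer_iff.1 hz2 a ha
    have hodd : ¬ 2 ∣ Nat.card (commutator G) := by
      have h1 := not_dvd_index_of_sylow_le P hPC
      have h2 := (centralizer ({u} : Set G)).card_mul_index
      have h3 := (commutator G).card_mul_index
      rw [hC] at h2
      rw [hidx] at h3
      have : Nat.card (commutator G) = (centralizer ({u} : Set G)).index := by omega
      rwa [this]
    have huG : u ∉ commutator G := by
      intro h1
      have h2 := hfu f hf
      rw [mem_commutator_iff_forall_units_hom.1 h1 f] at h2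
      norm_num at h2
    rw [eq_top_iff, ← sup_zpowers_eq_top_of_index_prime (hidx ▸ Nat.prime_two) huG, sup_comm]
    exact sup_le_sup_left (le_pPrimeCore' hodd) _

end Cfsg.Agent.S4757
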