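import Cfsg.Statements.S4762
import Cfsg.Agent.Lib.Char.DegGraph

set_option autoImplicit false
open Cfsg

namespace Cfsg.Agent.S4762

open CT
open scoped commutatorElement

theorem of_isPGroup {G : Type*} [Group G] [Finite G] {p : ℕ} [hp : Fact p.Prime]
    (hG : IsPGroup p G) (χ : IrrCharacter G) (h1 : charDegree χ.1 ≠ 1)
    (h : ∀ ψ : IrrCharacter G, charDegree ψ.1 ≠ 1 → ψ = χ) : p = 2 ∧ IsExtraspecial 2 G := by
  classical
  have h2 := sum_nonlinear_degree_sq_add (G := G)
  rw [Finset.sum_eq_single χ (fun ψ _ hψ => if_pos (by_contra fun e => hψ (h ψ e))) (by simp),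
    if_neg h1, ← (commutator G).index_mul_card] at h2
  have hne : commutator G ≠ ⊥ := fun e =>
    h1 ((irr_degree_eq_one_iff_commutator_le_ker χ).2 (e ▸ bot_le))
  obtain ⟨a, ha⟩ := exists_degree_eq_pow_of_isPGroup hG χ
  obtain ⟨b, hb⟩ := IsPGroup.iff_card.1 (hG.to_subgroup (commutator G))
  have hb0 : b ≠ 0 := fun e => hne (Subgroup.card_eq_one.1 (by rw [hb, e, pow_zero]))
  have hpos := Nat.pow_pos (n := b) hp.out.pos
  have h3 : charDegree χ.1 ^ 2 = (commutator G).index * (p ^ b - 1) := by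
    rw [Nat.mul_sub, ← hb, ← h2]; simp
  have h4 : p ^ b - 1 = 1 := by
    have h5 : p ^ b - 1 ∣ p ^ (a * 2) := by rw [pow_mul, ← ha, h3]; exact dvd_mul_left _ _
    obtain ⟨c, -, hc⟩ := (Nat.dvd_prime_pow hp.out).1 h5
    rcases c with _ | c
    · rw [hc, pow_zero]
    · have h6 : p ∣ p ^ b - 1 := hc ▸ dvd_pow_self p c.succ_ne_zero
      have h7 := (Nat.dvd_sub_iff_right hpos (dvd_pow_self p hb0)).1 h6
      exact absurd (Nat.dvd_one.1 h7) hp.out.one_lt.ne'
  have h5 : p ^ b = 2 := by omega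
  have hp2 : p = 2 := (Nat.prime_dvd_prime_iff_eq hp.out Nat.prime_two).1
    (h5 ▸ dvd_pow_self p hb0)
  subst hp2
  rw [h5] at hb
  have := hG.isNilpotent
  have h6 : commutator G ≤ Subgroup.center G :=
    (GT.isMinNormal_of_card_prime (hb ▸ Nat.prime_two)).le_center_of_isNilpotent
  have h7 := irr_degree_sq_le_index_of_le_center χ (center_le_center_irr χ)
  rw [h3, h4, mul_one] at h7
  have h8 : commutator G = Subgroup.center G := by
    refine Subgroup.eq_of_le_of_card_ge h6 ?_
    have h9 := (commutator G).index_mul_card.trans (Subgroup.center G).index_mul_card.symm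
    have := Nat.card_pos (α := Subgroup.center G)
    have := Nat.pos_of_ne_zero (commutator G).index_ne_zero_of_finite
    nlinarith
  refine ⟨rfl, ⟨hG, le_antisymm (GT.frattini_le_of_pow_mem (p := 2) h6 fun x => ?_)
    (h8 ▸ GT.commutator_le_frattini), h8⟩, h8 ▸ hb⟩
  rw [Subgroup.mem_center_iff]
  intro y
  have hc : ⁅y, x⁆ ∈ commutator G :=
    Subgroup.commutator_mem_commutator (Subgroup.mem_top y) (Subgroup.mem_top x)
  have h9 : ⁅y, x⁆ ^ 2 = 1 := by
    rw [← hb]; exact congrArg Subtype.val (pow_card_eq_one' (x := (⟨_, hc⟩ : commutator G)))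
  have h10 := Subgroup.mem_center_iff.1 (h6 hc) x
  rw [commutatorElement_def] at h9 h10
  calc y * x ^ 2 = y * x * y⁻¹ * x⁻¹ * (x * (y * x * y⁻¹ * x⁻¹)) * x * y := by
        rw [pow_two]; group
    _ = (y * x * y⁻¹ * x⁻¹) ^ 2 * (x ^ 2 * y) := by rw [h10, pow_two, pow_two]; group
    _ = _ := by rw [h9, one_mul]

/-- Let p be a prime and G a finite nilpotent group. Then G has exactly one irreducible complex character of degree divisible by p if and only if p = 2 and G is an extraspecial 2-group. -/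
theorem result {G : Type*} [Group G] [Finite G] [Group.IsNilpotent G] (p : ℕ) [Fact p.Prime] : Nat.card {χ : Cfsg.IrrCharacter G // p ∣ Cfsg.charDegree (χ : G → ℂ)} = 1 ↔ (p = 2 ∧ Cfsg.IsExtraspecial 2 G) := by
  classical
  rw [Nat.card_eq_one_iff_exists]
  constructor
  · rintro ⟨⟨χ, hχ⟩, h⟩
    replace h : ∀ ψ : IrrCharacter G, p ∣ charDegree ψ.1 → ψ = χ := fun ψ hψ =>
      congrArg Subtype.val (h ⟨ψ, hψ⟩)
    have hc := GT.isComplement'_pCore_pPrimeCore_of_isNilpotent (G := G) p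
    have hcomm : ∀ u ∈ pCore p G, ∀ v ∈ pPrimeCore p G, u * v = v * u := fun u hu v hv =>
      Subgroup.commute_of_normal_of_disjoint _ _ inferInstance inferInstance hc.disjoint u v hu hv
    obtain ⟨φ, ψ, e⟩ := exists_irr_mul_of_commute hcomm hc.sup_eq_top χ
    have h1 : p ∣ charDegree φ.1 := by
      rw [charDegree_eq_mul_of_mul e] at hχ
      exact ((Fact.out : p.Prime).dvd_mul.1 hχ).resolve_right fun h2 =>
        GT.not_dvd_card_pPrimeCore p G (h2.trans (irr_degree_dvd_card ψ))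
    have h2 : ∀ η : IrrCharacter (pPrimeCore p G), η = ψ := by
      intro η
      obtain ⟨ξ, e'⟩ := exists_irr_of_commute_of_disjoint hcomm hc.sup_eq_top hc.disjoint.eq_bot φ η
      have h3 := h ξ (charDegree_eq_mul_of_mul e' ▸ h1.mul_right _)
      refine Subtype.ext (funext fun v => mul_left_cancel₀ (irr_apply_one_ne_zero φ) ?_)
      rw [← e, ← e', h3]
    have h3 : pPrimeCore p G = ⊥ := by
      by_contra h3
      obtain ⟨⟨v, hv⟩, hv1⟩ := Subgroup.ne_bot_iff_exists_ne_one.1 h3
      obtain ⟨η, hη⟩ := exists_irr_apply_ne hv1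
      rw [h2 η, ← h2 (irrOne _)] at hη
      exact hη rfl
    have h4 : IsPGroup p G := by
      have h5 := hc.sup_eq_top
      rw [h3, sup_bot_eq] at h5
      exact (GT.isPGroup_pCore p G).of_surjective (pCore p G).subtype
        fun g => ⟨⟨g, h5 ▸ Subgroup.mem_top g⟩, rfl⟩
    refine of_isPGroup h4 χ (fun e => (Fact.out : p.Prime).one_lt.ne' (Nat.dvd_one.1 (e ▸ hχ)))
      fun ξ hξ => h ξ (by_contra fun h5 => hξ (degree_eq_one_of_isPGroup h4 h5))
  · rintro ⟨rfl, ⟨hG, -, h1⟩, h2⟩
    have h3 : ∀ χ : IrrCharacter G, charDegree χ.1 ≠ 1 →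
        charDegree χ.1 ^ 2 = (commutator G).index := by
      intro χ hχ
      have h4 : ker χ.1 = ⊥ := by
        by_contra h4
        rcases GT.le_or_disjoint_of_card_prime (h2 ▸ Nat.prime_two) (ker χ.1) with h5 | h5
        · exact hχ ((irr_degree_eq_one_iff_commutator_le_ker χ).2 (h1 ▸ h5))
        · exact GT.inf_center_ne_bot_of_isPGroup hG h4 h5.symm.eq_bot
      rw [irr_degree_sq_eq_index_center_of_commutator_le χ (h1 ▸ center_le_center_irr χ),
        irr_center_eq_of_faithful χ h4, h1]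
    have h4 := sum_nonlinear_degree_sq_add (G := G)
    rw [← (commutator G).index_mul_card, h1, h2, ← h1] at h4
    have hpos := Nat.pos_of_ne_zero (commutator G).index_ne_zero_of_finite
    obtain ⟨χ, hχ⟩ : ∃ χ : IrrCharacter G, charDegree χ.1 ≠ 1 := by
      by_contra h5
      push Not at h5
      simp only [h5, if_true, Finset.sum_const_zero] at h4
      omega
    refine ⟨⟨χ, by_contra fun h5 => hχ (degree_eq_one_of_isPGroup hG h5)⟩, fun ⟨ψ, hψ⟩ => ?_⟩
    have h5 : charDegree ψ.1 ≠ 1 := fun e => by rw [e] at hψ; omega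
    by_contra hne
    have h6 : χ ≠ ψ := fun e => hne (Subtype.ext e.symm)
    have h7 := Finset.sum_le_sum_of_subset (f := fun χ : IrrCharacter G =>
      if charDegree χ.1 = 1 then 0 else charDegree χ.1 ^ 2) (Finset.subset_univ {χ, ψ})
    rw [Finset.sum_pair h6, if_neg hχ, if_neg h5, h3 χ hχ, h3 ψ h5] at h7
    omega

end Cfsg.Agent.S4762
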