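import Cfsg.Statements.S4763
import Cfsg.Agent.Lib.Char.DegGraph
import Cfsg.Agent.Lib.Char.GlaubUp

set_option autoImplicit false
open Cfsg

namespace Cfsg.Agent.S4763

open CT MulAction
open scoped Pointwise

theorem card_carrier {G : Type*} [Group G] (g : G) :
    Nat.card (ConjClasses.mk g).carrier = (Subgroup.centralizer {g}).index := by
  rw [← ConjAct.orbit_eq_carrier_conjClasses, Nat.card_coe_set_eq, ← index_stabilizer,
    Subgroup.centralizer_eq_comap_stabilizer]
  exact (Subgroup.index_comap_of_surjective _ (MulEquiv.surjective _)).symm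

theorem card_add {α : Type*} [Finite α] (P : α → Prop) :
    Nat.card {a // P a} + Nat.card {a // ¬ P a} = Nat.card α := by
  classical
  rw [← Nat.card_sum, Nat.card_congr (Equiv.sumCompl P)]

/-- Let p be a prime and G a finite group that is not nilpotent and has a normal p-complement (a normal subgroup of order prime to p and index a power of p). If G has exactly one irreducible complex character of degree divisible by p, then G has exactly one conjugacy class whose size is divisible by p. -/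
theorem result {G : Type*} [Group G] [Finite G] (p : ℕ) [Fact p.Prime] (hnil : ¬ Group.IsNilpotent G) (N : Subgroup G) [N.Normal] (hN : (Nat.card N).Coprime p) (hidx : ∃ k : ℕ, N.index = p ^ k) (hone : Nat.card {χ : Cfsg.IrrCharacter G // p ∣ Cfsg.charDegree (χ : G → ℂ)} = 1) : Nat.card {C : ConjClasses G // p ∣ Nat.card C.carrier} = 1 := by
  have hp : p.Prime := Fact.out
  obtain ⟨k, hk⟩ := hidx
  have hN' : ¬ p ∣ Nat.card N := (Nat.Prime.coprime_iff_not_dvd hp).1 hN.symm
  have hQ : IsPGroup p (G ⧸ N) := GT.isPGroup_quotient_iff.2 ⟨k, hk⟩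
  obtain ⟨⟨χ, hχ⟩, huniq⟩ := Nat.card_eq_one_iff_exists.1 hone
  replace huniq : ∀ ψ : IrrCharacter G, p ∣ charDegree ψ.1 → ψ = χ := fun ψ hψ =>
    congrArg Subtype.val (huniq ⟨ψ, hψ⟩)
  have hab : commutator G ≤ N := by
    rw [← GT.map_mk'_eq_bot_iff, map_mk'_commutator, commutator_eq_bot_iff_forall_degree_one]
    intro ψ
    by_contra hψ
    have h1 : p ∣ charDegree ψ.1 := by_contra fun h => hψ (degree_eq_one_of_isPGroup hQ h)
    have h2 : N ≠ ⊥ := fun e => hnil (IsPGroup.isNilpotent (p := p) (IsPGroup.of_card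
      (by rw [← hk, e, Subgroup.index_bot])))
    have h3 : (⊤ : Subgroup N) ≠ ⊥ := by
      have := (Subgroup.nontrivial_iff_ne_bot N).2 h2
      exact top_ne_bot
    obtain ⟨θ, hθ⟩ := exists_irr_not_le_ker h3
    obtain ⟨ξ, h4, h5⟩ : ∃ ξ : IrrCharacter G, LiesOver N ξ.1 θ.1 ∧ p ∣ charDegree ξ.1 := by
      by_cases h4 : ∀ g : G, g • θ = θ
      · obtain ⟨η, hη⟩ := exists_extension_of_coprime N θ (forall_smul_iff.1 h4)
          (hk ▸ hN.pow_right k)
        exact ⟨⟨_, gallagher_isIrr (irr_isCharacter η) hη ψ⟩, gallagher_liesOver hη ψ,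
          gallagher_degree hη ψ ▸ h1.mul_right _⟩
      · obtain ⟨ξ, hξ⟩ := exists_irr_liesOver θ
        refine ⟨ξ, hξ, dvd_trans ?_ hξ.index_inertia_dvd⟩
        obtain ⟨i, -, hi⟩ := (Nat.dvd_prime_pow hp).1
          (hk ▸ Subgroup.index_dvd_of_le (le_inertia θ))
        rw [hi]
        refine dvd_pow_self p fun e => h4 (forall_smul_iff_inertia_eq_top.2 ?_)
        rwa [e, pow_zero, Subgroup.index_eq_one] at hi
    have h6 := le_ker_inflate N ψ
    rw [huniq (inflate N ψ) (by simpa), ← huniq ξ h5, h4.le_ker_iff le_rfl,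
      Subgroup.subgroupOf_self] at h6
    exact hθ h6
  obtain ⟨P⟩ : Nonempty (Sylow p G) := inferInstance
  have hs := GT.sup_sylow_eq_top_of_index_eq_pow P hk
  have hact : GT.CoprimeAct (P : Subgroup G) N :=
    GT.coprimeAct_of_isPGroup_left Subgroup.le_normalizer_of_normal P.isPGroup' hN'
  have hP : ⁅(P : Subgroup G), (P : Subgroup G)⁆ = ⊥ := le_bot_iff.1 (hact.disjoint
    ((Subgroup.commutator_mono le_top le_top).trans hab) (der_succ_le (P : Subgroup G) 0))
  set C := Subgroup.centralizer ((P : Subgroup G) : Set G) with hC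
  have hPC : (P : Subgroup G) ≤ C := Subgroup.commutator_eq_bot_iff_le_centralizer.1 hP
  have := GT.IsPGroup.isSolvable' P.isPGroup'
  have h1 := card_degree_coprime_of_sup_eq_top hs hact.2
  have h2 : commutator (P : Subgroup G) = ⊥ := by
    rw [← Subgroup.map_eq_bot_iff_of_injective _ (P : Subgroup G).subtype_injective,
      Subgroup.map_subtype_commutator, hP]
  have hc : IsMulCommutative (P : Subgroup G) :=
    isMulCommutative_iff_forall_degree_one.2 (commutator_eq_bot_iff_forall_degree_one.1 h2)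
  rw [h2, Subgroup.index_bot] at h1
  have h3 : Nat.card (IrrCharacter C) = Nat.card (IrrCharacter ↥(N ⊓ C)) * Nat.card P := by
    rw [← Nat.card_congr (irrEquivOfCommute (U := (N ⊓ C).subgroupOf C)
      (V := (P : Subgroup G).subgroupOf C) (fun u _ v hv => Subtype.ext (u.2 v hv).symm) ?_ ?_),
      Nat.card_prod, ← Nat.card_congr (irrOf inf_le_right), ← Nat.card_congr (irrOf hPC),
      card_irr_of_isMulCommutative (G := (P : Subgroup G))]
    · rw [← Subgroup.subgroupOf_sup inf_le_right hPC, Subgroup.subgroupOf_eq_top, sup_comm,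
        ← GT.sup_inf_assoc_of_le_normalizer hPC (Or.inl hact.1), sup_comm, hs,
        top_inf_eq]
    · refine (Subgroup.disjoint_def.2 fun {x} hx hy => Subtype.ext ?_).eq_bot
      exact Subgroup.disjoint_def.1 hact.disjoint (Subgroup.mem_subgroupOf.1 hx).1 hy
  have h4 : Nat.card (ConjClasses C) =
      Nat.card {K : ConjClasses G // ¬ p ∣ Nat.card K.carrier} := by
    refine Nat.card_eq_of_bijective (fun K => ⟨ConjClasses.map C.subtype K, ?_⟩) ⟨?_, ?_⟩
    · obtain ⟨x, rfl⟩ := ConjClasses.mk_surjective K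
      change ¬ p ∣ Nat.card (ConjClasses.mk (x : G)).carrier
      rw [card_carrier]
      exact GT.not_dvd_index_of_sylow_le P fun y hy =>
        Subgroup.mem_centralizer_singleton_iff.2 (x.2 y hy)
    · intro K L e
      obtain ⟨x, rfl⟩ := ConjClasses.mk_surjective K
      obtain ⟨y, rfl⟩ := ConjClasses.mk_surjective L
      have e' : ConjClasses.mk (x : G) = ConjClasses.mk (y : G) := congrArg Subtype.val e
      rw [ConjClasses.mk_eq_mk_iff_isConj, isConj_iff] at e' ⊢
      obtain ⟨g, hg⟩ := e'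
      have h4 := Subgroup.mem_top g
      rw [← hs, Subgroup.mem_sup_of_normal_left] at h4
      obtain ⟨n, hn, u, hu, rfl⟩ := h4
      have h5 : n * x * n⁻¹ = y := by
        rw [← hg, mul_assoc n u, x.2 u hu]; group
      obtain ⟨c, hc, h6⟩ := hact.exists_mem_centralizer_conj hn x.2 (h5 ▸ y.2)
      exact ⟨⟨c, hc.2⟩, Subtype.ext (h6.trans h5)⟩
    · rintro ⟨K, hK⟩
      obtain ⟨x, rfl⟩ := ConjClasses.mk_surjective K
      rw [card_carrier] at hK
      obtain ⟨Q, hQ⟩ := GT.exists_sylow_le_of_not_dvd_index hK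
      obtain ⟨g, rfl⟩ := exists_smul_eq G P Q
      refine ⟨ConjClasses.mk ⟨g⁻¹ * x * g, fun y hy => ?_⟩, Subtype.ext ?_⟩
      · have h4 := Subgroup.mem_centralizer_singleton_iff.1
          (hQ (GT.conj_mem_conj_smul.2 hy : g * y * g⁻¹ ∈ MulAut.conj g • (P : Subgroup G)))
        calc y * (g⁻¹ * x * g) = g⁻¹ * (g * y * g⁻¹ * x) * g := by group
          _ = _ := by rw [h4]; group
      · change ConjClasses.mk (g⁻¹ * x * g) = ConjClasses.mk x
        rw [ConjClasses.mk_eq_mk_iff_isConj, isConj_iff]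
        exact ⟨g, by group⟩
  have h5 : Nat.card {χ : IrrCharacter G // (charDegree χ.1).Coprime (Nat.card P)} =
      Nat.card {χ : IrrCharacter G // ¬ p ∣ charDegree χ.1} := by
    refine Nat.card_congr (Equiv.subtypeEquivRight fun ψ => ⟨fun h h' => ?_, fun h => ?_⟩)
    · exact hp.one_lt.ne' (Nat.eq_one_of_dvd_coprimes h h'
        (P.dvd_card_of_dvd_card (hχ.trans (irr_degree_dvd_card χ))))
    · exact (P.isPGroup'.coprime_card h).symm
  have h6 := card_add fun χ : IrrCharacter G => p ∣ charDegree χ.1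
  have h7 := card_add fun K : ConjClasses G => p ∣ Nat.card K.carrier
  rw [← card_irr_eq_card_conjClasses, ← h4, ← card_irr_eq_card_conjClasses, h3, ← h1, h5] at h7
  omega

end Cfsg.Agent.S4763
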