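import Cfsg.Statements.S4765
import Cfsg.Agent.Lib.Char.SL2Deg

set_option autoImplicit false
open Cfsg

namespace Cfsg.Agent.S4765

/-- Let F be a finite field of characteristic p with at least 4 elements. Then PSL(2,F) has exactly one irreducible complex character of degree divisible by p, and its degree is the order of F. -/
theorem result (p : ℕ) [Fact p.Prime] (F : Type*) [Field F] [Fintype F] [CharP F p] (hF : 4 ≤ Fintype.card F) : Nat.card {χ : Cfsg.IrrCharacter (Matrix.ProjectiveSpecialLinearGroup (Fin 2) F) // p ∣ Cfsg.charDegree (χ : Matrix.ProjectiveSpecialLinearGroup (Fin 2) F → ℂ)} = 1 ∧ ∀ χ : Cfsg.IrrCharacter (Matrix.ProjectiveSpecialLinearGroup (Fin 2) F), p ∣ Cfsg.charDegree (χ : Matrix.ProjectiveSpecialLinearGroup (Fin 2) F → ℂ) → Cfsg.charDegree (χ : Matrix.ProjectiveSpecialLinearGroup (Fin 2) F → ℂ) = Fintype.card F := by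
  obtain ⟨a, hp, ha⟩ := FiniteField.card F p
  have hpq : p ∣ Fintype.card F := by rw [ha]; exact dvd_pow_self p a.ne_zero
  have key : ∀ χ : Cfsg.IrrCharacter (Matrix.ProjectiveSpecialLinearGroup (Fin 2) F),
      p ∣ Cfsg.charDegree χ.1 → Cfsg.charDegree χ.1 = Fintype.card F := fun χ hχ => by
    have h := CT.SL2.degree_eq_or_dvd (CT.inflate (Subgroup.center _) χ)
    rw [CT.charDegree_inflate] at h
    rcases h with h | h | h
    · exact h
    · exact absurd (Nat.dvd_one.1 ((Nat.dvd_add_right hpq).1 (hχ.trans h))) hp.one_lt.ne'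
    · have h1 : p ∣ Fintype.card F - (Fintype.card F - 1) := Nat.dvd_sub hpq (hχ.trans h)
      rw [show Fintype.card F - (Fintype.card F - 1) = 1 by omega] at h1
      exact absurd (Nat.dvd_one.1 h1) hp.one_lt.ne'
  refine ⟨?_, key⟩
  obtain ⟨χ, hχ⟩ := CT.SL2.mem_charDegrees_psl (CT.SL2.exists_degree_card (F := F))
  rw [Nat.card_eq_one_iff_exists]
  refine ⟨⟨χ, by rw [hχ]; exact hpq⟩, fun ψ => Subtype.ext ?_⟩
  apply CT.inflate_injective (Subgroup.center _)
  apply Subtype.ext
  rw [CT.SL2.eq_of_degree_eq_card hF _ (by rw [CT.charDegree_inflate]; exact key _ ψ.2),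
    CT.SL2.eq_of_degree_eq_card hF _ (by rw [CT.charDegree_inflate]; exact hχ)]

end Cfsg.Agent.S4765
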