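import Cfsg.Statements.S4768
import Cfsg.Agent.Lib.Char.Degrees

set_option autoImplicit false
open Cfsg

namespace Cfsg.Agent.S4768

universe u

open MulAction CT in
theorem exists_hom_extend {G : Type*} [Group G] [Finite G] {N : Subgroup G} [N.Normal]
    {lam : IrrCharacter N} (h1 : charDegree lam.1 = 1) (hinv : ∀ g : G, g • lam = lam)
    {χ : IrrCharacter G} (hχ : LiesOver N χ.1 lam.1) (hc : (charDegree χ.1).Coprime (Nat.card N)) :
    ∃ μ : G →* ℂ, res N (fun g => μ g) = lam.1 := by
  have h2 := clifford_invariant hinv hχ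
  have h3 := clifford_invariant_degree hinv hχ
  rw [h1, mul_one] at h3
  rw [← h3] at h2
  have h4 := (irr_isCharacter χ).detChar_res N
  rw [h2, (irr_isCharacter lam).detChar_nsmul, (irr_isCharacter lam).detChar_of_degree_one h1] at h4
  obtain ⟨f, hf⟩ := (irr_isCharacter lam).exists_monoidHom_of_degree_one h1
  obtain ⟨b, -, hb⟩ := Nat.exists_mul_mod_eq_of_coprime 1 hc Nat.card_pos.ne'
  refine ⟨detHom χ.1 ^ b, funext fun n => ?_⟩
  have h5 : detChar χ.1 n = lam.1 n ^ charDegree χ.1 := (congrFun h4 n).symm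
  simp only [res_apply, MonoidHom.pow_apply, detHom_apply, h5, hf]
  rw [← pow_mul, ← map_pow, ← pow_mod_natCard, hb, pow_mod_natCard, pow_one]

open MulAction CT in
theorem commutator_le_of_invariant {G : Type*} [Group G] [Finite G] {p : ℕ} [hp : Fact p.Prime]
    (hG : IsPSolvable p G) {N : Subgroup G} [N.Normal] (hN : IsPGroup p N)
    {lam : IrrCharacter N} (h1 : charDegree lam.1 = 1) (hinv : ∀ g : G, g • lam = lam)
    (h : ∀ χ : IrrCharacter G, LiesOver N χ.1 lam.1 → ¬ p ∣ charDegree χ.1)
    (P : Sylow p G) : ⁅(P : Subgroup G), (P : Subgroup G)⁆ ≤ N := by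
  obtain ⟨χ, hχ⟩ := exists_irr_liesOver lam
  obtain ⟨μ, hμ⟩ := exists_hom_extend h1 hinv hχ (hN.coprime_card (h χ hχ)).symm
  have hμc := (isIrrCharacter_of_monoidHom μ).isCharacter
  have h2 : ∀ β : IrrCharacter (G ⧸ N), ¬ p ∣ charDegree β.1 := by
    intro β hβ
    refine h ⟨_, gallagher_isIrr hμc hμ β⟩ (gallagher_liesOver hμ β) ?_
    change p ∣ charDegree ((inflate N β).1 * fun g => μ g)
    rw [(irr_isCharacter _).charDegree_mul hμc, charDegree_inflate]
    exact hβ.mul_right _
  have h3 := ((ito_sylow_iff (GT.isPSolvable_quotient hG N)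
    (P.mapSurjective (QuotientGroup.mk'_surjective N))).2 h2).2
  rw [← GT.map_mk'_eq_bot_iff, Subgroup.map_commutator, eq_bot_iff, Subgroup.commutator_le]
  intro a ha b hb
  rw [commutatorElement_eq_one_iff_mul_comm.2 (GT.isMulCommutative_iff_forall.1 h3 a ha b hb)]
  exact one_mem _

open MulAction CT Pointwise in
theorem commutator_le_of_degrees {G : Type*} [Group G] [Finite G] {p : ℕ} [hp : Fact p.Prime]
    (hG : IsPSolvable p G) {N : Subgroup G} [N.Normal] (hN : IsPGroup p N) [IsMulCommutative N]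
    (hN1 : N ≠ ⊥) (h : ∀ χ : IrrCharacter G, ¬ N ≤ ker χ.1 → ¬ p ∣ charDegree χ.1)
    (P : Sylow p G) : ⁅(P : Subgroup G), (P : Subgroup G)⁆ ≤ N := by
  have := (Subgroup.nontrivial_iff_ne_bot N).2 hN1
  obtain ⟨lam, hlam⟩ := exists_irr_not_le_ker (G := N) (K := ⊤) top_ne_bot
  have hover : ∀ χ : IrrCharacter G, LiesOver N χ.1 lam.1 → ¬ p ∣ charDegree χ.1 := by
    intro χ hχ
    refine h χ fun hk => hlam ?_
    obtain ⟨g, hg⟩ := LiesOver.mem_orbit (θ := irrOne N) ((liesOver_one_iff N χ).2 hk) hχ
    simp only [conjSmul_irrOne] at hg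
    rw [← hg, ker_irrOne]
  obtain ⟨χ, hχ⟩ := exists_irr_liesOver lam
  have hT : ¬ p ∣ (stabilizer G lam).index := fun hd => hover χ hχ (hd.trans hχ.index_inertia_dvd)
  obtain ⟨Q⟩ : Nonempty (Sylow p (stabilizer G lam)) := inferInstance
  have h1 := commutator_le_of_invariant (GT.isPSolvable_subgroup hG (stabilizer G lam))
    ((GT.isPGroup_subgroupOf_iff (le_inertia lam)).2 hN) (lam := irrOf (le_inertia lam) lam)
    (by rw [charDegree_irrOf]; exact irr_degree_eq_one_of_isMulCommutative lam)
    (forall_smul_irrOf _ fun t ht => ht) (fun ψ hψ hd => by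
      rw [liesOver_irrOf_iff] at hψ
      refine hover ⟨_, cliffordCorr_isIrr le_rfl hψ⟩ (cliffordCorr_liesOver le_rfl hψ) ?_
      change p ∣ charDegree (ind _ ψ.1)
      rw [charDegree_ind (irr_isCharacter ψ)]
      exact hd.mul_left _) Q
  have h2 := (GT.isSylowIn_map_subtype Q).trans le_top (by rwa [Subgroup.relIndex_top_right])
  obtain ⟨g, -, hg⟩ := h2.exists_conj_eq (GT.isSylowIn_sylow P)
  rw [← hg, ← GT.conj_smul_commutator]
  refine le_trans (GT.conj_smul_mono g ?_) (GT.conj_smul_of_normal g N).le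
  rw [← Subgroup.map_commutator]
  exact Subgroup.map_le_iff_le_comap.2 h1

open MulAction CT in
theorem aux {p : ℕ} [hp : Fact p.Prime] (G : Type u) [Group G] [Finite G] :
    IsPSolvable p G → ∀ P : Sylow p G, derivedSeries ↥(P : Subgroup G)
      (Nat.card {χ : IrrCharacter G // p ∣ charDegree χ.1} + 1) = ⊥ := by
  refine GT.induction_on_card (P := fun G _ _ => IsPSolvable p G → ∀ P : Sylow p G,
    derivedSeries ↥(P : Subgroup G)
      (Nat.card {χ : IrrCharacter G // p ∣ charDegree χ.1} + 1) = ⊥) ?_ G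
  intro G _ _ ih hG P
  rcases subsingleton_or_nontrivial G with hs | hs
  · exact Subsingleton.elim _ _
  obtain ⟨N, hN⟩ := GT.exists_isMinNormal G
  have := hN.normal
  have h1 := ih (G ⧸ N) (GT.card_quotient_lt hN.ne_bot) (GT.isPSolvable_quotient hG N)
    (P.mapSurjective (QuotientGroup.mk'_surjective N))
  set m := Nat.card {χ : IrrCharacter (G ⧸ N) // p ∣ charDegree χ.1} with hm
  set n := Nat.card {χ : IrrCharacter G // p ∣ charDegree χ.1} with hn
  have h2 : derivedSeries (P : Subgroup G) (m + 1) ≤ N.subgroupOf P := by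
    have h3 := map_derivedSeries_le_derivedSeries
      ((QuotientGroup.mk' N).subgroupMap (P : Subgroup G)) (m + 1)
    intro x hx
    have h4 := h3 ⟨x, hx, rfl⟩
    have h5 : derivedSeries ((P : Subgroup G).map (QuotientGroup.mk' N)) (m + 1) = ⊥ := h1
    rw [h5, Subgroup.mem_bot] at h4
    exact (QuotientGroup.eq_one_iff (x : G)).1 (congrArg Subtype.val h4)
  let F : {χ : IrrCharacter (G ⧸ N) // p ∣ charDegree χ.1} →
      {χ : IrrCharacter G // p ∣ charDegree χ.1} := fun ψ =>
    ⟨inflate N ψ.1, by rw [charDegree_inflate]; exact ψ.2⟩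
  have hF : Function.Injective F := fun a b hab =>
    Subtype.ext (inflate_injective N (congrArg Subtype.val hab))
  have hmn : m ≤ n := Nat.card_le_card_of_injective F hF
  have hanti := derivedSeries_antitone (P : Subgroup G)
  rcases hN.isPGroup_or_not_dvd_of_isPSolvable hG with hp' | hp'
  · have := (hN.isElementaryAbelian_of_isPGroup hp').1
    have hcomm : ∀ k, derivedSeries (P : Subgroup G) k ≤ N.subgroupOf P →
        derivedSeries (P : Subgroup G) (k + 1) = ⊥ := by
      intro k hk
      rw [derivedSeries_succ, eq_bot_iff, Subgroup.commutator_le]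
      intro a ha b hb
      rw [commutatorElement_eq_one_iff_mul_comm.2
        (Subtype.ext (GT.isMulCommutative_iff_forall.1 this a (hk ha) b (hk hb)))]
      exact one_mem _
    by_cases hex : ∃ χ : IrrCharacter G, ¬ N ≤ ker χ.1 ∧ p ∣ charDegree χ.1
    · obtain ⟨χ, hχ1, hχ2⟩ := hex
      have hlt : m < n := by
        refine lt_of_le_of_ne hmn fun e => hχ1 ?_
        obtain ⟨ψ, hψ⟩ := ((Nat.bijective_iff_injective_and_card F).2 ⟨hF, e⟩).2 ⟨χ, hχ2⟩
        have : inflate N ψ.1 = χ := congrArg Subtype.val hψ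
        exact this ▸ le_ker_inflate N ψ.1
      exact eq_bot_iff.2 ((hanti (by omega)).trans (hcomm _ h2).le)
    · push Not at hex
      rcases Nat.eq_zero_or_pos n with h0 | h0
      · have h3 : ∀ χ : IrrCharacter G, ¬ p ∣ charDegree χ.1 := fun χ hχ => by
          have : Nonempty {χ : IrrCharacter G // p ∣ charDegree χ.1} := ⟨⟨χ, hχ⟩⟩
          exact Nat.card_pos.ne' h0
        have := ((ito_sylow_iff hG P).2 h3).2
        rw [h0, zero_add, derivedSeries_one]
        exact commutator_eq_bot _
      · have h3 := commutator_le_of_degrees hG hp' hN.ne_bot hex P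
        have h4 := hcomm 1 (by rw [derivedSeries_one]; exact commutator_le_subgroupOf h3)
        exact eq_bot_iff.2 ((hanti (by omega)).trans h4.le)
  · refine eq_bot_iff.2 ((hanti (by omega)).trans (h2.trans ?_))
    intro x hx
    exact Subtype.ext (Subgroup.disjoint_def.1
      (GT.disjoint_of_isPGroup_of_not_dvd P.isPGroup' hp') x.2 hx)

/-- Let p be a prime, G a finite p-solvable group and P a Sylow p-subgroup of G. If n is the number of irreducible complex characters of G whose degree is divisible by p, then the (n+1)-st term of the derived series of P is trivial. (The p-solvable case has a direct inductive proof.) -/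
theorem result {G : Type*} [Group G] [Finite G] (p : ℕ) [Fact p.Prime] (hG : Cfsg.IsPSolvable p G) (P : Sylow p G) : derivedSeries ↥(P : Subgroup G) (Nat.card {χ : Cfsg.IrrCharacter G // p ∣ Cfsg.charDegree (χ : G → ℂ)} + 1) = ⊥ := by
  exact aux G hG P

end Cfsg.Agent.S4768
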