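import Cfsg.Statements.S4775
import Cfsg.Agent.Lib.Lin.SuzMat
import Cfsg.Agent.Lib.Char.SzChar

set_option autoImplicit false
open Cfsg

namespace Cfsg.Agent.S4775

/-- Let F be a finite field with q = 2^(2m+1) ≥ 8 elements and let S be isomorphic to the Suzuki group over F. Then the vertices of the character degree graph of S are 2 and the primes dividing (q − 1)(q² + 1); the primes dividing (q − 1)(q² + 1) are pairwise adjacent, and 2 is adjacent exactly to the primes dividing q − 1. -/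
theorem result (F : Type*) [Field F] [Fintype F] (m : ℕ) (hm : 1 ≤ m) (q : ℕ) (hq : Fintype.card F = q) (hqm : q = 2 ^ (2 * m + 1)) {S : Type*} [Group S] [Finite S] (hS : Nonempty (S ≃* ↥(Cfsg.Lie.Sz F (2 ^ (m + 1))))) : Cfsg.degreePrimes S = {r : ℕ | r.Prime ∧ (r = 2 ∨ r ∣ (q - 1) * (q ^ 2 + 1))} ∧ ∀ r s : ℕ, (Cfsg.degreeGraph S).Adj r s ↔ (r ≠ s ∧ r.Prime ∧ s.Prime ∧ ((r ∣ (q - 1) * (q ^ 2 + 1) ∧ s ∣ (q - 1) * (q ^ 2 + 1)) ∨ (r = 2 ∧ s ∣ q - 1) ∨ (s = 2 ∧ r ∣ q - 1))) := by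
  obtain ⟨e⟩ := hS
  have : CharP F 2 := charP_of_card_eq_prime_pow (hq.trans hqm)
  let T : LG.Tits F := ⟨iterateFrobenius F 2 (m + 1), fun x => by
    rw [iterateFrobenius_def, iterateFrobenius_def, ← pow_mul, ← pow_add,
      show m + 1 + (m + 1) = (2 * m + 1) + 1 by ring, pow_succ, pow_mul, ← hqm, ← hq,
      FiniteField.pow_card]⟩
  rw [T.Sz_eq (fun x => iterateFrobenius_def ..)] at e
  have hS := T.szStr hm (Nat.card_eq_fintype_card.trans (hq.trans hqm))
  obtain ⟨a, ha, hd⟩ := hS.charDegrees_eq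
  have hk : Nat.card T.K = q - 1 := by have := hS.cardK; omega
  rw [← CT.charDegrees_congr e, hk, ← hqm] at hd
  rw [← hqm] at ha
  have hN : q ^ 2 + 1 = (q + 1 + 2 ^ (m + 1)) * a := by
    have h : (2 ^ (m + 1)) ^ 2 = 2 * q := by rw [hqm]; ring
    zify at h ha ⊢
    linear_combination h - (q + 1 + 2 ^ (m + 1)) * ha
  have h2 : ∀ {p : ℕ}, p.Prime → p ∣ q ^ 2 → p = 2 := fun hp h =>
    (Nat.prime_dvd_prime_iff_eq hp Nat.prime_two).1
      (hp.dvd_of_dvd_pow (hqm ▸ hp.dvd_of_dvd_pow h))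
  have h2' : ∀ {p : ℕ}, p.Prime → p ∣ (q - 1) * 2 ^ m → p ∣ q - 1 ∨ p = 2 := fun hp h =>
    (hp.dvd_mul.1 h).imp_right fun h =>
      (Nat.prime_dvd_prime_iff_eq hp Nat.prime_two).1 (hp.dvd_of_dvd_pow h)
  rw [hN] at hd ⊢
  set k := q - 1
  set b := q + 1 + 2 ^ (m + 1)
  have d1 : b * a ∣ k * (b * a) := Dvd.intro_left _ rfl
  have d2 : k * b ∣ k * (b * a) := ⟨a, by ring⟩
  have d3 : k * a ∣ k * (b * a) := ⟨b, by ring⟩
  have d4 : k ∣ k * (b * a) := Dvd.intro _ rfl
  have d5 : 2 ∣ k * 2 ^ m := (dvd_pow_self 2 (by omega)).mul_left k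
  refine ⟨?_, fun r s => ?_⟩
  · ext p
    simp only [degreePrimes, hd, Set.mem_ofPred_eq, Set.mem_insert_iff, Set.mem_singleton_iff,
      exists_eq_or_imp, exists_eq_left]
    refine and_congr_right fun hp => ⟨?_, ?_⟩
    · rintro (h | h | h | h | h | h)
      · exact absurd (Nat.dvd_one.1 h) hp.one_lt.ne'
      · exact Or.inl (h2 hp h)
      · exact Or.inr (h.trans d1)
      · exact Or.inr (h.trans d2)
      · exact Or.inr (h.trans d3)
      · exact (h2' hp h).symm.imp_right fun h => h.trans d4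
    · rintro (rfl | h)
      · simp [d5]
      · rcases hp.dvd_mul.1 h with h | h
        · simp [h.mul_right]
        · simp [h]
  · simp only [degreeGraph, hd, Set.mem_insert_iff, Set.mem_singleton_iff,
      exists_eq_or_imp, exists_eq_left]
    refine and_congr_right fun hne => and_congr_right fun hr => and_congr_right fun hs => ?_
    have hc : ∀ d, r * s ∣ d ↔ r ∣ d ∧ s ∣ d := fun d =>
      ⟨fun h => ⟨(Dvd.intro _ rfl).trans h, (Dvd.intro_left _ rfl).trans h⟩,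
        fun h => ((Nat.coprime_primes hr hs).2 hne).mul_dvd_of_dvd_of_dvd h.1 h.2⟩
    simp only [hc]
    constructor
    · rintro (h | h | h | h | h | h)
      · exact absurd (Nat.dvd_one.1 h.1) hr.one_lt.ne'
      · exact absurd ((h2 hr h.1).trans (h2 hs h.2).symm) hne
      · exact Or.inl ⟨h.1.trans d1, h.2.trans d1⟩
      · exact Or.inl ⟨h.1.trans d2, h.2.trans d2⟩
      · exact Or.inl ⟨h.1.trans d3, h.2.trans d3⟩
      · rcases h2' hr h.1 with h3 | h3 <;> rcases h2' hs h.2 with h4 | h4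
        · exact Or.inl ⟨h3.trans d4, h4.trans d4⟩
        · exact Or.inr (Or.inr ⟨h4, h3⟩)
        · exact Or.inr (Or.inl ⟨h3, h4⟩)
        · exact absurd (h3.trans h4.symm) hne
    · rintro (⟨h3, h4⟩ | ⟨rfl, h⟩ | ⟨rfl, h⟩)
      · rw [hr.dvd_mul, hr.dvd_mul] at h3
        rw [hs.dvd_mul, hs.dvd_mul] at h4
        rcases h3 with h3 | h3 | h3 <;> rcases h4 with h4 | h4 | h4 <;>
          simp [h3.mul_right, h3.mul_left, h4.mul_right, h4.mul_left]
      · simp [d5, h.mul_right]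
      · simp [d5, h.mul_right]

end Cfsg.Agent.S4775
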