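import Cfsg.Statements.S4782
import Cfsg.Agent.Lib.Char.Burnside
import Cfsg.Agent.Lib.Char.Degrees

set_option autoImplicit false
open Cfsg

namespace Cfsg.Agent.S4782

open CT GT

universe u

theorem comm_of_simple {G : Type*} [Group G] [Finite G] [IsSimpleGroup G] {p q : ℕ}
    (hp : p.Prime) (hq : q.Prime) (hpG : p ∣ Nat.card G)
    (h : ∀ χ : IrrCharacter G, ∀ r : ℕ, r.Prime → r ∣ charDegree χ.1 → r = p ∨ r = q) :
    IsMulCommutative G := by
  have := Fact.mk hp
  obtain ⟨Q⟩ : Nonempty (Sylow p G) := inferInstance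
  have hQ : Nontrivial Q := by
    rw [Subgroup.nontrivial_iff_ne_bot]
    exact Q.ne_bot_of_dvd_card hpG
  have hZ := Q.isPGroup'.center_nontrivial
  obtain ⟨z, hz⟩ := exists_ne (1 : Subgroup.center Q)
  have hg : ((z : Q) : G) ≠ 1 := fun h1 => hz (Subtype.ext (Subtype.ext h1))
  have hle : (Q : Subgroup G) ≤ Subgroup.centralizer ({((z : Q) : G)} : Set G) := by
    intro x hx
    rw [Subgroup.mem_centralizer_singleton_iff]
    exact congrArg Subtype.val (Subgroup.mem_center_iff.1 z.2 ⟨x, hx⟩)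
  have hd := Subgroup.index_dvd_of_le hle
  generalize ((z : Q) : G) = g at hg hd
  obtain ⟨χ, h1, h2, h3⟩ := exists_irr_ne_one_not_dvd_apply_ne_zero hq hg
  have hc : (Subgroup.centralizer ({g} : Set G)).index.Coprime (charDegree χ.1) := by
    refine Nat.Coprime.symm (Nat.coprime_of_dvd fun r hr h4 h5 => ?_)
    rcases h χ r hr h4 with rfl | rfl
    · exact Q.not_dvd_index (h5.trans hd)
    · exact h2 h4
  have h4 := (irr_eq_zero_or_mem_center_of_coprime χ hc).resolve_left h3
  have hb : ker χ.1 = ⊥ := ((inferInstance : (ker χ.1).Normal).eq_bot_or_eq_top).resolve_right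
    fun h => h1 ((irr_ker_eq_top_iff χ).1 h)
  have hz : g ∈ Subgroup.center G := by
    rw [Subgroup.mem_center_iff]
    intro x
    have := (irr_mem_center_iff_commutator χ).1 h4 x
    rw [hb, Subgroup.mem_bot, commutatorElement_eq_one_iff_mul_comm] at this
    exact this.symm
  have ht : Subgroup.center G = ⊤ := by
    refine ((inferInstance : (Subgroup.center G).Normal).eq_bot_or_eq_top).resolve_left ?_
    intro h0
    rw [h0, Subgroup.mem_bot] at hz
    exact hg hz
  exact ⟨⟨fun a b => ((Subgroup.mem_center_iff.1 (ht ▸ Subgroup.mem_top b : b ∈ _)) a)⟩⟩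

theorem solvable_of_two {p q : ℕ} (hp : p.Prime) (hq : q.Prime) (G : Type u) [Group G] [Finite G]
    (h : ∀ χ : IrrCharacter G, ∀ r : ℕ, r.Prime → r ∣ charDegree χ.1 → r = p ∨ r = q) :
    Group.IsSolvable G := by
  revert h
  refine induction_on_card (P := fun G _ _ =>
    (∀ χ : IrrCharacter G, ∀ r : ℕ, r.Prime → r ∣ charDegree χ.1 → r = p ∨ r = q) →
      Group.IsSolvable G) ?_ G
  intro G _ _ ih h
  by_cases hpq : ¬ p ∣ Nat.card G ∧ ¬ q ∣ Nat.card G
  · have : IsMulCommutative G := isMulCommutative_iff_forall_degree_one.2 fun χ => by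
      by_contra h1
      obtain ⟨r, hr, h2⟩ := Nat.exists_prime_and_dvd h1
      rcases h χ r hr h2 with rfl | rfl
      · exact hpq.1 (h2.trans (irr_degree_dvd_card χ))
      · exact hpq.2 (h2.trans (irr_degree_dvd_card χ))
    exact isSolvable_of_isMulCommutative
  by_cases hs : IsSimpleGroup G
  · have : IsMulCommutative G := by
      by_cases hpG : p ∣ Nat.card G
      · exact comm_of_simple hp hq hpG h
      · exact comm_of_simple hq hp (by tauto) fun χ r hr h1 => (h χ r hr h1).symm
    exact isSolvable_of_isMulCommutative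
  · rcases subsingleton_or_nontrivial G with h0 | h0
    · infer_instance
    have : ∃ N : Subgroup G, N.Normal ∧ N ≠ ⊥ ∧ N ≠ ⊤ := by
      by_contra hc
      push Not at hc
      exact hs ⟨fun N hN => or_iff_not_imp_left.2 (hc N hN)⟩
    obtain ⟨N, hN, hb, ht⟩ := this
    have h1 : Group.IsSolvable N := ih N (card_lt_of_ne_top ht) fun θ r hr hrd => by
      obtain ⟨χ, hχ⟩ := exists_degree_dvd_of_normal θ
      exact h χ r hr (hrd.trans hχ)
    have h2 : Group.IsSolvable (G ⧸ N) := ih (G ⧸ N) (card_quotient_lt hb)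
      fun θ r hr hrd => h (inflate N θ) r hr hrd
    exact Group.isSolvable_of_ker_le_range N.subtype (QuotientGroup.mk' N) (by simp)

/-- If the finite group G is not solvable, then at least three distinct primes each divide some irreducible complex character degree of G. -/
theorem result {G : Type*} [Group G] [Finite G] (hG : ¬ Group.IsSolvable G) : ∃ p q r : ℕ, p ≠ q ∧ q ≠ r ∧ p ≠ r ∧ p ∈ Cfsg.degreePrimes G ∧ q ∈ Cfsg.degreePrimes G ∧ r ∈ Cfsg.degreePrimes G := by
  by_contra hc
  apply hG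
  have key : ∃ p q : ℕ, p.Prime ∧ q.Prime ∧ ∀ r ∈ degreePrimes G, r = p ∨ r = q := by
    by_cases h1 : ∃ p, p ∈ degreePrimes G
    · obtain ⟨p, hp⟩ := h1
      by_cases h2 : ∃ q ∈ degreePrimes G, q ≠ p
      · obtain ⟨q, hq, hqp⟩ := h2
        refine ⟨p, q, hp.1, hq.1, fun r hr => ?_⟩
        by_contra h3
        push Not at h3
        exact hc ⟨p, q, r, hqp.symm, h3.2.symm, h3.1.symm, hp, hq, hr⟩
      · push Not at h2
        exact ⟨p, p, hp.1, hp.1, fun r hr => Or.inl (h2 r hr)⟩
    · exact ⟨2, 2, Nat.prime_two, Nat.prime_two, fun r hr => absurd ⟨r, hr⟩ h1⟩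
  obtain ⟨p, q, hp, hq, h⟩ := key
  exact solvable_of_two hp hq G fun χ r hr h1 => h r ⟨hr, _, mem_charDegrees χ, h1⟩

end Cfsg.Agent.S4782
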