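import Cfsg.Statements.S4784
import Cfsg.Agent.Lib.Char.RealExt

set_option autoImplicit false
open Cfsg

namespace Cfsg.Agent.S4784

open CT Cfsg MulAction

/-- Let H be a subgroup of the finite group G and consider the permutation character of G on the cosets of H (the function induced from the principal character of H). Then exactly one irreducible constituent of it is real-valued with Frobenius–Schur indicator +1 (namely the principal character) if and only if the normal core of H has odd index in G. -/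
theorem result {G : Type*} [Group G] [Fintype G] (H : Subgroup G) : Nat.card {χ : Cfsg.IrrCharacter G // Cfsg.classInner (Cfsg.indFun H (fun _ : H => (1 : ℂ))) (χ : G → ℂ) ≠ 0 ∧ (∀ g : G, (starRingEnd ℂ) ((χ : G → ℂ) g) = (χ : G → ℂ) g) ∧ (Nat.card G : ℂ)⁻¹ * ∑ g : G, (χ : G → ℂ) (g * g) = 1} = 1 ↔ Odd H.normalCore.index := by
  classical
  simp only [classInner_eq_ip, indFun_eq_ind, ← nu2_def, ind_one_eq_permChar]
  have hπ := isCharacter_permChar (G := G) (G ⧸ H)
  have h1 : ip (permChar G (G ⧸ H)) (irrOne G).1 = 1 := by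
    rw [← ind_one_eq_permChar]; exact ip_ind_one_one H
  have hK : ∀ g : G, g ∈ H.normalCore ↔ ∀ x : G ⧸ H, g • x = x := fun g => by
    rw [Subgroup.normalCore_eq_ker, MonoidHom.mem_ker, Equiv.ext_iff]
    rfl
  have h0 : ip (permChar G (G ⧸ H)) (irrOne G).1 ≠ 0 ∧
      (∀ g : G, (starRingEnd ℂ) ((irrOne G).1 g) = (irrOne G).1 g) ∧ nu2 (irrOne G).1 = 1 :=
    ⟨by rw [h1]; exact one_ne_zero, fun _ => map_one _, nu2_one⟩
  rw [Nat.card_eq_one_iff_unique]
  constructor
  · rintro ⟨h, -⟩
    by_contra hc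
    rw [Nat.not_odd_iff_even, even_iff_two_dvd] at hc
    obtain ⟨y, hy⟩ := exists_prime_orderOf_dvd_card' (G := G ⧸ H.normalCore) 2 hc
    obtain ⟨y, rfl⟩ := QuotientGroup.mk_surjective y
    have h2 : ∑ g : G, Nat.card {x : G ⧸ H // g • x = x} <
        ∑ g : G, Nat.card {x : G ⧸ H // (g * g) • x = x} := by
      refine Finset.sum_lt_sum (fun g _ => Nat.card_le_card_of_injective
        (fun x => ⟨x.1, by rw [mul_smul, x.2, x.2]⟩)
        fun x y e => Subtype.ext (congrArg (fun z => z.1) e)) ⟨y, Finset.mem_univ _, ?_⟩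
      have h3 : y * y ∈ H.normalCore := by
        rw [← QuotientGroup.eq_one_iff, QuotientGroup.mk_mul, ← sq, ← hy, pow_orderOf_eq_one]
      have h4 : y ∉ H.normalCore := fun e => by
        rw [(QuotientGroup.eq_one_iff y).2 e, orderOf_one] at hy
        omega
      rw [Nat.card_congr (Equiv.subtypeUnivEquiv ((hK _).1 h3))]
      rw [hK] at h4
      push Not at h4
      obtain ⟨x, hx⟩ := h4
      exact Finite.card_subtype_lt hx
    have h3 : (nu2 (permChar G (G ⧸ H))).re ≤ 1 := by
      rw [hπ.eq_sum_mult, nu2_sum, Complex.re_sum,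
        ← Finset.add_sum_erase _ _ (Finset.mem_univ (irrOne G)), nu2_smul, h0.2.2,
        mult_eq_of_ip_eq (n := 1) (by rw [h1, Nat.cast_one])]
      simp only [Nat.cast_one, mul_one, Complex.one_re, add_le_iff_nonpos_right]
      refine Finset.sum_nonpos fun χ hχ => ?_
      rw [nu2_smul]
      rcases irr_nu2_cases χ with h4 | h4 | h4
      · have : ip (permChar G (G ⧸ H)) χ.1 = 0 := by
          by_contra h5
          exact (Finset.mem_erase.1 hχ).1 (congrArg Subtype.val
            (h.elim ⟨χ, h5, irr_isReal_of_nu2_eq_one χ h4, h4⟩ ⟨_, h0⟩))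
        rw [← hπ.ip_eq_mult (irr_isCharacter χ), this]
        simp
      · simp [h4]
      · simp [h4]
    rw [ip_def] at h1
    simp only [irrOne_apply, map_one, mul_one, permChar_apply', ← Nat.cast_sum] at h1
    simp only [nu2_def, permChar_apply', ← Nat.cast_sum] at h3
    rw [inv_mul_eq_one₀ card_cast_ne_zero, Nat.cast_inj] at h1
    rw [← h1] at h2
    rw [← Complex.ofReal_natCast, ← Complex.ofReal_natCast, ← Complex.ofReal_inv,
      ← Complex.ofReal_mul, Complex.ofReal_re,
      inv_mul_le_one₀ (Nat.cast_pos.2 Nat.card_pos), Nat.cast_le] at h3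
    omega
  · intro hodd
    refine ⟨⟨?_⟩, ⟨⟨_, h0⟩⟩⟩
    suffices ∀ χ : IrrCharacter G, ip (permChar G (G ⧸ H)) χ.1 ≠ 0 → IsReal χ.1 → χ = irrOne G from
      fun a b => Subtype.ext ((this _ a.2.1 a.2.2.1).trans (this _ b.2.1 b.2.2.1).symm)
    intro χ h2 h3
    have h4 : H.normalCore ≤ ker χ.1 := by
      refine le_trans (fun g hg => ?_) (hπ.ker_le_of_ip_ne_zero χ h2)
      rw [hπ.mem_ker_iff, permChar_apply', permChar_apply_one,
        Nat.card_congr (Equiv.subtypeUnivEquiv ((hK _).1 hg))]
    obtain ⟨ψ, rfl⟩ := (exists_inflate_eq_iff _ χ).2 h4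
    rw [irr_eq_irrOne_of_isReal_of_odd hodd ψ (fun g => by
      obtain ⟨g, rfl⟩ := QuotientGroup.mk_surjective g
      exact h3 g), inflate_irrOne]

end Cfsg.Agent.S4784
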