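import Cfsg.Statements.S4793
import Cfsg.Agent.Lib.UW.Main

set_option autoImplicit false
open Cfsg

namespace Cfsg.Agent.S4793

open Module Matrix in
theorem exists_conj {F : Type*} [Field F] [Fintype F] {q : ℕ} (h : Fintype.card F = q ^ 2) :
    ∃ σ : F →+* F, (∀ a, σ a = a ^ q) ∧ (∀ a, σ (σ a) = a) ∧ ∃ a, σ a ≠ a := by
  obtain ⟨p, hp⟩ := CharP.exists F
  obtain ⟨n, hp', hn⟩ := FiniteField.card F p
  have : Fact p.Prime := ⟨hp'⟩
  obtain ⟨k, -, rfl⟩ := (Nat.dvd_prime_pow hp').1
    (show q ∣ p ^ (n : ℕ) from hn ▸ h ▸ dvd_pow_self q two_ne_zero)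
  refine ⟨iterateFrobenius F p k, fun _ => rfl, fun a => ?_, ?_⟩
  · rw [iterateFrobenius_def, iterateFrobenius_def, ← pow_mul, ← pow_two, ← h,
      FiniteField.pow_card]
  by_contra! h2
  have h4 : 1 < p ^ k := by
    have := Fintype.one_lt_card (α := F)
    rw [h] at this
    exact lt_of_pow_lt_pow_left₀ 2 (Nat.zero_le _) (by simpa using this)
  have h5 := (FiniteField.forall_pow_eq_one_iff F (p ^ k - 1)).1 fun x => by
    have h6 : (x : F) ^ p ^ k = x := h2 x
    apply mul_right_cancel (b := x)
    rw [← pow_succ, Nat.sub_add_cancel h4.le, one_mul]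
    exact Units.ext (by simpa using h6)
  have := Nat.le_of_dvd (by omega) h5
  rw [h] at this
  have : p ^ k < (p ^ k) ^ 2 := by nlinarith
  omega

open Module Matrix UW in
theorem aux {G : Type*} [Group G] [Fintype G] (n q : ℕ) (F : Type*) [Field F] [Fintype F]
    [StarRing F] [HF F] (hs : ∀ a : F, star a = a ^ q) (m : ℕ) (hn : n = 2 * m + 3)
    (hcop : Nat.Coprime n (qq F + 1)) (e : G ≃* Cfsg.PSU n F q) :
    ∃ H : HS F (Fin n → F), Nonempty (G ≃* H.S) ∧ ∀ g : H.U, H.dt g * star (H.dt g) = 1 := by
  classical
  have hb : ∀ u v : Fin n → F, hermForm n F q u v = ∑ i, u i * star (v i) := fun u v => by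
    simp only [hermForm, hs]
  let H : HS F (Fin n → F) :=
    { b := hermForm n F q
      add_left := fun x y z => by simp only [hb, Pi.add_apply, add_mul, Finset.sum_add_distrib]
      smul_left := fun a x y => by
        simp only [hb, Pi.smul_apply, smul_eq_mul, Finset.mul_sum, mul_assoc]
      herm := fun x y => by simp only [hb, star_sum, star_mul', star_star, mul_comm]
      nondeg := fun x hx => funext fun i => by
        have := hx (Pi.single i 1)
        rw [hb, Finset.sum_eq_single i (fun j _ hj => by simp [hj]) (by simp)] at this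
        simpa using this }
  have hr : finrank F (Fin n → F) = n := by simp
  let j : SU n F q →* H.S :=
    { toFun := fun A => ⟨H.mkU (Matrix.toLin' A.1.1) fun x y => A.2 x y,
        (LinearMap.det_toLin' _).trans A.1.2⟩
      map_one' := Subtype.ext (HS.U_ext fun y => by simp)
      map_mul' := fun A B => Subtype.ext (HS.U_ext fun y =>
        (Matrix.mulVec_mulVec y A.1.1 B.1.1).symm) }
  have hj : Function.Bijective j := by
    constructor
    · intro A B h
      have := congrArg (fun g : H.S => H.lin g) h
      exact Subtype.ext (Subtype.ext (Matrix.toLin'.injective this))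
    · intro g
      refine ⟨⟨⟨LinearMap.toMatrix' (H.lin g), by rw [LinearMap.det_toMatrix']; exact g.2⟩,
        fun u v => ?_⟩, Subtype.ext (HS.U_ext fun y => ?_)⟩
      · change H.b (LinearMap.toMatrix' (H.lin g) *ᵥ u) (LinearMap.toMatrix' (H.lin g) *ᵥ v) = _
        rw [LinearMap.toMatrix'_mulVec, LinearMap.toMatrix'_mulVec]
        exact HS.b_smul_smul g.1 u v
      · simp [j]
  let j' := MulEquiv.ofBijective j hj
  have hc : Subgroup.center (SU n F q) = ⊥ := by
    rw [Subgroup.eq_bot_iff_forall]
    intro z hz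
    have h1 : j' z ∈ Subgroup.center H.S := by
      rw [Subgroup.mem_center_iff]
      intro g
      obtain ⟨a, rfl⟩ := j'.surjective g
      rw [← map_mul, ← map_mul, Subgroup.mem_center_iff.1 hz a]
    rw [HS.center_S (m := m) (hr.trans hn) (by rwa [hr]), Subgroup.mem_bot] at h1
    exact j'.map_eq_one_iff.1 h1
  refine ⟨H, ⟨e.trans (((QuotientGroup.quotientMulEquivOfEq hc).trans
    QuotientGroup.quotientBot).trans j')⟩, fun g => ?_⟩
  have h1 : (LinearMap.toMatrix' (H.lin g))ᵀ * (LinearMap.toMatrix' (H.lin g)).map star = 1 := by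
    ext i k
    have := HS.b_smul_smul g (Pi.single i 1) (Pi.single k 1)
    change hermForm n F q _ _ = hermForm n F q _ _ at this
    rw [hb, hb, Finset.sum_eq_single i (f := fun l => Pi.single (M := fun _ => F) i 1 l *
      star (Pi.single (M := fun _ => F) k 1 l)) (fun l _ hl => by simp [hl]) (by simp)] at this
    rw [Matrix.mul_apply, Matrix.one_apply]
    simp only [transpose_apply, map_apply, LinearMap.toMatrix'_apply, HS.lin_apply]
    rw [this]
    by_cases hik : i = k <;> simp [hik]
  have h2 := congrArg Matrix.det h1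
  rw [det_mul, det_transpose, det_one] at h2
  have h3 : ((LinearMap.toMatrix' (H.lin g)).map star).det =
      star (LinearMap.toMatrix' (H.lin g)).det := ((starRingEnd F).map_det _).symm
  rw [h3, LinearMap.det_toMatrix'] at h2
  exact h2

/-- Let F be a finite field with q² elements, n ≥ 3 with n coprime to 2(q + 1), and G a finite group isomorphic to the projective special unitary group PSU(n, q). Then G has exactly one irreducible complex character of degree (qⁿ − q)/(q + 1), and an irreducible character χ of G has nonzero inner product with the conjugation character g ↦ #C_G(g) (is a constituent of the permutation character of G on itself by conjugation) if and only if its degree is not (qⁿ − q)/(q + 1). -/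
theorem result {G : Type*} [Group G] [Fintype G] (n q : ℕ) (F : Type*) [Field F] [Fintype F] (hF : Fintype.card F = q ^ 2) (hn : 3 ≤ n) (hcop : Nat.Coprime n (2 * (q + 1))) (hG : Nonempty (G ≃* Cfsg.PSU n F q)) : Nat.card {χ : Cfsg.IrrCharacter G // Cfsg.charDegree (χ : G → ℂ) = (q ^ n - q) / (q + 1)} = 1 ∧ ∀ χ : Cfsg.IrrCharacter G, Cfsg.classInner (χ : G → ℂ) (fun g : G => (Nat.card ↥(Subgroup.centralizer ({g} : Set G)) : ℂ)) ≠ 0 ↔ Cfsg.charDegree (χ : G → ℂ) ≠ (q ^ n - q) / (q + 1) := by
  obtain ⟨σ, h1, h2, h3⟩ := exists_conj hF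
  obtain ⟨e⟩ := hG
  let _ : StarRing F :=
    { star := σ
      star_involutive := h2
      star_mul := fun a b => by
        change σ (a * b) = σ b * σ a
        rw [map_mul, mul_comm]
      star_add := map_add σ }
  have : UW.HF F := ⟨h3⟩
  have hq : UW.qq F = q := Nat.pow_left_injective two_ne_zero ((UW.card_F F).symm.trans hF)
  have h4 : Nat.Coprime n (UW.qq F + 1) := hq ▸ Nat.Coprime.coprime_mul_left_right hcop
  have h5 : Odd n := Nat.coprime_two_right.1 (Nat.Coprime.coprime_mul_right_right hcop)
  obtain ⟨k, hk⟩ := h5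
  obtain ⟨H, ⟨ι⟩, hdet⟩ := aux n q F h1 (k - 1) (by omega) h4 e
  have hr : Module.finrank F (Fin n → F) = n := by simp
  have := UW.HS.main ι (m := k - 1) (by omega) (by rwa [hr]) hdet
  rwa [hr, hq] at this

end Cfsg.Agent.S4793
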