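import Cfsg.Statements.S4796
import Cfsg.Agent.Lib.Char.Degrees

set_option autoImplicit false
open Cfsg

namespace Cfsg.Agent.S4796

theorem exists_normal {G : Type*} [Group G] [Finite G] (χ : IrrCharacter G) {p : ℕ}
    (hp : p.Prime) (hcod : Nat.card G = p * charDegree χ.1) :
    ∃ P : Subgroup G, P.Normal ∧ Nat.card P = p ∧ P.index = charDegree χ.1 ∧
      (Nat.card P).Coprime P.index ∧ Subgroup.centralizer (P : Set G) ≤ P := by
  classical
  have := Fact.mk hp
  have hd := CT.irr_degree_pos χ
  have hlt : charDegree χ.1 < p := by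
    by_cases h1 : χ = CT.irrOne G
    · rw [h1, CT.charDegree_irrOne]; exact hp.one_lt
    · have := CT.irr_degree_sq_lt_card h1
      rw [hcod, sq] at this
      exact Nat.lt_of_mul_lt_mul_right this
  have hnd : ¬ p ∣ charDegree χ.1 := Nat.not_dvd_of_pos_of_lt hd hlt
  obtain ⟨P⟩ : Nonempty (Sylow p G) := inferInstance
  have hc : Nat.card P = p := by
    rw [P.card_eq_multiplicity, hcod, Nat.factorization_mul hp.ne_zero hd.ne', Finsupp.add_apply,
      hp.factorization_self, Nat.factorization_eq_zero_of_not_dvd hnd, add_zero, pow_one]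
  have hi : (P : Subgroup G).index = charDegree χ.1 := by
    have := (P : Subgroup G).card_mul_index
    rw [hc, hcod] at this
    exact Nat.eq_of_mul_eq_mul_left hp.pos this
  have hn : (P : Subgroup G).Normal := by
    have h1 := card_sylow_modEq_one p G
    have h2 : Nat.card (Sylow p G) ≤ charDegree χ.1 :=
      Nat.le_of_dvd hd (hi ▸ P.card_dvd_index)
    have h3 : Nat.card (Sylow p G) = 1 :=
      Nat.ModEq.eq_of_lt_of_lt h1 (h2.trans_lt hlt) hp.one_lt
    have : Subsingleton (Sylow p G) := (Nat.card_eq_one_iff_unique.1 h3).1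
    exact Sylow.normal_of_subsingleton P
  refine ⟨P, hn, hc, hi, by rw [hc, hi]; exact (Nat.Prime.coprime_iff_not_dvd hp).2 hnd, ?_⟩
  obtain ⟨θ, hθ⟩ := CT.exists_irr_liesUnder (P : Subgroup G) χ
  have hcyc : IsCyclic (P : Subgroup G) := isCyclic_of_prime_card hc
  have h1 : charDegree θ.1 = 1 := CT.irr_degree_eq_one_of_isMulCommutative θ
  have h2 := CT.sum_irrOver_degree_sq θ
  have h3 := Finset.single_le_sum (f := fun ψ : IrrCharacter G => charDegree ψ.1 ^ 2)
    (fun _ _ => Nat.zero_le _) (CT.mem_irrOver.2 hθ)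
  simp only [h2, h1, hi, one_pow, mul_one] at h3
  rw [sq] at h3
  have h4 := Nat.le_of_mul_le_mul_left h3 hd
  rw [← hi] at h4
  have h5 : (P : Subgroup G) = MulAction.stabilizer G θ := by
    refine le_antisymm (CT.le_inertia θ) ?_
    rw [← Subgroup.relIndex_eq_one]
    have h6 := Subgroup.relIndex_mul_index (CT.le_inertia θ)
    have h7 := GT.relIndex_pos (P : Subgroup G) (MulAction.stabilizer G θ)
    have h8 := GT.index_pos (MulAction.stabilizer G θ)
    nlinarith
  exact (CT.centralizer_le_inertia θ).trans h5.ge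

/-- Let G be a finite group with a faithful irreducible complex character χ whose codegree #G / χ(1) is a prime p (for a faithful character the kernel is trivial, so the codegree is #G / χ(1)). Then either G is cyclic of order p, or G is a Frobenius group whose Frobenius kernel has order p: some proper non-trivial subgroup H satisfies H ∩ gHg⁻¹ = 1 for every element g outside H, and the set of elements lying in no conjugate of H, together with the identity, has exactly p elements. -/
theorem result {G : Type*} [Group G] [Finite G] (χ : Cfsg.IrrCharacter G) (hfaith : ∀ g : G, (χ : G → ℂ) g = (χ : G → ℂ) 1 → g = 1) (p : ℕ) (hp : p.Prime) (hcod : Nat.card G = p * Cfsg.charDegree (χ : G → ℂ)) : (IsCyclic G ∧ Nat.card G = p) ∨ ∃ H : Subgroup G, Cfsg.IsFrobeniusComplement H ∧ Nat.card ↥(Cfsg.frobeniusKernel H) = p := by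
  obtain ⟨P, hn, hc, hi, hcop, hC⟩ := exists_normal χ hp hcod
  have := Fact.mk hp
  by_cases h1 : charDegree χ.1 = 1
  · rw [h1, mul_one] at hcod
    exact Or.inl ⟨isCyclic_of_prime_card hcod, hcod⟩
  right
  obtain ⟨H, hH⟩ := Subgroup.exists_right_complement'_of_coprime hcop
  have hfr : ∀ x ∈ P, x ≠ 1 → Subgroup.centralizer ({x} : Set G) ≤ P := by
    intro x hx hx1
    have : Subgroup.zpowers x = P := by
      have hle := (Subgroup.zpowers_le).2 hx
      refine Subgroup.eq_of_le_of_card_ge hle ?_
      rcases (Nat.dvd_prime hp).1 (hc ▸ Subgroup.card_dvd_of_le hle) with h | h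
      · exact absurd (Subgroup.zpowers_eq_bot.1 (Subgroup.card_eq_one.1 h)) hx1
      · rw [h, hc]
    rw [← GT.centralizer_zpowers, this]
    exact hC
  obtain ⟨h2, h3⟩ := CT.isFrobeniusComplement_of_centralizer_le hfr hH.disjoint hH.sup_eq_top
    (by rintro rfl; rw [Subgroup.card_bot] at hc; exact hp.one_lt.ne hc)
    (by rintro rfl; exact h1 (by rw [← hi, hH.symm.index_eq_card, Subgroup.card_bot]))
  exact ⟨H, h2, by rw [h3]; exact hc⟩

end Cfsg.Agent.S4796
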