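import Cfsg.Statements.S4797
import Cfsg.Agent.Lib.Char.Degrees
import Cfsg.Agent.S4796

set_option autoImplicit false
open Cfsg

namespace Cfsg.Agent.S4797

/-- The codegree of an irreducible complex character χ of a finite group G is [G : ker χ] / χ(1), where ker χ is the set of elements at which χ takes the value χ(1). A non-trivial finite group is perfect if and only if no irreducible complex character of it has prime codegree. -/
theorem result {G : Type*} [Group G] [Finite G] [Nontrivial G] : commutator G = ⊤ ↔ ∀ χ : Cfsg.IrrCharacter G, ¬ ((Nat.card G / (Nat.card {g : G // (χ : G → ℂ) g = (χ : G → ℂ) 1} * Cfsg.charDegree (χ : G → ℂ)))).Prime := by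
  constructor
  · intro hperf χ hp
    obtain ⟨ψ, h1, -⟩ := CT.exists_faithful_inflate_eq χ
    have h2 := CT.codeg_mul_degree χ
    have h3 : charDegree ψ.1 = charDegree χ.1 := by rw [← CT.charDegree_inflate, h1]
    obtain ⟨P, hn, hc, -, -, hC⟩ := S4796.exists_normal ψ hp (by rw [h3, h2]; rfl)
    have := Fact.mk hp
    have hcyc : IsCyclic P := isCyclic_of_prime_card hc
    have h4 : commutator (G ⧸ CT.ker χ.1) = ⊤ := by
      have := Subgroup.map_commutator ⊤ ⊤ (QuotientGroup.mk' (CT.ker χ.1))
      rw [← commutator_def, hperf,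
        Subgroup.map_top_of_surjective _ (QuotientGroup.mk'_surjective _)] at this
      exact this.symm
    have h5 : commutator (G ⧸ CT.ker χ.1) ≤ Subgroup.centralizer (P : Set (G ⧸ CT.ker χ.1)) := by
      have h6 : commutator (G ⧸ CT.ker χ.1) ≤ (MulAut.conjNormal (H := P)).ker := by
        rw [commutator_def, Subgroup.commutator_le]
        intro a _ b _
        rw [MonoidHom.mem_ker, map_commutatorElement, commutatorElement_eq_one_iff_mul_comm]
        apply (hcyc.mulAutMulEquiv _).injective
        rw [map_mul, map_mul, mul_comm]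
      intro x hx y hy
      have h7 : MulAut.conjNormal x (⟨y, hy⟩ : P) = ⟨y, hy⟩ := by
        rw [MonoidHom.mem_ker.1 (h6 hx)]; rfl
      have h8 : x * y * x⁻¹ = y := congrArg Subtype.val h7
      rw [← h8, inv_mul_cancel_right, h8]
    have h9 : P = ⊤ := top_le_iff.1 (h4 ▸ h5.trans hC)
    have h10 : commutator (G ⧸ CT.ker χ.1) = ⊥ := by
      rw [h9] at hcyc
      have := isCyclic_of_surjective (Subgroup.topEquiv (G := G ⧸ CT.ker χ.1)).toMonoidHom
        Subgroup.topEquiv.surjective
      exact commutator_eq_bot _
    rw [h9, h4.symm.trans h10, Subgroup.card_bot] at hc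
    exact hp.one_lt.ne hc
  · intro h
    by_contra hne
    obtain ⟨M, hn, h1, h2⟩ := GT.exists_normal_index_prime_of_commutator_ne_top hne
    have := Fact.mk h2
    have : IsCyclic (G ⧸ M) := isCyclic_of_prime_card (p := M.index) rfl
    obtain ⟨f, hf⟩ := CT.exists_units_hom_ker_eq M
    have h3 := CT.codeg_mul_degree (CT.linChar f)
    rw [CT.ker_linChar, hf] at h3
    refine h (CT.linChar f) ?_
    nth_rewrite 2 [CT.charDegree_linChar] at h3
    rw [mul_one] at h3
    rw [h3]; exact h2

end Cfsg.Agent.S4797
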