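import Cfsg.Statements.S4798
import Cfsg.Agent.Lib.Char.Omega
import Cfsg.Agent.Lib.Char.Clifford
import Cfsg.Agent.Lib.Grp.SylowIn

set_option autoImplicit false
open Cfsg

namespace Cfsg.Agent.S4798

/-- Let p be a prime and χ a faithful irreducible complex character of the finite group G (χ(g) = χ(1) only for g = 1), so that its codegree is #G / χ(1). Then #G / χ(1) is a power of p if and only if χ is induced from a character of a Sylow p-subgroup of G. -/
theorem result {G : Type*} [Group G] [Fintype G] (p : ℕ) [Fact p.Prime] (χ : Cfsg.IrrCharacter G) (hfaith : ∀ g : G, (χ : G → ℂ) g = (χ : G → ℂ) 1 → g = 1) : (∃ k : ℕ, Nat.card G = p ^ k * Cfsg.charDegree (χ : G → ℂ)) ↔ ∃ (P : Sylow p G) (θ : ↥(P : Subgroup G) → ℂ), Cfsg.IsCharacter ↥(P : Subgroup G) θ ∧ (χ : G → ℂ) = Cfsg.indFun (P : Subgroup G) θ := by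
  have hp : p.Prime := Fact.out
  have hdeg : ∀ (P : Sylow p G) (θ : IrrCharacter (P : Subgroup G)),
      ∃ a, charDegree θ.1 = p ^ a := fun P θ => by
    obtain ⟨n, hn⟩ := IsPGroup.iff_card.1 P.isPGroup'
    have := CT.irr_degree_dvd_card θ
    rw [hn, Nat.dvd_prime_pow hp] at this
    obtain ⟨a, -, ha⟩ := this
    exact ⟨a, ha⟩
  constructor
  · rintro ⟨k, hk⟩
    obtain ⟨P⟩ : Nonempty (Sylow p G) := inferInstance
    obtain ⟨n, hn⟩ := IsPGroup.iff_card.1 P.isPGroup'
    have hP := P.not_dvd_index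
    have hcard := (P : Subgroup G).card_mul_index
    have hcop : (p ^ k).Coprime (P : Subgroup G).index :=
      ((Nat.Prime.coprime_iff_not_dvd hp).2 hP).pow_left k
    have hkn : p ^ k ∣ p ^ n := by
      apply hcop.dvd_of_dvd_mul_right
      rw [← hn, hcard, hk]; exact dvd_mul_right _ _
    obtain ⟨c, hc⟩ := hkn
    have hca : c ∣ p ^ n := hc ▸ dvd_mul_left _ _
    obtain ⟨a, -, rfl⟩ := (Nat.dvd_prime_pow hp).1 hca
    have hd : charDegree χ.1 = (P : Subgroup G).index * p ^ a := by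
      apply Nat.eq_of_mul_eq_mul_left (pow_pos hp.pos k)
      rw [← hk, ← hcard, hn, hc]; ring
    have hex : ∃ θ : IrrCharacter (P : Subgroup G), CT.LiesOver P χ.1 θ.1 ∧
        charDegree θ.1 ≤ p ^ a := by
      by_contra hcon
      push Not at hcon
      have hres := ((CT.irr_isCharacter χ).res (P : Subgroup G)).degree_eq_sum_mult
      have hdvd : p ^ (a + 1) ∣ charDegree χ.1 := by
        rw [← CT.charDegree_res (P : Subgroup G), hres]
        refine Finset.dvd_sum fun θ _ => ?_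
        by_cases h0 : CT.LiesOver P χ.1 θ.1
        · obtain ⟨b, hb⟩ := hdeg P θ
          have := hcon θ h0
          rw [hb, Nat.pow_lt_pow_iff_right hp.one_lt] at this
          rw [hb]
          exact Dvd.dvd.mul_left (pow_dvd_pow p this) _
        · rw [CT.liesOver_iff_mult_pos (CT.irr_isCharacter χ) (CT.irr_isCharacter θ)] at h0
          rw [Nat.eq_zero_of_not_pos h0, zero_mul]; exact dvd_zero _
      rw [hd, pow_succ, mul_comm (p ^ a), Nat.mul_dvd_mul_iff_right (pow_pos hp.pos a)] at hdvd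
      exact hP hdvd
    obtain ⟨θ, h1, h2⟩ := hex
    refine ⟨P, θ.1, CT.irr_isCharacter θ, ?_⟩
    rw [CT.indFun_eq_ind]
    symm
    refine (CT.irr_isCharacter θ).ind.eq_irr_of_ip_ne_zero_of_degree_le χ ?_ ?_
    · rw [(CT.irr_isCharacter θ).ind.ip_comm (CT.irr_isCharacter χ),
        ← CT.liesOver_iff_ip_ind _ _ (CT.irr_isClassFunction χ)]
      exact h1
    · rw [CT.charDegree_ind (CT.irr_isCharacter θ), hd]
      exact Nat.mul_le_mul_left _ h2
  · rintro ⟨P, θ, hθ, h⟩
    rw [CT.indFun_eq_ind] at h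
    have hirr := CT.isIrr_of_isIrr_ind hθ (h ▸ χ.2)
    obtain ⟨c, hc⟩ := CT.irr_degree_dvd_card (⟨θ, hirr⟩ : IrrCharacter (P : Subgroup G))
    obtain ⟨n, hn⟩ := IsPGroup.iff_card.1 P.isPGroup'
    have hca : c ∣ p ^ n := by rw [← hn, hc]; exact dvd_mul_left _ _
    obtain ⟨a, -, rfl⟩ := (Nat.dvd_prime_pow hp).1 hca
    refine ⟨a, ?_⟩
    rw [h, CT.charDegree_ind hθ, ← (P : Subgroup G).card_mul_index, hc]
    ring

end Cfsg.Agent.S4798
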