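import Cfsg.Statements.S4801
import Cfsg.Agent.Lib.Char.Degrees

set_option autoImplicit false
open Cfsg

namespace Cfsg.Agent.S4801

/-- The codegree of an irreducible complex character χ of a finite group G is [G : ker χ] / χ(1), where ker χ is the set of elements at which χ takes the value χ(1). Let S be a finite simple group and G a finite group such that every codegree of an irreducible character of S is a codegree of an irreducible character of G. Then the order of S divides the order of G. -/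
theorem result {S : Type*} [Group S] [Finite S] (hS : IsSimpleGroup S) {G : Type*} [Group G] [Finite G] (hsub : ∀ χ : Cfsg.IrrCharacter S, ∃ ψ : Cfsg.IrrCharacter G, (Nat.card S / (Nat.card {g : S // (χ : S → ℂ) g = (χ : S → ℂ) 1} * Cfsg.charDegree (χ : S → ℂ))) = (Nat.card G / (Nat.card {g : G // (ψ : G → ℂ) g = (ψ : G → ℂ) 1} * Cfsg.charDegree (ψ : G → ℂ)))) : Nat.card S ∣ Nat.card G := by
  classical
  have hS0 : Nat.card S ≠ 0 := Nat.card_pos.ne'
  have hG0 : Nat.card G ≠ 0 := Nat.card_pos.ne'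
  refine (Nat.dvd_iff_prime_pow_dvd_dvd _ _).2 fun p k hp hk => ?_
  rcases k with _ | k
  · simp
  have hpS : p ∣ Nat.card S := (dvd_pow_self p k.succ_ne_zero).trans hk
  have hex : ∃ χ : IrrCharacter S, χ ≠ CT.irrOne S ∧ ¬ p ∣ charDegree χ.1 := by
    by_contra hcon
    push Not at hcon
    rw [← CT.sum_irr_degree_sq, ← Finset.add_sum_erase _ _ (Finset.mem_univ (CT.irrOne S)),
      CT.charDegree_irrOne, one_pow] at hpS
    have h2 : p ∣ ∑ χ ∈ Finset.univ.erase (CT.irrOne S), charDegree χ.1 ^ 2 :=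
      Finset.dvd_sum fun χ hχ => (hcon χ (Finset.mem_erase.1 hχ).1).pow two_ne_zero
    exact hp.not_dvd_one ((Nat.dvd_add_left h2).1 hpS)
  obtain ⟨χ, h1, h2⟩ := hex
  obtain ⟨ψ, hψ⟩ := hsub χ
  have hk0 : CT.ker χ.1 = ⊥ := (Subgroup.Normal.eq_bot_or_eq_top inferInstance).resolve_right
    fun h => h1 ((CT.ker_irr_eq_top_iff χ).1 h)
  have h3 := CT.codeg_mul_degree χ
  rw [hk0, Subgroup.index_bot, hψ] at h3
  rw [← h3] at hk
  have h4 := (((Nat.Prime.coprime_iff_not_dvd hp).2 h2).pow_left (k + 1)).dvd_of_dvd_mul_right hk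
  exact (h4.trans (Dvd.intro _ (CT.codeg_mul_degree ψ))).trans (Subgroup.index_dvd_card _)

end Cfsg.Agent.S4801
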