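import Cfsg.Statements.S4802
import Cfsg.Agent.Lib.Char.CommSum

set_option autoImplicit false
open Cfsg

namespace Cfsg.Agent.S4802


/-- Let N < M be normal subgroups of the finite group G and g ∈ M ∖ N. Then the conjugacy class of g is exactly M ∖ N if and only if every irreducible complex character of G whose kernel contains N takes the same value at all elements of M ∖ N, and every irreducible complex character of G whose kernel does not contain N vanishes at g. -/
theorem result {G : Type*} [Group G] [Finite G] (N M : Subgroup G) [N.Normal] [M.Normal] (hNM : N < M) (g : G) (hgM : g ∈ M) (hgN : g ∉ N) : {h : G | IsConj g h} = (M : Set G) \ (N : Set G) ↔ ((∀ χ : Cfsg.IrrCharacter G, (∀ x ∈ N, (χ : G → ℂ) x = (χ : G → ℂ) 1) → ∀ x ∈ M, x ∉ N → ∀ y ∈ M, y ∉ N → (χ : G → ℂ) x = (χ : G → ℂ) y) ∧ (∀ χ : Cfsg.IrrCharacter G, (∃ x ∈ N, (χ : G → ℂ) x ≠ (χ : G → ℂ) 1) → (χ : G → ℂ) g = 0)) := by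
  classical
  constructor
  · intro h
    have hc : ∀ x ∈ M, x ∉ N → IsConj g x := fun x hx hx' => by
      have : x ∈ {h : G | IsConj g h} := by rw [h]; exact ⟨hx, hx'⟩
      exact this
    refine ⟨fun χ _ x hx hx' y hy hy' => ?_, fun χ ⟨n, hn, hn'⟩ => ?_⟩
    · rw [← (CT.irr_isClassFunction χ).of_isConj (hc x hx hx'),
        ← (CT.irr_isClassFunction χ).of_isConj (hc y hy hy')]
    · have := Fintype.ofFinite N
      have h1 := CT.sum_normal_irr_eq_zero N (χ := χ) (fun hle => hn' (CT.ker_apply_eq (hle hn))) g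
      have h2 : ∀ n : N, χ.1 (g * n) = χ.1 g := fun n =>
        ((CT.irr_isClassFunction χ).of_isConj (hc _ (M.mul_mem hgM (hNM.le n.2))
          (fun hh => hgN (by simpa using N.mul_mem hh (N.inv_mem n.2))))).symm
      simp only [h2, Finset.sum_const, Finset.card_univ, nsmul_eq_mul,
        ← Nat.card_eq_fintype_card] at h1
      exact (mul_eq_zero.mp h1).resolve_left CT.card_cast_ne_zero
  · rintro ⟨h1, h2⟩
    ext z
    constructor
    · intro hz
      obtain ⟨c, rfl⟩ := isConj_iff.mp hz
      refine ⟨‹M.Normal›.conj_mem g hgM c, fun hh => hgN ?_⟩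
      simpa [mul_assoc] using ‹N.Normal›.conj_mem _ hh c⁻¹
    · rintro ⟨hz, hz'⟩
      by_contra hc
      have h3 := CT.sum_irr_mul_conj g z
      rw [if_neg (show ¬ IsConj g z from hc)] at h3
      have h4 : ∀ χ : IrrCharacter G, χ.1 g * (starRingEnd ℂ) (χ.1 z) =
          χ.1 g * (starRingEnd ℂ) (χ.1 g) := by
        intro χ
        by_cases hχ : ∀ x ∈ N, χ.1 x = χ.1 1
        · rw [h1 χ hχ z hz hz' g hgM hgN]
        · push Not at hχ
          rw [h2 χ hχ, zero_mul, zero_mul]
      simp only [h4] at h3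
      rw [CT.sum_irr_mul_conj, if_pos (IsConj.refl _)] at h3
      exact CT.card_cast_ne_zero h3

end Cfsg.Agent.S4802
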