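import Cfsg.Statements.S4805
import Cfsg.Agent.Lib.Char.RelDeg2
import Cfsg.Agent.Lib.Grp.OneClass
-- import your own Cfsg.Agent.* helpers here

set_option autoImplicit false
open Cfsg

namespace Cfsg.Agent.S4805

open CT GT
open scoped ComplexConjugate commutatorElement

/-- Let G be a finite group, g an element outside the centre of G, and χ an irreducible complex character of degree greater than one with χ(g) ≠ 0 such that every other irreducible character of degree greater than one vanishes at g. Then g lies in the derived subgroup G′ and χ(g) = −[G : G′]/χ(1); G′ is the union of the kernel of χ (the elements where χ takes the value χ(1)) and the conjugacy class of g, and χ vanishes outside G′; every irreducible character of degree greater than one whose kernel contains that of χ equals χ; and G is solvable. -/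
theorem result {G : Type*} [Group G] [Finite G] (g : G) (hg : g ∉ Subgroup.center G) (χ : Cfsg.IrrCharacter G) (hχ1 : Cfsg.charDegree (χ : G → ℂ) ≠ 1) (hχg : (χ : G → ℂ) g ≠ 0) (hother : ∀ ψ : Cfsg.IrrCharacter G, Cfsg.charDegree (ψ : G → ℂ) ≠ 1 → ψ ≠ χ → (ψ : G → ℂ) g = 0) : g ∈ commutator G ∧ (χ : G → ℂ) g = -(((commutator G).index : ℂ) / (χ : G → ℂ) 1) ∧ ((commutator G : Set G) = {x : G | (χ : G → ℂ) x = (χ : G → ℂ) 1} ∪ {h : G | IsConj g h}) ∧ (∀ x : G, x ∉ commutator G → (χ : G → ℂ) x = 0) ∧ (∀ ψ : Cfsg.IrrCharacter G, Cfsg.charDegree (ψ : G → ℂ) ≠ 1 → (∀ x : G, (χ : G → ℂ) x = (χ : G → ℂ) 1 → (ψ : G → ℂ) x = (ψ : G → ℂ) 1) → ψ = χ) ∧ Group.IsSolvable G := by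

  classical
  have hg1 : g ≠ 1 := fun e => hg (e ▸ one_mem _)
  have key : ∀ F : IrrCharacter G → ℂ, ∑ ψ : IrrCharacter G, F ψ * ψ.1 g =
      ∑ ψ : IrrCharacter G with charDegree ψ.1 = 1, F ψ * ψ.1 g + F χ * χ.1 g := fun F => by
    rw [← Finset.sum_filter_add_sum_filter_not Finset.univ (fun ψ : IrrCharacter G =>
      charDegree ψ.1 = 1), add_right_inj, Finset.sum_eq_single_of_mem χ (by simpa using hχ1)
      fun ψ hψ hne => by rw [hother ψ (by simpa using hψ) hne, mul_zero]]
  have hlin : ∀ ψ ∈ Finset.univ.filter (fun ψ : IrrCharacter G => charDegree ψ.1 = 1),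
      charDegree ψ.1 = 1 := fun ψ hψ => by simpa using hψ
  have h0 := irr_apply_one_ne_zero χ
  have h1 := sum_irr_degree_mul g
  rw [if_neg hg1, key (fun ψ => ψ.1 1), Finset.sum_congr rfl (fun ψ hψ => by
    rw [irr_apply_one, hlin ψ hψ, Nat.cast_one, one_mul]), sum_linear_apply] at h1
  have hgS : g ∈ commutator G := by
    by_contra hn
    rw [if_neg hn, zero_add] at h1
    exact mul_ne_zero h0 hχg h1
  rw [if_pos hgS] at h1
  have hm : ((commutator G).index : ℂ) ≠ 0 := Nat.cast_ne_zero.2 (index_pos _).ne'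
  have hval : χ.1 g = -(((commutator G).index : ℂ) / χ.1 1) := by
    field_simp
    linear_combination h1
  have h2 : ∀ x, ¬ IsConj g x → (if x ∈ commutator G then ((commutator G).index : ℂ) else 0) +
      χ.1 x⁻¹ * χ.1 g = 0 := fun x hx => by
    have h3 := sum_irr_mul_conj g x
    rw [if_neg hx] at h3
    rw [Finset.sum_congr rfl fun ψ _ => by
      rw [← (irr_isCharacter ψ).apply_inv, mul_comm]] at h3
    rw [key (fun ψ => ψ.1 x⁻¹), Finset.sum_congr rfl (fun ψ hψ => by
      rw [← (irr_isCharacter ψ).map_mul_of_degree_one (hlin ψ hψ)]), sum_linear_apply] at h3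
    simpa [mul_mem_cancel_right hgS] using h3
  have hcS : ∀ x, IsConj g x → x ∈ commutator G := fun x hx => by
    obtain ⟨c, rfl⟩ := isConj_iff.1 hx
    exact Subgroup.Normal.conj_mem inferInstance g hgS c
  have hoff : ∀ x, x ∉ commutator G → χ.1 x = 0 := fun x hx => by
    have := h2 x⁻¹ (fun e => hx (inv_mem_iff.1 (hcS _ e)))
    rw [if_neg (mt inv_mem_iff.1 hx), zero_add, inv_inv] at this
    exact (mul_eq_zero.1 this).resolve_right hχg
  have hKS : ker χ.1 ≤ commutator G := fun x hx => by_contra fun hn =>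
    h0 (((irr_mem_ker_iff χ).1 hx).symm.trans (hoff x hn))
  have hconj : ∀ x ∈ commutator G, x ∉ ker χ.1 → IsConj g x := fun x hx hK => by
    by_contra hn
    have := h2 x hn
    rw [if_pos hx, hval] at this
    refine hK (inv_mem_iff.1 ((irr_mem_ker_iff χ).2 ?_))
    refine mul_left_cancel₀ hm ?_
    field_simp at this
    linear_combination -this
  have hgK : g ∉ ker χ.1 := fun e => by
    rw [(irr_mem_ker_iff χ).1 e, irr_apply_one] at h1
    have h3 : (commutator G).index + charDegree χ.1 * charDegree χ.1 = 0 := by exact_mod_cast h1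
    exact (index_pos (commutator G)).ne' (by omega)
  have hO : OneCl (ker χ.1) g := ⟨inferInstance, hKS, hgS, hgK, hconj, fun u hu => by
    by_contra hn
    have := (irr_mem_center_iff χ).1 ((irr_mem_center_iff_commutator χ).2 hu)
    rw [hoff u hn, norm_zero] at this
    exact (irr_degree_pos χ).ne (by exact_mod_cast this)⟩
  refine ⟨hgS, hval, Set.ext fun x => ⟨fun hx => or_iff_not_imp_left.2 fun hK =>
    hconj x hx (mt (irr_mem_ker_iff χ).1 hK), fun hx => hx.elim
      (fun h => hKS ((irr_mem_ker_iff χ).2 h)) (hcS x)⟩, hoff, fun ψ hψ hk => ?_,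
    hO.isSolvable fun p _ hp => hasNormalPComplement_of_relDegrees fun ψ hψ => ?_⟩
  · by_contra hne
    have := Fintype.ofFinite (commutator G)
    have h3 := sum_normal_irr_eq_zero (commutator G)
      (mt (irr_degree_eq_one_iff_commutator_le_ker ψ).2 hψ) 1
    rw [Finset.sum_congr rfl (g := fun n : commutator G =>
      if (n : G) ∈ ker χ.1 then ψ.1 1 else 0) fun n _ => by
        rw [one_mul]
        split_ifs with hn
        · exact hk n ((irr_mem_ker_iff χ).1 hn)
        · rw [← (irr_isClassFunction ψ).of_isConj (hconj n n.2 hn), hother ψ hψ hne],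
      ← Finset.sum_filter, Finset.sum_const, nsmul_eq_mul] at h3
    refine mul_ne_zero (Nat.cast_ne_zero.2 (Finset.card_ne_zero.2 ⟨1, ?_⟩))
      (irr_apply_one_ne_zero ψ) h3
    simp
  · obtain ⟨q, -, hcomm, -⟩ := hO.exists_prime
    have h3 : ⁅commutator G, commutator G⁆ ≤ ker χ.1 := Subgroup.commutator_le.2 hcomm
    have h4 := hother ψ (fun e => hψ ((h3.trans hKS).trans
      ((irr_degree_eq_one_iff_commutator_le_ker ψ).1 e))) fun e => hψ (e ▸ h3)
    obtain ⟨k, hk⟩ := hp.exists_pow_eq_one
    have h5 := (irr_isCharacter ψ).isGen.int_modEq_of_commute Fact.out (Commute.one_right g) hk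
      (a := 0) (b := charDegree ψ.1) (by simpa using h4) (by simpa using irr_apply_one ψ)
    exact Int.natCast_dvd_natCast.1 (by simpa using h5.dvd)

end Cfsg.Agent.S4805
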