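import Cfsg.Statements.S4808
import Cfsg.Agent.Lib.Char.Degrees
import Cfsg.Agent.Lib.Char.BrauerApp

set_option autoImplicit false
open Cfsg

namespace Cfsg.Agent.S4808

/-- The codegree of an irreducible complex character χ of a finite group G is [G : ker χ] / χ(1), where ker χ is the set of elements at which χ takes the value χ(1). A prime divides the order of G if and only if it divides the codegree of some irreducible complex character of G. -/
theorem result {G : Type*} [Group G] [Finite G] (p : ℕ) (hp : p.Prime) : p ∣ Nat.card G ↔ ∃ χ : Cfsg.IrrCharacter G, p ∣ (Nat.card G / (Nat.card {g : G // (χ : G → ℂ) g = (χ : G → ℂ) 1} * Cfsg.charDegree (χ : G → ℂ))) := by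
  classical
  have := Fact.mk hp
  constructor
  · intro hd
    by_contra hcon
    push Not at hcon
    obtain ⟨x, hx⟩ := exists_prime_orderOf_dvd_card' p hd
    have hx1 : x ≠ 1 := by
      rintro rfl
      rw [orderOf_one] at hx
      exact hp.one_lt.ne hx
    have hzero : ∀ χ : IrrCharacter G, x ∉ CT.ker χ.1 → χ.1 x = 0 := by
      intro χ hχ
      obtain ⟨ψ, h1, -⟩ := CT.exists_faithful_inflate_eq χ
      have h2 := CT.codeg_mul_degree χ
      have h3 : charDegree ψ.1 = charDegree χ.1 := by rw [← CT.charDegree_inflate, h1]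
      have h4 : ¬ p ∣ Nat.card (G ⧸ CT.ker χ.1) / charDegree ψ.1 := by
        change ¬ p ∣ (CT.ker χ.1).index / _
        rw [← h2, h3, Nat.mul_div_cancel _ (CT.irr_degree_pos χ)]
        exact hcon χ
      have h5 : orderOf (x : G ⧸ CT.ker χ.1) = p := by
        refine orderOf_eq_prime ?_ (fun h => hχ ((QuotientGroup.eq_one_iff x).1 h))
        rw [← QuotientGroup.mk_pow, ← hx, pow_orderOf_eq_one, QuotientGroup.mk_one]
      have h6 := CT.irr_apply_eq_zero_of_defect_zero hp ψ
        ((CT.defect_zero_iff_not_dvd_div hp ψ).2 h4) (g := (x : G ⧸ CT.ker χ.1)) (by rw [h5])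
      rw [← CT.inflate_apply, h1] at h6
      exact h6
    have h1 := CT.sum_irr_degree_mul x
    rw [if_neg hx1] at h1
    have h2 : ∑ χ : IrrCharacter G, χ.1 1 * χ.1 x =
        ((∑ χ : IrrCharacter G with x ∈ CT.ker χ.1, charDegree χ.1 ^ 2 : ℕ) : ℂ) := by
      rw [Finset.sum_filter, Nat.cast_sum]
      refine Finset.sum_congr rfl fun χ _ => ?_
      split_ifs with h
      · rw [CT.ker_apply_eq h, CT.irr_apply_one]; push_cast; ring
      · rw [hzero χ h]; simp
    rw [h2, Nat.cast_eq_zero, Finset.sum_eq_zero_iff] at h1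
    have := h1 (CT.irrOne G) (by simp [CT.ker_irrOne])
    rw [CT.charDegree_irrOne] at this
    exact one_ne_zero this
  · rintro ⟨χ, h⟩
    exact (h.trans (Dvd.intro _ (CT.codeg_mul_degree χ))).trans (Subgroup.index_dvd_card _)

end Cfsg.Agent.S4808
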