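import Cfsg.Statements.S4812
import Cfsg.Agent.Lib.Char.SL2Deg

set_option autoImplicit false
open Cfsg

namespace Cfsg.Agent.S4812

/-- Let F be a finite field of characteristic 2 with q ≥ 4 elements and let S be isomorphic to PSL(2,F) or to SL(2,F). Then the vertices of the character degree graph of S are the primes dividing q(q²−1), and two distinct primes are adjacent exactly when both divide q + 1 or both divide q − 1; so the graph has the three connected components {2}, the primes dividing q + 1 and the primes dividing q − 1, each complete. -/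
theorem result (F : Type*) [Field F] [Fintype F] [CharP F 2] (q : ℕ) (hq : Fintype.card F = q) (h4 : 4 ≤ q) {S : Type*} [Group S] [Finite S] (hS : Nonempty (S ≃* Matrix.ProjectiveSpecialLinearGroup (Fin 2) F) ∨ Nonempty (S ≃* Matrix.SpecialLinearGroup (Fin 2) F)) : Cfsg.degreePrimes S = {r : ℕ | r.Prime ∧ r ∣ q * (q ^ 2 - 1)} ∧ ∀ r s : ℕ, (Cfsg.degreeGraph S).Adj r s ↔ (r ≠ s ∧ r.Prime ∧ s.Prime ∧ ((r ∣ q + 1 ∧ s ∣ q + 1) ∨ (r ∣ q - 1 ∧ s ∣ q - 1))) := by
  subst hq
  obtain ⟨a, -, ha⟩ := FiniteField.card F 2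
  have h2 : 2 ∣ Fintype.card F := by rw [ha]; exact dvd_pow_self 2 a.ne_zero
  have hF : ¬ Fintype.card F - 1 ∣ 4 := fun h => by
    have := Nat.le_of_dvd (by norm_num) h
    have h3 : Fintype.card F = 4 := by omega
    rw [h3] at h
    norm_num at h
  have h := CT.SL2.charDegrees_facts hF hS
  exact ⟨CT.SL2.degreePrimes_eq (by omega) h, CT.SL2.degreeGraph_adj Nat.prime_two ha h⟩

end Cfsg.Agent.S4812
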