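import Cfsg.Statements.S4813
import Cfsg.Agent.S4466

set_option autoImplicit false
open Cfsg

namespace Cfsg.Agent.S4813

open CT

/-- If every irreducible complex character of the finite group G of degree greater than one has prime degree, then G has at most three distinct irreducible character degrees. -/
theorem result {G : Type*} [Group G] [Finite G] (hprime : ∀ d ∈ Cfsg.charDegrees G, d = 1 ∨ d.Prime) : Nat.card ↥(Cfsg.charDegrees G) ≤ 3 := by
  have : Group.IsSolvable G := S4466.result fun χ h1 => (hprime _ (mem_charDegrees χ)).resolve_left h1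
  rw [Nat.card_coe_set_eq]
  by_cases h : IsMulCommutative G
  · exact ncard_charDegrees_le_three (m := 1) (n := 1) fun χ =>
      Or.inl (irr_degree_eq_one_of_isMulCommutative χ)
  obtain ⟨f, q, hf, hf1, hq, H⟩ := exists_degree_and_prime h
  refine ncard_charDegrees_le_three (m := f) (n := q) fun χ => ?_
  rcases hprime _ (mem_charDegrees χ) with h1 | h1
  · exact Or.inl h1
  rcases H χ with h2 | ⟨d, h2, h3, h4⟩
  · exact Or.inr (Or.inr ((Nat.prime_dvd_prime_iff_eq hq h1).1 h2).symm)
  · have h5 : d.Prime := (hprime d h2).resolve_left fun e => hf1 (Nat.dvd_one.1 (e ▸ h3))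
    refine Or.inr (Or.inl ?_)
    rw [(Nat.prime_dvd_prime_iff_eq h1 h5).1 h4, ((Nat.dvd_prime h5).1 h3).resolve_left hf1]

end Cfsg.Agent.S4813
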