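import Cfsg.Statements.S4814
import Cfsg.Agent.Lib.Char.CommSum

set_option autoImplicit false
open Cfsg

namespace Cfsg.Agent.S4814


/-- Let G be a finite group such that the sum, over the irreducible complex characters χ of G, of 1/χ(1)² is less than 2. Then every element of G is a product of two commutators. -/
theorem result {G : Type*} [Group G] [Finite G]
    (h : ∑ᶠ χ : Cfsg.IrrCharacter G, 1 / ‖(χ : G → ℂ) 1‖ ^ 2 < (2 : ℝ)) (g : G) :
    ∃ a b c d : G, (a * b * a⁻¹ * b⁻¹) * (c * d * c⁻¹ * d⁻¹) = g := by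
  classical
  have := Fintype.ofFinite G
  by_contra hc
  push Not at hc
  rw [finsum_eq_sum_of_fintype] at h
  have hG : (Nat.card G : ℂ) ≠ 0 := CT.card_cast_ne_zero
  have h1 : ∀ a b c d : G, ∑ χ : IrrCharacter G,
      χ.1 1 * χ.1 (a * b * a⁻¹ * b⁻¹ * (c * d * c⁻¹ * d⁻¹ * g⁻¹)) = 0 := by
    intro a b c d
    rw [CT.sum_irr_degree_mul, if_neg]
    intro h2
    apply hc a b c d
    rw [← mul_inv_eq_one, ← h2]; group
  have h2 : ∑ χ : IrrCharacter G, ∑ c : G, ∑ d : G, ∑ a : G, ∑ b : G,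
      χ.1 1 * χ.1 (a * b * a⁻¹ * b⁻¹ * (c * d * c⁻¹ * d⁻¹ * g⁻¹)) = 0 := by
    rw [Finset.sum_comm]
    refine Finset.sum_eq_zero fun c _ => ?_
    rw [Finset.sum_comm]
    refine Finset.sum_eq_zero fun d _ => ?_
    rw [Finset.sum_comm]
    refine Finset.sum_eq_zero fun a _ => ?_
    rw [Finset.sum_comm]
    exact Finset.sum_eq_zero fun b _ => h1 a b c d
  have h3 : ∀ χ : IrrCharacter G, ∑ c : G, ∑ d : G, ∑ a : G, ∑ b : G,
      χ.1 1 * χ.1 (a * b * a⁻¹ * b⁻¹ * (c * d * c⁻¹ * d⁻¹ * g⁻¹)) =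
      (Nat.card G : ℂ) ^ 4 * (χ.1 g⁻¹ / χ.1 1 ^ 3) := by
    intro χ
    have hχ := CT.irr_apply_one_ne_zero χ
    simp only [← Finset.mul_sum, CT.sum_irr_commutator_mul, ← Finset.sum_div]
    field_simp
  simp only [h3] at h2
  rw [← Finset.mul_sum, mul_eq_zero] at h2
  have h4 := h2.resolve_left (pow_ne_zero _ hG)
  rw [← Finset.add_sum_erase _ _ (Finset.mem_univ (CT.irrOne G))] at h4 h
  simp only [CT.irrOne_apply, one_pow, div_one, norm_one] at h4 h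
  have h5 : ‖∑ χ ∈ Finset.univ.erase (CT.irrOne G), χ.1 g⁻¹ / χ.1 1 ^ 3‖ = 1 := by
    rw [eq_neg_of_add_eq_zero_right h4]; simp
  have h6 : ‖∑ χ ∈ Finset.univ.erase (CT.irrOne G), χ.1 g⁻¹ / χ.1 1 ^ 3‖ ≤
      ∑ χ ∈ Finset.univ.erase (CT.irrOne G), 1 / ‖χ.1 1‖ ^ 2 := by
    refine (norm_sum_le _ _).trans (Finset.sum_le_sum fun χ _ => ?_)
    have h7 := (CT.irr_isCharacter χ).norm_le g⁻¹
    rw [← (CT.irr_isCharacter χ).norm_apply_one] at h7
    have h8 : 0 < ‖χ.1 1‖ := norm_pos_iff.mpr (CT.irr_apply_one_ne_zero χ)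
    rw [norm_div, norm_pow, div_le_div_iff₀ (by positivity) (by positivity)]
    nlinarith [mul_le_mul_of_nonneg_right h7 (sq_nonneg ‖χ.1 1‖)]
  linarith

end Cfsg.Agent.S4814
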