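import Cfsg.Statements.S4823
import Cfsg.Agent.Lib.Block.B21

set_option autoImplicit false
universe u
open Cfsg

namespace Cfsg.Agent.S4823

/-- For every prime p and every natural number k there is a bound N such that, for every finite group G and every maximal ideal M of the algebraic integers containing p, if the principal p-block of G has at most k irreducible characters then the p-part of the order of G (the order of a defect group of the principal block) is at most p ^ N. -/
theorem result (p : ℕ) [Fact p.Prime] (k : ℕ) : ∃ N : ℕ, ∀ (G : Type u) [Group G] [Finite G] (M : Ideal Cfsg.AlgInt), Cfsg.IsPModular p M → Nat.card (Cfsg.principalBlock M G) ≤ k → (Nat.card G).factorization p ≤ N := by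
  obtain ⟨N, hN⟩ := BT.exists_bound_of_card_principal.{u} k
  exact ⟨N, fun G _ _ M hM hk =>
    (Nat.lt_pow_self (Fact.out : p.Prime).one_lt).le.trans (hN p G M hM hk)⟩

end Cfsg.Agent.S4823
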