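import Cfsg.Statements.S4828
import Cfsg.Agent.Lib.Block.Weight

set_option autoImplicit false
open Cfsg

namespace Cfsg.Agent.S4828

open BT CT GT
open scoped MonoidAlgebra Pointwise

/-- Let p be a prime, M a maximal ideal of the algebraic integers containing p, and (Q, e) a Brauer pair of the finite group G (Q a p-subgroup, e a block of C_G(Q)). Then (Q, e) is a maximal Brauer pair of some block of G if and only if e contains an irreducible character θ such that θ takes the value θ(1) at every element of Z(Q) = Q ∩ C_G(Q), the p-part of θ(1) times the p-part of the order of Z(Q) equals the p-part of the order of C_G(Q) (θ has defect zero as a character of C_G(Q)/Z(Q)), and every element of N_G(Q) of p-power order that stabilizes e lies in Q·C_G(Q) (the stabilizer of e in N_G(Q) has index prime to p over Q·C_G(Q)). -/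
theorem result {G : Type*} [Group G] [Finite G] (p : ℕ) [Fact p.Prime] (M : Ideal Cfsg.AlgInt) (hM : Cfsg.IsPModular p M) (Q : Subgroup G) (e : Set (Cfsg.IrrCharacter (Subgroup.centralizer (Q : Set G)))) (he : Cfsg.IsBrauerPair p M Q e) :
    (∃ B : Set (Cfsg.IrrCharacter G), Cfsg.IsMaximalBrauerPair p M B Q e) ↔
      ∃ θ ∈ e, (∀ z : Subgroup.centralizer (Q : Set G), (z : G) ∈ Q → (θ : Subgroup.centralizer (Q : Set G) → ℂ) z = (θ : Subgroup.centralizer (Q : Set G) → ℂ) 1) ∧
        (Cfsg.charDegree (θ : Subgroup.centralizer (Q : Set G) → ℂ)).factorization p + (Nat.card ↥(Q ⊓ Subgroup.centralizer (Q : Set G))).factorization p = (Nat.card (Subgroup.centralizer (Q : Set G))).factorization p ∧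
        (∀ g : G, g ∈ Subgroup.normalizer (Q : Set G) → Cfsg.StabilizesBlock (Subgroup.centralizer (Q : Set G)) e g → (∃ k : ℕ, orderOf g = p ^ k) → g ∈ Q ⊔ Subgroup.centralizer (Q : Set G)) := by
  have hb := bp_of_isBrauerPair hM he
  have hT := hb.bIdem_NP hM le_top
  have hQT : Q ≤ NP ⊤ Q (sidem hM _ e) := hb.le_NP le_top
  have hCT : Subgroup.centralizer (Q : Set G) ≤ NP ⊤ Q (sidem hM _ e) :=
    (le_inf le_top le_rfl).trans hb.inf_centralizer_le_NP
  have hZ : (Q ⊓ Subgroup.centralizer (Q : Set G)).subgroupOf (Subgroup.centralizer (Q : Set G)) ≤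
      Subgroup.center _ :=
    fun z hz => Subgroup.mem_center_iff.2 fun c => Subtype.ext (c.2 z hz.1).symm
  have hZn : ((Q ⊓ Subgroup.centralizer (Q : Set G)).subgroupOf
      (Subgroup.centralizer (Q : Set G))).Normal := ⟨fun z hz g => by
    rw [Subgroup.mem_center_iff.1 (hZ hz) g, mul_inv_cancel_right]; exact hz⟩
  rw [← card_subgroupOf_of_le (inf_le_right : Q ⊓ Subgroup.centralizer (Q : Set G) ≤ _)]
  constructor
  · rintro ⟨B, hmax⟩
    have h := IsMaximalBrauerPair.maxBP' hM hmax
    have h1 := (h.defGrp_NP hM).inf_of_br_ne_zero hM hCT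
      (NP_le_normalizer.trans (normalizer_le_normalizer_centralizer Q)) hT.toCIdem hb.bidem_top
      (by rw [hb.idem]; exact hb.ne_zero) (by rw [hb.br_of_le inf_le_left]; exact hb.ne_zero)
    obtain ⟨θ, hθ, h2, h3⟩ := exists_ker_defect_zero_of_central hM hZ he.2
      ((isDefectGroup_subgroupOf_iff_defGrp hM he.2 inf_le_right).2 h1)
    refine ⟨θ, hθ, fun z hz => ker_apply_eq (h2 ⟨hz, z.2⟩), h3, fun g h4 h5 h6 => ?_⟩
    have h7 := h.mem_sup_of_isPElt hM ((stabilizes_iff_mem_NP hM he.2).1 ⟨h4, h5⟩) h6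
    rwa [top_inf_eq] at h7
  · rintro ⟨θ, hθ, h1, h2, h3⟩
    have h4 := (isDefectGroup_subgroupOf_iff_defGrp hM he.2 inf_le_right).1
      (isDefectGroup_of_ker_defect_zero hM ((hb.pgroup.to_le inf_le_left).comap_subtype) hZ he.2 hθ
        (@le_ker_irr_of_forall_apply_eq _ _ _ hZn _ θ fun z hz => h1 z hz.1) h2)
    obtain ⟨D, hD⟩ := hT.exists_defGrp hM
    have hQD := hT.le_defGrp hM hQT NP_le_normalizer hb.pgroup hD
    have h5 := h4.eq_of_le inf_le_right (hD.pgroup.to_le inf_le_left)
      (hD.br_ne_of_le inf_le_left) (inf_le_inf_right _ hQD)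
    have h6 : D = Q := by
      refine le_antisymm (fun d hd => ?_) hQD
      have h7 := (stabilizes_iff_mem_NP hM he.2).2 (hD.le hd)
      obtain ⟨u, hu, c, hc, rfl⟩ := (mem_sup_of_le_normalizer_right
        (Subgroup.le_normalizer.trans (normalizer_le_normalizer_centralizer Q))).1
        (h3 d h7.1 h7.2 (isPElt_of_mem hD.pgroup hd))
      have h8 : c ∈ D ⊓ Subgroup.centralizer (Q : Set G) :=
        ⟨(D.mul_mem_cancel_left (hQD hu)).1 hd, hc⟩
      rw [h5] at h8
      exact Q.mul_mem hu h8.1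
    obtain ⟨b, hb1, hb2⟩ := hb.exists_block hM le_top
    obtain ⟨B, hB, rfl⟩ := hb1.exists_block_top hM
    exact ⟨B, (isMaximalBrauerPair_iff hM).2 ⟨(isBrauerPairOf_iff hM).2 ⟨he, hB, hb2⟩,
      maxBP_of_defGrp_NP hM hb (h6 ▸ hD)⟩⟩

end Cfsg.Agent.S4828
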