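import Cfsg.Statements.S4840
import Cfsg.Agent.Lib.Char.Gagola
import Cfsg.Agent.Lib.Grp.CycAb
import Cfsg.Agent.Lib.Grp.Frob

set_option autoImplicit false
open Cfsg

namespace Cfsg.Agent.S4840

open CT GT Subgroup

theorem relIndex_normalizer {G : Type*} [Group G] [Finite G] {χ : IrrCharacter G} {N : Subgroup G}
    (h : IsGagola χ N) {p : ℕ} [Fact p.Prime] (hN : IsPGroup p N) {x : G} (hx : x ∈ N)
    (hx1 : x ≠ 1) : (centralizer ({x} : Set G)).relIndex
      (normalizer ((centralizer ({x} : Set G) : Subgroup G) : Set G)) + 1 =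
        Nat.card ↥(N ⊓ centralizer ((centralizer ({x} : Set G) : Subgroup G) : Set G)) := by
  classical
  have hP := h.isSylowIn_centralizer hN hx hx1
  set P := centralizer ({x} : Set G) with hPdef
  have hxP : x ∈ P := mem_centralizer_singleton_iff.2 rfl
  have hxC : x ∈ centralizer (P : Set G) := fun g hg => mem_centralizer_singleton_iff.1 hg
  set L := normalizer (P : Set G) with hL
  have hxL : x ∈ L := le_normalizer hxP
  have h1 : P.subgroupOf L = centralizer {(⟨x, hxL⟩ : L)} := by
    ext g
    rw [mem_subgroupOf, mem_centralizer_singleton_iff, mem_centralizer_singleton_iff, Subtype.ext_iff]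
    rfl
  rw [relIndex, h1, ← card_conj_eq_index]
  have e : {y : L // IsConj (⟨x, hxL⟩ : L) y} ≃ {n : ↥(N ⊓ centralizer (P : Set G)) // n ≠ 1} :=
    { toFun := fun y => ⟨⟨y.1, by
          obtain ⟨c, hc⟩ := isConj_iff.1 y.2
          rw [← hc]
          exact ⟨h.normal.conj_mem _ hx c, conj_mem_of_mem_normalizer
            (normalizer_le_normalizer_centralizer P c.2) hxC⟩⟩, fun e => by
          have e' : y.1 = 1 := Subtype.ext (congrArg Subtype.val e :)
          have := y.2
          rw [e'] at this
          exact hx1 (congrArg Subtype.val (isConj_one_left.1 this))⟩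
      invFun := fun n => ⟨⟨n.1.1, centralizer_le_normalizer _ n.1.2.2⟩, by
        obtain ⟨c, hc⟩ := isConj_iff.1 (h.isConj x hx _ n.1.2.1 hx1 fun e => n.2 (Subtype.ext e))
        obtain ⟨m, hm, hm'⟩ := exists_mem_normalizer_conj_eq_of_mem_centralizer hP.toSylowTop
          (g := c) hxC (hc ▸ n.1.2.2)
        exact isConj_iff.2 ⟨⟨m, hm⟩, Subtype.ext (hm'.trans hc)⟩⟩
      left_inv := fun _ => rfl
      right_inv := fun _ => rfl }
  rw [Nat.card_congr e]
  have := Fintype.ofFinite ↥(N ⊓ centralizer (P : Set G))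
  rw [Nat.card_eq_fintype_card, Nat.card_eq_fintype_card, Fintype.card_subtype_compl,
    Fintype.card_subtype_eq]
  have : 0 < Fintype.card ↥(N ⊓ centralizer (P : Set G)) := Fintype.card_pos
  omega

/-- Let G be a finite solvable group of order greater than 2 with an irreducible character nonzero on exactly two conjugacy classes. Then there is exactly one prime p with O_p(G) ≠ 1, and the quotient G/O_p(G) has a normal p-complement and commutative Sylow p-subgroups. -/
theorem result {G : Type*} [Group G] [Finite G] [hs : Group.IsSolvable G] (hG : 2 < Nat.card G) (χ : Cfsg.IrrCharacter G) (hχ : Nat.card {C : ConjClasses G // ∃ g ∈ C.carrier, (χ : G → ℂ) g ≠ 0} = 2) :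
    ∃ p : ℕ, p.Prime ∧ (∀ q : ℕ, q.Prime → (Cfsg.pCore q G ≠ ⊥ ↔ q = p)) ∧
      Cfsg.HasNormalPComplement p (G ⧸ Cfsg.pCore p G) ∧ ∀ Q : Sylow p (G ⧸ Cfsg.pCore p G), IsMulCommutative (Q : Subgroup (G ⧸ Cfsg.pCore p G)) := by
  obtain ⟨N, h⟩ := exists_isGagola hG χ hχ
  obtain ⟨p, hp, hN⟩ := h.exists_isPGroup
  have : Fact p.Prime := ⟨hp⟩
  have := h.normal
  have hO := isPGroup_pCore p G
  have hs := QuotientGroup.mk'_surjective (pCore p G)
  have key : ¬ p ∣ Nat.card (commutator (G ⧸ pCore p G)) := by
    obtain ⟨x, hx, hx1⟩ := h.exists_mem_ne_one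
    have hP := h.isSylowIn_centralizer hN hx hx1
    have h1 := relIndex_normalizer h hN hx hx1
    obtain ⟨a, ha⟩ := (hN.to_le (inf_le_left (b := centralizer
      ((centralizer ({x} : Set G) : Subgroup G) : Set G)))).exists_card_eq
    rw [ha] at h1
    refine not_dvd_card_commutator_of_isCyclic (pCore_quotient_pCore p G) (fun A hA hpA => ?_)
      (hP.map_top_of_surjective hs) (a := a) ?_
    · obtain ⟨K, h2, h3, h4, h5⟩ := exists_complement_in (le_comap_mk' (pCore p G) A)
        le_normalizer_of_normal (hO.coprime_card (by rwa [relIndex_comap_mk']))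
      rw [relIndex_comap_mk'] at h5
      have h6 : K.map (QuotientGroup.mk' (pCore p G)) = A := by
        rw [← map_comap_eq_self_of_surjective hs A, ← h3, Subgroup.map_sup,
          map_mk'_eq_bot_iff.2 le_rfl, bot_sup_eq]
      have h7 : IsMulCommutative K := isMulCommutative_iff_forall.2 fun a ha b hb => by
        rw [← commutatorElement_eq_one_iff_mul_comm, ← mem_bot, ← h4.eq_bot]
        refine mem_inf.2 ⟨?_, commutator_le_self K (commutator_mem_commutator ha hb)⟩
        rw [← QuotientGroup.eq_one_iff, ← QuotientGroup.mk'_apply,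
          map_commutatorElement, commutatorElement_eq_one_iff_mul_comm]
        exact isMulCommutative_iff_forall.1 hA _ (h2 ha) _ (h2 hb)
      have h8 : FrobAct K N := ⟨le_normalizer_of_normal, fun y hy hy1 n hn e => by
        by_contra hn1
        exact hy1 (h.eq_one_of_isPRegular_of_commute hN hn hn1
          (isPRegular_of_mem (h5 ▸ hpA) hy) e)⟩
      have := h8.isCyclic_of_isMulCommutative h.ne_bot (le_refl K)
      rw [← h6]
      exact isCyclic_of_surjective _ ((QuotientGroup.mk' (pCore p G)).subgroupMap_surjective K)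
    · have h2 : pCore p G ≤ centralizer ({x} : Set G) := pCore_le_sylow hP.toSylowTop
      rw [← relIndex_comap_comap_of_surjective hs, comap_normalizer_eq_of_surjective _ hs,
        comap_map_mk'_of_le h2, h1]
  refine ⟨p, hp, fun q hq => ⟨fun hq1 => ?_, ?_⟩, ?_, fun Q => ?_⟩
  · have : Fact q.Prime := ⟨hq⟩
    obtain ⟨k, hk⟩ := hN.exists_card_eq
    exact (Nat.prime_dvd_prime_iff_eq hq hp).1 (hq.dvd_of_dvd_pow (hk ▸ h.dvd_card
      ((isPGroup_pCore q G).to_le (h.le_of_normal _ hq1))))
  · rintro rfl e
    exact h.ne_bot (le_bot_iff.1 (e ▸ le_pCore hN))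
  · have : IsMulCommutative ((G ⧸ pCore p G) ⧸ commutator (G ⧸ pCore p G)) :=
      Normal.quotient_commutative_iff_commutator_le.2 le_rfl
    have := isNilpotent_of_isMulCommutative (G := (G ⧸ pCore p G) ⧸ commutator (G ⧸ pCore p G))
    exact hasNormalPComplement_of_quotient_of_not_dvd _ key hasNormalPComplement_of_isNilpotent
  · refine isMulCommutative_iff_forall.2 fun a ha b hb => ?_
    rw [← commutatorElement_eq_one_iff_mul_comm, ← mem_bot,
      ← (isSylowIn_inf_of_normal Q _).eq_bot_iff.2 key]
    exact ⟨commutator_le_self _ (commutator_mem_commutator ha hb),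
      commutator_mem_commutator (mem_top a) (mem_top b)⟩

end Cfsg.Agent.S4840
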