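import Cfsg.Statements.S4841
import Cfsg.Agent.Lib.Her.Two

set_option autoImplicit false
open Cfsg

namespace Cfsg.Agent.S4841

/-- Let G be a finite non-solvable group with an irreducible character nonzero on exactly two conjugacy classes. Then O_p(G) ≠ 1 for exactly one prime p, and H = G/O_p(G) has one of the following shapes: (i) H has a normal subgroup S isomorphic to SL₂(F) for a finite field F of characteristic p with more than 2 elements, with H/S a cyclic p-group and C_H(S) = Z(S); (ii) p = 3 and H has a normal subgroup S of index 2 isomorphic to SL₂(5) with C_H(S) = Z(S) and no complement in H; (iii) p = 3 and H ≅ SL₂(13); (iv) p = 11 and H ≅ SL₂(5); (v) p = 29 and H ≅ SL₂(5) × C₇; (vi) p = 59 and H ≅ SL₂(5) × C₂₉. -/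
theorem result {G : Type*} [Group G] [Finite G] (hns : ¬ Group.IsSolvable G) (χ : Cfsg.IrrCharacter G) (hχ : Nat.card {C : ConjClasses G // ∃ g ∈ C.carrier, (χ : G → ℂ) g ≠ 0} = 2) :
    ∃ p : ℕ, p.Prime ∧ (∀ q : ℕ, q.Prime → (Cfsg.pCore q G ≠ ⊥ ↔ q = p)) ∧
      ((∃ (F : Type) (_ : Field F) (_ : Fintype F), (∃ a : ℕ, Fintype.card F = p ^ a) ∧ 2 < Fintype.card F ∧
          ∃ S : Subgroup (G ⧸ Cfsg.pCore p G), S.Normal ∧ Nonempty (S ≃* Matrix.SpecialLinearGroup (Fin 2) F) ∧ (∃ k : ℕ, S.index = p ^ k) ∧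
            (∃ h : (G ⧸ Cfsg.pCore p G), S ⊔ Subgroup.zpowers h = ⊤) ∧ Subgroup.centralizer (S : Set (G ⧸ Cfsg.pCore p G)) = (Subgroup.center S).map S.subtype) ∨
       (p = 3 ∧ ∃ S : Subgroup (G ⧸ Cfsg.pCore p G), S.Normal ∧ S.index = 2 ∧ Nonempty (S ≃* Matrix.SpecialLinearGroup (Fin 2) (ZMod 5)) ∧
            Subgroup.centralizer (S : Set (G ⧸ Cfsg.pCore p G)) = (Subgroup.center S).map S.subtype ∧ ∀ K : Subgroup (G ⧸ Cfsg.pCore p G), ¬ Subgroup.IsComplement' S K) ∨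
       (p = 3 ∧ Nonempty ((G ⧸ Cfsg.pCore p G) ≃* Matrix.SpecialLinearGroup (Fin 2) (ZMod 13))) ∨
       (p = 11 ∧ Nonempty ((G ⧸ Cfsg.pCore p G) ≃* Matrix.SpecialLinearGroup (Fin 2) (ZMod 5))) ∨
       (p = 29 ∧ Nonempty ((G ⧸ Cfsg.pCore p G) ≃* Matrix.SpecialLinearGroup (Fin 2) (ZMod 5) × Multiplicative (ZMod 7))) ∨
       (p = 59 ∧ Nonempty ((G ⧸ Cfsg.pCore p G) ≃* Matrix.SpecialLinearGroup (Fin 2) (ZMod 5) × Multiplicative (ZMod 29)))) :=
  Her.pk.main hns χ hχ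

end Cfsg.Agent.S4841
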