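import Cfsg.Statements.S4843
import Cfsg.Agent.Lib.Lin.Average

set_option autoImplicit false
open Cfsg
open scoped commutatorElement

namespace Cfsg.Agent.S4843

/-- Let G be a finite group with a faithful irreducible character χ (taking the value χ(1) only at the identity) and let k be prime to the order of G, so that g ↦ χ(g^k) is a Galois conjugate of χ. If the pointwise product g ↦ χ(g)·χ(g^k) is again an irreducible character, then the Fitting subgroup of G equals its centre. -/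
theorem result {G : Type*} [Group G] [Finite G] (χ : Cfsg.IrrCharacter G) (hfaith : ∀ g : G, (χ : G → ℂ) g = (χ : G → ℂ) 1 → g = 1) (k : ℕ) (hk : Nat.Coprime k (Nat.card G)) (hirr : Cfsg.IsIrrCharacter G (fun g => (χ : G → ℂ) g * (χ : G → ℂ) (g ^ k))) : Cfsg.fittingSubgroup G = Subgroup.center G := by
  classical
  have := Fintype.ofFinite G
  have hχ := χ.2.isCharacter
  have hker : CT.ker χ.1 = ⊥ := hχ.ker_eq_bot_iff.2 hfaith
  have hZ := CT.irr_center_eq_of_faithful χ hker
  refine le_antisymm ?_ GT.center_le_fitting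
  by_contra hle
  have := GT.isNilpotent_map (Cfsg.fittingSubgroup G) (QuotientGroup.mk' (Subgroup.center G))
  obtain ⟨M, hM, -, p, -, hab, -⟩ := GT.exists_isMinNormal_isElementaryAbelian_le
    (Subgroup.Normal.map (inferInstance : (Cfsg.fittingSubgroup G).Normal) _
      (QuotientGroup.mk'_surjective (Subgroup.center G))) (mt GT.map_mk'_eq_bot_iff.1 hle)
  have := hM.normal
  set N := M.comap (QuotientGroup.mk' (Subgroup.center G)) with hN
  have hNN : ∀ a ∈ N, ∀ b ∈ N, ⁅a, b⁆ ∈ Subgroup.center G := fun a ha b hb =>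
    (QuotientGroup.eq_one_iff _).1 (by
      rw [← QuotientGroup.mk'_apply, map_commutatorElement, commutatorElement_eq_one_iff_mul_comm]
      exact setLike_mul_comm (s := M) ha hb)
  obtain ⟨⟨n', hn'⟩, hn1⟩ := Subgroup.ne_bot_iff_exists_ne_one.1 hM.ne_bot
  obtain ⟨n, rfl⟩ := QuotientGroup.mk'_surjective _ n'
  have hn : n ∈ N := hn'
  refine hn1 (Subtype.ext ((QuotientGroup.eq_one_iff n).2 ?_))
  have hroot : ∀ x : G, x ∈ Subgroup.zpowers (x ^ k) := fun x =>
    mem_zpowers_pow_iff.2 (hk.coprime_dvd_right (orderOf_dvd_natCard x))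
  suffices h : n ^ k ∈ Subgroup.center G from Subgroup.zpowers_le.2 h (hroot n)
  set y := n ^ k with hy
  have hyN : y ∈ N := N.pow_mem hn k
  have h1 := CT.sum_irr_conjugate_mul χ y y⁻¹
  have h2 := LG.sum_conj_of_isIrr_comp (hχ.prodFun (hχ.powFun hk))
    ((MonoidHom.id G).prod (MonoidHom.id G)) hirr (y, n⁻¹) (y⁻¹, n)
  simp only [CT.prodFun_apply, CT.powFun_apply, MonoidHom.prod_apply, MonoidHom.id_apply,
    Prod.mk_mul_mk, Prod.inv_mk, Prod.fst_one, Prod.snd_one, one_pow, inv_pow, ← hy] at h2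
  have h3 : ∀ g : G, χ.1 (g * y * g⁻¹ * y⁻¹) * χ.1 ((g * n⁻¹ * g⁻¹ * n) ^ k) =
      χ.1 (g * y * g⁻¹ * y⁻¹) * (starRingEnd ℂ) (χ.1 (g * y * g⁻¹ * y⁻¹)) := fun g => by
    by_cases h0 : χ.1 (g * y * g⁻¹ * y⁻¹) = 0
    · rw [h0, zero_mul, zero_mul]
    have hx : g * y * g⁻¹ * y⁻¹ ∈ N := N.mul_mem (Subgroup.Normal.conj_mem inferInstance y hyN g)
      (N.inv_mem hyN)
    have c1 : Commute y (g * y * g⁻¹ * y⁻¹) := by
      by_contra hc
      refine h0 (hχ.apply_eq_zero_of_commutator (x := y) (hZ ▸ hNN _ hyN _ hx) fun hm => hc ?_)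
      rwa [hker, Subgroup.mem_bot, commutatorElement_eq_one_iff_commute] at hm
    have c2 : Commute y ((g * n * g⁻¹) ^ k) := by
      have := c1.mul_right (Commute.refl y)
      rwa [inv_mul_cancel_right, hy, ← conj_pow] at this
    have c3 : Commute (g * n * g⁻¹) n := GT.commute_of_mem_zpowers (hroot _)
      (GT.commute_of_mem_zpowers (hroot n) c2).symm
    have e : (g * n⁻¹ * g⁻¹ * n) ^ k = y⁻¹ * (g * y * g⁻¹ * y⁻¹)⁻¹ * y⁻¹⁻¹ := by
      rw [show g * n⁻¹ * g⁻¹ = (g * n * g⁻¹)⁻¹ by group, c3.inv_left.mul_pow, inv_pow, conj_pow,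
        ← hy]
      group
    rw [e, hχ.isClassFunction, hχ.apply_inv]
  simp only [h3] at h2
  have hd : (0 : ℝ) < Cfsg.charDegree χ.1 := by exact_mod_cast CT.irr_degree_pos χ
  have hc := LG.eq_of_sum_of_sum_sq (fun g => χ.1 (g * y * g⁻¹ * y⁻¹))
    (c := ‖χ.1 y‖ ^ 2 / Cfsg.charDegree χ.1)
    (by
      rw [h1, hχ.apply_inv, hχ.apply_one, mul_assoc, Complex.mul_conj', Nat.card_eq_fintype_card]
      push_cast; ring)
    (by
      rw [h2, hχ.apply_inv, hχ.apply_one, mul_comm ((starRingEnd ℂ) _), Complex.mul_conj',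
        Nat.card_eq_fintype_card]
      push_cast; ring)
  refine Subgroup.mem_center_iff.2 fun g => ?_
  have := hfaith _ ((hc g).trans ((hc 1).symm.trans (by simp)))
  rwa [mul_inv_eq_one, mul_inv_eq_iff_eq_mul] at this

end Cfsg.Agent.S4843
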