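import Cfsg.Statements.S4845
import Cfsg.Agent.Lib.Char.DegGraph

set_option autoImplicit false
open Cfsg

namespace Cfsg.Agent.S4845

open CT
open scoped commutatorElement

universe u

theorem pow_mem_center {G : Type*} [Group G] {y : G} {n : ℕ}
    (h1 : ∀ h, ⁅y, h⁆ ∈ Subgroup.center G) (h2 : ∀ h : G, ⁅y, h⁆ ^ n = 1) :
    y ^ n ∈ Subgroup.center G := by
  rw [Subgroup.mem_center_iff]
  intro h
  have key : ∀ k : ℕ, y ^ k * h = ⁅y, h⁆ ^ k * h * y ^ k := by
    intro k
    induction k with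
    | zero => simp
    | succ k ih =>
      have h3 := Subgroup.mem_center_iff.1 ((Subgroup.center G).pow_mem (h1 h) k) y
      calc y ^ (k + 1) * h = y * (y ^ k * h) := by rw [pow_succ', mul_assoc]
        _ = ⁅y, h⁆ ^ k * (y * h) * y ^ k := by rw [ih, ← mul_assoc, ← mul_assoc, h3, mul_assoc _ y]
        _ = _ := by rw [pow_succ, pow_succ', commutatorElement_def]; group
  rw [key, h2, one_mul]

theorem normal_of_le_center {G : Type*} [Group G] {Z : Subgroup G} (h : Z ≤ Subgroup.center G) :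
    Z.Normal :=
  ⟨fun z hz g => by rwa [Subgroup.mem_center_iff.1 (h hz) g, mul_inv_cancel_right]⟩

def GC (G : Type*) [Group G] : Prop :=
  ∀ χ ψ : IrrCharacter G, charDegree χ.1 ≠ 1 → charDegree χ.1 = charDegree ψ.1 →
    ∃ k : ℕ, Nat.Coprime k (Nat.card G) ∧ ∀ g : G, ψ.1 g = χ.1 (g ^ k)

variable {G : Type*} [Group G] [Finite G] {p : ℕ} [hp : Fact p.Prime]

omit [Finite G] in
theorem GC.quot (h : GC G) (N : Subgroup G) [N.Normal] : GC (G ⧸ N) := by
  intro χ ψ h1 h2
  obtain ⟨k, hk, e⟩ := h (inflate N χ) (inflate N ψ) (by simpa) (by simpa)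
  refine ⟨k, hk.coprime_dvd_right (Subgroup.card_quotient_dvd_card N), fun g => ?_⟩
  obtain ⟨g, rfl⟩ := QuotientGroup.mk_surjective g
  simpa using e g

theorem GC.ker_le (h : GC G) {χ ψ : IrrCharacter G} (h1 : charDegree χ.1 ≠ 1)
    (h2 : charDegree χ.1 = charDegree ψ.1) : ker χ.1 ≤ ker ψ.1 := by
  obtain ⟨k, -, e⟩ := h χ ψ h1 h2
  intro g hg
  rw [irr_mem_ker_iff, e, e, one_pow]
  exact ker_apply_eq ((ker χ.1).pow_mem hg k)

theorem GC.ker_eq (h : GC G) {χ ψ : IrrCharacter G} (h1 : charDegree χ.1 ≠ 1)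
    (h2 : charDegree χ.1 = charDegree ψ.1) : ker χ.1 = ker ψ.1 :=
  le_antisymm (h.ker_le h1 h2) (h.ker_le (h2 ▸ h1) h2.symm)

theorem le_of_card_eq (hG : IsPGroup p G) [IsCyclic (Subgroup.center G)] {N M : Subgroup G}
    (hN : N ≤ Subgroup.center G) (hc : Nat.card N = p) [M.Normal] (hM : M ≠ ⊥) : N ≤ M := by
  rcases GT.le_total_of_isCyclic (hG.to_subgroup _) hN (inf_le_right (a := M)) with h | h
  · exact h.trans inf_le_left
  · rw [← (GT.eq_bot_or_eq_of_card_prime (hc ▸ hp.out) h).resolve_left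
      (GT.inf_center_ne_bot_of_isPGroup hG hM)]
    exact inf_le_left

theorem comm_le (hG : IsPGroup p G) {N : Subgroup G} [N.Normal] (hc : Nat.card N = p) :
    N ≤ Subgroup.center G := by
  have := hG.isNilpotent
  exact (GT.isMinNormal_of_card_prime (hc ▸ hp.out)).le_center_of_isNilpotent

theorem faithful (hG : IsPGroup p G) [IsCyclic (Subgroup.center G)]
    (hc : Nat.card (commutator G) = p) {χ : IrrCharacter G} (h1 : charDegree χ.1 ≠ 1) :
    ker χ.1 = ⊥ := by
  by_contra h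
  exact h1 ((irr_degree_eq_one_iff_commutator_le_ker χ).2 (le_of_card_eq hG (comm_le hG hc) hc h))

theorem quot_struct (hG : IsPGroup p G) {N : Subgroup G} [N.Normal] (hN : Nat.card N = p)
    [hZ : IsCyclic (Subgroup.center (G ⧸ N))] (hc : Nat.card (commutator (G ⧸ N)) = p) :
    ∃ χ : IrrCharacter G, ker χ.1 = N ∧ charDegree χ.1 ≠ 1 ∧
      center χ.1 = (Subgroup.center (G ⧸ N)).comap (QuotientGroup.mk' N) ∧
      charDegree χ.1 ^ 2 = (center χ.1).index ∧
      (Subgroup.center G).relIndex (center χ.1) ∣ p := by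
  have hQ := hG.to_quotient N
  obtain ⟨ψ, hψ⟩ : ∃ ψ : IrrCharacter (G ⧸ N), charDegree ψ.1 ≠ 1 := by
    by_contra h
    push Not at h
    rw [commutator_eq_bot_iff_forall_degree_one.2 h, Subgroup.card_bot] at hc
    exact hp.out.one_lt.ne hc
  have h1 := faithful hQ hc hψ
  have h2 : center (inflate N ψ).1 = (Subgroup.center (G ⧸ N)).comap (QuotientGroup.mk' N) := by
    rw [center_inflate, irr_center_eq_of_faithful ψ h1]
  refine ⟨inflate N ψ, by rw [ker_inflate, h1, MonoidHom.comap_bot, QuotientGroup.ker_mk'],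
    by simpa, h2, ?_, ?_⟩
  · rw [h2, GT.index_comap_mk', charDegree_inflate, ← irr_center_eq_of_faithful ψ h1]
    exact irr_degree_sq_eq_index_center_of_commutator_le ψ
      ((comm_le hQ hc).trans (center_le_center_irr ψ))
  · obtain ⟨a, ha⟩ := GT.isCyclic_iff_exists_zpowers_eq.1 hZ
    obtain ⟨y, rfl⟩ := QuotientGroup.mk_surjective a
    have h3 : ∀ h, ⁅y, h⁆ ∈ N := fun h => by
      have h4 : (y : G ⧸ N) ∈ Subgroup.center (G ⧸ N) := ha ▸ Subgroup.mem_zpowers _
      rw [← QuotientGroup.eq_one_iff, ← QuotientGroup.mk'_apply, map_commutatorElement,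
        commutatorElement_eq_one_iff_mul_comm]
      exact (Subgroup.mem_center_iff.1 h4 _).symm
    have h4 : y ^ p ∈ Subgroup.center G := pow_mem_center (fun h => comm_le hG hN (h3 h))
      fun h => by
        rw [← hN]; exact congrArg Subtype.val (pow_card_eq_one' (x := (⟨_, h3 h⟩ : N)))
    have h5 : center (inflate N ψ).1 ≤ Subgroup.zpowers y ⊔ Subgroup.center G := by
      rw [h2, ← ha, ← QuotientGroup.mk'_apply, ← MonoidHom.map_zpowers, GT.comap_map_mk'_eq]
      exact sup_le_sup_left (comm_le hG hN) _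
    refine (GT.relIndex_dvd_of_le_right h5).trans ?_
    rw [Subgroup.relIndex_sup_right, ← GT.card_map_mk', MonoidHom.map_zpowers,
      Nat.card_zpowers, orderOf_dvd_iff_pow_eq_one, ← map_pow, QuotientGroup.mk'_apply,
      QuotientGroup.eq_one_iff]
    exact h4

theorem parity {a b r s : ℕ} (hr : r ∣ p) (hs : s ∣ p) (h : (p ^ a) ^ 2 * r = (p ^ b) ^ 2 * s) :
    a = b := by
  obtain ⟨i, hi, rfl⟩ := (Nat.dvd_prime_pow hp.out (m := 1) (i := r)).1 (by rwa [pow_one])
  obtain ⟨j, hj, rfl⟩ := (Nat.dvd_prime_pow hp.out (m := 1) (i := s)).1 (by rwa [pow_one])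
  rw [← pow_mul, ← pow_mul, ← pow_add, ← pow_add] at h
  have := Nat.pow_right_injective hp.out.two_le h
  omega

theorem index_center_eq (χ : IrrCharacter G) (h : charDegree χ.1 ^ 2 = (center χ.1).index) :
    charDegree χ.1 ^ 2 * (Subgroup.center G).relIndex (center χ.1) =
      (Subgroup.center G).index := by
  rw [h, mul_comm, Subgroup.relIndex_mul_index (center_le_center_irr χ)]

theorem geom (n : ℕ) : p * ∑ j ∈ Finset.range n, (p ^ j) ^ 2 < (p ^ n) ^ 2 := by
  have h2 := hp.out.two_le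
  induction n with
  | zero => simp
  | succ n ih =>
    rw [Finset.sum_range_succ, mul_add, pow_succ p n, mul_pow]
    have h3 : p + 1 ≤ p ^ 2 := by nlinarith
    have h4 := Nat.mul_le_mul_left ((p ^ n) ^ 2) h3
    nlinarith

omit [Finite G] in
theorem card_le (h : GC G) (hG : p ∣ Nat.card G) (he : ∀ g : G, g ^ p ^ 3 = 1)
    (s : Finset (IrrCharacter G)) {d : ℕ} (hd : d ≠ 1) (hs : ∀ χ ∈ s, charDegree χ.1 = d) :
    s.card ≤ p ^ 2 * (p - 1) := by
  classical
  rcases s.eq_empty_or_nonempty with rfl | ⟨χ, hχ⟩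
  · simp
  have h1 : ∀ ψ : IrrCharacter G, ∃ k, ψ ∈ s →
      k ∈ (Finset.range (p ^ 3)).filter (p ^ 3).Coprime ∧ ∀ g, ψ.1 g = χ.1 (g ^ k) := by
    intro ψ
    by_cases hψ : ψ ∈ s
    · obtain ⟨k, hk, e⟩ := h χ ψ (hs χ hχ ▸ hd) ((hs χ hχ).trans (hs ψ hψ).symm)
      refine ⟨k % p ^ 3, fun _ => ⟨Finset.mem_filter.2 ⟨Finset.mem_range.2
        (Nat.mod_lt _ (pow_pos hp.out.pos 3)), ?_⟩, fun g => ?_⟩⟩
      · rw [Nat.coprime_comm, Nat.Coprime, ← Nat.gcd_rec]
        exact Nat.Coprime.pow_left 3 (hk.coprime_dvd_right hG).symm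
      · rw [e, ← pow_eq_pow_mod k (he g)]
    · exact ⟨0, fun h => absurd h hψ⟩
  choose f hf using h1
  have h2 := Finset.card_le_card_of_injOn (s := s) f (fun ψ hψ => (hf ψ hψ).1)
    fun ψ hψ ξ hξ e => Subtype.ext (funext fun g => by rw [(hf ψ hψ).2, (hf ξ hξ).2, e])
  rwa [← Nat.totient_eq_card_coprime, Nat.totient_prime_pow hp.out (by norm_num)] at h2

theorem main (G : Type u) [Group G] [Finite G] : IsPGroup p G → commutator G ≠ ⊥ → GC G →
    IsCyclic (Subgroup.center G) ∧ Nat.card (commutator G) = p := by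
  refine GT.induction_on_card (P := fun G _ _ => IsPGroup p G → commutator G ≠ ⊥ → GC G →
    IsCyclic (Subgroup.center G) ∧ Nat.card (commutator G) = p) ?_ G
  intro G _ _ ih hG hne h
  classical
  have key : ∀ (N : Subgroup G) [N.Normal], Nat.card N = p → ¬ commutator G ≤ N →
      IsCyclic (Subgroup.center (G ⧸ N)) ∧ Nat.card (commutator (G ⧸ N)) = p := by
    intro N _ hN h1
    refine ih (G ⧸ N) (GT.card_quotient_lt fun e => ?_) (hG.to_quotient N) ?_ (h.quot N)
    · rw [e, Subgroup.card_bot] at hN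
      exact hp.out.one_lt.ne hN
    · rwa [← map_mk'_commutator, Ne, GT.map_mk'_eq_bot_iff]
  have hZ : IsCyclic (Subgroup.center G) := by
    by_contra hZ
    have two : ∀ N M : Subgroup G, N ≤ Subgroup.center G → M ≤ Subgroup.center G →
        Nat.card N = p → Nat.card M = p → Disjoint N M → commutator G ≤ N ∨ commutator G ≤ M := by
      intro N M hN hM hNc hMc hd
      have := normal_of_le_center hN
      have := normal_of_le_center hM
      by_contra h1
      rw [not_or] at h1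
      obtain ⟨_, h2⟩ := key N hNc h1.1
      obtain ⟨_, h3⟩ := key M hMc h1.2
      obtain ⟨χ, hχ, hχ1, -, hχ2, hχ3⟩ := quot_struct hG hNc h2
      obtain ⟨ψ, hψ, hψ1, -, hψ2, hψ3⟩ := quot_struct hG hMc h3
      obtain ⟨a, ha⟩ := exists_degree_eq_pow_of_isPGroup hG χ
      obtain ⟨b, hb⟩ := exists_degree_eq_pow_of_isPGroup hG ψ
      have h4 := (index_center_eq χ hχ2).trans (index_center_eq ψ hψ2).symm
      rw [ha, hb] at h4
      have h5 := h.ker_eq hχ1 (ψ := ψ) (by rw [ha, hb, parity hχ3 hψ3 h4])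
      rw [hχ, hψ] at h5
      rw [h5, disjoint_self] at hd
      rw [hd, Subgroup.card_bot] at hMc
      exact hp.out.one_lt.ne hMc
    obtain ⟨x, hx, y, hy, hxp, hyp, hy1, hxy⟩ :=
      GT.exists_pair_of_not_isCyclic_of_isPGroup (hG.to_subgroup _) hZ
    have hx1 : x ≠ 1 := fun e => hxy (e ▸ one_mem _)
    have hc : Commute x y := (Subgroup.mem_center_iff.1 hx y).symm
    have hxyp : (x * y) ^ p = 1 := by rw [hc.mul_pow, hxp, hyp, one_mul]
    have hxy' : x * y ∉ Subgroup.zpowers y := fun e => hxy (by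
      simpa using mul_mem e (inv_mem (Subgroup.mem_zpowers y)))
    have hxy1 : x * y ≠ 1 := fun e => hxy' (e ▸ one_mem _)
    have d1 := GT.disjoint_zpowers_of_notMem hxp hxy
    have d2 := GT.disjoint_zpowers_of_notMem hxyp hxy'
    have d3 : Disjoint (Subgroup.zpowers (x * y)) (Subgroup.zpowers x) :=
      GT.disjoint_zpowers_of_notMem hxyp fun e => hy1 (Subgroup.disjoint_def.1 d1 (by
        simpa using mul_mem (inv_mem (Subgroup.mem_zpowers x)) e) (Subgroup.mem_zpowers y))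
    have c1 := GT.card_zpowers_of_pow_eq_one hxp hx1
    have c2 := GT.card_zpowers_of_pow_eq_one hyp hy1
    have c3 := GT.card_zpowers_of_pow_eq_one hxyp hxy1
    have l1 := (Subgroup.zpowers_le).2 hx
    have l2 := (Subgroup.zpowers_le).2 hy
    have l3 := (Subgroup.zpowers_le).2 (mul_mem hx hy)
    rcases two _ _ l1 l2 c1 c2 d1 with e | e
    · rcases two _ _ l3 l2 c3 c2 d2 with e' | e'
      · exact hne (le_bot_iff.1 (d3 e' e))
      · exact hne (le_bot_iff.1 (d1 e e'))
    · rcases two _ _ l3 l1 c3 c1 d3 with e' | e'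
      · exact hne (le_bot_iff.1 (d2 e' e))
      · exact hne (le_bot_iff.1 (d1 e' e))
  refine ⟨hZ, ?_⟩
  obtain ⟨N, hN, hNle⟩ := GT.exists_isMinNormal_le (inferInstance : (commutator G).Normal) hne
  have := hN.normal
  have hNc := hN.card_eq_of_isPGroup hG
  by_contra hcon
  have h1 : ¬ commutator G ≤ N := fun e => hcon (le_antisymm e hNle ▸ hNc)
  obtain ⟨_, h2⟩ := key N hNc h1
  obtain ⟨χ, hχ, hχ1, hχc, hχ2, hχ3⟩ := quot_struct hG hNc h2
  obtain ⟨n, hn⟩ := exists_degree_eq_pow_of_isPGroup hG χ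
  have hNZ := comm_le hG hNc
  have hf : ∀ ψ : IrrCharacter G, ¬ N ≤ ker ψ.1 → ker ψ.1 = ⊥ ∧ charDegree ψ.1 ≠ 1 ∧
      charDegree ψ.1 ≠ p ^ n := fun ψ hψ => by
    have h3 : ker ψ.1 = ⊥ := by_contra fun e => hψ (le_of_card_eq hG hNZ hNc e)
    refine ⟨h3, fun e => hψ (hNle.trans ((irr_degree_eq_one_iff_commutator_le_ker ψ).1 e)),
      fun e => hψ ?_⟩
    rw [← h.ker_eq hχ1 (hn.trans e.symm), hχ]
  have h3 := index_center_eq χ hχ2
  by_cases h4 : commutator G ≤ Subgroup.center G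
  · obtain ⟨ψ, hψ⟩ := exists_irr_not_le_ker hN.ne_bot
    obtain ⟨h5, -, h6⟩ := hf ψ hψ
    obtain ⟨b, hb⟩ := exists_degree_eq_pow_of_isPGroup hG ψ
    have h7 := irr_degree_sq_eq_index_center_of_commutator_le ψ (h4.trans (center_le_center_irr ψ))
    rw [irr_center_eq_of_faithful ψ h5, ← h3, hn, hb, ← mul_one (_ ^ 2)] at h7
    exact h6 (by rw [hb, parity (one_dvd p) hχ3 h7])
  have hQ := hG.to_quotient N
  have h5 : Subgroup.center G = N := by
    have h6 : (Subgroup.center G).map (QuotientGroup.mk' N) ≤ Subgroup.center (G ⧸ N) := by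
      rw [Subgroup.map_le_iff_le_comap, ← hχc]; exact center_le_center_irr χ
    rcases GT.le_total_of_isCyclic (hQ.to_subgroup _) h6 (comm_le hQ h2) with h7 | h7
    · rcases GT.eq_bot_or_eq_of_card_prime (h2 ▸ hp.out) h7 with h8 | h8
      · exact le_antisymm (GT.map_mk'_eq_bot_iff.1 h8) hNZ
      · rw [← map_mk'_commutator] at h8
        have h9 := congrArg (Subgroup.comap (QuotientGroup.mk' N)) h8
        rw [GT.comap_map_mk'_of_le hNZ, GT.comap_map_mk'_of_le hNle] at h9
        exact absurd h9.ge h4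
    · rw [← map_mk'_commutator, Subgroup.map_le_iff_le_comap, GT.comap_map_mk'_of_le hNZ] at h7
      exact absurd h7 h4
  have h6 : N.relIndex (center χ.1) = p := by
    refine ((Nat.dvd_prime hp.out).1 (h5 ▸ hχ3)).resolve_left fun e => h1 ?_
    rw [Subgroup.relIndex_eq_one] at e
    refine le_trans ?_ e
    rw [hχc, ← Subgroup.map_le_iff_le_comap, map_mk'_commutator]
    exact comm_le hQ h2
  rw [h5, h6, hn] at h3
  have he : ∀ g : G, g ^ p ^ 3 = 1 := by
    intro g
    have h7 : ∀ h : G ⧸ N, ⁅(g : G ⧸ N), h⁆ ∈ commutator (G ⧸ N) := fun h =>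
      Subgroup.commutator_mem_commutator (Subgroup.mem_top _) (Subgroup.mem_top _)
    have h8 : g ^ p ∈ center χ.1 := by
      rw [hχc, Subgroup.mem_comap, map_pow]
      exact pow_mem_center (fun h => comm_le hQ h2 (h7 h)) fun h => by
        rw [← h2]; exact congrArg Subtype.val (pow_card_eq_one' (x := (⟨_, h7 h⟩ : commutator _)))
    have h9 : Nat.card (center χ.1) = p * p := by
      rw [← GT.card_mul_relIndex (hNZ.trans (center_le_center_irr χ)), hNc, h6]
    have h10 := congrArg Subtype.val (pow_card_eq_one' (x := (⟨_, h8⟩ : center χ.1)))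
    rw [h9] at h10
    rw [pow_succ', pow_two, pow_mul]
    exact h10
  have h7 := sum_irr_degree_sq (G := G)
  rw [← Finset.sum_filter_add_sum_filter_not _ (fun ψ : IrrCharacter G => N ≤ ker ψ.1),
    sum_le_ker_degree_sq, ← N.index_mul_card, hNc, ← h3] at h7
  have h8 : ∀ ψ ∈ Finset.univ.filter (fun ψ : IrrCharacter G => ¬ N ≤ ker ψ.1),
      (charDegree ψ.1).factorization p ∈ Finset.range n := by
    intro ψ hψ
    obtain ⟨h8, -, h9⟩ := hf ψ (Finset.mem_filter.1 hψ).2
    obtain ⟨b, hb⟩ := exists_degree_eq_pow_of_isPGroup hG ψ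
    have h10 := irr_degree_sq_le_index_of_le_center ψ (center_le_center_irr ψ)
    rw [h5, ← h3, hb, ← pow_mul, ← pow_mul, ← pow_succ,
      Nat.pow_le_pow_iff_right hp.out.one_lt] at h10
    have h11 : b ≠ n := fun e => h9 (e ▸ hb)
    rw [hb, Nat.factorization_pow_self hp.out, Finset.mem_range]
    omega
  rw [← Finset.sum_fiberwise_of_maps_to h8] at h7
  have h9 : ∑ j ∈ Finset.range n, ∑ ψ ∈ (Finset.univ.filter
      (fun ψ : IrrCharacter G => ¬ N ≤ ker ψ.1)).filter
        (fun ψ => (charDegree ψ.1).factorization p = j), charDegree ψ.1 ^ 2 ≤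
      ∑ j ∈ Finset.range n, p ^ 2 * (p - 1) * (p ^ j) ^ 2 := by
    refine Finset.sum_le_sum fun j _ => ?_
    have h9 : ∀ ψ ∈ (Finset.univ.filter (fun ψ : IrrCharacter G => ¬ N ≤ ker ψ.1)).filter
        (fun ψ => (charDegree ψ.1).factorization p = j), charDegree ψ.1 = p ^ j := by
      intro ψ hψ
      obtain ⟨b, hb⟩ := exists_degree_eq_pow_of_isPGroup hG ψ
      rw [← (Finset.mem_filter.1 hψ).2, hb, Nat.factorization_pow_self hp.out]
    rw [Finset.sum_congr rfl fun ψ hψ => by rw [h9 ψ hψ], Finset.sum_const, smul_eq_mul]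
    refine Nat.mul_le_mul_right _ ?_
    by_cases hj : p ^ j = 1
    · rw [Finset.card_eq_zero.2 (Finset.eq_empty_of_forall_notMem fun ψ hψ =>
        (hf ψ (Finset.mem_filter.1 (Finset.mem_filter.1 hψ).1).2).2.1 ((h9 ψ hψ).trans hj))]
      exact Nat.zero_le _
    · exact card_le h (hNc ▸ Subgroup.card_subgroup_dvd_card N) he _ hj h9
  rw [← Finset.mul_sum] at h9
  have h10 := geom (p := p) n
  obtain ⟨q, hq⟩ : ∃ q, p = q + 1 := ⟨p - 1, (Nat.succ_pred_eq_of_pos hp.out.pos).symm⟩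
  have h11 : 0 < q := by have := hp.out.two_le; omega
  generalize (p ^ n) ^ 2 = A at *
  generalize ∑ j ∈ Finset.range n, (p ^ j) ^ 2 = S at *
  subst hq
  rw [Nat.add_sub_cancel] at h9
  have h12 := Nat.mul_lt_mul_of_pos_left h10 (Nat.mul_pos h11 q.succ_pos)
  nlinarith

/-- Let p be a prime and P a finite non-commutative p-group. Then every two irreducible characters of P of the same degree greater than 1 are Galois conjugate (one is obtained from the other by composing with g ↦ g^k for some k prime to the order of P) if and only if the centre of P is cyclic and the derived subgroup of P has order p. -/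
theorem result {P : Type*} [Group P] [Finite P] (p : ℕ) [Fact p.Prime] (hP : IsPGroup p P) (hna : ¬ IsMulCommutative P) :
    (∀ χ ψ : Cfsg.IrrCharacter P, Cfsg.charDegree (χ : P → ℂ) ≠ 1 → Cfsg.charDegree (χ : P → ℂ) = Cfsg.charDegree (ψ : P → ℂ) → ∃ k : ℕ, Nat.Coprime k (Nat.card P) ∧ ∀ g : P, (ψ : P → ℂ) g = (χ : P → ℂ) (g ^ k)) ↔
      (IsCyclic (Subgroup.center P) ∧ Nat.card (commutator P) = p) := by
  refine ⟨fun h => main P hP (fun e => hna (isMulCommutative_iff_forall_degree_one.2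
    (commutator_eq_bot_iff_forall_degree_one.1 e))) h, fun ⟨hZ, hc⟩ χ ψ h1 h2 => ?_⟩
  have hχ := faithful hP hc h1
  have hψ := faithful hP hc (h2 ▸ h1)
  have hv : ∀ ξ : IrrCharacter P, ker ξ.1 = ⊥ → ∀ g ∉ Subgroup.center P, ξ.1 g = 0 :=
    fun ξ hξ g hg => irr_apply_eq_zero_of_commutator_le_center ξ
      ((comm_le hP hc).trans (center_le_center_irr ξ)) (by rwa [irr_center_eq_of_faithful ξ hξ])
  obtain ⟨l, hl, hl'⟩ := (irr_isCharacter χ).exists_monoidHom_of_le_center (center_le_center_irr χ)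
  obtain ⟨m, hm, hm'⟩ := (irr_isCharacter ψ).exists_monoidHom_of_le_center (center_le_center_irr ψ)
  obtain ⟨z, hz⟩ := hZ.exists_generator
  have hpos := orderOf_pos z
  have : NeZero (orderOf z) := ⟨hpos.ne'⟩
  have prim : ∀ l : Subgroup.center P →* ℂ, (∀ z, l z = 1 → z = 1) →
      IsPrimitiveRoot (l z) (orderOf z) := fun l hl => by
    rw [← orderOf_injective l ((injective_iff_map_eq_one l).2 hl) z]
    exact IsPrimitiveRoot.orderOf _
  have h3 := prim l fun z h => Subtype.ext (by simpa [hχ] using (hl' z).1 h)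
  have h4 := prim m fun z h => Subtype.ext (by simpa [hψ] using (hm' z).1 h)
  obtain ⟨k, -, hk⟩ := h3.eq_pow_of_pow_eq_one h4.pow_eq_one
  have h5 : k.Coprime (orderOf z) := (h3.pow_iff_coprime hpos k).1 (hk ▸ h4)
  have h6 : k.Coprime (Nat.card P) := by
    have h6 : p ∣ orderOf z := by
      rw [orderOf_eq_card_of_forall_mem_zpowers hz, ← hc]
      exact Subgroup.card_dvd_of_le (comm_le hP hc)
    obtain ⟨n, hn⟩ := IsPGroup.iff_card.1 hP
    rw [hn]
    exact (h5.coprime_dvd_right h6).pow_right n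
  refine ⟨k, h6, fun g => ?_⟩
  by_cases hg : g ∈ Subgroup.center P
  · have h7 := hm ⟨g, hg⟩ 1
    have h8 := hl (⟨g, hg⟩ ^ k) 1
    rw [mul_one] at h7 h8
    obtain ⟨j, hj⟩ := (mem_powers_iff_mem_zpowers).2 (hz ⟨g, hg⟩)
    rw [← hj] at h7 h8
    rw [show g = ((z ^ j : Subgroup.center P) : P) from congrArg Subtype.val hj.symm, h7,
      ← SubmonoidClass.coe_pow, h8, irr_apply_one, irr_apply_one, h2, map_pow, map_pow, map_pow,
      ← hk, ← pow_mul, ← pow_mul, mul_comm j k]
  · rw [hv ψ hψ g hg, hv χ hχ _ fun h7 => hg ?_]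
    obtain ⟨j, hj⟩ := exists_pow_eq_self_of_coprime (x := g)
      (h6.coprime_dvd_right (orderOf_dvd_natCard g))
    rw [← hj]
    exact pow_mem h7 j

end Cfsg.Agent.S4845
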