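import Cfsg.Statements.S4850
import Cfsg.Agent.Lib.Char.VanOrd

set_option autoImplicit false
open Cfsg

namespace Cfsg.Agent.S4850

/-- Let p be a prime and G a finite solvable group whose vanishing elements (elements at which some irreducible character is zero) of order divisible by p all have the same order, with at least one such element. Let P be a Sylow p-subgroup of G. Then the derived subgroup of P is subnormal in G and the image of P in G/O_p(G) is cyclic. -/
theorem result {G : Type*} [Group G] [Finite G] [hs : Group.IsSolvable G] (p : ℕ) [Fact p.Prime] (b : ℕ) (hvo : {n : ℕ | p ∣ n ∧ ∃ (g : G) (χ : Cfsg.IrrCharacter G), orderOf g = n ∧ (χ : G → ℂ) g = 0} = {b}) (P : Sylow p G) :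
    ((commutator ↥(P : Subgroup G)).map (P : Subgroup G).subtype).IsSubnormal ∧ IsCyclic ↥((P : Subgroup G).map (QuotientGroup.mk' (Cfsg.pCore p G))) := by
  have h : CT.VanHyp p G := fun x n ⟨χ, h1⟩ ⟨ψ, h2⟩ h3 =>
    (hvo.le ⟨h3, _, ψ, rfl, h2⟩ : orderOf (x ^ n) = b).trans
      (hvo.le ⟨h3.trans (orderOf_pow_dvd n), _, χ, rfl, h1⟩ : orderOf x = b).symm
  have hf := QuotientGroup.mk'_surjective (pCore p G)
  have h1 := (h.of_surjective hf).isCyclic (GT.pCore_quotient_pCore p G)
    ((GT.isSylowIn_sylow P).map_top_of_surjective hf)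
  refine ⟨?_, h1⟩
  have := (GT.isPGroup_pCore p G).isNilpotent
  refine Subgroup.IsSubnormal.trans (K := pCore p G) ?_ (GT.isSubnormal_of_isNilpotent _)
    (Subgroup.Normal.isSubnormal inferInstance)
  rw [Subgroup.map_subtype_commutator, Subgroup.commutator_le]
  intro x hx y hy
  rw [← QuotientGroup.eq_one_iff, ← QuotientGroup.mk'_apply, map_commutatorElement,
    commutatorElement_eq_one_iff_mul_comm]
  exact GT.isMulCommutative_iff_forall.1 (IsCyclic.isMulCommutative)
    _ (Subgroup.mem_map_of_mem _ hx) _ (Subgroup.mem_map_of_mem _ hy)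

end Cfsg.Agent.S4850
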