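import Cfsg.Statements.S4856
import Cfsg.Agent.Lib.Char.CommSum

set_option autoImplicit false
open Cfsg

namespace Cfsg.Agent.S4856


/-- For an element z of a finite group G, the number of pairs (x, y) of elements with x y x⁻¹ y⁻¹ = z equals the order of G times the sum over the irreducible characters χ of χ(z)/χ(1). -/
theorem result {G : Type*} [Group G] [Finite G] (z : G) : (Nat.card {xy : G × G // xy.1 * xy.2 * xy.1⁻¹ * xy.2⁻¹ = z} : ℂ) = (Nat.card G : ℂ) * ∑ᶠ χ : Cfsg.IrrCharacter G, (χ : G → ℂ) z / (χ : G → ℂ) 1 := by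
  classical
  have := Fintype.ofFinite G
  rw [finsum_eq_sum_of_fintype, Nat.card_eq_fintype_card, Fintype.card_subtype,
    Finset.card_filter]
  push_cast
  have hG : (Nat.card G : ℂ) ≠ 0 := CT.card_cast_ne_zero
  have h1 : ∀ xy : G × G, (if xy.1 * xy.2 * xy.1⁻¹ * xy.2⁻¹ = z then (1 : ℂ) else 0) =
      (Nat.card G : ℂ)⁻¹ * ∑ χ : IrrCharacter G,
        χ.1 1 * χ.1 (xy.2 * xy.1 * xy.2⁻¹ * xy.1⁻¹ * z) := by
    intro xy
    rw [CT.sum_irr_degree_mul]
    have : xy.2 * xy.1 * xy.2⁻¹ * xy.1⁻¹ * z = 1 ↔ xy.1 * xy.2 * xy.1⁻¹ * xy.2⁻¹ = z := by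
      rw [← inv_mul_eq_one (a := xy.1 * xy.2 * xy.1⁻¹ * xy.2⁻¹)]
      constructor <;> intro h <;> rw [← h] <;> group
    simp only [this]
    split_ifs
    · rw [inv_mul_cancel₀ hG]
    · rw [mul_zero]
  simp only [h1]
  rw [← Finset.mul_sum, Finset.sum_comm, Finset.mul_sum, Finset.mul_sum]
  refine Finset.sum_congr rfl fun χ _ => ?_
  rw [← Finset.mul_sum, Fintype.sum_prod_type_right, CT.sum_irr_commutator_mul]
  have := CT.irr_apply_one_ne_zero χ
  field_simp

end Cfsg.Agent.S4856
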