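import Cfsg.Statements.S4861
import Cfsg.Agent.Lib.Char.RealPPrime

set_option autoImplicit false
open Cfsg

namespace Cfsg.Agent.S4861

open CT Cfsg

/-- Let p be a prime and G a finite group such that the subgroup generated by the p-elements of G (the smallest normal subgroup of index prime to p) is solvable and every real-valued irreducible complex character of G has degree prime to p. Let K be the subgroup generated by the 2-elements of G (the smallest normal subgroup of odd index). Then the Sylow p-subgroups of K are normal in K. -/
theorem result {G : Type*} [Group G] [Finite G] (p : ℕ) [Fact p.Prime] (hsolv : Group.IsSolvable ↥(Subgroup.closure {g : G | ∃ k : ℕ, orderOf g = p ^ k})) (hreal : ∀ χ : Cfsg.IrrCharacter G, (∀ g : G, ((χ : G → ℂ) g).im = 0) → ¬ p ∣ Cfsg.charDegree (χ : G → ℂ)) (Q : Sylow p ↥(Subgroup.closure {g : G | ∃ k : ℕ, orderOf g = 2 ^ k})) : (Q : Subgroup ↥(Subgroup.closure {g : G | ∃ k : ℕ, orderOf g = 2 ^ k})).Normal := by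
  have : Group.IsSolvable (GT.pPrimeResidual p G) := hsolv
  exact (realPPrime_of_im hreal).sylow_normal (U := GT.pPrimeResidual 2 G) le_rfl (a := 0)
    (by simp) Q

end Cfsg.Agent.S4861
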