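import Cfsg.Statements.S4866
import Cfsg.Agent.Lib.Char.Invol

set_option autoImplicit false
open Cfsg

namespace Cfsg.Agent.S4866

open CT Cfsg

theorem card_quot {α β : Type*} (r : α → α → Prop) (f : α → β) (h : ∀ a b, r a b ↔ f a = f b)
    (hf : Function.Surjective f) : Nat.card (Quot r) = Nat.card β := by
  refine Nat.card_congr (Equiv.ofBijective (Quot.lift f fun a b e => (h a b).1 e) ⟨?_, ?_⟩)
  · rintro ⟨a⟩ ⟨b⟩ e
    exact Quot.sound ((h a b).2 e)
  · intro b
    obtain ⟨a, rfl⟩ := hf b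
    exact ⟨Quot.mk _ a, rfl⟩


/-- Let K be a normal subgroup of odd index in the finite group G. Then G has as many orbits on the real-valued irreducible complex characters of K (acting by conjugation) as it has orbits on the conjugacy classes of K that are real in K; equivalently, the number of G-orbits of real-valued irreducible characters of K equals the number of G-conjugacy classes of elements of K that are conjugate in K to their inverses. -/
theorem result {G : Type*} [Group G] [Finite G] (K : Subgroup G) [K.Normal] (hodd : Odd K.index) : Nat.card (Quot (fun θ η : {θ : Cfsg.IrrCharacter ↥K // (∀ k : ↥K, ((θ : ↥K → ℂ) k).im = 0)} => ∃ g : G, ∀ k k' : ↥K, (k' : G) = g * (k : G) * g⁻¹ → (η.1 : ↥K → ℂ) k' = (θ.1 : ↥K → ℂ) k)) = Nat.card (Quot (fun x y : {x : ↥K // IsConj x x⁻¹} => ∃ g : G, (y.1 : G) = g * x.1 * g⁻¹)) := by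
  choose F hF1 hF2 hF3 using fun θ : {θ : IrrCharacter K // ∀ k : K, (θ.1 k).im = 0} =>
    existsUnique_isReal_liesOver hodd (isReal_iff_im.2 θ.2)
  rw [card_quot (β := {χ : IrrCharacter G // IsReal χ.1}) _ (fun θ => ⟨F θ, hF2 θ⟩),
    card_quot (β := {c : ConjClasses G // ∀ g : G, ConjClasses.mk g = c → IsConj g g⁻¹}) _
      (fun x => ⟨ConjClasses.mk (x.1 : G), fun g hg => ?_⟩), card_real_irr_eq_card_real_classes]
  · intro x y
    rw [Subtype.mk.injEq, ConjClasses.mk_eq_mk_iff_isConj, isConj_iff]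
    exact exists_congr fun g => eq_comm
  · rintro ⟨c, hc⟩
    obtain ⟨x, rfl⟩ := ConjClasses.mk_surjective c
    obtain ⟨t, ht, htx⟩ := GT.exists_isPElt_two_conj_eq_inv (hc x rfl)
    have htK : t ∈ K := ht.mem_of_coprime_index K (Nat.coprime_two_left.2 hodd)
    have hx : x ∈ K := by
      rw [← QuotientGroup.eq_one_iff] at htK ⊢
      have h1 := congrArg (QuotientGroup.mk' K) htx
      simp only [map_mul, map_inv, QuotientGroup.mk'_apply, htK, one_mul, inv_one, mul_one] at h1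
      refine (pow_eq_one_iff_of_coprime (Nat.coprime_two_left.2 hodd)).1 ⟨?_, pow_card_eq_one'⟩
      rw [sq]
      exact mul_eq_one_iff_eq_inv.2 h1
    exact ⟨⟨⟨x, hx⟩, isConj_iff.2 ⟨⟨t, htK⟩, Subtype.ext htx⟩⟩, rfl⟩
  · obtain ⟨c, hc⟩ := isConj_iff.1 (ConjClasses.mk_eq_mk_iff_isConj.1 hg).symm
    obtain ⟨d, hd⟩ := isConj_iff.1 x.2
    have hd' : (d : G) * x.1 * (d : G)⁻¹ = (x.1 : G)⁻¹ := congrArg Subtype.val hd
    refine isConj_iff.2 ⟨c * d * c⁻¹, ?_⟩
    rw [← hc, conj_inv (a := (x.1 : G)), ← hd']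
    group
  · intro θ η
    rw [Subtype.mk.injEq]
    constructor
    · rintro ⟨g, hg⟩
      refine hF3 η _ ?_ (hF2 θ)
      rw [← conjSmul_eq_iff'.2 hg, liesOver_conjSmul_iff (irr_isClassFunction _)]
      exact liesOver_of_mult_eq_one (hF1 θ)
    · intro h
      obtain ⟨g, hg⟩ := (liesOver_of_mult_eq_one (hF1 θ)).mem_orbit
        (h ▸ liesOver_of_mult_eq_one (hF1 η))
      exact ⟨g, conjSmul_eq_iff'.1 hg⟩
  · rintro ⟨χ, hχ⟩
    obtain ⟨θ, hθ⟩ := exists_irr_liesUnder K χ
    have h := isReal_iff_im.1 (hθ.isReal_of_odd_index hodd hχ)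
    exact ⟨⟨θ, h⟩, Subtype.ext (hF3 ⟨θ, h⟩ χ hθ hχ).symm⟩

end Cfsg.Agent.S4866
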