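import Cfsg.Statements.S4870
import Cfsg.Agent.Lib.Char.Invol

set_option autoImplicit false
open Cfsg

namespace Cfsg.Agent.S4870

open CT Cfsg MulAction

/-- Let G be a finite group with a non-abelian minimal normal subgroup N, and let φ be an irreducible complex character of N with stabilizer I in G (the elements g with φ(g n g⁻¹) = φ(n) for all n ∈ N) such that φ extends to an irreducible character of I. Put d = φ(1)·[G : I]. Then the number of linear characters of G is at most [G : I] times the number of irreducible characters of G of degree d. -/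
theorem result {G : Type*} [Group G] [Finite G] (N : Subgroup G) (hN : N.Normal) (hN1 : N ≠ ⊥) (hmin : ∀ M : Subgroup G, M.Normal → M ≤ N → M = ⊥ ∨ M = N) (hna : ¬ IsMulCommutative ↥N) (φ : Cfsg.IrrCharacter ↥N) (I : Subgroup G) (hI : ∀ g : G, g ∈ I ↔ ∀ n n' : ↥N, (n' : G) = g * (n : G) * g⁻¹ → (φ : ↥N → ℂ) n' = (φ : ↥N → ℂ) n) (hNI : N ≤ I) (hext : ∃ ψ : Cfsg.IrrCharacter ↥I, ∀ n : ↥N, (ψ : ↥I → ℂ) (Subgroup.inclusion hNI n) = (φ : ↥N → ℂ) n) : Nat.card {χ : Cfsg.IrrCharacter G // Cfsg.charDegree (χ : G → ℂ) = 1} ≤ I.index * Nat.card {χ : Cfsg.IrrCharacter G // Cfsg.charDegree (χ : G → ℂ) = Cfsg.charDegree (φ : ↥N → ℂ) * I.index} := by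
  have hIe : I = stabilizer G φ := Subgroup.ext fun g => (hI g).trans mem_inertia_iff.symm
  obtain ⟨ψ, hψ⟩ := hext
  have hres : res (N.subgroupOf I) ψ.1 = (irrOf hNI φ).1 :=
    (res_subgroupOf_eq_irrOf_iff hNI).2 (funext hψ)
  have h1 := card_extensions (irr_isCharacter ψ) hres
  have hNG : N ≤ commutator G := by
    have hm : GT.IsMinNormal N := ⟨hN, hN1, fun K hK hKN h => (hmin K hK hKN).resolve_left h⟩
    rw [← hm.isMulCommutative_or_commutator_eq.resolve_left hna]
    exact Subgroup.commutator_mono le_top le_top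
  have h2 : (commutator G).index ≤ I.index * (N.subgroupOf I ⊔ commutator I).index := by
    calc (commutator G).index ≤ (commutator G ⊓ I).index := Subgroup.index_antitone inf_le_left
      _ = I.index * (commutator G).relIndex I := by
        rw [← Subgroup.relIndex_mul_index (inf_le_right : commutator G ⊓ I ≤ I),
          Subgroup.inf_relIndex_right, mul_comm]
      _ ≤ _ := by
        refine Nat.mul_le_mul_left _ (Subgroup.index_antitone (sup_le
          (Subgroup.comap_mono hNG) (commutator_le_subgroupOf ?_)))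
        exact Subgroup.commutator_mono le_top le_top
  rw [card_linear_eq_index_commutator]
  refine h2.trans (Nat.mul_le_mul_left _ ?_)
  rw [← h1]
  have hl : ∀ η : {η : IrrCharacter I // res (N.subgroupOf I) η.1 = (irrOf hNI φ).1},
      LiesOverLe hNI η.1.1 φ.1 := fun η =>
    liesOverLe_of_resLe_eq ((res_subgroupOf_eq_irrOf_iff hNI).1 η.2)
  refine Nat.card_le_card_of_injective (fun η => ⟨⟨_, cliffordCorr_isIrr hIe.ge (hl η)⟩, ?_⟩)
    fun η η' e => Subtype.ext (cliffordCorr_injective hIe.ge (hl η) (hl η')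
      (congrArg (fun x => x.1.1) e))
  change charDegree (ind I η.1.1) = _
  rw [charDegree_ind (irr_isCharacter _), mul_comm, ← charDegree_res (N.subgroupOf I), η.2,
    charDegree_irrOf]

end Cfsg.Agent.S4870
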