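import Cfsg.Statements.S4871
import Cfsg.Agent.Lib.Char.RealExt

set_option autoImplicit false
open Cfsg

namespace Cfsg.Agent.S4871

open CT Cfsg MulAction

theorem card_le {G : Type*} [Group G] [Finite G] {N : Subgroup G} [N.Normal]
    (hN : Odd (Nat.card N)) {θ : IrrCharacter N} {χ : IrrCharacter G} (h1 : nu2 χ.1 = 1)
    (h2 : mult (res N χ.1) θ.1 = 1) [DecidableEq ℂ] :
    (Finset.univ.filter fun ψ : IrrCharacter G => charDegree ψ.1 = 1 ∧ nu2 ψ.1 = 1).card ≤
      charDegree χ.1 * (Finset.univ.filter fun ψ : IrrCharacter G =>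
        charDegree ψ.1 = charDegree χ.1 ∧ nu2 ψ.1 = 1).card := by
  classical
  let M := N ⊔ commutator G
  have hM : ∀ f : G →* ℂˣ, nu2 (linChar f).1 = 1 → M ≤ f.ker := by
    intro f hf
    refine sup_le (fun n hn => ?_) (Abelianization.commutator_subset_ker f)
    have h3 := (irr_isReal_iff_irrBar _).1 (irr_isReal_of_nu2_eq_one _ hf)
    rw [irrBar_linChar] at h3
    have h4 : f n ^ 2 = 1 := by
      rw [sq]
      nth_rw 1 [← linChar_injective h3]
      simp
    have h5 : f n ^ Nat.card N = 1 := by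
      rw [← map_pow, show n ^ Nat.card N = 1 from
        congrArg Subtype.val (pow_card_eq_one' (x := (⟨n, hn⟩ : N))), map_one]
    exact (pow_eq_one_iff_of_coprime (Nat.coprime_two_left.2 hN)).1 ⟨h4, h5⟩
  have h3 : (ip (res M χ.1) (res M χ.1)).re ≤ charDegree χ.1 := by
    obtain ⟨φ, h4, h5⟩ := (liesOver_of_mult_eq_one h2).exists_between (le_sup_left : N ≤ M)
      (irr_isClassFunction χ)
    have h6 := mult_comp_eq_sum_mul (Subgroup.inclusion (le_sup_left : N ≤ M))
      ((irr_isCharacter χ).res M) (irr_isCharacter θ)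
    change mult (res N χ.1) θ.1 = ∑ φ : IrrCharacter M, mult (res M χ.1) φ.1 *
      mult (resLe le_sup_left φ.1) θ.1 at h6
    have h7 := Finset.single_le_sum (f := fun φ : IrrCharacter M => mult (res M χ.1) φ.1 *
      mult (resLe le_sup_left φ.1) θ.1) (fun _ _ => Nat.zero_le _) (Finset.mem_univ φ)
    rw [← h6, h2] at h7
    have h8 := (liesOver_iff_mult_pos (irr_isCharacter χ) (irr_isCharacter φ)).1 h4
    have h9 := (liesOverLe_iff_mult_pos _ (irr_isCharacter φ) (irr_isCharacter θ)).1 h5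
    have h10 : mult (res M χ.1) φ.1 = 1 := by nlinarith
    rw [clifford_ip_res_res h4, clifford_degree h4, h10, Complex.natCast_re, Nat.cast_le, one_pow]
    exact Nat.le_mul_of_pos_right _ (irr_degree_pos φ)
  have h4 : (Finset.univ.filter fun ψ : IrrCharacter G => charDegree ψ.1 = 1 ∧ nu2 ψ.1 = 1) =
      (Finset.univ.filter fun f : G →* ℂˣ => nu2 (linChar f).1 = 1).image linChar := by
    ext ψ
    simp only [Finset.mem_filter, Finset.mem_univ, true_and, Finset.mem_image]
    constructor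
    · rintro ⟨h4, h5⟩
      obtain ⟨f, rfl⟩ := (exists_linChar_eq_iff ψ).2 h4
      exact ⟨f, h5, rfl⟩
    · rintro ⟨f, h4, rfl⟩
      exact ⟨charDegree_linChar f, h4⟩
  rw [h4, Finset.card_image_of_injective _ linChar_injective]
  refine Finset.card_le_mul_card_image_of_maps_to (f := fun f => f • χ) (fun f hf => ?_) _
    fun ψ _ => ?_
  · simp only [Finset.mem_filter, Finset.mem_univ, true_and] at hf ⊢
    refine ⟨charDegree_lin_smul f χ, (irr_nu2_eq_one_iff_hasForm _).2 ?_⟩
    have := ((irr_nu2_eq_one_iff_hasForm _).1 hf).mul ((irr_nu2_eq_one_iff_hasForm _).1 h1)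
    rwa [one_mul] at this
  · rcases ((Finset.univ.filter fun f : G →* ℂˣ => nu2 (linChar f).1 = 1).filter
      fun f => f • χ = ψ).eq_empty_or_nonempty with h | ⟨f, hf⟩
    · rw [h]; exact Nat.zero_le _
    simp only [Finset.mem_filter, Finset.mem_univ, true_and] at hf
    have h5 := ip_res_res_eq_card_lin (le_sup_right : commutator G ≤ M) χ ψ
    rw [← hf.2, res_lin_smul_of_le_ker (hM f hf.1), hf.2] at h5
    rw [h5, Complex.natCast_re, Nat.cast_le] at h3
    refine le_trans ?_ h3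
    rw [Nat.subtype_card (Finset.univ.filter fun f : G →* ℂˣ => M ≤ f.ker ∧ f • χ = ψ)
      (by simp [M])]
    refine Finset.card_le_card fun f hf => ?_
    simp only [Finset.mem_filter, Finset.mem_univ, true_and] at hf ⊢
    exact ⟨hM f hf.1, hf.2⟩


/-- Let G be a finite group that is the semidirect product of a normal elementary abelian subgroup N of odd order by a non-trivial 2-subgroup P, with N the unique minimal normal subgroup of G. Consider the strongly real irreducible complex characters of G (Frobenius–Schur indicator +1) whose degree is 1 or even. Then their average degree is at least 4/3: four times their number is at most three times the sum of their degrees. -/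
theorem result {G : Type*} [Group G] [Finite G] (N P : Subgroup G) (hN : N.Normal) (q : ℕ) [Fact q.Prime] (hq : q ≠ 2) (hNel : Cfsg.IsElementaryAbelian q N) (hP : IsPGroup 2 ↥P) (hP1 : P ≠ ⊥) (hdisj : N ⊓ P = ⊥) (hprod : N ⊔ P = ⊤) (hmin : N ≠ ⊥ ∧ ∀ M : Subgroup G, M.Normal → M ≠ ⊥ → N ≤ M) : 4 * Nat.card {χ : Cfsg.IrrCharacter G // (Cfsg.charDegree (χ : G → ℂ) = 1 ∨ 2 ∣ Cfsg.charDegree (χ : G → ℂ)) ∧ (Nat.card G : ℂ)⁻¹ * ∑ᶠ g : G, (χ : G → ℂ) (g * g) = 1} ≤ 3 * (∑ᶠ χ : {χ : Cfsg.IrrCharacter G // (Cfsg.charDegree (χ : G → ℂ) = 1 ∨ 2 ∣ Cfsg.charDegree (χ : G → ℂ)) ∧ (Nat.card G : ℂ)⁻¹ * ∑ᶠ g : G, (χ : G → ℂ) (g * g) = 1}, Cfsg.charDegree (χ.1 : G → ℂ)) := by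
  classical
  have hNc := GT.isMulCommutative_iff_forall.1 hNel.1
  have hNq : IsPGroup q N := GT.IsElementaryAbelian.isPGroup' hNel
  have hodd : Odd (Nat.card N) := by
    obtain ⟨k, hk⟩ := IsPGroup.iff_card.1 hNq
    rw [hk]
    exact ((Fact.out : q.Prime).odd_of_ne_two hq).pow
  obtain ⟨k, hk⟩ : ∃ k, N.index = 2 ^ k := by
    obtain ⟨k, hk⟩ := IsPGroup.iff_card.1 hP
    refine ⟨k, ?_⟩
    rw [← hk, (Subgroup.isComplement'_of_disjoint_and_mul_eq_univ (disjoint_iff.2 hdisj)
      (by rw [← Subgroup.normal_mul, hprod]; rfl)).symm.index_eq_card]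
  have := (Subgroup.nontrivial_iff_ne_bot P).2 hP1
  have := hP.center_nontrivial
  obtain ⟨z, hz⟩ := exists_prime_orderOf_dvd_card' (G := Subgroup.center P) 2
    ((hP.to_subgroup _).card_eq_or_dvd.resolve_left Finite.one_lt_card.ne')
  have hz2 : orderOf ((z : P) : G) = 2 := by rw [Subgroup.orderOf_coe, Subgroup.orderOf_coe, hz]
  have hzP : P ≤ Subgroup.centralizer {((z : P) : G)} := fun x hx =>
    Subgroup.mem_centralizer_singleton_iff.2
      (congrArg Subtype.val (Subgroup.mem_center_iff.1 z.2 ⟨x, hx⟩))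
  set t : G := ((z : P) : G) with ht
  have hinv : ∀ n ∈ N, t * n * t⁻¹ = n⁻¹ := by
    refine GT.conj_eq_inv_of_fixedPointFree (by rw [← sq, ← hz2, pow_orderOf_eq_one])
      (by rw [Subgroup.normalizer_eq_top]; trivial) fun s hs h => ?_
    by_contra hs1
    have h1 : (N ⊓ Subgroup.centralizer {t}).Normal := by
      rw [← Subgroup.normalizer_eq_top_iff, eq_top_iff, ← hprod]
      refine sup_le (fun x hx => GT.mem_normalizer_of_conj_mem fun y hy => ?_)
        (fun x hx => GT.mem_normalizer_of_conj_mem fun y hy => ⟨hN.conj_mem _ hy.1 _,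
          Subgroup.mul_mem _ (Subgroup.mul_mem _ (hzP hx) hy.2) (Subgroup.inv_mem _ (hzP hx))⟩)
      rwa [hNc x hx y hy.1, mul_inv_cancel_right]
    have h2 := hmin.2 _ h1 (fun e => hs1 ((Subgroup.eq_bot_iff_forall _).1 e s ⟨hs,
      Subgroup.mem_centralizer_singleton_iff.2 (mul_inv_eq_iff_eq_mul.1 h).symm⟩))
    have h3 : t ∈ Subgroup.center G := by
      rw [Subgroup.mem_center_iff]
      intro g
      exact Subgroup.mem_centralizer_singleton_iff.1
        ((sup_le (h2.trans inf_le_right) hzP) (hprod ▸ Subgroup.mem_top g))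
    have h4 := hmin.2 (Subgroup.zpowers t)
      ⟨fun n hn g => by
        rwa [Subgroup.mem_center_iff.1 (Subgroup.zpowers_le.2 h3 hn) g, mul_inv_cancel_right]⟩
      (by rw [Ne, Subgroup.zpowers_eq_bot, ← orderOf_eq_one_iff, hz2]; decide)
    exact hmin.1 (le_bot_iff.1 (hdisj ▸ le_inf le_rfl (h4.trans (Subgroup.zpowers_le.2 (z : P).2))))
  obtain ⟨θ, hθ⟩ := exists_irr_not_le_ker (G := N) (K := ⊤) (by
    have := (Subgroup.nontrivial_iff_ne_bot N).2 hmin.1
    exact top_ne_bot)
  have hθt : t • θ = irrBar θ := by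
    refine conjSmul_eq_iff'.2 fun n n' h => ?_
    have : n' = n⁻¹ := Subtype.ext (h.trans (hinv n n.2))
    rw [this, irrBar_val, cbar_apply, (irr_isCharacter θ).apply_inv, Complex.conj_conj]
  obtain ⟨χ, h1, h2⟩ := exists_nu2_eq_one_mult_eq_one hk (φ := θ) (by
    rw [Nat.factorization_eq_zero_of_not_dvd hodd.not_two_dvd_nat]; exact one_dvd _) hθt
  have h3 : 2 ∣ charDegree χ.1 := by
    refine dvd_trans ?_ (liesOver_of_mult_eq_one h2).index_inertia_dvd
    have h4 := Subgroup.index_dvd_of_le (le_inertia θ)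
    rw [hk, Nat.dvd_prime_pow Nat.prime_two] at h4
    obtain ⟨j, -, hj⟩ := h4
    rw [hj]
    refine dvd_pow_self 2 fun e => hθ ?_
    rw [e, pow_zero, Subgroup.index_eq_one] at hj
    have h5 : t • θ = θ := by
      rw [← mem_stabilizer_iff, hj]; trivial
    rw [irr_eq_irrOne_of_isReal_of_odd hodd θ ((irr_isReal_iff_irrBar θ).2 (hθt ▸ h5)), ker_irrOne]
  have h4 := card_le hodd h1 h2
  change 4 * Nat.card {χ : IrrCharacter G // (charDegree χ.1 = 1 ∨ 2 ∣ charDegree χ.1) ∧
    nu2 χ.1 = 1} ≤ 3 * ∑ᶠ χ : {χ : IrrCharacter G // (charDegree χ.1 = 1 ∨ 2 ∣ charDegree χ.1) ∧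
    nu2 χ.1 = 1}, charDegree χ.1.1
  set T := Finset.univ.filter fun χ : IrrCharacter G =>
    (charDegree χ.1 = 1 ∨ 2 ∣ charDegree χ.1) ∧ nu2 χ.1 = 1 with hT
  rw [Nat.subtype_card T (by simp [hT]), finsum_eq_sum_of_fintype,
    ← Finset.sum_subtype T (by simp [hT]) (fun χ => charDegree χ.1),
    ← Finset.card_filter_add_card_filter_not (s := T) (fun χ => charDegree χ.1 = 1),
    ← Finset.sum_filter_add_sum_filter_not T (fun χ => charDegree χ.1 = 1)]
  have h5 : ∑ ψ ∈ T.filter (fun χ => charDegree χ.1 = 1), charDegree ψ.1 =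
      (T.filter (fun χ => charDegree χ.1 = 1)).card := by
    rw [Finset.card_eq_sum_ones]
    exact Finset.sum_congr rfl fun ψ hψ => (Finset.mem_filter.1 hψ).2
  have h6 : (T.filter (fun χ => ¬ charDegree χ.1 = 1)).card * 2 ≤
      ∑ ψ ∈ T.filter (fun χ => ¬ charDegree χ.1 = 1), charDegree ψ.1 := by
    refine Finset.card_nsmul_le_sum _ _ 2 fun ψ hψ => ?_
    have := (Finset.mem_filter.1 hψ).2
    have := irr_degree_pos ψ
    omega
  have h7 : (T.filter (fun χ => charDegree χ.1 = 1)).card ≤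
      ∑ ψ ∈ T.filter (fun χ => ¬ charDegree χ.1 = 1), charDegree ψ.1 := by
    refine le_trans (Finset.card_le_card fun ψ hψ => ?_) (h4.trans ?_)
    · simp only [hT, Finset.mem_filter, Finset.mem_univ, true_and] at hψ ⊢
      exact ⟨hψ.2, hψ.1.2⟩
    · rw [mul_comm, ← smul_eq_mul, ← Finset.sum_const]
      refine le_trans (Finset.sum_le_sum fun ψ hψ => (Finset.mem_filter.1 hψ).2.1.ge)
        (Finset.sum_le_sum_of_subset fun ψ hψ => ?_)
      simp only [hT, Finset.mem_filter, Finset.mem_univ, true_and] at hψ ⊢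
      rw [hψ.1]
      exact ⟨⟨Or.inr h3, hψ.2⟩, by omega⟩
  omega

end Cfsg.Agent.S4871
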