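import Cfsg.Statements.S4873
import Cfsg.Agent.Lib.Char.OddIndex

set_option autoImplicit false
open Cfsg

namespace Cfsg.Agent.S4873

open CT

/-- Let N be a normal subgroup of odd index in the finite group G. Then every irreducible complex character of N with Frobenius–Schur indicator +1 lies under exactly one irreducible character of G with Frobenius–Schur indicator +1. -/
theorem result {G : Type*} [Group G] [Finite G] (N : Subgroup G) [N.Normal] (hodd : Odd N.index) (φ : Cfsg.IrrCharacter ↥N) (hφ : (Nat.card ↥N : ℂ)⁻¹ * ∑ᶠ g : ↥N, (φ : ↥N → ℂ) (g * g) = 1) : ∃! χ : Cfsg.IrrCharacter G, (Nat.card G : ℂ)⁻¹ * ∑ᶠ g : G, (χ : G → ℂ) (g * g) = 1 ∧ (∑ᶠ n : ↥N, (χ : G → ℂ) n * (starRingEnd ℂ) ((φ : ↥N → ℂ) n)) ≠ 0 := by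
  have := Fintype.ofFinite N
  rw [← nu2_eq_finsum] at hφ
  have key : ∀ χ : IrrCharacter G, (∑ᶠ n : N, χ.1 n * (starRingEnd ℂ) (φ.1 n)) ≠ 0 ↔
      LiesOver N χ.1 φ.1 := by
    intro χ
    rw [LiesOver, ip_def, finsum_eq_sum_of_fintype, mul_ne_zero_iff]
    exact ⟨fun h => ⟨inv_ne_zero card_cast_ne_zero, h⟩, fun h => h.2⟩
  simp only [← nu2_eq_finsum, key]
  obtain ⟨χ, h1, h2, h3⟩ := existsUnique_isReal_liesOver hodd (irr_isReal_of_nu2_eq_one φ hφ)
  have h4 := liesOver_of_mult_eq_one h1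
  exact ⟨χ, ⟨(h4.nu2_eq_of_odd_index hodd h2).symm.trans hφ, h4⟩,
    fun χ' h => h3 χ' h.2 (irr_isReal_of_nu2_eq_one χ' h.1)⟩

end Cfsg.Agent.S4873
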