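import Cfsg.Statements.S4885
import Cfsg.Agent.Lib.Char.NavWolf
import Cfsg.Agent.Lib.Block.Fong
-- import your own Cfsg.Agent.* helpers here

set_option autoImplicit false
open Cfsg

namespace Cfsg.Agent.S4885

open BT CT GT
open scoped Pointwise ComplexConjugate commutatorElement

/-- Let p and q be primes dividing the order of the finite group G, and suppose G is p-solvable and q-solvable. Fix maximal ideals of the algebraic integers containing p and q, defining the principal p-block and the principal q-block. If the irreducible characters of degree prime to p in the principal p-block are exactly the irreducible characters of degree prime to q in the principal q-block, then p = q. -/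
theorem result {G : Type*} [Group G] [Finite G] (p q : ℕ) [Fact p.Prime] [Fact q.Prime] (hp : p ∣ Nat.card G) (hq : q ∣ Nat.card G) (hps : Cfsg.IsPSolvable p G) (hqs : Cfsg.IsPSolvable q G) (Mp Mq : Ideal Cfsg.AlgInt) (hMp : Cfsg.IsPModular p Mp) (hMq : Cfsg.IsPModular q Mq) (h : ∀ χ : Cfsg.IrrCharacter G, (χ ∈ Cfsg.principalBlock Mp G ∧ ¬ p ∣ Cfsg.charDegree (χ : G → ℂ)) ↔ (χ ∈ Cfsg.principalBlock Mq G ∧ ¬ q ∣ Cfsg.charDegree (χ : G → ℂ))) : p = q := by
  by_contra hpq
  have h1 := not_dvd_index_pPrimeCore_of_forall_degree (Ne.symm hpq) hqs hps fun χ h1 h2 =>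
    ((h χ).2 ⟨(mem_principal_iff_of_isPSolvable hMq hqs χ).2 h1, h2⟩).2
  have hs := QuotientGroup.mk'_surjective (pPrimeCore p G)
  obtain ⟨P, hP⟩ := exists_isSylowIn p (⊤ : Subgroup G)
  have hP1 := hP.map_top_of_surjective hs
  have hne : P.map (QuotientGroup.mk' (pPrimeCore p G)) ≠ ⊥ := by
    rw [Ne, map_mk'_eq_bot_iff]
    intro hle
    exact hP.ne_bot (by rwa [Subgroup.card_top]) ((disjoint_of_isPGroup_of_not_dvd hP.isPGroup
      (not_dvd_card_pPrimeCore p G)).eq_bot_of_le hle)
  have := (Subgroup.nontrivial_iff_ne_bot _).2 hne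
  obtain ⟨μ, v, -, hμ⟩ := exists_linear_ne_one_of_isComplement' hP1.isPGroup (V := ⊤) (H := ⊥)
    top_ne_bot Subgroup.isComplement'_top_bot
  obtain ⟨ψ, h2, h3⟩ := exists_liesOver_not_dvd (irr_isCharacter (linChar μ.toHomUnits)) (d := p)
    (by rw [charDegree_linChar, mul_one]; exact (isSylowIn_top_iff'.1 hP1).2)
  have h4 := (mem_principal_iff_of_isPSolvable hMq hqs _).1 ((h (inflate _ ψ)).1
    ⟨(mem_principal_iff_of_isPSolvable hMp hps _).2 (le_ker_inflate _ ψ), h3⟩).1
  have h5 := (le_ker_inflate_iff ψ).1 ((le_of_isPGroup_of_not_dvd_index hP.isPGroup h1).trans h4)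
  have h6 := ker_le_ker_of_ip_ne_zero ((irr_isCharacter ψ).res _).isClassFunction h2
  rw [(irr_isCharacter ψ).ker_res, Subgroup.subgroupOf_eq_top.2 h5, ker_linChar] at h6
  exact hμ (congrArg Units.val (h6 (Subgroup.mem_top v)))

end Cfsg.Agent.S4885
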