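import Cfsg.Statements.S4886
import Cfsg.Agent.Lib.Char.NavWolf
import Cfsg.Agent.Lib.Block.Fong
-- import your own Cfsg.Agent.* helpers here

set_option autoImplicit false
open Cfsg

namespace Cfsg.Agent.S4886

open BT CT GT
open scoped Pointwise ComplexConjugate commutatorElement

/-- Let p ≠ q be primes and G a finite group that is p-solvable and q-solvable. Fix maximal ideals of the algebraic integers containing p and q, defining the principal p-block and the principal q-block. Then every irreducible character of degree prime to p in the principal p-block has degree prime to q and every irreducible character of degree prime to q in the principal q-block has degree prime to p, if and only if some Sylow p-subgroup of G commutes elementwise with some Sylow q-subgroup. -/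
theorem result {G : Type*} [Group G] [Finite G] (p q : ℕ) [Fact p.Prime] [Fact q.Prime] (hpq : p ≠ q) (Mp Mq : Ideal Cfsg.AlgInt) (hMp : Cfsg.IsPModular p Mp) (hMq : Cfsg.IsPModular q Mq) (hps : Cfsg.IsPSolvable p G) (hqs : Cfsg.IsPSolvable q G) : ((∀ χ : Cfsg.IrrCharacter G, χ ∈ Cfsg.principalBlock Mp G → ¬ p ∣ Cfsg.charDegree (χ : G → ℂ) → ¬ q ∣ Cfsg.charDegree (χ : G → ℂ)) ∧ (∀ χ : Cfsg.IrrCharacter G, χ ∈ Cfsg.principalBlock Mq G → ¬ q ∣ Cfsg.charDegree (χ : G → ℂ) → ¬ p ∣ Cfsg.charDegree (χ : G → ℂ))) ↔ ∃ (P : Sylow p G) (Q : Sylow q G), ∀ x ∈ (P : Subgroup G), ∀ y ∈ (Q : Subgroup G), x * y = y * x := by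
  have easy : ∀ (p q : ℕ) [Fact p.Prime] [Fact q.Prime], p ≠ q → ∀ (Mp : Ideal Cfsg.AlgInt),
      IsPModular p Mp → IsPSolvable p G → ∀ (P : Sylow p G) (Q : Sylow q G),
      (∀ x ∈ (P : Subgroup G), ∀ y ∈ (Q : Subgroup G), x * y = y * x) →
      ∀ χ : IrrCharacter G, χ ∈ principalBlock Mp G → ¬ q ∣ charDegree χ.1 := by
    intro p q hp hq hpq Mp hMp hps P Q hc χ hχ hd
    obtain ⟨ψ, rfl⟩ := (exists_inflate_eq_iff _ χ).2
      ((mem_principal_iff_of_isPSolvable hMp hps χ).1 hχ)
    have h1 : (Q : Subgroup G) ≤ pPrimePCore p G :=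
      fun y hy => centralizer_sylow_le_pPrimePCore hps P fun x hx => hc x hx y hy
    obtain ⟨k, hk⟩ := exists_relIndex_pPrimePCore (p := p) (G := G)
    have h2 : (Q : Subgroup G) ≤ pPrimeCore p G :=
      le_of_coprime_card_relIndex h1 Subgroup.le_normalizer_of_normal (Q.isPGroup'.coprime_card (by
        rw [hk]
        exact fun h => hpq ((Nat.prime_dvd_prime_iff_eq hq.out hp.out).1
          (hq.out.dvd_of_dvd_pow h)).symm))
    exact not_dvd_index_of_sylow_le Q h2 (hd.trans (irr_degree_dvd_card ψ))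
  constructor
  · rintro ⟨h1, h2⟩
    have a1 := not_dvd_index_pPrimeCore_of_forall_degree hpq hps hqs fun χ h =>
      h1 χ ((mem_principal_iff_of_isPSolvable hMp hps χ).2 h)
    have a2 := not_dvd_index_pPrimeCore_of_forall_degree hpq.symm hqs hps fun χ h =>
      h2 χ ((mem_principal_iff_of_isPSolvable hMq hqs χ).2 h)
    obtain ⟨P⟩ : Nonempty (Sylow p G) := inferInstance
    obtain ⟨Q, hQ, hPQ⟩ := (coprimeAct_of_isPGroup_left (G := pPrimeCore p G)
      Subgroup.le_normalizer_of_normal P.isPGroup' (not_dvd_card_pPrimeCore p G)).exists_isSylowIn q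
    have hQ' : IsSylowIn q Q ⊤ := hQ.trans le_top (by rwa [Subgroup.relIndex_top_right])
    refine ⟨P, hQ'.toSylowTop, fun x hx y hy => ?_⟩
    have h3 := inf_normalizer_le_centralizer (A := Q) (G := pPrimeCore q G)
      Subgroup.le_normalizer_of_normal
      (disjoint_of_isPGroup_of_not_dvd hQ.isPGroup (not_dvd_card_pPrimeCore q G)).symm
      ⟨sylow_le_of_not_dvd_index P a2 hx, hPQ hx⟩
    exact (h3 y hy).symm
  · rintro ⟨P, Q, hc⟩
    exact ⟨fun χ h _ => easy p q hpq Mp hMp hps P Q hc χ h,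
      fun χ h _ => easy q p hpq.symm Mq hMq hqs Q P (fun x hx y hy => (hc y hy x hx).symm) χ h⟩

end Cfsg.Agent.S4886
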