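import Cfsg.Statements.S4888
import Cfsg.Agent.Lib.Block.PrinDeg

set_option autoImplicit false
open Cfsg

namespace Cfsg.Agent.S4888

open BT CT GT
open scoped MonoidAlgebra Pointwise

/-- Let G be a finite group, p a prime and M a maximal ideal of the algebraic integers containing p. Then all height-zero irreducible characters of the principal p-block of G (equivalently, all its characters of degree prime to p) have the same degree if and only if G has a normal p-complement. -/
theorem result {G : Type*} [Group G] [Finite G] (p : ℕ) [Fact p.Prime] (M : Ideal Cfsg.AlgInt) (hM : Cfsg.IsPModular p M) : (∃ d : ℕ, ∀ χ : Cfsg.IrrCharacter G, χ ∈ (Cfsg.principalBlock M G) → Cfsg.blockHeight p (Cfsg.principalBlock M G) (χ : G → ℂ) = 0 → Cfsg.charDegree (χ : G → ℂ) = d) ↔ Cfsg.HasNormalPComplement p G := by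
  constructor
  · rintro ⟨d, hd⟩
    have h1 : charDegree (irrOne G).1 = 1 := charDegree_eq_of_apply_one (by simp)
    have h2 : d = 1 := by
      rw [← h1]
      refine (hd _ (irrOne_mem_principalBlock hM) ?_).symm
      rw [blockHeight_principal_eq_zero_iff hM _ (irrOne_mem_principalBlock hM), h1]
      exact (Fact.out : p.Prime).not_dvd_one
    refine hasNormalPComplement_of_principal_degrees hM fun χ hχ h => ?_
    rw [← h2]
    exact hd χ hχ ((blockHeight_principal_eq_zero_iff hM χ hχ).2 h)
  · intro h
    exact ⟨1, fun χ hχ h0 => degree_eq_one_of_principal_of_hasNormalPComplement hM h hχ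
      ((blockHeight_principal_eq_zero_iff hM χ hχ).1 h0)⟩

end Cfsg.Agent.S4888
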